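import Mathlib

set_option autoImplicit false
set_option linter.unusedSectionVars false

/-! Composition length through subnormal chains. -/

namespace Cfsg.Agent.H5.CLen

open Subgroup Finset ArithmeticFunction

variable {G G' : Type*} [Group G] [Group G']

/-- subnormal chains from the trivial subgroup -/
inductive Ch : Subgroup G → ℕ → Prop
  | bot : Ch ⊥ 0
  | step {A B : Subgroup G} {l : ℕ} : Ch A l → A < B → (∀ b ∈ B, ∀ a ∈ A, b * a * b⁻¹ ∈ A) →
      Ch B (l + 1)

theorem cf_lt [Finite G] {A B : Subgroup G} (h : A < B) :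
    cardFactors (Nat.card A) < cardFactors (Nat.card B) := by
  obtain ⟨m, hm⟩ := card_dvd_of_le h.le
  have h0 : m ≠ 0 := by rintro rfl; exact Nat.card_pos.ne' hm
  have h1 : m ≠ 1 := by
    rintro rfl
    exact h.ne (eq_of_le_of_card_ge h.le (by omega))
  rw [hm, cardFactors_mul Nat.card_pos.ne' h0]
  have := cardFactors_pos_iff_one_lt.mpr (show 1 < m by omega)
  omega

theorem two_pow_cf {n : ℕ} (h : n ≠ 0) : 2 ^ cardFactors n ≤ n := by
  induction n using Nat.recOnMul with
  | zero => exact absurd rfl h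
  | one => simp
  | prime p hp => simpa [cardFactors_apply_prime hp] using hp.two_le
  | mul a b ha hb =>
    have := mul_ne_zero_iff.mp h
    rw [cardFactors_mul this.1 this.2, pow_add]
    exact Nat.mul_le_mul (ha this.1) (hb this.2)

theorem Ch.le_cf [Finite G] {A : Subgroup G} {l : ℕ} (h : Ch A l) :
    l ≤ cardFactors (Nat.card A) := by
  induction h with
  | bot => exact Nat.zero_le _
  | step _ h _ ih => exact ih.trans_lt (cf_lt h)

theorem Ch.ext {A B : Subgroup G} {l : ℕ} (h : Ch A l) (h1 : A ≤ B)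
    (h2 : ∀ b ∈ B, ∀ a ∈ A, b * a * b⁻¹ ∈ A) : ∃ l', Ch B l' ∧ l ≤ l' ∧ (A ≠ B → l < l') := by
  rcases h1.eq_or_lt with rfl | h3
  · exact ⟨l, h, le_rfl, fun h => absurd rfl h⟩
  · exact ⟨l + 1, h.step h3 h2, Nat.le_succ l, fun _ => Nat.lt_succ_self l⟩

theorem Ch.split (f : G →* G') {A : Subgroup G} {l : ℕ} (h : Ch A l) :
    ∃ l1 l2, Ch (A ⊓ f.ker) l1 ∧ Ch (A.map f) l2 ∧ l ≤ l1 + l2 := by
  induction h with
  | bot => exact ⟨0, 0, by simpa using Ch.bot, by simpa using Ch.bot, le_rfl⟩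
  | @step A B l _ h1 h2 ih =>
    obtain ⟨l1, l2, c1, c2, h3⟩ := ih
    obtain ⟨m1, d1, e1, f1⟩ := c1.ext (B := B ⊓ f.ker) (inf_le_inf_right _ h1.le)
      fun b hb a ha => ⟨h2 b hb.1 a ha.1, f.normal_ker.conj_mem a ha.2 b⟩
    obtain ⟨m2, d2, e2, f2⟩ := c2.ext (B := B.map f) (map_mono h1.le) (by
      rintro _ ⟨b, hb, rfl⟩ _ ⟨a, ha, rfl⟩
      exact ⟨_, h2 b hb a ha, by simp⟩)
    refine ⟨m1, m2, d1, d2, ?_⟩
    by_cases h4 : A ⊓ f.ker = B ⊓ f.ker
    · have := f2 fun h5 => h1.not_ge fun b hb => by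
        obtain ⟨a, ha, e⟩ : f b ∈ A.map f := h5 ▸ mem_map_of_mem f hb
        have : a⁻¹ * b ∈ A ⊓ f.ker := h4 ▸ ⟨B.mul_mem (B.inv_mem (h1.le ha)) hb, by simp [e]⟩
        simpa using A.mul_mem ha this.1
      omega
    · have := f1 h4
      omega

theorem Ch.join (f : G →* G') {B : Subgroup G} {l1 : ℕ} (h : Ch (B ⊓ f.ker) l1) {A : Subgroup G'}
    {l2 : ℕ} (h' : Ch A l2) (hA : A ≤ B.map f) : Ch (B ⊓ A.comap f) (l1 + l2) := by
  induction h' with
  | bot => exact h
  | @step A A' l _ h1 h2 ih =>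
    refine (ih (h1.le.trans hA)).step (lt_of_le_of_ne (inf_le_inf_left _ (comap_mono h1.le))
      fun e => h1.not_ge fun y hy => ?_) fun b hb a ha =>
        ⟨B.mul_mem (B.mul_mem hb.1 ha.1) (B.inv_mem hb.1), by simpa using h2 _ hb.2 _ ha.2⟩
    obtain ⟨b, hb, rfl⟩ := hA hy
    exact (e.symm ▸ (⟨hb, hy⟩ : b ∈ B ⊓ A'.comap f) : b ∈ B ⊓ A.comap f).2

/-- the composition length -/
noncomputable def cl (A : Subgroup G) : ℕ := sSup {l | Ch A l}

variable [Finite G] [Finite G']

theorem bdd (A : Subgroup G) : BddAbove {l | Ch A l} := ⟨_, fun _ h => Ch.le_cf h⟩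

theorem Ch.le_cl {A : Subgroup G} {l : ℕ} (h : Ch A l) : l ≤ cl A := le_csSup (bdd A) h

theorem ch_cl (A : Subgroup G) : Ch A (cl A) := by
  obtain ⟨l, h, -⟩ := Ch.bot.ext (B := A) bot_le fun b _ a ha => by simpa using ha
  exact Nat.sSup_mem ⟨l, h⟩ (bdd A)

theorem cl_le_cf (A : Subgroup G) : cl A ≤ cardFactors (Nat.card A) := (ch_cl A).le_cf

theorem two_pow_cl (A : Subgroup G) : 2 ^ cl A ≤ Nat.card A :=
  (Nat.pow_le_pow_right two_pos (cl_le_cf A)).trans (two_pow_cf Nat.card_pos.ne')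

theorem cl_bot : cl (⊥ : Subgroup G) = 0 := by simpa using cl_le_cf (⊥ : Subgroup G)

theorem cl_pos {A : Subgroup G} (h : A ≠ ⊥) : 0 < cl A :=
  (Ch.bot.step (bot_lt_iff_ne_bot.mpr h) fun b _ a ha => by simpa using ha).le_cl

theorem cl_add (f : G →* G') (A : Subgroup G) : cl A = cl (A ⊓ f.ker) + cl (A.map f) := by
  refine le_antisymm ?_ ?_
  · obtain ⟨l1, l2, h1, h2, h3⟩ := (ch_cl A).split f
    exact h3.trans (add_le_add h1.le_cl h2.le_cl)
  · have := (ch_cl _).join f (ch_cl (A.map f)) le_rfl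
    rw [inf_eq_left.mpr (le_comap_map f A)] at this
    exact this.le_cl

theorem cl_map (f : G →* G') (hf : Function.Injective f) (A : Subgroup G) :
    cl (A.map f) = cl A := by
  rw [cl_add f A, (MonoidHom.ker_eq_bot_iff f).mpr hf, inf_bot_eq, cl_bot, zero_add]

theorem cl_top (A : Subgroup G) : cl (⊤ : Subgroup A) = cl A := by
  rw [← cl_map A.subtype A.subtype_injective, ← MonoidHom.range_eq_map, range_subtype]

theorem cl_simple [IsSimpleGroup G] : cl (⊤ : Subgroup G) ≤ 1 := by
  have h := ch_cl (⊤ : Subgroup G)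
  generalize cl (⊤ : Subgroup G) = l at h
  generalize hB : (⊤ : Subgroup G) = B at h
  cases h with
  | bot => omega
  | @step A B l h h1 h2 =>
    subst hB
    rcases (Subgroup.Normal.mk fun a ha b => h2 b trivial a ha).eq_bot_or_eq_top with rfl | rfl
    · have := h.le_cl
      rw [cl_bot] at this
      omega
    · exact absurd h1 (lt_irrefl _)

theorem cl_pi {ι : Type*} [Fintype ι] (K : ι → Subgroup G) :
    cl (Subgroup.pi Set.univ K) = ∑ i, cl (K i) := by
  classical
  have key : ∀ s : Finset ι, cl (Subgroup.pi Set.univ fun i => if i ∈ s then K i else ⊥) =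
      ∑ i ∈ s, cl (K i) := fun s => by
    induction s using Finset.induction_on with
    | empty => simp [Subgroup.pi_bot, cl_bot]
    | insert i s hi ih =>
      rw [cl_add (Pi.evalMonoidHom (fun _ => G) i), sum_insert hi, ← ih, add_comm]
      congr 2
      · refine le_antisymm ?_ fun y hy => ⟨Pi.mulSingle i y, fun j _ => ?_, by simp⟩
        · rintro _ ⟨x, hx, rfl⟩
          simpa using hx i trivial
        · by_cases h : j = i
          · simpa [h] using hy
          · simp [h]
      · ext x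
        simp only [Subgroup.mem_inf, Subgroup.mem_pi, Set.mem_univ, forall_const, MonoidHom.mem_ker,
          Pi.evalMonoidHom_apply]
        refine ⟨fun h j => ?_, fun h => ⟨fun j => ?_, by simpa [hi] using h i⟩⟩
        · by_cases h1 : j = i
          · simp [h1, h.2]
          · simpa [h1] using h.1 j
        · by_cases h1 : j = i
          · have : x i = 1 := by simpa [hi] using h i
            simp [h1, this]
          · simpa [h1] using h j
  simpa using key univ

theorem exists_gen (A : Subgroup G) : ∃ s : Finset G, closure (s : Set G) = A ∧ (1 : G) ∉ s ∧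
    s.card ≤ cardFactors (Nat.card A) := by
  classical
  induction A using WellFoundedLT.induction with
  | ind A ih =>
  by_cases h : A = ⊥
  · exact ⟨∅, by simp [h], by simp, by simp⟩
  obtain ⟨M, hM, hmax⟩ := exists_maximal_of_wellFoundedGT (fun M : Subgroup G => M < A)
    ⟨⊥, bot_lt_iff_ne_bot.mpr h⟩
  obtain ⟨s, h1, h2, h3⟩ := ih M hM
  obtain ⟨x, hx, hx'⟩ := SetLike.exists_of_lt hM
  have h4 : M ≤ closure ((insert x s : Finset G) : Set G) := h1 ▸ closure_mono (by simp)
  refine ⟨insert x s, ?_, by simpa [h2] using fun e : 1 = x => hx' (e ▸ M.one_mem),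
    (card_insert_le _ _).trans ((Nat.succ_le_succ h3).trans (cf_lt hM))⟩
  by_contra h5
  refine hx' (hmax (lt_of_le_of_ne ((closure_le _).mpr fun y hy => ?_) h5) h4
    (subset_closure (by simp)))
  rcases mem_insert.mp hy with rfl | hy
  · exact hx
  · exact hM.le (h1 ▸ subset_closure hy)

theorem card_le_of_conj {N S : Subgroup G} [hN : N.Normal] (h1 : N ≠ ⊥)
    (h : ∀ g ∈ S, (∀ x ∈ N, x * g = g * x) → g = 1) :
    Nat.card S ≤ (Nat.card N - 1) ^ cardFactors (Nat.card N) := by
  obtain ⟨s, h2, h3, h4⟩ := exists_gen N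
  have h5 := (one_lt_card_iff_ne_bot N).mpr h1
  refine le_trans ?_ (Nat.pow_le_pow_right (by omega) h4)
  let f : S → s → ((N : Set G) \ {1} : Set G) := fun g x => ⟨g * x * (g : G)⁻¹,
    hN.conj_mem _ (h2 ▸ subset_closure x.2) _, fun e => h3 (by
      have : (x : G) = 1 := by simpa using e
      exact this ▸ x.2)⟩
  have := Nat.card_le_card_of_injective f fun g g' e => Subtype.ext (by
    refine (inv_mul_eq_one.mp (h _ (S.mul_mem (S.inv_mem g'.2) g.2) fun x hx => ?_)).symm
    rw [← h2] at hx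
    refine mem_centralizer_singleton_iff.mp ((closure_le _).mpr (fun y hy => ?_) hx)
    have : (g : G) * y * (g : G)⁻¹ = g' * y * (g' : G)⁻¹ :=
      congrArg Subtype.val (congrFun e ⟨y, hy⟩)
    refine mem_centralizer_singleton_iff.mpr ?_
    calc y * ((g' : G)⁻¹ * g) = (g' : G)⁻¹ * (g' * y * (g' : G)⁻¹) * g := by group
      _ = _ := by rw [← this]; group)
  rwa [Nat.card_fun, Nat.card_coe_set_eq, Set.ncard_sdiff_singleton_of_mem N.one_mem,
    Nat.card_eq_fintype_card (α := s), Fintype.card_coe] at this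

theorem sixteen_le [IsSimpleGroup G] (h : ¬ IsMulCommutative G) : 16 ≤ Nat.card G := by
  classical
  have h1 : ∀ p e m : ℕ, p.Prime → 0 < e → 1 < m → Nat.card G = p ^ e * m →
      p ^ e * m ∣ m.factorial := fun p e m hp he hm hc => by
    have := Fact.mk hp
    obtain ⟨K, hK⟩ := Sylow.exists_subgroup_card_pow_prime (G := G) p (n := e) ⟨m, hc⟩
    have h2 : K.index = m := Nat.eq_of_mul_eq_mul_left (pow_pos hp.pos e)
      (by rw [← hK, K.card_mul_index, hK, hc])
    have h3 := card_dvd_of_injective (MulAction.toPermHom G (G ⧸ K)) (by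
      rw [← MonoidHom.ker_eq_bot_iff, ← normalCore_eq_ker]
      refine (normalCore_normal K).eq_bot_or_eq_top.resolve_right fun e => ?_
      rw [top_le_iff.mp (e ▸ K.normalCore_le : ⊤ ≤ K), index_top] at h2
      omega)
    rwa [Nat.card_perm, hc, ← index_eq_card, h2] at h3
  have h2 : ¬ (Nat.card G).Prime := fun hp => by
    have := Fact.mk hp
    have := isCyclic_of_prime_card (rfl : Nat.card G = _)
    exact h inferInstance
  have h3 := Finite.one_lt_card (α := G)
  by_contra h4
  have a1 := h1 2 1 2 Nat.prime_two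
  have a2 := h1 3 1 2 Nat.prime_three
  have a3 := h1 2 2 2 Nat.prime_two
  have a4 := h1 3 1 3 Nat.prime_three
  have a5 := h1 5 1 2 Nat.prime_five
  have a6 := h1 2 2 3 Nat.prime_two
  have a7 := h1 7 1 2 (by norm_num)
  have a8 := h1 5 1 3 Nat.prime_five
  interval_cases Nat.card G <;> norm_num [Nat.factorial] at *

end Cfsg.Agent.H5.CLen
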