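import Cfsg.Agent.H5.CLen
import Cfsg.Agent.S0723
import Cfsg.Agent.H3.Burnside2
import Cfsg.Agent.H1.PrimeDeg2

set_option autoImplicit false
set_option linter.unusedSectionVars false

/-! The composition length of a permutation group. -/

namespace Cfsg.Agent.H5.CLen

open Subgroup Finset ArithmeticFunction MulAction
open scoped Pointwise

universe v

/-- the bound for all permutation groups on `X` -/
def Bd (X : Type v) : Prop := ∀ (H : Subgroup (Equiv.Perm X)) (R : Set X),
  (∀ g ∈ H, ∀ x ∈ R, g x ∈ R → g x = x) → 3 * cl H + 4 * R.ncard ≤ 4 * Nat.card X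

variable {X : Type v} [Finite X] {G : Type*} [Group G] [Finite G] [MulAction G X]

theorem Bd.act (h : Bd X) (R : Set X) (hR : ∀ g : G, ∀ x ∈ R, g • x ∈ R → g • x = x) :
    3 * cl (⊤ : Subgroup G) + 4 * R.ncard ≤ 3 * cl (toPermHom G X).ker + 4 * Nat.card X := by
  have := h (map (toPermHom G X) ⊤) R (by rintro _ ⟨g, -, rfl⟩; exact hR g)
  rw [cl_add (toPermHom G X), top_inf_eq]
  omega

theorem Bd.act' [FaithfulSMul G X] (h : Bd X) (R : Set X)
    (hR : ∀ g : G, ∀ x ∈ R, g • x ∈ R → g • x = x) :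
    3 * cl (⊤ : Subgroup G) + 4 * R.ncard ≤ 4 * Nat.card X := by
  have := h.act R hR
  rwa [(MonoidHom.ker_eq_bot_iff _).mpr toPerm_injective, cl_bot, mul_zero, zero_add] at this

theorem ncard_split (p : X → Prop) (R : Set X) : (Subtype.val ⁻¹' R : Set {x // p x}).ncard +
    (Subtype.val ⁻¹' R : Set {x // ¬ p x}).ncard = R.ncard := by
  rw [← Set.ncard_image_of_injective _ Subtype.val_injective,
    ← Set.ncard_image_of_injective (Subtype.val ⁻¹' R : Set {x // ¬ p x}) Subtype.val_injective,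
    ← Set.ncard_inter_add_ncard_sdiff_eq_ncard R {x | p x}]
  congr 2 <;> ext x <;> simp [and_comm]

theorem intrans [FaithfulSMul G X] (ih : ∀ (Y : Type v) [Finite Y], Nat.card Y < Nat.card X → Bd Y)
    (Δ : SubMulAction G X) {a b : X} (ha : a ∈ Δ) (hb : b ∉ Δ) (R : Set X)
    (hR : ∀ g : G, ∀ x ∈ R, g • x ∈ R → g • x = x) :
    3 * cl (⊤ : Subgroup G) + 4 * R.ncard ≤ 4 * Nat.card X := by
  have h1 : Nat.card Δ + Nat.card ↥Δᶜ = Nat.card X := by
    have := ncard_split (· ∈ Δ) Set.univ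
    simp only [Set.preimage_univ, Set.ncard_univ] at this
    exact this
  have : Nonempty Δ := ⟨⟨a, ha⟩⟩
  have : Nonempty ↥Δᶜ := ⟨⟨b, hb⟩⟩
  have h2 := Nat.card_pos (α := Δ)
  have h3 := Nat.card_pos (α := ↥Δᶜ)
  have h4 := (ih Δ (by omega)).act (G := G) (Subtype.val ⁻¹' R)
    fun g x hx h => Subtype.ext (hR g x hx h)
  have : FaithfulSMul (toPermHom G Δ).ker ↥Δᶜ := ⟨fun {g g'} h => Subtype.ext
    (eq_of_smul_eq_smul (α := X) fun x => by
      by_cases hx : x ∈ Δ
      · exact (congrArg Subtype.val (Equiv.congr_fun g.2 ⟨x, hx⟩)).trans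
          (congrArg Subtype.val (Equiv.congr_fun g'.2 ⟨x, hx⟩)).symm
      · exact congrArg Subtype.val (h ⟨x, hx⟩))⟩
  have h5 := (ih ↥Δᶜ (by omega)).act' (G := (toPermHom G Δ).ker) (Subtype.val ⁻¹' R)
    fun g x hx h => Subtype.ext (hR g x hx h)
  have h6 : (Subtype.val ⁻¹' R : Set Δ).ncard + (Subtype.val ⁻¹' R : Set ↥Δᶜ).ncard = R.ncard :=
    ncard_split (· ∈ Δ) R
  rw [cl_top] at h5
  omega

theorem imprim [FaithfulSMul G X] [IsPretransitive G X]
    (ih : ∀ (Y : Type v) [Finite Y], Nat.card Y < Nat.card X → Bd Y) {B : Set X} (hB : IsBlock G B)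
    (h : ¬ IsTrivialBlock B) : 3 * cl (⊤ : Subgroup G) + 4 ≤ 4 * Nat.card X := by
  rw [IsTrivialBlock, not_or, Set.not_subsingleton_iff] at h
  have h1 := hB.ncard_block_mul_ncard_orbit_eq h.1.nonempty
  have h2 := Set.one_lt_ncard_iff_nontrivial.mpr h.1
  have h3 : 0 < (orbit G B).ncard := (Set.ncard_pos (Set.toFinite _)).mpr ⟨B, mem_orbit_self B⟩
  have h4 := (ih (orbit G B) (by rw [Nat.card_coe_set_eq]; nlinarith)).act (G := G)
    {⟨B, mem_orbit_self B⟩} fun g x hx h => h.trans hx.symm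
  have h5 : ∀ C : orbit G B, (C : Set X).Nonempty := by
    rintro ⟨_, g, rfl⟩
    exact h.1.nonempty.smul_set
  choose f hf using h5
  have h6 : ∀ g : (toPermHom G (orbit G B)).ker, ∀ C : orbit G B, ∀ x ∈ (C : Set X),
      (g : G) • x ∈ (C : Set X) := fun g C x hx => by
    rw [← show (g : G) • (C : Set X) = C from congrArg Subtype.val (Equiv.congr_fun g.2 C)]
    exact Set.smul_mem_smul_set hx
  have h7 : ∀ C C' : orbit G B, ∀ x, x ∈ (C : Set X) → x ∈ (C' : Set X) → C = C' := by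
    rintro ⟨_, g, rfl⟩ ⟨_, g', rfl⟩ x h1 h2
    by_contra h3
    exact Set.disjoint_left.mp (hB fun e => h3 (Subtype.ext e)) h1 h2
  obtain ⟨a, ha⟩ := h.1.nonempty
  obtain ⟨b, hb⟩ := (Set.ne_univ_iff_exists_notMem B).mp h.2
  have h8 := intrans (G := (toPermHom G (orbit G B)).ker) ih
    ⟨B, fun g _ hx => h6 g ⟨B, mem_orbit_self B⟩ _ hx⟩ ha hb (Set.range f) (by
      rintro g _ ⟨C, rfl⟩ ⟨C', e⟩
      rw [← e, h7 C C' _ (h6 g C _ (hf C)) (by have := hf C'; rwa [e] at this)])
  rw [cl_top, Set.ncard_range_of_injective (f := f) fun C C' e =>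
    h7 C C' _ (hf C) (by rw [e]; exact hf C')] at h8
  rw [Set.ncard_singleton] at h4
  omega

theorem num1 {L : ℕ} (h : 16 ≤ L) : (3 * (L * L + 2 * L) + 4) ^ 2 ≤ 16 * 2 ^ L := by
  induction L, h using Nat.le_induction with
  | base => norm_num
  | succ L h ih =>
    obtain ⟨m, rfl⟩ := Nat.exists_eq_add_of_le h
    rw [pow_succ 2]
    nlinarith [Nat.zero_le (m ^ 4), Nat.zero_le (m ^ 3), Nat.zero_le (m ^ 2)]

theorem num2 {n N c d : ℕ} (hn : 256 ≤ n) (hN : N ≤ n * n) (h0 : N ≠ 0) (hc : c ≤ cardFactors N)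
    (hd : 2 ^ d ≤ (N - 1) ^ cardFactors N) : 3 * (c + d) + 4 ≤ 4 * n := by
  have h1 := Nat.lt_pow_succ_log_self one_lt_two N
  have h2 := Nat.le_log_of_pow_le one_lt_two (two_pow_cf h0)
  have h3 := (Nat.pow_log_le_self 2 h0).trans hN
  have h8 : d ≤ (Nat.log 2 N + 1) * cardFactors N :=
    (Nat.pow_le_pow_iff_right one_lt_two).mp (hd.trans (by
      rw [pow_mul]; exact Nat.pow_le_pow_left (by omega) _))
  generalize Nat.log 2 N = L at *
  have h4 := Nat.mul_le_mul_left (L + 1) h2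
  rcases Nat.lt_or_ge L 16 with h | h
  · nlinarith
  · have h5 := num1 h
    have h6 : 3 * (L * L + 2 * L) + 4 ≤ 4 * n :=
      (Nat.pow_le_pow_iff_left two_ne_zero).mp (by nlinarith)
    nlinarith

theorem num3 : ∀ n < 256, 2 ≤ n → n ≠ 4 → n ≠ 8 →
    3 * (cardFactors n + Nat.log 2 ((n - 1) ^ cardFactors n)) + 4 ≤ 4 * n := by
  decide +kernel

theorem num4 : ∀ m ≤ 343, m ∣ 5040 → cardFactors m ≤ 6 := by
  decide +kernel

theorem prim {H : Subgroup (Equiv.Perm X)} [IsPreprimitive H X] [Nontrivial H]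
    (ih : ∀ (Y : Type v) [Finite Y], Nat.card Y < Nat.card X → Bd Y) :
    3 * cl (⊤ : Subgroup H) + 4 ≤ 4 * Nat.card X := by
  classical
  obtain ⟨N, ⟨hNn, hN⟩, hmin'⟩ := exists_minimal_of_wellFoundedLT
    (fun N : Subgroup H => N.Normal ∧ N ≠ ⊥) ⟨⊤, inferInstance, top_ne_bot⟩
  have hmin : ∀ M : Subgroup H, M.Normal → M ≤ N → M = ⊥ ∨ M = N := fun M h1 h2 =>
    or_iff_not_imp_left.mpr fun h3 => le_antisymm h2 (hmin' ⟨h1, h3⟩ h2)
  have htr : IsPretransitive N X := H3.NormalMT.isPretransitive_of_normal N hN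
  have : Nontrivial X := by
    by_contra h
    rw [not_nontrivial_iff_subsingleton] at h
    exact not_subsingleton H inferInstance
  obtain ⟨a⟩ : Nonempty X := inferInstance
  set S := stabilizer H a
  have h1 : cl (⊤ : Subgroup H) + cl (S ⊓ N) = cl N + cl S := by
    rw [cl_add (QuotientGroup.mk' N) ⊤, cl_add (QuotientGroup.mk' N) S, QuotientGroup.ker_mk',
      top_inf_eq, show map (QuotientGroup.mk' N) ⊤ = map (QuotientGroup.mk' N) S from
        le_antisymm ?_ (map_mono le_top)]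
    · ring
    rintro _ ⟨g, -, rfl⟩
    obtain ⟨n, hn⟩ := exists_smul_eq N a (g • a)
    refine ⟨(n : H)⁻¹ * g, ?_, by simp [(QuotientGroup.eq_one_iff _).mpr n.2]⟩
    show ((n : H)⁻¹ * g) • a = a
    rw [mul_smul, inv_smul_eq_iff]
    exact hn.symm
  have hc := SubMulAction.nat_card_ofStabilizer_add_one_eq H a
  have := H3.NormalMT.faithful_ofStabilizer (G := H) a
  have h2 : 3 * cl S + 8 ≤ 4 * Nat.card X := by
    obtain ⟨b, hb⟩ := exists_ne a
    have := (ih (SubMulAction.ofStabilizer H a) (by omega)).act' (G := S) {⟨b, hb⟩}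
      fun g x hx h => h.trans hx.symm
    rw [cl_top, Set.ncard_singleton] at this
    omega
  have h3 := (two_pow_cl S).trans (card_le_of_conj hN fun g hg h =>
    H3.Burnside2.eq_one_of_commute N htr h (show g • a = a from hg))
  have h4 : Nat.card ↥(S ⊓ N) * Nat.card X = Nat.card N := by
    rw [← index_stabilizer_of_transitive N a, ← (stabilizer N a).card_mul_index,
      ← Nat.card_congr (subgroupOfEquivOfLe (inf_le_right : S ⊓ N ≤ N)).toEquiv,
      inf_subgroupOf_right]
    rfl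
  have h5 := cl_le_cf N
  have h6 := Finite.one_lt_card (α := X)
  suffices h : cl N ≤ cl (S ⊓ N) + 1 ∨ (256 ≤ Nat.card X ∧ Nat.card ↥(S ⊓ N) ≤ Nat.card X) ∨
      S ⊓ N = ⊥ by
    have key : 256 ≤ Nat.card X → Nat.card ↥(S ⊓ N) ≤ Nat.card X → 3 * cl (⊤ : Subgroup H) + 4 ≤
        4 * Nat.card X := fun h h' => by
      have := num2 h (h4 ▸ Nat.mul_le_mul_right _ h') Nat.card_pos.ne' h5 h3
      omega
    rcases h with h | h | h
    · omega
    · exact key h.1 h.2
    rw [h, card_bot, one_mul] at h4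
    by_cases h7 : 256 ≤ Nat.card X
    · exact key h7 (by rw [h, card_bot]; omega)
    rw [← h4] at h3 h5
    by_cases h8 : Nat.card X = 4
    · have : cardFactors 4 = 2 := by decide +kernel
      rw [h8] at h5
      omega
    by_cases h9 : Nat.card X = 8
    · have e : cardFactors 8 = 3 := by decide +kernel
      have := Fintype.ofFinite (SubMulAction.ofStabilizer H a)
      have h10 := H1.PrimeDeg2.card_dvd_factorial (G := S) (Ω := SubMulAction.ofStabilizer H a)
      rw [← Nat.card_eq_fintype_card, show Nat.card (SubMulAction.ofStabilizer H a) = 7 by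
        omega] at h10
      have h11 := card_le_of_conj (S := S) hN fun g hg h =>
        H3.Burnside2.eq_one_of_commute N htr h (show g • a = a from hg)
      rw [← h4, h9, e] at h11
      have := (cl_le_cf S).trans (num4 _ h11 h10)
      rw [h9] at h5
      omega
    have := num3 _ (not_le.mp h7) h6 h8 h9
    have := Nat.le_log_of_pow_le one_lt_two h3
    omega
  by_cases h7 : S ⊓ N = ⊥
  · exact Or.inr (Or.inr h7)
  have h8 : ∀ L : Subgroup H, L.Normal → L ≠ ⊥ → (∀ x ∈ L, ∀ y ∈ N, x * y = y * x) → False :=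
    fun L _ hL h => h7 (eq_bot_iff.mpr fun x hx => H3.Burnside2.eq_one_of_commute L
      (H3.NormalMT.isPretransitive_of_normal L hL) (fun y hy => h y hy x hx.2)
      (show x • a = a from hx.1))
  obtain ⟨T, _, m, e, hT, hT', hm, h9⟩ := S0723.result H N hN hmin (fun L _ hL hLm => by
    by_contra h
    exact h8 L inferInstance hL fun x hx y hy => H3.MinNormal.commute_of_inf_eq_bot L N
      (H3.MinNormal.inf_eq_bot_of_ne L N hLm hmin h) hx hy)
    (fun h => h8 N hNn hN fun x hx y hy => congrArg Subtype.val (h.is_comm.comm ⟨x, hx⟩ ⟨y, hy⟩)) a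
  have : Finite T := Finite.of_injective (fun t => e.symm fun _ => t)
    fun _ _ h => congrFun (e.symm.injective h) ⟨0, hm⟩
  have h10 : cl N ≤ m := by
    rw [← cl_top, ← cl_map e.toMonoidHom e.injective, map_top_of_surjective _ e.surjective,
      ← Subgroup.pi_top Set.univ, cl_pi]
    simpa using sum_le_card_nsmul univ (fun _ : Fin m => cl (⊤ : Subgroup T)) 1
      fun _ _ => cl_simple
  have h11 : cl (S ⊓ N) = cl (map e.toMonoidHom (S.subgroupOf N)) := by
    rw [cl_map _ e.injective, ← cl_map N.subtype N.subtype_injective, subgroupOf_map_subtype]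
  have h12 : ∀ x, x ∈ map e.toMonoidHom (S.subgroupOf N) ↔ (e.symm x : H) ∈ S := fun x =>
    mem_map_equiv
  rcases h9 with ⟨K, -, hK⟩ | ⟨k, c, hk, hc1, hc2⟩
  · left
    rw [h11, show map e.toMonoidHom (S.subgroupOf N) = Subgroup.pi Set.univ K from
      Subgroup.ext fun x => by rw [h12, hK]; simp [Subgroup.mem_pi], cl_pi]
    have : ∀ i, 1 ≤ cl (K i) := fun i => cl_pos fun hi => by
      let L : Subgroup H := map N.subtype ((Pi.evalMonoidHom (fun _ => T) i).comp
        e.toMonoidHom).ker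
      have hL : S ⊓ N ≤ L := fun x hx => ⟨⟨x, hx.2⟩, by
        have := (hK ⟨x, hx.2⟩).mp hx.1 i
        rwa [hi] at this, rfl⟩
      have h13 : ∀ g : H, ∀ x ∈ S ⊓ N, g * x * g⁻¹ ∈ L := fun g x hx => by
        obtain ⟨n, hn⟩ := exists_smul_eq N a (g • a)
        have h14 : (n : H)⁻¹ * g ∈ S := by
          show ((n : H)⁻¹ * g) • a = a
          rw [mul_smul, inv_smul_eq_iff]
          exact hn.symm
        obtain ⟨y, hy, e⟩ := hL ⟨S.mul_mem (S.mul_mem h14 hx.1) (S.inv_mem h14),
          hNn.conj_mem _ hx.2 _⟩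
        exact ⟨_, (MonoidHom.normal_ker _).conj_mem y hy n, by
          simp only [coe_subtype] at e
          simp [e, mul_assoc]⟩
      have h14 : normalClosure (S ⊓ N : Subgroup H) ≤ L := (closure_le _).mpr fun x hx => by
        obtain ⟨y, hy, h⟩ := Group.mem_conjugatesOfSet_iff.mp hx
        obtain ⟨g, rfl⟩ := isConj_iff.mp h
        exact h13 g y hy
      rcases hmin _ inferInstance (h14.trans (map_subtype_le _)) with h | h
      · exact h7 (eq_bot_iff.mpr (h ▸ le_normalClosure))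
      · obtain ⟨t, ht⟩ := exists_ne (1 : T)
        obtain ⟨y, hy, e'⟩ := h14 (h.ge (e.symm fun _ => t).2)
        have hy' : e y i = 1 := hy
        rw [show y = e.symm fun _ => t from Subtype.ext e'] at hy'
        exact ht (by simpa using hy')
    have := card_nsmul_le_sum univ (fun i => cl (K i)) 1 fun i _ => this i
    simp at this
    omega
  by_cases h13 : m ≤ 2
  · have := cl_pos h7
    omega
  right; left
  have h14 : Nat.card (Set.range c) * k = m := by
    have := card_eq_sum_card_image c univ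
    rw [sum_congr rfl (g := fun _ => k) fun j hj => by
      obtain ⟨i, -, rfl⟩ := mem_image.mp hj
      rw [← Fintype.card_subtype, ← Nat.card_eq_fintype_card]
      have : Nonempty {i' // c i' = c i} := ⟨⟨i, rfl⟩⟩
      exact (hc1 _).resolve_right Nat.card_pos.ne'] at this
    rw [Nat.card_coe_set_eq, ← Set.image_univ, ← coe_univ, ← coe_image, Set.ncard_coe_finset]
    simpa using this.symm
  have h15 : Nat.card ↥(S ⊓ N) ≤ Nat.card T ^ Nat.card (Set.range c) := by
    rw [← Nat.card_fun]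
    refine Nat.card_le_card_of_injective (fun x j => e ⟨x, x.2.2⟩ j.2.choose) fun x y h => ?_
    refine Subtype.ext (congrArg (Subtype.val : N → H) (e.injective (a₁ := ⟨x, x.2.2⟩)
      (a₂ := ⟨y, y.2.2⟩) (funext fun i => ?_)))
    have h16 := (Set.mem_range_self (f := c) i).choose_spec
    rw [← (hc2 ⟨x, x.2.2⟩).mp x.2.1 _ _ h16, ← (hc2 ⟨y, y.2.2⟩).mp y.2.1 _ _ h16]
    exact congrFun h ⟨_, Set.mem_range_self i⟩
  have h16 := sixteen_le hT'
  rw [Nat.card_congr e.toEquiv, Nat.card_fun, Nat.card_eq_fintype_card (α := Fin m),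
    Fintype.card_fin] at h4
  generalize Nat.card (Set.range c) = l at *
  obtain ⟨j, hj⟩ : ∃ j, m = l + j := Nat.exists_eq_add_of_le (by nlinarith)
  have h17 : Nat.card T ^ j ≤ Nat.card X := Nat.le_of_mul_le_mul_left (by
    rw [← pow_add, ← hj, ← h4]; exact Nat.mul_le_mul_right _ h15) (pow_pos Nat.card_pos l)
  have h18 : l ≤ j := by nlinarith
  exact ⟨le_trans (Nat.pow_le_pow_left h16 2) ((Nat.pow_le_pow_right Nat.card_pos
    (by omega)).trans h17), h15.trans ((Nat.pow_le_pow_right Nat.card_pos h18).trans h17)⟩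

theorem bd (X : Type v) [Finite X] : Bd X := by
  induction h : Nat.card X using Nat.strong_induction_on generalizing X with
  | _ n ih =>
  subst h
  replace ih : ∀ (Y : Type v) [Finite Y], Nat.card Y < Nat.card X → Bd Y :=
    fun Y _ h => ih _ h Y rfl
  intro H R hR
  by_cases h1 : H = ⊥
  · have := Set.ncard_le_ncard R.subset_univ
    rw [Set.ncard_univ] at this
    rw [h1, cl_bot]
    omega
  have := (nontrivial_iff_ne_bot H).mpr h1
  rw [← cl_top]
  by_cases h2 : IsPretransitive H X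
  · have h3 : R.ncard ≤ 1 := (Set.ncard_le_one (Set.toFinite _)).mpr fun x hx y hy => by
      obtain ⟨g, rfl⟩ := exists_smul_eq H x y
      exact (hR g g.2 x hx hy).symm
    suffices 3 * cl (⊤ : Subgroup H) + 4 ≤ 4 * Nat.card X by omega
    by_cases h4 : IsPreprimitive H X
    · exact prim ih
    · obtain ⟨B, hB, h5⟩ : ∃ B : Set X, IsBlock H B ∧ ¬ IsTrivialBlock B := by
        by_contra h
        push Not at h
        exact h4 ⟨fun {B} hB => h B hB⟩
      exact imprim ih hB h5
  · obtain ⟨a, b, h⟩ : ∃ a b : X, b ∉ orbit H a := by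
      by_contra h
      push Not at h
      exact h2 ⟨h⟩
    exact intrans ih ⟨orbit H a, fun g _ hx => mem_orbit_of_mem_orbit g hx⟩ (mem_orbit_self a) h R
      fun g => hR g g.2

end Cfsg.Agent.H5.CLen
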