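import Cfsg.Agent.H5.CT3
import Cfsg.Prelude.Def_CurtisTits

set_option autoImplicit false

/-! The Curtis–Tits isomorphism from the table checks. -/

namespace Cfsg.Agent.H5.CT2
open Cfsg.Agent.H5.CT1 Cfsg.Lie

noncomputable section

namespace Tab

variable (T : Tab)

def goodSt (r s : ℕ) : Bool :=
  Nat.blt r T.n && Nat.blt s T.n && !Nat.beq s r && !Nat.beq s (T.ng r)

def chkR2 : Bool :=
  allLt T.n fun r => !xor (T.r2 r) (anyLt T.l fun i => anyLt T.l fun j => T.sub i j r)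

def chkClos : Bool :=
  allLt T.n fun r => !T.r2 r || (T.r2 (T.ng r) && allLt T.n fun s => !T.r2 s ||
    !(anyLt T.l fun i => anyLt T.l fun k => T.goodCT i k r s) || (T.ct r s).all fun c => T.r2 c.1)

def chkSt : Bool :=
  allLt T.n fun r => T.r2 r || T.okLoc T.goodSt (T.tr r) (T.σ (T.tr r) r)

structure Link (D : ChevalleyDatum) : Prop where
  n_eq : D.nroots = T.n
  l_eq : D.rank = T.l
  neg_eq : ∀ r < T.n, D.neg r = T.ng r
  ct_eq : ∀ r < T.n, ∀ s < T.n, D.commTerms r s = T.ct r s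
  sub_iff : ∀ i j r, D.InRankTwoSub i j r ↔ T.sub i j r = true

structure Checks : Prop where
  basic : T.chkBasic = true
  S : T.chkS = true
  H : T.chkH = true
  Br : T.chkBr = true
  St : T.chkStep = true
  tree : T.chkT = true
  C : ∀ r < T.n, T.rowC r = true
  R2 : T.chkR2 = true
  clos : T.chkClos = true
  loc : T.chkSt = true

variable {G K : Type*} [Group G] [Field K]

/-- root elements defined along the tree -/
def XX (x : ℕ → K → G) (r : ℕ) (t : K) : G :=
  if _h : r < T.n ∧ T.r2 r = false ∧ T.ρ (T.σ (T.tr r) r) < T.ρ r then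
    T.N x (T.tr r) * XX x (T.σ (T.tr r) r) (sg (T.η (T.tr r) (T.σ (T.tr r) r)) t) *
      (T.N x (T.tr r))⁻¹
  else x r t
termination_by T.ρ r
decreasing_by exact _h.2.2

variable {T}

theorem XX_r2 (x : ℕ → K → G) {r : ℕ} (h : T.r2 r = true) : T.XX x r = x r := by
  funext t
  rw [XX, dif_neg (by simp [h])]

theorem XX_out (x : ℕ → K → G) {r : ℕ} (h : ¬ r < T.n) : T.XX x r = x r := by
  funext t
  rw [XX, dif_neg (by simp [h])]

theorem XX_tree (x : ℕ → K → G) {r : ℕ} (h1 : r < T.n) (h2 : T.r2 r = false)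
    (h3 : T.ρ (T.σ (T.tr r) r) < T.ρ r) (t : K) :
    T.XX x r t = T.N x (T.tr r) * T.XX x (T.σ (T.tr r) r) (sg (T.η (T.tr r) (T.σ (T.tr r) r)) t) *
      (T.N x (T.tr r))⁻¹ := by
  rw [XX, dif_pos ⟨h1, h2, h3⟩]

end Tab

variable {G K : Type*} [Group G] [Field K]

theorem lift_stX (D : ChevalleyDatum) (X : ℕ → K → G) (h : ∀ r, ¬ r < D.nroots → ∀ t, X r t = 1)
    (r : ℕ) (t : K) :
    FreeGroup.lift (fun p : Fin D.nroots × K => X p.1 p.2) (D.stX r t) = X r t := by
  unfold ChevalleyDatum.stX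
  split_ifs with hr
  · simp
  · rw [h r hr, map_one]

theorem map_stWord (D : ChevalleyDatum) (f : FreeGroup (Fin D.nroots × K) →* G) (w : List (ℕ × K)) :
    f (D.stWord w) = (w.map fun p => f (D.stX p.1 p.2)).prod := by
  unfold ChevalleyDatum.stWord
  rw [map_list_prod, List.map_map]; rfl

theorem map_comm {T : Tab} {D : ChevalleyDatum} (L : T.Link D)
    (f : FreeGroup (Fin D.nroots × K) →* G) {r s : ℕ} (hr : r < T.n) (hs : s < T.n) :
    T.Comm (fun r t => f (D.stX r t)) r s ↔ ∀ t u : K,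
      f ((D.stX s u)⁻¹ * (D.stX r t)⁻¹ * D.stX s u * D.stX r t *
        (D.stWord (D.commWord K r s t u))⁻¹) = 1 := by
  unfold Tab.Comm
  refine forall_congr' fun t => forall_congr' fun u => ?_
  rw [map_mul, map_inv, mul_inv_eq_one, map_stWord, ChevalleyDatum.commWord, L.ct_eq r hr s hs,
    List.map_map]
  simp only [map_mul, map_inv]
  rfl

theorem map_add (D : ChevalleyDatum) (f : FreeGroup (Fin D.nroots × K) →* G) (r : ℕ) :
    IsAdd (fun t => f (D.stX r t)) ↔ ∀ t u : K,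
      f (D.stX r t * D.stX r u * (D.stX r (t + u))⁻¹) = 1 := by
  unfold IsAdd
  refine forall_congr' fun t => forall_congr' fun u => ?_
  rw [map_mul, map_inv, mul_inv_eq_one, map_mul, eq_comm]

theorem map_hm {T : Tab} {D : ChevalleyDatum} (L : T.Link D)
    (f : FreeGroup (Fin D.nroots × K) →* G) {r : ℕ} (hr : r < T.n) :
    T.Hm (fun r t => f (D.stX r t)) r ↔ ∀ t u : K, t ≠ 0 → u ≠ 0 →
      f (D.stH r t * D.stH r u * (D.stH r (t * u))⁻¹) = 1 := by
  unfold Tab.Hm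
  have e : ∀ t, f (D.stH r t) = T.hh (fun r t => f (D.stX r t)) r t := by
    intro t
    simp only [ChevalleyDatum.stH, map_stWord, ChevalleyDatum.hWord, ChevalleyDatum.nWord,
      L.neg_eq r hr, Tab.hh, Tab.nn, List.map_append, List.map_cons, List.map_nil,
      List.prod_append, List.prod_cons, List.prod_nil, mul_one]
  refine forall_congr' fun t => forall_congr' fun u => forall_congr' fun _ =>
    forall_congr' fun _ => ?_
  rw [map_mul, map_inv, mul_inv_eq_one, map_mul, e, e, e]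

theorem Tab.comm_congr {T : Tab} {X Y : ℕ → K → G} {r s : ℕ} (hr : X r = Y r) (hs : X s = Y s)
    (hc : ∀ c ∈ T.ct r s, X c.1 = Y c.1) (h : T.Comm Y r s) : T.Comm X r s := by
  intro t u
  rw [hr, hs, h]
  unfold wdp
  congr 1
  exact List.map_congr_left fun c hcm => by rw [hc c hcm]

theorem Tab.hm_congr {T : Tab} {X Y : ℕ → K → G} {r : ℕ} (hr : X r = Y r)
    (hs : X (T.ng r) = Y (T.ng r)) (h : T.Hm Y r) : T.Hm X r := by
  intro t u ht hu
  have := h t u ht hu
  simp only [Tab.hh, Tab.nn, hr, hs] at this ⊢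
  exact this

theorem main (D : ChevalleyDatum) (T : Tab) (L : T.Link D) (C : T.Checks) (K : Type*) [Field K] :
    ∃ e : D.CurtisTitsGroup K ≃* D.SteinbergGroup K,
      ∀ (i j r : ℕ) (t : K), D.InRankTwoSub i j r →
        e (PresentedGroup.mk (D.curtisTitsRels K) (D.stX r t)) = D.stGen K r t := by
  have B := Tab.basic_of C.basic
  have hsub : ∀ i j r, T.sub i j r = true → r < T.n ∧ i < T.l ∧ j < T.l := by
    intro i j r h
    have := (L.sub_iff i j r).mpr h
    exact ⟨L.n_eq ▸ this.1, L.l_eq ▸ this.2.1, L.l_eq ▸ this.2.2.1⟩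
  have hR2 := C.R2
  simp only [Tab.chkR2, allLt_iff, Bool.not_eq_true', xor_false_iff'] at hR2
  have r2_of : ∀ i j r, T.sub i j r = true → T.r2 r = true := by
    intro i j r h
    obtain ⟨h1, h2, h3⟩ := hsub i j r h
    rw [hR2 r h1]
    simp only [anyLt_iff]
    exact ⟨i, h2, j, h3, h⟩
  have of_r2 : ∀ r < T.n, T.r2 r = true → ∃ i j, T.sub i j r = true := by
    intro r hr h
    rw [hR2 r hr] at h
    simp only [anyLt_iff] at h
    obtain ⟨i, -, j, -, h⟩ := h
    exact ⟨i, j, h⟩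
  have hclos := C.clos
  simp only [Tab.chkClos, allLt_iff, Bool.or_eq_true, Bool.and_eq_true, Bool.not_eq_true',
    List.all_eq_true] at hclos
  have ng_r2 : ∀ r < T.n, T.r2 r = true → T.r2 (T.ng r) = true := fun r hr h =>
    ((hclos r hr).resolve_left (by simp [h])).1
  have good_iff : ∀ i k r s, T.goodCT i k r s = true ↔
      T.sub i k r = true ∧ T.sub i k s = true ∧ s ≠ r ∧ s ≠ T.ng r := by
    intro i k r s
    simp only [Tab.goodCT, Bool.and_eq_true, Bool.not_eq_true', ← Bool.not_eq_true, Nat.beq_eq]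
    tauto
  have ct_r2 : ∀ i k r s, T.goodCT i k r s = true → ∀ c ∈ T.ct r s, T.r2 c.1 = true := by
    intro i k r s h
    obtain ⟨h1, h2, -, -⟩ := (good_iff i k r s).mp h
    have := ((hclos r (hsub _ _ _ h1).1).resolve_left (by simp [r2_of _ _ _ h1])).2 s
      (hsub _ _ _ h2).1
    refine this.resolve_left ?_
    rw [not_or, Bool.not_eq_false, Bool.not_eq_false]
    refine ⟨r2_of _ _ _ h2, ?_⟩
    simp only [anyLt_iff]
    exact ⟨i, (hsub _ _ _ h1).2.1, k, (hsub _ _ _ h1).2.2, h⟩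
  -- the two groups
  set mc := PresentedGroup.mk (D.curtisTitsRels K) with hmc
  set ms := PresentedGroup.mk (D.steinbergRels K) with hms
  have mc1 : ∀ g ∈ D.curtisTitsRels K, mc g = 1 := fun g hg => PresentedGroup.one_of_mem hg
  have ms1 : ∀ g ∈ D.steinbergRels K, ms g = 1 := fun g hg => PresentedGroup.one_of_mem hg
  let x : ℕ → K → D.CurtisTitsGroup K := fun r t => mc (D.stX r t)
  let y : ℕ → K → D.SteinbergGroup K := fun r t => ms (D.stX r t)
  have out : ∀ r, ¬ r < D.nroots → ∀ t : K, D.stX r t = 1 := by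
    intro r hr t; unfold ChevalleyDatum.stX; rw [dif_neg hr]
  have xadd : ∀ i j r, T.sub i j r = true → IsAdd (x r) := fun i j r h =>
    (map_add D mc r).mpr fun t u => mc1 _
      (Or.inl (Or.inl (Or.inr ⟨i, j, r, t, u, (L.sub_iff i j r).mpr h, rfl⟩)))
  have xcomm : ∀ i k r s, T.goodCT i k r s = true → T.Comm x r s := by
    intro i k r s h
    obtain ⟨h1, h2, h3, h4⟩ := (good_iff i k r s).mp h
    exact (map_comm L mc (hsub _ _ _ h1).1 (hsub _ _ _ h2).1).mpr fun t u => mc1 _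
      (Or.inl (Or.inr ⟨i, k, r, s, t, u, (L.sub_iff _ _ _).mpr h1, (L.sub_iff _ _ _).mpr h2, h3,
        by rw [L.neg_eq r (hsub _ _ _ h1).1]; exact h4, rfl⟩))
  have xhm : ∀ i j r, T.sub i j r = true → T.Hm x r := fun i j r h =>
    (map_hm L mc (hsub _ _ _ h).1).mpr fun t u ht hu => mc1 _
      (Or.inr ⟨i, j, r, t, u, (L.sub_iff i j r).mpr h, ht, hu, rfl⟩)
  have yadd : ∀ r < T.n, IsAdd (y r) := fun r h =>
    (map_add D ms r).mpr fun t u => ms1 _ (Or.inl (Or.inl ⟨r, t, u, L.n_eq ▸ h, rfl⟩))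
  have ycomm : ∀ r < T.n, ∀ s < T.n, s ≠ r → s ≠ T.ng r → T.Comm y r s := fun r hr s hs h1 h2 =>
    (map_comm L ms hr hs).mpr fun t u => ms1 _
      (Or.inl (Or.inr ⟨r, s, t, u, L.n_eq ▸ hr, L.n_eq ▸ hs, h1,
        by rw [L.neg_eq r hr]; exact h2, rfl⟩))
  have yhm : ∀ r < T.n, T.Hm y r := fun r h =>
    (map_hm L ms h).mpr fun t u ht hu => ms1 _ (Or.inr ⟨r, t, u, L.n_eq ▸ h, ht, hu, rfl⟩)
  have ygood : T.Good y T.goodSt := by
    intro r s h
    simp only [Tab.goodSt, Bool.and_eq_true, Bool.not_eq_true', ← Bool.not_eq_true, Nat.beq_eq,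
      Nat.blt_eq] at h
    exact ⟨ycomm r h.1.1.1 s h.1.1.2 h.1.2 h.2, yadd r h.1.1.1, yadd s h.1.1.2⟩
  let X := T.XX x
  have NX : ∀ j < T.l, T.N X j = T.N x j := by
    intro j hj
    simp only [Tab.N, Tab.nn, X, Tab.XX_r2 x (B.p_r2 j hj), Tab.XX_r2 x (B.np_r2 j hj)]
  have hT := C.tree
  simp only [Tab.chkT, allLt_iff, Bool.and_eq_true, Bool.or_eq_true, Nat.blt_eq] at hT
  have H : T.Hyp X := by
    refine ⟨fun i k r s h => ?_, fun r hr h => ?_, fun r hr h => ?_, fun r hr h t => ?_⟩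
    · obtain ⟨h1, h2, -, -⟩ := (good_iff i k r s).mp h
      refine ⟨Tab.comm_congr (Tab.XX_r2 x (r2_of _ _ _ h1)) (Tab.XX_r2 x (r2_of _ _ _ h2))
        (fun c hc => Tab.XX_r2 x (ct_r2 i k r s h c hc)) (xcomm i k r s h), ?_, ?_⟩
      · rw [show X r = x r from Tab.XX_r2 x (r2_of _ _ _ h1)]; exact xadd _ _ _ h1
      · rw [show X s = x s from Tab.XX_r2 x (r2_of _ _ _ h2)]; exact xadd _ _ _ h2
    · obtain ⟨i, j, h'⟩ := of_r2 r hr h
      rw [show X r = x r from Tab.XX_r2 x h]; exact xadd _ _ _ h'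
    · obtain ⟨i, j, h'⟩ := of_r2 r hr h
      exact Tab.hm_congr (Tab.XX_r2 x h) (Tab.XX_r2 x (ng_r2 r hr h)) (xhm _ _ _ h')
    · obtain ⟨a1, a2⟩ := (hT r hr).resolve_left (by simp [h])
      rw [B.σσ _ a1 r hr, NX _ a1]
      show _ = T.XX x r _
      rw [Tab.XX_tree x hr h a2, sg_sg]
  have hP := Tab.allP H B C.S C.H C.Br C.St
  have Xout : ∀ r, ¬ r < D.nroots → ∀ t, X r t = 1 := by
    intro r hr t
    show T.XX x r t = 1
    rw [Tab.XX_out x (L.n_eq ▸ hr)]
    show mc (D.stX r t) = 1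
    rw [out r hr, map_one]
  -- the map from the Steinberg group
  have hψ : ∀ g ∈ D.steinbergRels K,
      FreeGroup.lift (fun p : Fin D.nroots × K => X p.1 p.2) g = 1 := by
    have e : (fun r t => FreeGroup.lift (fun p : Fin D.nroots × K => X p.1 p.2) (D.stX r t)) = X := by
      funext r t; exact lift_stX D X Xout r t
    rintro g ((⟨r, t, u, hr, rfl⟩ | ⟨r, s, t, u, hr, hs, h1, h2, rfl⟩) | ⟨r, t, u, hr, ht, hu, rfl⟩)
    · refine (map_add D _ r).mp ?_ t u
      have := Tab.allAdd H B C.tree hP r (L.n_eq ▸ hr)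
      rw [← e] at this; exact this
    · refine (map_comm L _ (L.n_eq ▸ hr) (L.n_eq ▸ hs)).mp ?_ t u
      rw [e]
      exact Tab.allComm H B hP C.C r (L.n_eq ▸ hr) s (L.n_eq ▸ hs) h1
        (by rw [← L.neg_eq r (L.n_eq ▸ hr)]; exact h2)
    · refine (map_hm L _ (L.n_eq ▸ hr)).mp ?_ t u ht hu
      rw [e]
      exact Tab.allHm H B C.tree hP r (L.n_eq ▸ hr)
  let Y : ℕ → K → D.SteinbergGroup K := fun r t => if T.r2 r = true then y r t else 1
  have Yr2 : ∀ r, T.r2 r = true → Y r = y r := fun r h => by funext t; simp only [Y, if_pos h]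
  have Yout : ∀ r, ¬ r < D.nroots → ∀ t, Y r t = 1 := by
    intro r hr t
    simp only [Y, y, out r hr, map_one, ite_self]
  have hφ : ∀ g ∈ D.curtisTitsRels K,
      FreeGroup.lift (fun p : Fin D.nroots × K => Y p.1 p.2) g = 1 := by
    have e : (fun r t => FreeGroup.lift (fun p : Fin D.nroots × K => Y p.1 p.2) (D.stX r t)) = Y := by
      funext r t; exact lift_stX D Y Yout r t
    rintro g (((⟨r, t, hr, h, rfl⟩ | ⟨i, j, r, t, u, hr, rfl⟩) |
      ⟨i, j, r, s, t, u, hr, hs, h1, h2, rfl⟩) | ⟨i, j, r, t, u, hr, ht, hu, rfl⟩)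
    · rw [lift_stX D Y Yout]
      refine if_neg fun h' => ?_
      obtain ⟨i, j, h''⟩ := of_r2 r (L.n_eq ▸ hr) h'
      exact h i j ((L.sub_iff _ _ _).mpr h'')
    · have hr' := (L.sub_iff _ _ _).mp hr
      refine (map_add D _ r).mp ?_ t u
      have : IsAdd (Y r) := by rw [Yr2 r (r2_of _ _ _ hr')]; exact yadd r (hsub _ _ _ hr').1
      rw [← e] at this; exact this
    · have hr' := (L.sub_iff _ _ _).mp hr
      have hs' := (L.sub_iff _ _ _).mp hs
      rw [L.neg_eq r (hsub _ _ _ hr').1] at h2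
      refine (map_comm L _ (hsub _ _ _ hr').1 (hsub _ _ _ hs').1).mp ?_ t u
      rw [e]
      exact Tab.comm_congr (Yr2 r (r2_of _ _ _ hr')) (Yr2 s (r2_of _ _ _ hs'))
        (fun c hc => Yr2 _ (ct_r2 i j r s ((good_iff _ _ _ _).mpr ⟨hr', hs', h1, h2⟩) c hc))
        (ycomm r (hsub _ _ _ hr').1 s (hsub _ _ _ hs').1 h1 h2)
    · have hr' := (L.sub_iff _ _ _).mp hr
      refine (map_hm L _ (hsub _ _ _ hr').1).mp ?_ t u ht hu
      rw [e]
      exact Tab.hm_congr (Yr2 r (r2_of _ _ _ hr'))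
        (Yr2 _ (ng_r2 r (hsub _ _ _ hr').1 (r2_of _ _ _ hr'))) (yhm r (hsub _ _ _ hr').1)
  let ψ : D.SteinbergGroup K →* D.CurtisTitsGroup K := PresentedGroup.toGroup hψ
  let φ : D.CurtisTitsGroup K →* D.SteinbergGroup K := PresentedGroup.toGroup hφ
  have ψy : ∀ r t, ψ (y r t) = X r t := fun r t => lift_stX D X Xout r t
  have φx : ∀ r t, φ (x r t) = Y r t := fun r t => lift_stX D Y Yout r t
  have φN : ∀ j < T.l, φ (T.N x j) = T.N y j := by
    intro j hj
    simp only [Tab.N, Tab.nn, map_mul, φx, Yr2 _ (B.p_r2 j hj), Yr2 _ (B.np_r2 j hj)]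
  have hloc := C.loc
  simp only [Tab.chkSt, allLt_iff, Bool.or_eq_true] at hloc
  have φX : ∀ r < T.n, ∀ t, φ (X r t) = y r t := by
    refine Tab.tree_ind B C.tree (fun r hr h t => ?_) (fun r hr h hk hρ ih t => ?_)
    · rw [show X r = x r from Tab.XX_r2 x h, φx, Yr2 r h]
    · have hPy := Tab.okLoc_P ygood ((hloc r hr).resolve_left (by simp [h]))
      show φ (T.XX x r t) = _
      rw [Tab.XX_tree x hr h hρ, map_mul, map_mul, map_inv, φN _ hk, ih, hPy, B.σσ _ hk r hr, sg_sg]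
  have ofx : ∀ (r : Fin D.nroots) (t : K), (PresentedGroup.of (r, t) : D.CurtisTitsGroup K) = x r t := by
    intro r t
    simp only [x, ChevalleyDatum.stX, dif_pos r.2]; rfl
  have ofy : ∀ (r : Fin D.nroots) (t : K), (PresentedGroup.of (r, t) : D.SteinbergGroup K) = y r t := by
    intro r t
    simp only [y, ChevalleyDatum.stX, dif_pos r.2]; rfl
  have h1 : ψ.comp φ = MonoidHom.id _ := by
    refine PresentedGroup.ext fun ⟨r, t⟩ => ?_
    rw [MonoidHom.comp_apply, MonoidHom.id_apply, ofx, φx]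
    cases h : T.r2 r
    · have : Y r t = 1 := if_neg (by simp [h])
      rw [this, map_one]
      refine (mc1 _ (Or.inl (Or.inl (Or.inl ⟨r, t, r.2, fun i j h' => ?_, rfl⟩)))).symm
      rw [r2_of _ _ _ ((L.sub_iff _ _ _).mp h')] at h
      exact absurd h (by simp)
    · rw [Yr2 r h, ψy]
      exact congrFun (Tab.XX_r2 x h) t
  have h2 : φ.comp ψ = MonoidHom.id _ := by
    refine PresentedGroup.ext fun ⟨r, t⟩ => ?_
    rw [MonoidHom.comp_apply, MonoidHom.id_apply, ofy, ψy, φX r (L.n_eq ▸ r.2)]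
  refine ⟨MonoidHom.toMulEquiv φ ψ h1 h2, fun i j r t h => ?_⟩
  show φ (x r t) = y r t
  rw [φx, Yr2 r (r2_of _ _ _ ((L.sub_iff _ _ _).mp h))]

end

end Cfsg.Agent.H5.CT2
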