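import Cfsg.Agent.H5.CT4

set_option autoImplicit false

/-! Encodings of the tables and the link to a Chevalley datum. -/

namespace Cfsg.Agent.H5.CT2
open Cfsg.Lie

noncomputable section

inductive BT where
  | lf : ℕ → BT
  | nd : ℕ → BT → BT → BT

def BT.get (t : BT) (i : ℕ) : ℕ :=
  BT.rec (fun v => v) (fun p _ _ a b => cond (Nat.blt i p) a b) t

def tb8 (N i : ℕ) : ℕ := Nat.mod (Nat.shiftRight N (Nat.mul 8 i)) 256

def tb1 (N i : ℕ) : Bool := Nat.beq (Nat.mod (Nat.shiftRight N i) 2) 1

def code (F : BT) (r s : ℕ) : ℕ := Nat.mod (Nat.shiftRight (F.get r) (Nat.mul 24 s)) 16777216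

def dI (x : ℕ) : ℕ := Nat.div x 8

def dM (x : ℕ) : ℤ := Int.subNatNat (Nat.mod x 8) 3

def dec (v : ℕ) : List (ℕ × ℤ) :=
  cond (Nat.beq v 0) [] ((dI (Nat.mod v 4096), dM (Nat.mod v 4096)) ::
    cond (Nat.beq (Nat.div v 4096) 0) [] [(dI (Nat.div v 4096), dM (Nat.div v 4096))])

def ct2 (v' : ℕ) : List Tm :=
  cond (Nat.beq (Nat.div v' 4096) 0) [] [(dI (Nat.div v' 4096), dM (Nat.div v' 4096), 1, 2)]

def ctOf (v v' : ℕ) : List Tm :=
  cond (Nat.beq v 0) (ct2 v') ((dI (Nat.mod v 4096), dM (Nat.mod v 4096), 1, 1) ::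
    cond (Nat.beq (Nat.div v 4096) 0) (ct2 v')
      ((dI (Nat.div v 4096), dM (Nat.div v 4096), 2, 1) :: ct2 v'))

def ctF (F : BT) (r s : ℕ) : List Tm :=
  force (code F r s) fun v => force (code F s r) fun v' => ctOf v v'

def dw (fuel : ℕ) : ℕ → List ℕ :=
  Nat.rec (fun _ => []) (fun _ ih v => cond (Nat.beq v 0) []
    (force (Nat.pred (Nat.mod v 16)) fun j => force (Nat.div v 16) fun v' => j :: ih v')) fuel

def subF (n l Z : ℕ) (i j r : ℕ) : Bool :=
  Nat.blt r n && Nat.blt i l && Nat.blt j l &&
    allLt l fun k => Nat.beq k i || Nat.beq k j || tb1 Z (Nat.add (Nat.mul 8 r) k)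

abbrev Row := List (ℕ × Array (ℕ × ℤ))

def entry (row : Row) (s : ℕ) : List (ℕ × ℤ) :=
  match row.find? (fun e => e.1 = s) with
  | none => []
  | some e => e.2.toList

def chkRow (R : ℕ) (f : ℕ) : ℕ → Row → Bool :=
  Nat.rec (fun _ row => List.rec true (fun _ _ _ => false) row)
    (fun _ ih s row => force (Nat.mod (Nat.shiftRight R (Nat.mul 24 s)) 16777216) fun v =>
      force (Nat.succ s) fun s' =>
      List.rec (Nat.beq v 0 && ih s' [])
        (fun e row' _ => cond (Nat.beq e.1 s) (decide (dec v = e.2.toList) && ih s' row')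
          (Nat.beq v 0 && ih s' row)) row) f

theorem chkRow_spec (R f : ℕ) : ∀ (s : ℕ) (row : Row), chkRow R f s row = true →
    (∀ e ∈ row, s ≤ e.1) ∧ ∀ s', s ≤ s' → s' < s + f →
      entry row s' = dec (Nat.mod (Nat.shiftRight R (Nat.mul 24 s')) 16777216) := by
  induction f with
  | zero =>
    intro s row h
    cases row with
    | nil => exact ⟨by simp, fun s' h1 h2 => by omega⟩
    | cons e row => exact absurd h (by simp [chkRow])
  | succ f ih =>
    intro s row h
    cases row with
    | nil =>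
      have e : chkRow R (f + 1) s [] = force (Nat.mod (Nat.shiftRight R (Nat.mul 24 s)) 16777216)
        fun v => force (Nat.succ s) fun s' => (Nat.beq v 0 && chkRow R f s' []) := rfl
      simp only [e, force_eq, Bool.and_eq_true, Nat.beq_eq] at h
      refine ⟨by simp, fun s' h1 h2 => ?_⟩
      rcases h1.eq_or_lt with rfl | h1
      · rw [h.1]; rfl
      · exact (ih _ _ h.2).2 s' h1 (by omega)
    | cons e row =>
      have e0 : chkRow R (f + 1) s (e :: row) =
        force (Nat.mod (Nat.shiftRight R (Nat.mul 24 s)) 16777216)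
        fun v => force (Nat.succ s) fun s' => cond (Nat.beq e.1 s)
          (decide (dec v = e.2.toList) && chkRow R f s' row)
          (Nat.beq v 0 && chkRow R f s' (e :: row)) := rfl
      rw [e0, force_eq, force_eq] at h
      cases hb : Nat.beq e.1 s
      · rw [hb, cond_false, Bool.and_eq_true, Nat.beq_eq] at h
        obtain ⟨h1, h2⟩ := ih _ _ h.2
        refine ⟨fun e' he' => (Nat.le_succ s).trans (h1 e' he'), fun s' a1 a2 => ?_⟩
        rcases a1.eq_or_lt with rfl | a1
        · rw [h.1]
          have : (e :: row).find? (fun e => e.1 = s) = none := by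
            rw [List.find?_eq_none]
            intro e' he'
            have := h1 e' he'
            simp only [decide_eq_true_eq]; omega
          unfold entry; rw [this]; rfl
        · exact h2 s' a1 (by omega)
      · rw [hb, cond_true, Bool.and_eq_true, decide_eq_true_eq] at h
        rw [Nat.beq_eq] at hb
        obtain ⟨h1, h2⟩ := ih _ _ h.2
        refine ⟨fun e' he' => ?_, fun s' a1 a2 => ?_⟩
        · rcases List.mem_cons.mp he' with rfl | he'
          · exact hb.ge
          · exact (Nat.le_succ s).trans (h1 e' he')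
        · rcases a1.eq_or_lt with rfl | a1
          · rw [h.1]; unfold entry
            rw [List.find?_cons_of_pos (by simpa using hb)]
          · rw [← h2 s' a1 (by omega)]; unfold entry
            rw [List.find?_cons_of_neg (by simp only [decide_eq_true_eq]; omega)]

def chkRows (F : BT) (n : ℕ) (L : List (Array (ℕ × Array (ℕ × ℤ)))) : ℕ → Bool :=
  List.rec (fun r => Nat.beq r n)
    (fun a _ ih r => force (F.get r) (fun R => chkRow R n 0 a.toList) && force (Nat.succ r) ih) L

theorem chkRows_spec (F : BT) (n : ℕ) (L : List (Array (ℕ × Array (ℕ × ℤ)))) :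
    ∀ r0, chkRows F n L r0 = true → ∀ r, r0 + r < n → ∀ s < n,
      entry (L.getD r #[]).toList s = dec (code F (r0 + r) s) := by
  induction L with
  | nil =>
    intro r0 h r hr
    have : Nat.beq r0 n = true := h
    rw [Nat.beq_eq] at this; omega
  | cons a L ih =>
    intro r0 h r hr s hs
    have e : chkRows F n (a :: L) r0 = (force (F.get r0) (fun R => chkRow R n 0 a.toList) &&
      force (Nat.succ r0) (chkRows F n L)) := rfl
    rw [e, force_eq, force_eq, Bool.and_eq_true] at h
    cases r with
    | zero => exact (chkRow_spec _ _ _ _ h.1).2 s (Nat.zero_le _) (by omega)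
    | succ r =>
      have := ih _ h.2 r (by omega) s hs
      rw [show r0.succ + r = r0 + (r + 1) by omega] at this
      exact this

theorem chainEntry_eq (D : ChevalleyDatum) (F : BT) (n : ℕ)
    (h : chkRows F n D.chain.toList 0 = true) (r : ℕ) (hr : r < n) (s : ℕ) (hs : s < n) :
    D.chainEntry r s = dec (code F r s) := by
  have := chkRows_spec F n _ 0 h r (by omega) s hs
  rw [Nat.zero_add] at this
  rw [← this]
  have e : D.chain.getD r #[] = D.chain.toList.getD r #[] := by
    simp [Array.getD_eq_getD_getElem?, List.getD_eq_getElem?_getD]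
  unfold ChevalleyDatum.chainEntry entry
  rw [e]
  rfl

theorem commTerms_eq (D : ChevalleyDatum) (r s v v' : ℕ) (h1 : D.chainEntry r s = dec v)
    (h2 : D.chainEntry s r = dec v') : D.commTerms r s = ctOf v v' := by
  unfold ChevalleyDatum.commTerms ChevalleyDatum.chainRoot ChevalleyDatum.chainM
  rw [h1, h2]
  unfold dec ctOf ct2
  have z : ∀ w : ℕ, Nat.beq w 0 = true → Nat.beq (Nat.div w 4096) 0 = true := by
    intro w hw
    rw [Nat.beq_eq] at hw; subst hw; rfl
  cases a1 : Nat.beq v 0 <;> cases a2 : Nat.beq (Nat.div v 4096) 0 <;>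
    cases a3 : Nat.beq v' 0 <;> cases a4 : Nat.beq (Nat.div v' 4096) 0 <;>
    first
    | rfl
    | exact absurd ((z _ a1).symm.trans a2) (by decide)
    | exact absurd ((z _ a3).symm.trans a4) (by decide)

def chkNeg (D : ChevalleyDatum) (n : ℕ) : Bool :=
  decide (D.negIdx.toList = (List.range n).reverse)

def chkZ (n l Z : ℕ) (L : List (Array ℤ)) : ℕ → Bool :=
  List.rec (fun r => Nat.beq r n)
    (fun a _ ih r => (allLt l fun k =>
      !xor (decide (a.getD k 0 = 0)) (tb1 Z (Nat.add (Nat.mul 8 r) k))) && force (Nat.succ r) ih) L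

theorem chkZ_spec (n l Z : ℕ) (L : List (Array ℤ)) :
    ∀ r0, chkZ n l Z L r0 = true → ∀ r, r0 + r < n → ∀ k < l,
      ((L.getD r #[]).getD k 0 = 0 ↔ tb1 Z (Nat.add (Nat.mul 8 (r0 + r)) k) = true) := by
  induction L with
  | nil =>
    intro r0 h r hr
    have : Nat.beq r0 n = true := h
    rw [Nat.beq_eq] at this; omega
  | cons a L ih =>
    intro r0 h r hr k hk
    have e : chkZ n l Z (a :: L) r0 = ((allLt l fun k =>
      !xor (decide (a.getD k 0 = 0)) (tb1 Z (Nat.add (Nat.mul 8 r0) k))) &&
        force (Nat.succ r0) (chkZ n l Z L)) := rfl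
    rw [e, force_eq, Bool.and_eq_true, allLt_iff] at h
    cases r with
    | zero =>
      have := h.1 k hk
      rw [Bool.not_eq_true', xor_false_iff'] at this
      rw [Nat.add_zero, ← this, decide_eq_true_eq]; rfl
    | succ r =>
      have := ih _ h.2 r (by omega) k hk
      rw [show r0.succ + r = r0 + (r + 1) by omega] at this
      exact this

theorem link_of (D : ChevalleyDatum) (T : Tab) (F : BT) (Z : ℕ) (hn : D.nroots = T.n)
    (hl : D.rank = T.l) (hct : T.ct = ctF F) (hsub : T.sub = subF T.n T.l Z)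
    (h1 : chkNeg D T.n = true) (h2 : chkRows F T.n D.chain.toList 0 = true)
    (h3 : chkZ T.n T.l Z D.coroot.toList 0 = true) : T.Link D := by
  refine ⟨hn, hl, fun r hr => ?_, fun r hr s hs => ?_, fun i j r => ?_⟩
  · simp only [chkNeg, decide_eq_true_eq] at h1
    have e : D.negIdx.getD r 0 = D.negIdx.toList.getD r 0 := by
      simp [Array.getD_eq_getD_getElem?, List.getD_eq_getElem?_getD]
    unfold ChevalleyDatum.neg
    rw [e, h1, List.getD_eq_getElem _ _ (by simpa using hr)]
    simp only [List.getElem_reverse, List.getElem_range, List.length_range]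
    rfl
  · rw [hct, ctF, force_eq, force_eq]
    exact commTerms_eq D r s _ _ (chainEntry_eq D F _ h2 r hr s hs) (chainEntry_eq D F _ h2 s hs r hr)
  · have e : D.coroot.getD r #[] = D.coroot.toList.getD r #[] := by
      simp [Array.getD_eq_getD_getElem?, List.getD_eq_getElem?_getD]
    unfold ChevalleyDatum.InRankTwoSub
    rw [hsub, subF, hn, hl, e]
    simp only [Bool.and_eq_true, Bool.or_eq_true, Nat.blt_eq, Nat.beq_eq, allLt_iff]
    have := chkZ_spec _ _ _ _ 0 h3 r
    rw [Nat.zero_add] at this
    constructor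
    · rintro ⟨a1, a2, a3, a4⟩
      refine ⟨⟨⟨a1, a2⟩, a3⟩, fun k hk => ?_⟩
      by_cases b1 : k = i
      · exact Or.inl (Or.inl b1)
      by_cases b2 : k = j
      · exact Or.inl (Or.inr b2)
      exact Or.inr ((this a1 k hk).mp (a4 k hk b1 b2))
    · rintro ⟨⟨⟨a1, a2⟩, a3⟩, a4⟩
      refine ⟨a1, a2, a3, fun k hk b1 b2 => (this a1 k hk).mpr ?_⟩
      exact ((a4 k hk).resolve_left (by tauto))

/-- a range check -/
def allIn (a len : ℕ) (p : ℕ → Bool) : Bool := allLt len fun k => force (Nat.add a k) p

theorem allIn_spec {a len : ℕ} {p : ℕ → Bool} (h : allIn a len p = true) (r : ℕ) (h1 : a ≤ r)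
    (h2 : r < a + len) : p r = true := by
  simp only [allIn, allLt_iff, force_eq] at h
  have := h (r - a) (by omega)
  rwa [show Nat.add a (r - a) = r by show a + (r - a) = r; omega] at this

end

end Cfsg.Agent.H5.CT2
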