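import Cfsg.Agent.H9.DG0

set_option autoImplicit false

/-! Package `C1` of S5732. -/

namespace Cfsg.Agent.H5.DG
open Cfsg.Agent.H9.DG

universe u

section
variable {p : ℕ} {H V : Type u} [Group H] [AddCommGroup V] [Module (ZMod p) V] (ρ : Representation (ZMod p) H V)

/-- elements of `A` fixing `v` -/
def stb (A : Subgroup H) (v : V) : Subgroup H where
  carrier := {a | a ∈ A ∧ ρ a v = v}
  one_mem' := ⟨A.one_mem, by simp⟩
  mul_mem' := fun {a b} ha hb => ⟨A.mul_mem ha.1 hb.1, by rw [map_mul, Module.End.mul_apply, hb.2, ha.2]⟩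
  inv_mem' := fun {a} ha => ⟨A.inv_mem ha.1, by
    conv_lhs => rw [← ha.2]
    rw [← Module.End.mul_apply, ← map_mul, inv_mul_cancel, map_one, Module.End.one_apply]⟩

/-- vectors fixed by `B` -/
def fxs (B : Subgroup H) : Submodule (ZMod p) V where
  carrier := {v | ∀ b ∈ B, ρ b v = v}
  zero_mem' := fun _ _ => map_zero _
  add_mem' := fun {x y} hx hy b hb => by rw [map_add, hx b hb, hy b hb]
  smul_mem' := fun c x hx b hb => by rw [map_smul, hx b hb]

theorem app_mul (g h : H) (v : V) : ρ g (ρ h v) = ρ (g * h) v := by rw [map_mul]; rfl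

theorem inv_app (g : H) (v : V) : ρ g⁻¹ (ρ g v) = v := by rw [app_mul, inv_mul_cancel, map_one]; rfl

theorem app_inv (g : H) (v : V) : ρ g (ρ g⁻¹ v) = v := by rw [app_mul, mul_inv_cancel, map_one]; rfl
end

theorem c1 (l2 : L2.{u}) (l3 : L3.{u}) (ind : Ind.{u}) : C1.{u} := by
  intro p _ H V _ _ _ _ _ ρ K A hn af irr hAK hA hc hs
  classical
  simp only [Sr, not_forall] at hs
  obtain ⟨a0, ha0, ha1, w0, hw0, hw1⟩ := hs
  obtain ⟨v0, hv0, hmax⟩ := Set.exists_max_image {v : V | v ≠ 0} (fun v => Nat.card (stb ρ A v)) (Set.toFinite _) ⟨w0, hw1⟩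
  set B := stb ρ A v0 with hB
  set U := fxs ρ B with hU
  set L := Subgroup.normalizer (B : Set H) with hL
  have BA : ∀ b ∈ B, b ∈ A := fun b hb => hb.1
  have v0U : v0 ∈ U := fun b hb => hb.2
  have U0 : U ≠ ⊥ := fun h => hv0 (by rw [h] at v0U; exact v0U)
  have K0 : ∀ w ∈ U, w ≠ 0 → ∀ a ∈ A, ρ a w = w → a ∈ B := by
    intro w hw h0 a ha h
    have : B = stb ρ A w := Subgroup.eq_of_le_of_card_ge (fun b hb => ⟨hb.1, hw b hb⟩) (hmax w h0)
    rw [this]; exact ⟨ha, h⟩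
  have B0 : B ≠ ⊥ := by
    intro h
    have h1 := hmax w0 hw1
    rw [h, Subgroup.card_bot] at h1
    have : stb ρ A w0 = ⊥ := Subgroup.card_le_one_iff_eq_bot _ |>.1 h1
    have m : a0 ∈ stb ρ A w0 := ⟨ha0, hw0⟩
    rw [this] at m
    exact ha1 m
  have AL : A ≤ L := fun a ha => Subgroup.mem_normalizer_fintype fun n hn => by
    rw [hc a ha n (BA n hn), mul_inv_cancel_right]; exact hn
  have iL : Inv ρ L U := by
    intro g hg w hw b hb
    have h1 : g⁻¹ * b * g⁻¹⁻¹ ∈ B := (Subgroup.mem_normalizer_iff.1 (L.inv_mem hg) b).1 hb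
    have h2 := hw _ h1
    rw [app_mul, show b * g = g * (g⁻¹ * b * g⁻¹⁻¹) by group, ← app_mul, h2]
  set W : H → Submodule (ZMod p) V := fun g => U.comap (ρ g⁻¹) with hW
  have mW : ∀ g w, w ∈ W g ↔ ρ g⁻¹ w ∈ U := fun g w => Iff.rfl
  have cj : ∀ g a w, ρ g⁻¹ (ρ a w) = ρ (g⁻¹ * a * g) (ρ g⁻¹ w) := fun g a w => by
    rw [app_mul, app_mul, mul_inv_cancel_right]
  have cA : ∀ g, ∀ a ∈ A, g⁻¹ * a * g ∈ A := fun g a ha => hA.conj_mem' a ha g
  have W0 : ∀ g, W g ≠ ⊥ := fun g h => by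
    have : ρ g v0 ∈ W g := by rw [mW, inv_app]; exact v0U
    rw [h, Submodule.mem_bot] at this
    apply hv0
    rw [← inv_app ρ g v0, this, map_zero]
  have KW : ∀ g, ∀ w ∈ W g, w ≠ 0 → ∀ a ∈ A, ρ a w = w → g⁻¹ * a * g ∈ B := by
    intro g w hw h0 a ha h
    refine K0 _ hw (fun e => h0 ?_) _ (cA g a ha) (by rw [← cj, h])
    rw [← app_inv ρ g w, e, map_zero]
  have KW' : ∀ g, ∀ w ∈ W g, ∀ a, g⁻¹ * a * g ∈ B → ρ a w = w := by
    intro g w hw a ha
    have := hw _ ha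
    rw [← cj] at this
    rw [← app_inv ρ g (ρ a w), this, app_inv]
  have cW : ∀ g, Nat.card (W g) = Nat.card U := fun g =>
    Nat.card_congr ⟨fun w => ⟨ρ g⁻¹ w, w.2⟩, fun w => ⟨ρ g w, by rw [mW, inv_app]; exact w.2⟩,
      fun w => Subtype.ext (app_inv ρ g w), fun w => Subtype.ext (inv_app ρ g w)⟩
  have sep : ∀ g g' : H, g⁻¹ * g' ∉ L → ∃ a ∈ A, g⁻¹ * a * g ∈ B ∧ g'⁻¹ * a * g' ∉ B := by
    intro g g' h
    by_contra hn
    push Not at hn
    apply h
    rw [← inv_mem_iff]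
    refine Subgroup.mem_normalizer_fintype fun n hn' => ?_
    have := hn (g * n * g⁻¹) (hA.conj_mem n (BA n hn') g) (by simpa [mul_assoc] using hn')
    simpa [mul_assoc] using this
  have nAB : L ≠ ⊤ → ∃ a ∈ A, a ∉ B := by
    intro h
    by_contra hn
    push Not at hn
    exact h (eq_top_iff.2 fun g _ => Subgroup.mem_normalizer_fintype fun n hn' => hn _ (hA.conj_mem n (BA n hn') g))
  have L1 : L ≠ ⊤ := by
    intro h
    rcases irr U (h ▸ iL) with h1 | h1
    · exact U0 h1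
    · refine B0 (eq_bot_iff.2 fun b hb => af.inj ?_)
      rw [map_one]
      ext w
      have : w ∈ U := h1 ▸ Submodule.mem_top
      exact this b hb
  have i1 : L.index ≠ 1 := fun h => L1 (Subgroup.index_eq_one.1 h)
  have i0 : L.index ≠ 0 := Subgroup.index_ne_zero_of_finite
  by_cases i2 : L.index = 2
  · have nL := Subgroup.normal_of_index_eq_two i2
    obtain ⟨g, hg⟩ : ∃ g, g ∉ L := by
      by_contra hn
      push Not at hn
      exact L1 (eq_top_iff.2 fun g _ => hn g)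
    obtain ⟨a1, hA1, hB1⟩ := nAB L1
    refine l2 p H V ρ K L U (W g) 2 af iL (fun l hl w hw => ?_) U0 (W0 g) ?_
      (i2 ▸ Nat.le_of_dvd (by omega) (Subgroup.index_dvd_of_le le_sup_left)) fun v hv hv' => ?_
    · rw [mW, cj]
      exact iL _ (nL.conj_mem' l hl g) _ hw
    · rw [Submodule.disjoint_def]
      intro w h1 h2
      by_contra h0
      obtain ⟨a, ha, h3, h4⟩ := sep 1 g (by simpa using hg)
      exact h4 (KW g w h2 h0 a ha (h1 a (by simpa using h3)))
    · obtain ⟨a, ha, h⟩ : ∃ a ∈ A, ρ a v ≠ v := by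
        rcases hv' with h | h
        · exact ⟨a1, hA1, fun e => hB1 (K0 v h hv a1 hA1 e)⟩
        · refine ⟨g * a1 * g⁻¹, hA.conj_mem a1 hA1 g, fun e => hB1 ?_⟩
          simpa [mul_assoc] using KW g v h hv _ (hA.conj_mem a1 hA1 g) e
      exact (Set.one_lt_ncard (Set.toFinite _)).2
        ⟨ρ a v, ⟨a, ⟨AL ha, hAK ha⟩, rfl⟩, v, ⟨1, Subgroup.one_mem _, by simp⟩, h⟩
  · obtain ⟨I1, I2⟩ := ind p V (H ⧸ L) (fun q => W q.out) fun i j hij => by
      obtain ⟨a, ha, h1, h2⟩ := sep i.out j.out fun h => hij (by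
        rw [← QuotientGroup.out_eq' i, ← QuotientGroup.out_eq' j]; exact QuotientGroup.eq.2 h)
      refine ⟨ρ a - 1, fun l w hw => Submodule.sub_mem _ ?_ hw, fun w hw => ?_, fun w hw h => ?_⟩
      · rw [mW, cj]
        exact iL _ (AL (cA _ a ha)) _ hw
      · exact sub_eq_zero.2 (KW' _ w hw a h1)
      · by_contra h0
        exact h2 (KW _ w hw h0 a ha (sub_eq_zero.1 h))
    have := Fintype.ofFinite (H ⧸ L)
    have c3 : 2 < Fintype.card (H ⧸ L) := by
      rw [← Nat.card_eq_fintype_card, ← Subgroup.index_eq_card]; omega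
    obtain ⟨i, j, l, h1, h2, h3⟩ := Fintype.two_lt_card_iff.1 c3
    have h4 := I2 i j l h1 h2 h3 inferInstance
    simp only [cW] at h4
    have : Module.Finite (ZMod p) V := Module.Finite.of_finite
    have h5 := I1.subtype_ne_bot_le_finrank
    rw [Fintype.card_congr (Equiv.subtypeUnivEquiv fun q : H ⧸ L => W0 q.out), ← Nat.card_eq_fintype_card,
      ← Subgroup.index_eq_card] at h5
    refine l3 p H V ρ K L U hn af iL U0 (by rw [pow_succ, pow_two]; exact h4) (h5.trans ?_)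
    have := Nat.le_self_pow (by norm_num : 4 ≠ 0) (Module.finrank (ZMod p) V)
    omega

end Cfsg.Agent.H5.DG
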