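import Cfsg.Agent.H9.DG0
import Cfsg.Agent.H2.PGroup

set_option autoImplicit false

/-! Packages `RR` and `Cy` of S5732. -/

namespace Cfsg.Agent.H5.DG
open Cfsg.Agent.H9.DG Finset

universe u

theorem nrm0 {p : ℕ} {H V : Type u} [Group H] [AddCommGroup V] [Module (ZMod p) V] (ρ : Representation (ZMod p) H V)
    {r : ℕ} {y : H} (hy : y ^ r = 1) (hf : ∀ v : V, ρ y v = v → v = 0) (v : V) : ∑ k ∈ range r, ρ (y ^ k) v = 0 := by
  apply hf
  rw [map_sum]
  have h1 : ∀ k, ρ y (ρ (y ^ k) v) = ρ (y ^ (k + 1)) v := fun k => by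
    rw [pow_succ', map_mul]; rfl
  simp only [h1]
  have h2 := sum_range_succ' (fun k => ρ (y ^ k) v) r
  rw [sum_range_succ, hy, pow_zero] at h2
  exact (add_right_cancel h2).symm

theorem rr : RR.{u} := by
  intro p _ H V _ _ _ _ ρ r x z hr hrp hx hz hc hf
  by_contra hn
  push Not at hn
  have hn' : ∀ i, ∀ v : V, ρ (x * z ^ i) v = v → v = 0 := fun i v h => by
    by_contra h0; exact hn i v h0 h
  have cm : Commute x z := hc
  obtain ⟨v, hv⟩ := exists_ne (0 : V)
  have h1 : ∀ i ∈ range r, ∑ k ∈ range r, ρ ((x * z ^ i) ^ k) v = 0 := fun i _ =>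
    nrm0 ρ (by rw [(cm.pow_right i).mul_pow, hx, ← pow_mul, mul_comm i r, pow_mul, hz, one_pow, one_mul]) (hn' i) v
  have h2 : ∑ k ∈ range r, ∑ i ∈ range r, ρ ((x * z ^ i) ^ k) v = 0 := by
    rw [sum_comm]; exact sum_eq_zero h1
  have h3 : ∀ k ∈ range r, k ≠ 0 → ∑ i ∈ range r, ρ ((x * z ^ i) ^ k) v = 0 := by
    intro k hk hk0
    have e : ∀ i, ρ ((x * z ^ i) ^ k) v = ρ (x ^ k) (ρ ((z ^ k) ^ i) v) := fun i => by
      rw [(cm.pow_right i).mul_pow, ← pow_mul, mul_comm i k, pow_mul, map_mul]; rfl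
    simp only [e]
    rw [← map_sum, nrm0 ρ (by rw [← pow_mul, mul_comm, pow_mul, hz, one_pow]) ?_ v, map_zero]
    intro w hw
    apply hf
    have co : k.Coprime r := (Nat.coprime_of_lt_prime hk0 (mem_range.1 hk) hr).symm
    obtain ⟨m, -, hm⟩ := Nat.exists_mul_mod_eq_one_of_coprime co hr.one_lt
    have e1 : z = (z ^ k) ^ m := by
      rw [← pow_mul, ← Nat.div_add_mod (k * m) r, hm, pow_add, pow_mul, hz, one_pow, one_mul, pow_one]
    have e2 : ∀ j, ρ ((z ^ k) ^ j) w = w := fun j => by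
      induction j with
      | zero => simp
      | succ j ih => rw [pow_succ, map_mul, Module.End.mul_apply, hw, ih]
    have := e2 m
    rwa [← e1] at this
  rw [sum_eq_single_of_mem 0 (mem_range.2 hr.pos) h3] at h2
  simp only [pow_zero, map_one, Module.End.one_apply, sum_const, card_range] at h2
  rw [← Nat.cast_smul_eq_nsmul (ZMod p), smul_eq_zero] at h2
  rcases h2 with h2 | h2
  · rw [ZMod.natCast_eq_zero_iff] at h2
    exact hrp ((Nat.prime_dvd_prime_iff_eq Fact.out hr).1 h2).symm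
  · exact hv h2

theorem cy : Cy.{u} := by
  intro p _ H V _ _ _ _ _ ρ r A hr hrp hA hc hs
  have := Fact.mk hr
  obtain ⟨x, hx⟩ := H2.PGroup.eq_zpowers_of_comm hA ⟨⟨fun a b => Subtype.ext (hc a a.2 b b.2)⟩⟩
    (fun a ha b hb ha' hb' ha1 => by
      obtain ⟨i, v, hv, h⟩ := rr p H V ρ r b a hr hrp hb' ha' (hc b hb a ha) (hs a ha ha1)
      have : b * a ^ i = 1 := by
        by_contra h1
        exact hv (hs _ (A.mul_mem hb (A.pow_mem ha i)) h1 v h)
      rw [eq_inv_of_mul_eq_one_left this]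
      exact Subgroup.inv_mem _ (Subgroup.pow_mem _ (Subgroup.mem_zpowers a) i))
  rw [hx]; infer_instance

end Cfsg.Agent.H5.DG
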