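import Cfsg.Agent.H3.DR0

set_option autoImplicit false

/-! Package `PM2` of S5731. -/

namespace Cfsg.Agent.H5.DR
open MulAction Finset Cfsg.Agent.H3.DR

universe u v

section
variable {G : Type u} {Ω : Type v} [Group G] [Fintype G] [MulAction G Ω] [Fintype Ω]

theorem avg [IsPretransitive G Ω] (h : Ω → ℝ) (c : Ω) :
    (Fintype.card Ω : ℝ) * ∑ z : G, h (z • c) = Fintype.card G * ∑ e, h e := by
  have h1 : ∀ d : Ω, ∑ z : G, h (z • d) = ∑ z : G, h (z • c) := fun d => by
    obtain ⟨g, rfl⟩ := exists_smul_eq G c d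
    exact Fintype.sum_equiv (Equiv.mulRight g) _ _ fun z => by simp [mul_smul]
  have h2 : ∀ z : G, ∑ d, h (z • d) = ∑ e, h e := fun z => Fintype.sum_equiv (MulAction.toPerm z) _ _ fun _ => rfl
  have h3 : ∑ d : Ω, ∑ z : G, h (z • d) = ∑ z : G, ∑ d : Ω, h (z • d) := sum_comm
  simp only [h1, h2, sum_const, card_univ, nsmul_eq_mul] at h3
  exact h3

omit [Fintype Ω] in
theorem QQ_smul (w : Ω → ℝ) (g : G) (c d : Ω) : QQ G w (g • c) (g • d) = QQ G w c d := by
  unfold QQ
  congr 1
  exact Fintype.sum_equiv (Equiv.mulRight g) _ _ fun z => by simp [mul_smul]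

open Classical in
/-- number of conjugates of `z` sending `c` to `e` -/
noncomputable def cn (z : G) (c e : Ω) : ℝ := ∑ t : G, if (t * z * t⁻¹) • c = e then 1 else 0

omit [Fintype Ω] in
theorem cn_nonneg (z : G) (c e : Ω) : 0 ≤ cn z c e := sum_nonneg fun _ _ => by split_ifs <;> norm_num

theorem cn_sum (z : G) (c : Ω) : ∑ e, cn z c e = Fintype.card G := by
  classical
  unfold cn
  rw [sum_comm]
  simp

theorem cn_le (z : G) {m : ℕ} (hm : Sub G Ω m) {c e : Ω} (h : c ≠ e) : m * cn z c e ≤ Fintype.card G := by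
  classical
  have h1 : ∀ e' ∈ (orbit (stabilizer G c) e).toFinset, cn z c e' = cn z c e := by
    intro e' he'
    obtain ⟨s, rfl⟩ := Set.mem_toFinset.1 he'
    have hs : (s : G)⁻¹ • c = c := (s⁻¹).2
    unfold cn
    refine (Fintype.sum_equiv (Equiv.mulLeft (s : G)) _ _ fun t => ?_).symm
    have e1 : ((s : G) * t * z * ((s : G) * t)⁻¹) • c = (s : G) • ((t * z * t⁻¹) • c) := by
      rw [mul_inv_rev, ← mul_assoc, mul_smul _ (s : G)⁻¹, hs, ← mul_smul]
      simp only [mul_assoc]
    simp only [Equiv.coe_mulLeft, e1, Subgroup.smul_def, smul_left_cancel_iff]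
  have h2 := sum_congr rfl h1
  rw [sum_const, nsmul_eq_mul] at h2
  have h3 : (m : ℝ) ≤ #(orbit (stabilizer G c) e).toFinset := by
    have := hm c e h
    rw [Nat.card_eq_card_toFinset] at this
    exact_mod_cast this
  calc _ ≤ _ := mul_le_mul_of_nonneg_right h3 (cn_nonneg z c e)
    _ = _ := h2.symm
    _ ≤ ∑ e, cn z c e := sum_le_sum_of_subset_of_nonneg (subset_univ _) fun _ _ _ => cn_nonneg z c _
    _ = _ := cn_sum z c

open Classical in
/-- off-diagonal part -/
noncomputable def ps (w : Ω → ℝ) (z : G) : ℝ := ∑ c : Ω, if z • c = c then 0 else QQ G w c (z • c)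

theorem ps_conj (w : Ω → ℝ) (z t : G) : ps w (t * z * t⁻¹) = ps w z := by
  unfold ps
  refine (Fintype.sum_equiv (MulAction.toPerm t) _ _ fun c => ?_).symm
  have e1 : (t * z * t⁻¹) • t • c = t • z • c := by simp [mul_smul]
  have e2 : (t * z * t⁻¹) • (toPerm t) c = (toPerm t) c ↔ z • c = c :=
    ⟨fun e => MulAction.injective t (e1.symm.trans e), fun h => e1.trans (congrArg (t • ·) h)⟩
  by_cases h : z • c = c
  · rw [if_pos h, if_pos (e2.2 h)]
  · rw [if_neg h, if_neg fun e => h (e2.1 e)]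
    show _ = QQ G w (t • c) ((t * z * t⁻¹) • t • c)
    rw [e1, QQ_smul]

theorem ps_le (w : Ω → ℝ) (z : G) {m : ℕ} (h0 : 0 < m) (hm : Sub G Ω m) :
    |ps w z| ≤ √(Fintype.card Ω / m) * √(∑ c, ∑ d, QQ G w c d ^ 2) := by
  classical
  have hN : (0 : ℝ) < Fintype.card G := by exact_mod_cast Fintype.card_pos
  have hm0 : (0 : ℝ) < m := by exact_mod_cast h0
  set P : Ω × Ω → ℝ := fun p => if p.1 = p.2 then 0 else cn z p.1 p.2 / Fintype.card G with hP
  have h1 : ps w z = ∑ p : Ω × Ω, P p * QQ G w p.1 p.2 := by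
    have a : (Fintype.card G : ℝ) * ps w z = ∑ t : G, ps w (t * z * t⁻¹) := by
      simp only [ps_conj, sum_const, card_univ, nsmul_eq_mul]
    apply mul_left_cancel₀ hN.ne'
    rw [a, mul_sum, Fintype.sum_prod_type]
    unfold ps
    rw [sum_comm]
    refine sum_congr rfl fun c _ => ?_
    have b : ∀ e : Ω, (Fintype.card G : ℝ) * (P (c, e) * QQ G w c e) =
        ∑ t : G, if (t * z * t⁻¹) • c = e then (if e = c then 0 else QQ G w c e) else 0 := by
      intro e
      by_cases h : c = e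
      · subst h; simp [hP]
      · simp only [hP, if_neg h, if_neg (Ne.symm h)]
        rw [← mul_assoc, mul_div_cancel₀ _ hN.ne', cn, sum_mul]
        exact sum_congr rfl fun t _ => by split_ifs <;> simp
    simp only [b]
    rw [sum_comm]
    exact sum_congr rfl fun t _ => by rw [sum_ite_eq]; simp
  have h2 : ∑ p, P p ^ 2 ≤ Fintype.card Ω / m := by
    have a : ∀ p : Ω × Ω, P p ^ 2 ≤ cn z p.1 p.2 / Fintype.card G / m := by
      intro p
      have c0 := cn_nonneg z p.1 p.2
      by_cases h : p.1 = p.2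
      · simp only [hP, if_pos h]; norm_num; positivity
      · simp only [hP, if_neg h]
        have := cn_le z hm h
        have d : cn z p.1 p.2 / Fintype.card G ≤ 1 / m := by
          rw [div_le_div_iff₀ hN hm0]; linarith
        rw [sq, div_eq_mul_one_div (cn z p.1 p.2 / _) (m : ℝ)]
        exact mul_le_mul_of_nonneg_left d (by positivity)
    refine (sum_le_sum fun p _ => a p).trans (le_of_eq ?_)
    rw [Fintype.sum_prod_type]
    simp only [← sum_div, cn_sum]
    rw [sum_const, card_univ, nsmul_eq_mul, mul_div_cancel_right₀ _ hN.ne']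
  have h3 := sum_mul_sq_le_sq_mul_sq univ P (fun p : Ω × Ω => QQ G w p.1 p.2)
  rw [← h1, Fintype.sum_prod_type (fun p : Ω × Ω => QQ G w p.1 p.2 ^ 2)] at h3
  rw [← Real.sqrt_mul (by positivity)]
  refine Real.abs_le_sqrt (h3.trans (mul_le_mul_of_nonneg_right h2 ?_))
  exact sum_nonneg fun _ _ => sum_nonneg fun _ _ => sq_nonneg _
end

theorem pm2 (pb : PB.{u, v}) : PM2.{u, v} := by
  intro G Ω _ _ _ _ _ w m ht hw h0 hm
  classical
  obtain ⟨b1, b2, -⟩ := pb G Ω ht
  have hN : (0 : ℝ) < Fintype.card G := by exact_mod_cast Fintype.card_pos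
  have hn : (0 : ℝ) < Fintype.card Ω := by exact_mod_cast Fintype.card_pos
  have d1 : ∀ c, QQ G w c c = (∑ c, w c ^ 2) / Fintype.card Ω := fun c => by
    have := avg (G := G) (fun e => w e ^ 2) c
    unfold QQ
    simp only [← sq]
    rw [div_eq_div_iff hN.ne' hn.ne']
    linarith
  have d2 : ∀ z : G, ∑ c : Ω, QQ G w c (z • c) = fx Ω z * ((∑ c, w c ^ 2) / Fintype.card Ω) + ps w z := fun z => by
    unfold fx ps
    rw [card_eq_sum_ones, Nat.cast_sum, sum_filter, sum_mul, ← sum_add_distrib]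
    refine sum_congr rfl fun c _ => ?_
    split_ifs with h
    · rw [h, d1]; simp
    · simp
  have d3 : ∑ z : G, ∑ c : Ω, QQ G w c (z • c) = 0 := by
    rw [sum_comm]
    refine sum_eq_zero fun c _ => ?_
    unfold QQ
    rw [← sum_div, sum_comm, div_eq_zero_iff]
    refine .inl (sum_eq_zero fun t _ => ?_)
    rw [← mul_sum]
    have := avg (G := G) (fun e => w (t • e)) c
    rw [Fintype.sum_equiv (MulAction.toPerm t) (fun e => w (t • e)) w fun _ => rfl, hw, mul_zero] at this
    rw [(mul_eq_zero.1 this).resolve_left hn.ne', mul_zero]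
  generalize hB : √(Fintype.card Ω / m) * √(∑ c, ∑ d, QQ G w c d ^ 2) = B
  have hb : ∀ z : G, |ps w z| ≤ B := fun z => hB ▸ ps_le w z h0 hm
  rw [mul_assoc, hB]
  unfold UU rk
  simp only [d2] at d3 ⊢
  generalize (∑ c, w c ^ 2) = τ at *
  have key : ∀ z : G, (fx Ω z : ℝ) * (fx Ω z * (τ / Fintype.card Ω) + ps w z) ≤
      (fx Ω z * (τ / Fintype.card Ω) + ps w z) + τ / Fintype.card Ω * (fx Ω z * (fx Ω z - 1)) +
        B * (2 * max ((fx Ω z : ℝ) - 1) 0 - fx Ω z + 1) := fun z => by
    have a := abs_le.1 (hb z)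
    rcases le_total ((fx Ω z : ℝ) - 1) 0 with h | h
    · rw [max_eq_right h]; nlinarith [a.1]
    · rw [max_eq_left h]; nlinarith [a.2]
  have s := sum_le_sum fun z (_ : z ∈ univ) => key z
  rw [sum_add_distrib, sum_add_distrib, d3, ← mul_sum, ← mul_sum, sum_add_distrib, sum_sub_distrib, ← mul_sum, ← b2, b1,
    sum_const, card_univ, nsmul_eq_mul] at s
  rw [div_le_iff₀ hN]
  refine s.trans (le_of_eq ?_)
  field_simp
  ring

end Cfsg.Agent.H5.DR
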