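import Cfsg.Agent.H2.E8H

/-!
Groups whose generalized Fitting subgroup is `PSL₂(13)`.
-/

set_option autoImplicit false
set_option linter.unusedSectionVars false

namespace Cfsg.Agent.H5.HS

open Matrix Cfsg.Agent.H2.E8H
open scoped MatrixGroups

variable {F : Type*} [Field F]

/-- the projection -/
def pr : SL(2, F) →* ProjectiveSpecialLinearGroup (Fin 2) F := QuotientGroup.mk' _

theorem pr_surj : Function.Surjective (pr (F := F)) := QuotientGroup.mk'_surjective _

theorem pr_eq {X Y : SL(2, F)} : pr X = pr Y ↔ X.1 = Y.1 ∨ X.1 = -Y.1 := by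
  rw [pr, QuotientGroup.mk'_apply, QuotientGroup.mk'_apply, eq_comm, QuotientGroup.eq, Matrix.SpecialLinearGroup.mem_center_iff]
  constructor
  · rintro ⟨r, h1, h2⟩
    have h3 : X.1 = Y.1 * scalar (Fin 2) r := by
      rw [h2, ← Matrix.SpecialLinearGroup.coe_mul, mul_inv_cancel_left]
    rw [Fintype.card_fin, sq_eq_one_iff] at h1
    rcases h1 with rfl | rfl
    · exact Or.inl (by simpa using h3)
    · exact Or.inr (by rwa [map_neg, map_one, mul_neg, mul_one] at h3)
  · rintro (h | h)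
    · exact ⟨1, by simp, by rw [Subtype.ext h]; simp⟩
    · refine ⟨-1, by simp, ?_⟩
      rw [Matrix.SpecialLinearGroup.coe_mul, h, mul_neg, ← Matrix.SpecialLinearGroup.coe_mul, map_neg, map_one]
      simp

/-- a matrix of determinant one -/
def mk (a b c d : F) (h : a * d - b * c = 1) : SL(2, F) := ⟨!![a, b; c, d], by rwa [det_fin_two_of]⟩

theorem ex_mk (x : ProjectiveSpecialLinearGroup (Fin 2) F) : ∃ a b c d h, x = pr (mk a b c d h) := by
  obtain ⟨X, rfl⟩ := pr_surj x
  exact ⟨X.1 0 0, X.1 0 1, X.1 1 0, X.1 1 1, det_fin_two X.1 ▸ X.2, congrArg _ (Subtype.ext (eta_fin_two _))⟩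

theorem mk_mul (a b c d a' b' c' d' : F) (h : a * d - b * c = 1) (h' : a' * d' - b' * c' = 1) :
    pr (mk a b c d h) * pr (mk a' b' c' d' h') = pr (mk (a * a' + b * c') (a * b' + b * d') (c * a' + d * c')
      (c * b' + d * d') (by linear_combination (a' * d' - b' * c') * h + h')) := by
  rw [← map_mul]
  exact congrArg _ (Subtype.ext (mul_fin_two ..))

theorem mk_eq {a b c d a' b' c' d' : F} {h : a * d - b * c = 1} {h' : a' * d' - b' * c' = 1} :
    pr (mk a b c d h) = pr (mk a' b' c' d' h') ↔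
      (a = a' ∧ b = b' ∧ c = c' ∧ d = d') ∨ (a = -a' ∧ b = -b' ∧ c = -c' ∧ d = -d') := by
  rw [pr_eq]
  simp [mk, and_assoc]

theorem mk_one : (1 : ProjectiveSpecialLinearGroup (Fin 2) F) = pr (mk 1 0 0 1 (by simp)) :=
  (map_one pr).symm.trans (congrArg _ (Subtype.ext one_fin_two))

/-- upper unitriangular elements -/
def U (a : F) : ProjectiveSpecialLinearGroup (Fin 2) F := pr (mk 1 a 0 1 (by simp))

/-- Weyl elements -/
def W (a : Fˣ) : ProjectiveSpecialLinearGroup (Fin 2) F := pr (mk 0 (-a) (a : F)⁻¹ 0 (by simp))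

theorem U_mul (a b : F) : U a * U b = U (a + b) := by
  simp [U, mk_mul, add_comm]

theorem U_pow (a : F) (n : ℕ) : U a ^ n = U (n * a) := by
  induction n with
  | zero => simp [U, mk_one]
  | succ n ih => rw [pow_succ, ih, U_mul]; push_cast; ring_nf

theorem U_eq_one {a : F} (h : U a = 1) : a = 0 := by
  rw [U, mk_one, mk_eq] at h
  rcases h with h | h
  exacts [h.2.1, by simpa using h.2.1]

theorem comm (h2 : (2 : F) ≠ 0) {a : F} (ha : a ≠ 0) {y : ProjectiveSpecialLinearGroup (Fin 2) F} (h : y * U a = U a * y) :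
    ∃ s, y = U s := by
  obtain ⟨p, q, r, s, hd, rfl⟩ := ex_mk y
  simp only [U, mk_mul, mk_eq] at h ⊢
  refine ⟨p * q, ?_⟩
  have : r = 0 := by grind
  subst this
  have : p = s := by grind
  subst this
  rcases mul_self_eq_one_iff.1 (show p * p = 1 by simpa using hd) with rfl | rfl <;> simp

theorem nf2 (h2 : (2 : F) ≠ 0) (h3 : (3 : F) ≠ 0) (a : Fˣ) {y : ProjectiveSpecialLinearGroup (Fin 2) F} (h : y * y = 1)
    (h' : U (a : F) * y * (U (a : F) * y) * (U (a : F) * y) = 1) : ∃ s, U s * y = W a * U s := by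
  obtain ⟨p, q, r, s, hd, rfl⟩ := ex_mk y
  have a0 := a.ne_zero
  simp only [U, W, mk_mul, mk_one, mk_eq] at h h' ⊢
  generalize (a : F) = a at *
  have e1 : s = -p := by
    by_contra hc
    have e0 : p + s ≠ 0 := fun e => hc (by linear_combination e)
    have e1 : r = 0 := by grind
    have e2 : q = 0 := by grind
    subst e1 e2
    have e3 : p = s := by grind
    subst e3
    refine mul_ne_zero h3 a0 ?_
    grind
  subst e1
  have e2 : r ≠ 0 := by
    rintro rfl
    grind
  have e3 : a * r * (a * r) = 1 := by grind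
  refine ⟨-p / r, ?_⟩
  rcases mul_self_eq_one_iff.1 e3 with e | e
  · left
    refine ⟨?_, ?_, ?_, ?_⟩ <;> field_simp <;> grind
  · right
    refine ⟨?_, ?_, ?_, ?_⟩ <;> field_simp <;> grind

theorem sq13 : ∀ a : ZMod 13, a ≠ 0 → ∃ t : ZMod 13, t ≠ 0 ∧ (a * t * t = 1 ∨ a * t * t = 2) := by decide

variable [Fintype F] (hF : Fintype.card F = 13)
include hF

theorem ch13 : CharP F 13 := haveI : Fact (Nat.Prime 13) := ⟨by decide⟩; charP_of_card_eq_prime hF

theorem ne0 {n : ℕ} (h : ¬ 13 ∣ n) : (n : F) ≠ 0 := fun e => haveI := ch13 hF; h ((CharP.cast_eq_zero_iff F 13 n).1 e)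

theorem nf {x : ProjectiveSpecialLinearGroup (Fin 2) F} (h : x ^ 13 = 1) (h1 : x ≠ 1) :
    ∃ g, ∃ a : Fˣ, ((a : F) = 1 ∨ (a : F) = 2) ∧ g * x = U (a : F) * g := by
  have : Fact (Nat.Prime 13) := ⟨by decide⟩
  have := ch13 hF
  obtain ⟨g, a, a0, e⟩ : ∃ g, ∃ a : F, a ≠ 0 ∧ x * g = g * U a := by
    obtain ⟨X, rfl, hX⟩ : ∃ X : SL(2, F), pr X = x ∧ X.1 ^ 13 = 1 := by
      obtain ⟨X, rfl⟩ := pr_surj x
      rw [← map_pow, ← map_one pr, pr_eq] at h
      rcases h with h | h
      · exact ⟨X, rfl, h⟩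
      · replace h : X.1 ^ 13 = -1 := h
        refine ⟨-X, pr_eq.2 (Or.inr rfl), ?_⟩
        rw [Matrix.SpecialLinearGroup.coe_neg, Odd.neg_pow (by decide), h, neg_neg]
    have n1 : IsNilpotent (X.1 - 1) := ⟨13, by rw [sub_pow_char_of_commute _ (Commute.one_right _), hX, one_pow, sub_self]⟩
    have n2 := (isNilpotent_trace_of_isNilpotent n1).eq_zero
    have n3 := X.2
    rw [show X = mk (X.1 0 0) (X.1 0 1) (X.1 1 0) (X.1 1 1) (det_fin_two X.1 ▸ X.2) from Subtype.ext (eta_fin_two _)] at h1 ⊢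
    rw [det_fin_two] at n3
    simp only [trace_fin_two, Matrix.sub_apply, one_apply_eq] at n2
    generalize_proofs at h1 ⊢
    generalize X.1 0 0 = p at *
    generalize X.1 0 1 = q at *
    generalize X.1 1 0 = r at *
    generalize X.1 1 1 = s at *
    by_cases r0 : r = 0
    · have e1 : p = 1 := by grind
      have e2 : s = 1 := by grind
      subst r0 e1 e2
      exact ⟨1, q, fun e => h1 (by simp [e, mk_one]), by simp [U]⟩
    · refine ⟨pr (mk (p - 1) (-r⁻¹) r 0 (by simp [r0])), -r⁻¹, by simpa using r0, ?_⟩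
      simp only [U, mk_mul, mk_eq]
      left
      refine ⟨?_, ?_, ?_, ?_⟩ <;> field_simp <;> grind
  obtain ⟨t, t0, ht⟩ : ∃ t : F, t ≠ 0 ∧ (a * t * t = 1 ∨ a * t * t = 2) := by
    let φ := ZMod.ringEquivOfPrime F (by decide : Nat.Prime 13) hF
    obtain ⟨a, rfl⟩ := φ.surjective a
    obtain ⟨t, t0, ht⟩ := sq13 a (by simpa using a0)
    exact ⟨φ t, by simpa using t0, by
      rw [← map_mul, ← map_mul]; exact ht.imp (fun e => by rw [e, map_one]) fun e => by rw [e, map_ofNat]⟩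
  refine ⟨pr (mk t 0 0 t⁻¹ (by simp [t0])) * g⁻¹, Units.mk0 (a * t * t) (by simp [a0, t0]), ht, ?_⟩
  rw [mul_assoc, show g⁻¹ * x = U a * g⁻¹ by rw [eq_mul_inv_iff_mul_eq, mul_assoc, e, inv_mul_cancel_left], ← mul_assoc,
    ← mul_assoc]
  congr 1
  simp only [U, mk_mul, mk_eq, Units.val_mk0]
  left
  refine ⟨?_, ?_, ?_, ?_⟩ <;> field_simp <;> simp

theorem gen {K : Subgroup (ProjectiveSpecialLinearGroup (Fin 2) F)} (h1 : U 1 ∈ K) (h2 : W 1 ∈ K)
    (x : ProjectiveSpecialLinearGroup (Fin 2) F) : x ∈ K := by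
  have : Fact (Nat.Prime 13) := ⟨by decide⟩
  have := ch13 hF
  have u : ∀ a, U a ∈ K := fun a => by
    obtain ⟨n, rfl⟩ := (ZMod.castHom_bijective F hF).2 a
    simpa [U_pow] using K.pow_mem h1 n.val
  have key : ∀ p q r s h, r ≠ 0 → pr (mk p q r s h) ∈ K := fun p q r s h r0 => by
    have : pr (mk p q r s h) = U ((p - 1) / r) * W 1 * U (-r) * W 1 * U ((s - 1) / r) := by
      simp only [U, W, mk_mul, mk_eq, Units.val_one, inv_one]
      right
      refine ⟨?_, ?_, ?_, ?_⟩ <;> field_simp <;> grind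
    rw [this]
    exact mul_mem (mul_mem (mul_mem (mul_mem (u _) h2) (u _)) h2) (u _)
  obtain ⟨p, q, r, s, h, rfl⟩ := ex_mk x
  by_cases r0 : r = 0
  · refine (K.mul_mem_cancel_left h2).1 ?_
    rw [W, mk_mul]
    exact key _ _ _ _ _ (by rintro e; simp [r0] at e; simp [e, r0] at h)
  · exact key _ _ _ _ _ r0

theorem card_aut : Nat.card (MulAut (ProjectiveSpecialLinearGroup (Fin 2) F)) ≤
    Nat.card (ProjectiveSpecialLinearGroup (Fin 2) F) * 2 := by
  classical
  have h2 : (2 : F) ≠ 0 := ne0 hF (n := 2) (by decide)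
  have h3 : (3 : F) ≠ 0 := ne0 hF (n := 3) (by decide)
  have := ch13 hF
  have key : ∀ α : MulAut (ProjectiveSpecialLinearGroup (Fin 2) F), ∃ g, ∃ a : Fˣ, ((a : F) = 1 ∨ (a : F) = 2) ∧
      g * α (U 1) = U (a : F) * g ∧ g * α (W 1) = W a * g := fun α => by
    obtain ⟨g, a, ha, e⟩ := nf hF (x := α (U 1)) (by
      rw [← map_pow, U_pow, CharP.cast_eq_zero, zero_mul, U, ← mk_one, map_one]) (by
      rw [Ne, map_eq_one_iff _ α.injective]; exact fun e => one_ne_zero (U_eq_one e))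
    have e1 : U (a : F) = g * α (U 1) * g⁻¹ := by rw [e, mul_inv_cancel_right]
    obtain ⟨s, hs⟩ := nf2 h2 h3 a (y := g * α (W 1) * g⁻¹) (by
      rw [conj_mul, ← map_mul, show W (1 : Fˣ) * W 1 = 1 by simp [W, mk_mul, mk_one, mk_eq]]; simp) (by
      rw [e1, conj_mul, conj_mul, conj_mul, ← map_mul, ← map_mul, ← map_mul,
        show U (1 : F) * W 1 * (U 1 * W 1) * (U 1 * W 1) = 1 by simp [U, W, mk_mul, mk_one, mk_eq]]; simp)
    refine ⟨U s * g, a, ha, by rw [mul_assoc, e, ← mul_assoc, ← mul_assoc, U_mul, U_mul, add_comm], ?_⟩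
    rw [← mul_assoc (W a), ← hs]; group
  choose g a h1 h4 h5 using key
  refine (Nat.card_le_card_of_injective (fun α => (g α, (a α : F) = 1)) fun α β e => ?_).trans (by
    rw [Nat.card_prod, Nat.card_eq_fintype_card (α := Prop), Fintype.card_prop])
  obtain ⟨e1, e2⟩ := Prod.mk.inj e
  have e3 : a α = a β := Units.ext (by have := h1 α; have := h1 β; grind)
  exact MulEquiv.ext (gen hF (K := α.toMonoidHom.eqLocus β.toMonoidHom)
    (mul_left_cancel (a := g α) ((h4 α).trans (by rw [e3, e1]; exact (h4 β).symm)))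
    (mul_left_cancel (a := g α) ((h5 α).trans (by rw [e3, e1]; exact (h5 β).symm))))

theorem card_dvd : Nat.card (ProjectiveSpecialLinearGroup (Fin 2) F) ∣ 2184 := by
  classical
  have := card_GL_field (𝔽 := F) 2
  rw [← (GeneralLinearGroup.det : GL (Fin 2) F →* Fˣ).ker.index_mul_card, Subgroup.index_ker,
    MonoidHom.range_eq_top.2 GeneralLinearGroup.det_surjective, Subgroup.card_top, Nat.card_units,
    Nat.card_eq_fintype_card (α := F), hF, ← Nat.card_congr (α := SL(2, F))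
      (β := (GeneralLinearGroup.det : GL (Fin 2) F →* Fˣ).ker) ⟨fun x => ⟨Matrix.SpecialLinearGroup.toGL x, Units.ext x.2⟩,
      fun x => ⟨x.1.1, (congrArg Units.val (MonoidHom.mem_ker.1 x.2) :)⟩, fun _ => rfl, fun _ => Subtype.ext (Units.ext rfl)⟩,
    Fin.prod_univ_two] at this
  norm_num at this
  rw [show 2184 = Nat.card SL(2, F) by rw [Nat.card_eq_fintype_card]; omega]
  exact Subgroup.card_quotient_dvd_card _

theorem l13 {H : Type*} [Group H] [Finite H]
    (e : Nonempty (generalizedFittingSubgroup H ≃* ProjectiveSpecialLinearGroup (Fin 2) F)) :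
    (generalizedFittingSubgroup H).index ∣ 6 ∧
      ∀ A : Subgroup H, IsMulCommutative A → ¬ 3 ∣ Nat.card A → Nat.card A < 256 := by
  have h2 : (2 : F) ≠ 0 := ne0 hF (n := 2) (by decide)
  have := ch13 hF
  obtain ⟨e⟩ := e
  have hN := gfit_normal (H := H)
  set N := generalizedFittingSubgroup H with hNd
  have h1 : Function.Injective (MulAut.conjNormal (H := N)) := by
    rw [← MonoidHom.ker_eq_bot_iff]
    refine eq_bot_of_inf inferInstance (eq_bot_iff.2 fun x hx => ?_)
    have h3 : ∀ g, e ⟨x, hx.2⟩ * g = g * e ⟨x, hx.2⟩ := fun g => by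
      obtain ⟨g, rfl⟩ := e.surjective g
      have h3 := congrArg Subtype.val (DFunLike.congr_fun (MonoidHom.mem_ker.1 hx.1) g)
      rw [← map_mul, ← map_mul]
      exact congrArg e (Subtype.ext (mul_inv_eq_iff_eq_mul.1 h3))
    obtain ⟨s, hs⟩ := comm h2 one_ne_zero (h3 _)
    have h4 := h3 (W 1)
    have h5 : s = 0 := by
      simp only [hs, U, W, mk_mul, mk_eq, Units.val_one, inv_one] at h4
      grind
    rw [h5, U, ← mk_one] at hs
    simpa using hs
  have h3 : Nat.card H ≤ Nat.card N * 2 := by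
    refine (Nat.card_le_card_of_injective _ h1).trans ?_
    rw [Nat.card_congr (MulAut.congr e).toEquiv, Nat.card_congr e.toEquiv]
    exact card_aut hF
  have h4 := N.card_mul_index
  have h5 : N.index = 1 ∨ N.index = 2 := by
    have := N.index_ne_zero_of_finite
    have := Nat.le_of_mul_le_mul_left (h4 ▸ h3) Nat.card_pos
    omega
  refine ⟨by rcases h5 with h | h <;> rw [h] <;> decide, fun A hA h6 => ?_⟩
  by_contra h7
  have h8 : Nat.card A ∣ 3 * 1456 := by
    refine A.card_subgroup_dvd_card.trans (h4 ▸ ?_)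
    rw [Nat.card_congr e.toEquiv]
    exact (Nat.mul_dvd_mul (card_dvd hF) (show N.index ∣ 2 by rcases h5 with h | h <;> rw [h] <;> decide) :)
  have h9 : 91 ∣ Nat.card A := (show ∀ n ∈ Nat.divisors 1456, n < 256 ∨ 91 ∣ n by decide +kernel) _
    (Nat.mem_divisors.2 ⟨((Nat.Prime.coprime_iff_not_dvd Nat.prime_three).2 h6).symm.dvd_of_dvd_mul_left h8, by decide⟩)
      |>.resolve_left h7
  have sqN : ∀ x : H, x * x ∈ N := fun x => by
    rcases h5 with h | h
    · rw [Subgroup.index_eq_one.1 h]; trivial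
    · exact N.mul_self_mem_of_index_two h x
  obtain ⟨x, hx⟩ := exists_prime_orderOf_dvd_card' (G := A) 13 (hp := ⟨by decide⟩) (dvd_trans (by decide) h9)
  obtain ⟨y, hy⟩ := exists_prime_orderOf_dvd_card' (G := A) 7 (hp := ⟨by decide⟩) (dvd_trans (by decide) h9)
  let f : A → N := fun x => ⟨x * x, sqN x⟩
  have f1 : ∀ (x : A) n, e (f x) ^ n = 1 ↔ orderOf x ∣ 2 * n := fun x n => by
    rw [← map_pow, map_eq_one_iff _ e.injective, orderOf_dvd_iff_pow_eq_one, Subtype.ext_iff, Subtype.ext_iff, pow_mul, sq]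
    simp [f]
  obtain ⟨g, a, -, hg⟩ := nf hF ((f1 x 13).2 (by rw [hx]; decide)) fun h => by
    have := (f1 x 1).1 (by simpa using h)
    rw [hx] at this; omega
  have c : e (f y) * e (f x) = e (f x) * e (f y) := by
    rw [← map_mul, ← map_mul]
    exact congrArg e (Subtype.ext (congrArg Subtype.val (hA.1.1 (y * y) (x * x)) :))
  obtain ⟨s, hs⟩ := comm h2 a.ne_zero (y := g * e (f y) * g⁻¹) (by
    rw [show U (a : F) = g * e (f x) * g⁻¹ by rw [hg, mul_inv_cancel_right], conj_mul, conj_mul, c])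
  have := (f1 y 13).1 (by
    rw [← conj_eq_one_iff (a := g), ← conj_pow, hs, U_pow, CharP.cast_eq_zero, zero_mul, U, ← mk_one])
  rw [hy] at this
  omega

end Cfsg.Agent.H5.HS
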