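import Cfsg.Agent.Asch.Exit
import Cfsg.Agent.H5.CT3

set_option autoImplicit false

/-! Projective images of subgroups of `GL₃(K)`; small group-theoretic helpers. -/

namespace Cfsg.Agent.H5.MH
open Cfsg Matrix

variable {K : Type*} [Field K]

abbrev G3 (K : Type*) [Field K] := GL (Fin 3) K
abbrev M3 (K : Type*) := Matrix (Fin 3) (Fin 3) K
abbrev Sc (K : Type*) [Field K] : Subgroup (G3 K) := Geo.scalars (Fin 3) K
abbrev PQ (L : Subgroup (G3 K)) := L ⧸ (Geo.scalars (Fin 3) K).subgroupOf L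
abbrev PG3 (K : Type*) [Field K] := G3 K ⧸ Sc K

/-- the projection to the projective group -/
def pr : G3 K →* PG3 K := QuotientGroup.mk' (Sc K)

theorem pr_eq_one {g : G3 K} : pr g = 1 ↔ g ∈ Sc K := QuotientGroup.eq_one_iff g

theorem pr_surj : Function.Surjective (pr : G3 K → PG3 K) := QuotientGroup.mk'_surjective _

theorem mem_Sc {g : G3 K} : g ∈ Sc K ↔ ∃ c : K, g.val = c • (1 : M3 K) := by
  rw [Geo.mem_scalars_iff]
  constructor
  · rintro ⟨c, h⟩; exact ⟨c, h⟩
  · rintro ⟨c, h⟩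
    have hc : c ≠ 0 := by
      rintro rfl
      have := g.det_ne_zero
      rw [h] at this; simp at this
    exact ⟨Units.mk0 c hc, h⟩

theorem pr_eq_one' {g : G3 K} : pr g = 1 ↔ ∃ c : K, g.val = c • (1 : M3 K) := pr_eq_one.trans mem_Sc

theorem pr_eq_iff {g h : G3 K} : pr g = pr h ↔ ∃ c : K, g.val = c • h.val := by
  rw [← mul_inv_eq_one, ← map_inv, ← map_mul, pr_eq_one']
  refine exists_congr fun c => ?_
  constructor
  · intro e
    have : g.val = (g * h⁻¹).val * h.val := by simp [mul_assoc]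
    rw [this, e]; simp
  · intro e
    rw [Units.val_mul, e]; simp

theorem ne_zero_of_eq_smul {g : G3 K} {c : K} {M : M3 K} (h : g.val = c • M) : c ≠ 0 := by
  rintro rfl
  have := g.det_ne_zero
  rw [h] at this; simp at this

/-- the scalar matrix as an element of `GL₃` -/
def sc (c : K) (hc : c ≠ 0) : G3 K := ⟨c • 1, c⁻¹ • 1, by simp [smul_smul, hc], by simp [smul_smul, hc]⟩

@[simp] theorem sc_val (c : K) (hc : c ≠ 0) : (sc c hc).val = c • (1 : M3 K) := rfl

theorem sc_mem (c : K) (hc : c ≠ 0) : sc c hc ∈ Sc K := mem_Sc.2 ⟨c, rfl⟩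

/-- the image in the projective group -/
def bar (L : Subgroup (G3 K)) : Subgroup (PG3 K) := L.map pr

theorem mem_bar {L : Subgroup (G3 K)} {g : G3 K} (h : g ∈ L) : pr g ∈ bar L := ⟨g, h, rfl⟩

theorem mem_bar_sup {L : Subgroup (G3 K)} {g : G3 K} (h : g ∈ L ⊔ Sc K) : pr g ∈ bar L := by
  have : (L ⊔ Sc K).map pr = bar L := by
    rw [Subgroup.map_sup, bar, sup_eq_left]
    rintro _ ⟨x, hx, rfl⟩
    rw [pr_eq_one.2 hx]; exact one_mem _
  rw [← this]; exact ⟨g, h, rfl⟩

/-- `PQ L` is the projective image of `L` -/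
noncomputable def pqEquiv (L : Subgroup (G3 K)) : PQ L ≃* bar L :=
  ((QuotientGroup.quotientMulEquivOfEq (by
      ext x; rw [MonoidHom.mem_ker, MonoidHom.comp_apply, pr_eq_one]; rfl)).trans
    (QuotientGroup.quotientKerEquivRange (pr.comp L.subtype))).trans
    (MulEquiv.subgroupCongr (by rw [MonoidHom.range_comp, Subgroup.range_subtype]; rfl))

theorem card_bar (L : Subgroup (G3 K)) : Nat.card (bar L) = Nat.card (PQ L) :=
  (Nat.card_congr (pqEquiv L).toEquiv).symm

theorem iso_of_graph {S A B : Type*} [Group S] [Group A] [Group B] (φ : S →* A) (ψ : S →* B)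
    (hk : φ.ker ≤ ψ.ker) (X : Subgroup A) (Y : Subgroup B) [Finite X] (hX : φ.range ≤ X)
    (hY : Y ≤ ψ.range) (hc : Nat.card X ≤ Nat.card Y) : Nonempty (X ≃* Y) := by
  have hfin : Finite φ.range := Finite.of_injective _ (Subgroup.inclusion_injective hX)
  let e := QuotientGroup.quotientKerEquivRange φ
  let f : φ.range →* ψ.range :=
    (QuotientGroup.lift φ.ker ψ.rangeRestrict (fun x hx => Subtype.ext (hk hx))).comp
      e.symm.toMonoidHom
  have hf : Function.Surjective f := by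
    rintro ⟨_, s, rfl⟩
    refine ⟨e (QuotientGroup.mk s), ?_⟩
    simp [f]; rfl
  have hfin2 : Finite ψ.range := Finite.of_surjective f hf
  have c1 : Nat.card ψ.range ≤ Nat.card φ.range := Nat.card_le_card_of_surjective f hf
  have c2 : Nat.card φ.range ≤ Nat.card X := Subgroup.card_le_of_le hX
  have c3 : Nat.card Y ≤ Nat.card ψ.range := Subgroup.card_le_of_le hY
  have e1 : φ.range = X := Subgroup.eq_of_le_of_card_ge hX (by omega)
  have e2 : Y = ψ.range := Subgroup.eq_of_le_of_card_ge hY (by omega)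
  have hb : Function.Bijective f := hf.bijective_of_nat_card_le (by omega)
  exact ⟨((MulEquiv.subgroupCongr e1.symm).trans (MulEquiv.ofBijective f hb)).trans
    (MulEquiv.subgroupCongr e2.symm)⟩

theorem sq_dvd_card {G : Type*} [Group G] [Finite G] {p : ℕ} (hp : p.Prime) {x y : G}
    (hx : x ^ p = 1) (hx1 : x ≠ 1) (hy : y ^ p = 1) (hc : Commute x y)
    (hn : ∀ k < p, y ≠ x ^ k) : p ^ 2 ∣ Nat.card G := by
  have := Fact.mk hp
  let f : Multiplicative ℤ × Multiplicative ℤ →* G :=
    MonoidHom.noncommCoprod (zpowersHom G x) (zpowersHom G y) fun a b => by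
      simpa using hc.zpow_zpow _ _
  have hP : IsPGroup p f.range := by
    rintro ⟨_, ⟨a, b⟩, rfl⟩
    refine ⟨1, Subtype.ext ?_⟩
    have : Commute (x ^ a.toAdd) (y ^ b.toAdd) := hc.zpow_zpow _ _
    simp only [pow_one, SubgroupClass.coe_pow, f, MonoidHom.noncommCoprod_apply, zpowersHom_apply,
      OneMemClass.coe_one]
    rw [this.mul_pow, ← zpow_natCast, ← _root_.zpow_mul, mul_comm, _root_.zpow_mul, zpow_natCast, hx,
      ← zpow_natCast, ← _root_.zpow_mul, mul_comm b.toAdd, _root_.zpow_mul, zpow_natCast, hy]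
    simp
  obtain ⟨n, hn'⟩ := IsPGroup.iff_card.1 hP
  have ho : orderOf x = p := orderOf_eq_prime hx hx1
  have hle : Subgroup.zpowers x ≤ f.range := by
    rw [Subgroup.zpowers_le]
    exact ⟨(Multiplicative.ofAdd 1, 1), by simp [f]⟩
  have hyr : y ∈ f.range := ⟨(1, Multiplicative.ofAdd 1), by simp [f]⟩
  have hlt : Subgroup.zpowers x < f.range := by
    refine lt_of_le_of_ne hle fun e => ?_
    rw [← e, ← mem_powers_iff_mem_zpowers] at hyr
    obtain ⟨k, hk⟩ := hyr
    refine hn (k % p) (Nat.mod_lt _ hp.pos) ?_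
    rw [← hk, ← ho, pow_mod_orderOf]
  have hc2 : Nat.card (Subgroup.zpowers x) < Nat.card f.range :=
    lt_of_le_of_ne (Subgroup.card_le_of_le hle) fun e =>
      hlt.ne (Subgroup.eq_of_le_of_card_ge hle e.ge)
  rw [Nat.card_zpowers, ho, hn'] at hc2
  have : 2 ≤ n := by
    by_contra h
    have : n = 0 ∨ n = 1 := by omega
    rcases this with rfl | rfl
    · have := hp.one_lt; simp at hc2; omega
    · simp at hc2
  exact (pow_dvd_pow p this).trans (hn' ▸ Subgroup.card_subgroup_dvd_card _)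

end Cfsg.Agent.H5.MH
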