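import Cfsg.Agent.H5.MH0

set_option autoImplicit false

/-! Traces of elements of `SL₃`. -/

namespace Cfsg.Agent.H5.MH
open Cfsg Matrix Cfsg.Agent.Asch

variable {K : Type*} [Field K]

/-- trace of an element of `GL₃` -/
def T (g : G3 K) : K := g.val.trace

theorem T_one : T (1 : G3 K) = 3 := by simp [T]

theorem T_conj (h g : G3 K) : T (h * g * h⁻¹) = T g := by
  unfold T; rw [← cj_coe, trace_cj]

theorem T_of_smul {g h : G3 K} {c : K} (e : g.val = c • h.val) : T g = c * T h := by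
  simp [T, e]

theorem inv_of_smul {g h : G3 K} {c : K} (e : g.val = c • h.val) : (g⁻¹).val = c⁻¹ • (h⁻¹).val := by
  have hc := ne_zero_of_eq_smul e
  have : g.val * (c⁻¹ • (h⁻¹).val) = 1 := by
    rw [e, Matrix.smul_mul, Matrix.mul_smul, smul_smul, mul_inv_cancel₀ hc, one_smul, Units.mul_inv]
  rw [← Matrix.mul_one (g⁻¹).val, ← this, ← Matrix.mul_assoc, Units.inv_mul, Matrix.one_mul]

theorem ch_mat (X : M3 K) : X ^ 3 = X.trace • X ^ 2 - X.adjugate.trace • X + X.det • (1 : M3 K) := by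
  ext i j
  simp only [pow_succ, pow_zero, Matrix.one_mul, Matrix.mul_apply, Fin.sum_univ_three, Matrix.trace_fin_three,
    Matrix.adjugate_fin_three, Matrix.det_fin_three, Matrix.add_apply, Matrix.sub_apply, Matrix.smul_apply,
    smul_eq_mul]
  fin_cases i <;> fin_cases j <;> simp <;> ring

theorem tr_sq_mat (X : M3 K) : (X ^ 2).trace = X.trace ^ 2 - 2 * X.adjugate.trace := by
  simp only [pow_succ, pow_zero, Matrix.one_mul, Matrix.mul_apply, Fin.sum_univ_three, Matrix.trace_fin_three,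
    Matrix.adjugate_fin_three]
  simp; ring

theorem adj_eq {g : G3 K} (hd : g.val.det = 1) : g.val.adjugate = (g⁻¹).val := by
  have : g.val * g.val.adjugate = 1 := by rw [Matrix.mul_adjugate, hd, one_smul]
  rw [← Matrix.one_mul g.val.adjugate, ← Units.inv_mul g, Matrix.mul_assoc, this, Matrix.mul_one]

theorem ch {g : G3 K} (hd : g.val.det = 1) : g.val ^ 3 = T g • g.val ^ 2 - T g⁻¹ • g.val + 1 := by
  rw [ch_mat, adj_eq hd, hd, one_smul]; rfl

theorem T_sq {g : G3 K} (hd : g.val.det = 1) : T (g ^ 2) = T g ^ 2 - 2 * T g⁻¹ := by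
  unfold T; rw [Units.val_pow_eq_pow_val, tr_sq_mat, adj_eq hd]

theorem det_inv {g : G3 K} (hd : g.val.det = 1) : (g⁻¹).val.det = 1 := by
  have : (g⁻¹).val.det * g.val.det = 1 := by rw [← Matrix.det_mul, Units.inv_mul, Matrix.det_one]
  rwa [hd, mul_one] at this

theorem det_pow' {g : G3 K} (hd : g.val.det = 1) (n : ℕ) : (g ^ n).val.det = 1 := by
  rw [Units.val_pow_eq_pow_val, Matrix.det_pow, hd, one_pow]

theorem cube_of_sc {g : G3 K} (hd : g.val.det = 1) {c : K} (e : g.val = c • (1 : M3 K)) : c ^ 3 = 1 := by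
  rw [e] at hd; simpa using hd

theorem cube_of_smul {g h : G3 K} (hd : g.val.det = 1) (hd' : h.val.det = 1) {c : K} (e : g.val = c • h.val) :
    c ^ 3 = 1 := by
  rw [e] at hd; simpa [hd'] using hd

theorem tr_pow_eq (X : M3 K) {a b c : K} (h1 : X.trace = a + b + c) (h2 : X.adjugate.trace = a * b + b * c + c * a)
    (h3 : X.det = a * b * c) (n : ℕ) : (X ^ n).trace = a ^ n + b ^ n + c ^ n := by
  induction n using Nat.strong_induction_on with
  | _ n ih =>
    match n, ih with
    | 0, _ => simp; norm_num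
    | 1, _ => simpa using h1
    | 2, _ => rw [tr_sq_mat, h1, h2]; ring
    | n + 3, ih =>
      rw [pow_add, ch_mat, Matrix.mul_add, Matrix.mul_sub, Matrix.mul_smul, Matrix.mul_smul, Matrix.mul_smul,
        ← pow_add, ← pow_succ, Matrix.mul_one, Matrix.trace_add, Matrix.trace_sub, Matrix.trace_smul,
        Matrix.trace_smul, Matrix.trace_smul, ih (n + 2) (by omega), ih (n + 1) (by omega), ih n (by omega),
        h1, h2, h3]
      simp only [smul_eq_mul]; ring

theorem exists_roots [IsAlgClosed K] (e1 e2 e3 : K) :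
    ∃ a b c : K, e1 = a + b + c ∧ e2 = a * b + b * c + c * a ∧ e3 = a * b * c := by
  obtain ⟨a, ha⟩ := IsAlgClosed.exists_root
    (Polynomial.X ^ 3 + Polynomial.C (-e1) * Polynomial.X ^ 2 + Polynomial.C e2 * Polynomial.X + Polynomial.C (-e3))
    (by rw [show Polynomial.degree _ = 3 by compute_degree!]; decide)
  obtain ⟨b, hb⟩ := IsAlgClosed.exists_root
    (Polynomial.X ^ 2 + Polynomial.C (a - e1) * Polynomial.X + Polynomial.C (e2 - a * (e1 - a)))
    (by rw [show Polynomial.degree _ = 2 by compute_degree!]; decide)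
  simp at ha hb
  refine ⟨a, b, e1 - a - b, by ring, by linear_combination hb, by linear_combination -ha + a * hb⟩

theorem tr_pow_char (p : ℕ) [Fact p.Prime] [CharP K p] (X : M3 K) : (X ^ p).trace = X.trace ^ p := by
  let φ := algebraMap K (AlgebraicClosure K)
  apply φ.injective
  obtain ⟨a, b, c, h1, h2, h3⟩ := exists_roots (X.map φ).trace (X.map φ).adjugate.trace (X.map φ).det
  have := tr_pow_eq _ h1 h2 h3 p
  rw [← add_pow_char, ← add_pow_char, ← h1, ← Matrix.map_pow, ← AddMonoidHom.map_trace,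
    ← AddMonoidHom.map_trace] at this
  simpa using this

theorem T_pow_char (p : ℕ) [Fact p.Prime] [CharP K p] (g : G3 K) : T (g ^ p) = T g ^ p := by
  unfold T; rw [Units.val_pow_eq_pow_val, tr_pow_char]

theorem T_pow_char_pow (p : ℕ) [Fact p.Prime] [CharP K p] (g : G3 K) (k : ℕ) : T (g ^ p ^ k) = T g ^ p ^ k := by
  induction k with
  | zero => simp
  | succ k ih => rw [pow_succ, pow_mul, T_pow_char, ih, ← pow_mul]

theorem T_unip (p : ℕ) [Fact p.Prime] [CharP K p] {g : G3 K} {k : ℕ} (h : g ^ p ^ k = 1) : T g = 3 := by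
  have h1 := T_pow_char_pow p g k
  rw [h, T_one] at h1
  have h2 : (3 : K) ^ p ^ k = 3 := by
    have := map_natCast (iterateFrobenius K p k) 3
    simpa [iterateFrobenius_def] using this
  apply (iterateFrobenius K p k).injective
  rw [iterateFrobenius_def, iterateFrobenius_def, ← h1, h2]

theorem mul_cancel_g (g : G3 K) {X Y : M3 K} (h : g.val * X = g.val * Y) : X = Y := by
  have := congrArg ((g⁻¹).val * ·) h
  simpa [← Matrix.mul_assoc] using this

/-- a non-scalar element of order three has trace zero -/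
theorem T_of_cube {g : G3 K} (hd : g.val.det = 1) (h3 : g ^ 3 = 1) (hs : pr g ≠ 1) : T g = 0 := by
  have h := ch hd
  rw [← Units.val_pow_eq_pow_val, h3, Units.val_one] at h
  have h' : T g • g.val = T g⁻¹ • (1 : M3 K) := by
    apply mul_cancel_g g
    rw [Matrix.mul_smul, Matrix.mul_smul, Matrix.mul_one, ← pow_two, ← sub_eq_zero]
    exact add_right_cancel (b := 1) (by rw [← h, zero_add])
  by_contra ht
  refine hs (pr_eq_one'.2 ⟨(T g)⁻¹ * T g⁻¹, ?_⟩)
  rw [← smul_smul, ← h', smul_smul, inv_mul_cancel₀ ht, one_smul]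

/-- traces `3, 3`: unipotent -/
theorem eq_one_of_unip {g : G3 K} (hd : g.val.det = 1) (h1 : T g = 3) (h2 : T g⁻¹ = 3) {n : ℕ} (hn : g ^ n = 1)
    (hn0 : (n : K) ≠ 0) : g = 1 := by
  have h := ch hd
  rw [h1, h2] at h
  set N : M3 K := g.val - 1 with hN
  have hg : g.val = 1 + N := by rw [hN]; abel
  have h3 : N ^ 3 = 0 := by
    have : N ^ 3 = g.val ^ 3 - ((3 : K) • g.val ^ 2 - (3 : K) • g.val + 1) := by
      have e3 : ∀ X : M3 K, (3 : K) • X = X + X + X := fun X => by
        rw [show (3 : K) = 1 + 1 + 1 by norm_num, add_smul, add_smul, one_smul]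
      rw [hN, e3, e3]; noncomm_ring
    rw [this, h, sub_self]
  have key : ∀ m : ℕ, ∃ c : K, g.val ^ m = 1 + (m : K) • N + c • N ^ 2 := fun m => by
    induction m with
    | zero => exact ⟨0, by simp⟩
    | succ m ih =>
      obtain ⟨c, hc⟩ := ih
      refine ⟨c + m, ?_⟩
      rw [pow_succ, hc, hg]
      have : N ^ 2 * N = 0 := by rw [← pow_succ, h3]
      simp only [Matrix.add_mul, Matrix.mul_add, Matrix.smul_mul, Matrix.one_mul, Matrix.mul_one, this, ← pow_two,
        Nat.cast_add, Nat.cast_one, add_smul, one_smul, smul_zero]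
      abel
  obtain ⟨c, hc⟩ := key n
  rw [← Units.val_pow_eq_pow_val, hn, Units.val_one, add_assoc, left_eq_add] at hc
  have h4 : (n : K) • N ^ 2 = 0 := by
    have := congrArg (· * N) hc
    simp only [Matrix.add_mul, Matrix.smul_mul, ← pow_succ, ← pow_two, h3, smul_zero, add_zero, zero_mul] at this
    exact this
  have h5 : N ^ 2 = 0 := (smul_eq_zero.1 h4).resolve_left hn0
  rw [h5, smul_zero, add_zero] at hc
  have h6 : N = 0 := (smul_eq_zero.1 hc).resolve_left hn0
  exact Units.ext (by rw [hg, h6, add_zero, Units.val_one])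

theorem eq_one_of_T_zero {g : G3 K} (hd : g.val.det = 1) (h1 : T g = 0) (h2 : T g⁻¹ = 0) : g ^ 3 = 1 := by
  have h := ch hd
  rw [h1, h2] at h
  exact Units.ext (by simpa using h)

theorem T_invol {g : G3 K} (hd : g.val.det = 1) (h2 : g ^ 2 = 1) (h1 : g ≠ 1) : T g = -1 := by
  have hi : g⁻¹ = g := by rw [inv_eq_iff_mul_eq_one, ← pow_two, h2]
  have h := T_sq hd
  rw [h2, T_one, hi] at h
  have : (T g - 3) * (T g + 1) = 0 := by linear_combination -h
  rcases mul_eq_zero.1 this with h3 | h3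
  · have h3 : T g = 3 := by linear_combination h3
    by_cases hp : (2 : K) = 0
    · linear_combination h3 + 2 * hp
    · exact absurd (eq_one_of_unip hd h3 (hi.symm ▸ h3) h2 (by simpa using hp)) h1
  · linear_combination h3

theorem T_four {g : G3 K} (hd : g.val.det = 1) (h4 : g ^ 4 = 1) (h2 : g ^ 2 ≠ 1) (hr : T g⁻¹ = T g) : T g = 1 := by
  have h := T_invol (det_pow' hd 2) (by rw [← pow_mul]; exact h4) h2
  rw [T_sq hd, hr] at h
  have : (T g - 1) ^ 2 = 0 := by linear_combination h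
  linear_combination pow_eq_zero_iff (two_ne_zero) |>.1 this

/-- a real element with `T g² = T g` of order prime to three is unipotent -/
theorem cast_eq_zero_of_T {g : G3 K} (hd : g.val.det = 1) {n : ℕ} (hn : g ^ n = 1) (h3 : n.Coprime 3) (h1 : g ≠ 1)
    (hr : T g⁻¹ = T g) (hs : T (g ^ 2) = T g) : (n : K) = 0 := by
  by_contra h0
  rw [T_sq hd, hr] at hs
  have : T g * (T g - 3) = 0 := by linear_combination hs
  rcases mul_eq_zero.1 this with h | h
  · have := eq_one_of_T_zero hd h (hr.trans h)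
    have h4 := (pow_gcd_eq_one (a := g)).2 ⟨hn, this⟩
    rw [h3, pow_one] at h4
    exact h1 h4
  · have h : T g = 3 := by linear_combination h
    exact h1 (eq_one_of_unip hd h (hr.trans h) hn h0)

theorem T_seven {g : G3 K} (hd : g.val.det = 1) (h1 : T (g ^ 2) = T g) (h2 : T (g⁻¹ ^ 2) = T g⁻¹)
    (hr : T g⁻¹ ≠ T g) : T g + T g⁻¹ = -1 ∧ T g ^ 2 + T g + 2 = 0 := by
  rw [T_sq hd] at h1
  rw [T_sq (det_inv hd), inv_inv] at h2
  have : (T g⁻¹ - T g) * (T g + T g⁻¹ + 1) = 0 := by linear_combination h2 - h1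
  have h := (mul_eq_zero.1 this).resolve_left (sub_ne_zero.2 hr)
  exact ⟨by linear_combination h, by linear_combination h1 + 2 * h⟩

/-- lifts of elements of order prime to three -/
theorem exists_lift {P : Subgroup (G3 K)} {x : G3 K} (hx : x ∈ P) (hd : x.val.det = 1) {n : ℕ} (hn : pr x ^ n = 1)
    (h3 : n.Coprime 3) : ∃ y ∈ P, ∃ z ∈ P, ∃ c : K, z.val = c • (1 : M3 K) ∧ c ^ 3 = 1 ∧ x.val = c • y.val ∧
      y ^ n = 1 ∧ y.val.det = 1 := by
  rw [← map_pow, pr_eq_one'] at hn
  obtain ⟨d, hd'⟩ := hn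
  have hd3 := cube_of_sc (det_pow' hd n) hd'
  have hz3 : (x ^ n) ^ 3 = 1 := Units.ext (by
    rw [Units.val_pow_eq_pow_val, hd', smul_pow, hd3]; simp)
  have hn3 : n % 3 = 1 ∨ n % 3 = 2 := by
    have : n % 3 ≠ 0 := fun h => by
      have := Nat.dvd_gcd (Nat.dvd_of_mod_eq_zero h) (dvd_refl 3)
      rw [h3] at this; omega
    omega
  have hnn : (n * n) % 3 = 1 := by rcases hn3 with h | h <;> simp [Nat.mul_mod, h]
  have hc : Commute x (x ^ n) := (Commute.refl x).pow_right n
  refine ⟨x * ((x ^ n) ^ n)⁻¹, P.mul_mem hx (P.inv_mem (P.pow_mem (P.pow_mem hx _) _)), (x ^ n) ^ n,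
    P.pow_mem (P.pow_mem hx _) _, d ^ n, by rw [Units.val_pow_eq_pow_val, hd', smul_pow, one_pow],
    by rw [← pow_mul, mul_comm, pow_mul, hd3, one_pow], ?_, ?_, ?_⟩
  · have : ((x ^ n) ^ n).val = d ^ n • (1 : M3 K) := by rw [Units.val_pow_eq_pow_val, hd', smul_pow, one_pow]
    rw [Units.val_mul, inv_of_smul (h := 1) this]
    have := ne_zero_of_eq_smul this
    simp [smul_smul, this]
  · rw [(hc.pow_right n).inv_right.mul_pow, inv_pow, ← pow_mul (x ^ n), mul_inv_eq_one]
    conv_rhs => rw [← Nat.div_add_mod (n * n) 3, hnn, pow_succ, pow_mul (x ^ n), hz3, one_pow, one_mul]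
  · rw [Units.val_mul, Matrix.det_mul, hd, det_inv (det_pow' (det_pow' hd n) n), one_mul]

theorem eq_of_pr_eq {y z : G3 K} (hy : y.val.det = 1) (hz : z.val.det = 1) {n : ℕ} (h3 : n.Coprime 3)
    (hyn : y ^ n = 1) (hzn : z ^ n = 1) (h : pr y = pr z) : y = z := by
  obtain ⟨c, hc⟩ := pr_eq_iff.1 h
  have h1 := cube_of_smul hy hz hc
  have h2 : c ^ n = 1 := by
    have := congrArg (· ^ n) hc
    simp only [smul_pow, ← Units.val_pow_eq_pow_val, hyn, hzn, Units.val_one] at this
    simpa using (congrFun (congrFun this 0) 0).symm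
  have h4 := (pow_gcd_eq_one (a := c)).2 ⟨h2, h1⟩
  rw [h3, pow_one] at h4
  exact Units.ext (by rw [hc, h4, one_smul])

theorem det_conj (h : G3 K) {g : G3 K} (hd : g.val.det = 1) : (h * g * h⁻¹).val.det = 1 := by
  rw [Units.val_mul, Units.val_mul, Matrix.det_mul, Matrix.det_mul, hd, mul_one, ← Matrix.det_mul,
    Units.mul_inv, Matrix.det_one]

/-- powers conjugate modulo scalars have the same trace -/
theorem T_pow_eq {y : G3 K} (hy : y.val.det = 1) {n : ℕ} (h3 : n.Coprime 3) (hyn : y ^ n = 1) {a b : ℕ} {g : G3 K}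
    (h : pr g * pr y ^ a * (pr g)⁻¹ = pr y ^ b) : T (y ^ a) = T (y ^ b) := by
  rw [← T_conj g, eq_of_pr_eq (det_conj g (det_pow' hy a)) (det_pow' hy b) h3
    (by rw [conj_pow, ← pow_mul, mul_comm a, pow_mul, hyn]; simp) (by rw [← pow_mul, mul_comm b, pow_mul, hyn]; simp)
    (by simpa using h)]

/-- a real element of order three modulo scalars -/
theorem cube_eq_one_of_real {x g : G3 K} (hx : x.val.det = 1) (h3 : pr x ^ 3 = 1)
    (h : pr g * pr x * (pr g)⁻¹ = (pr x)⁻¹) : x ^ 3 = 1 := by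
  rw [← map_pow, pr_eq_one'] at h3
  obtain ⟨d, hd⟩ := h3
  have hd3 := cube_of_sc (det_pow' hx 3) hd
  rw [← map_inv, ← map_inv, ← map_mul, ← map_mul, pr_eq_iff] at h
  obtain ⟨c, hc⟩ := h
  have hc3 := cube_of_smul (det_conj g hx) (det_inv hx) hc
  have h1 := congrArg (· ^ 3) hc
  simp only [smul_pow, ← Units.val_pow_eq_pow_val, hc3, one_smul, conj_pow, inv_pow] at h1
  rw [inv_of_smul (h := 1) hd, ← cj_coe, hd, (IsSc.cj ⟨d, rfl⟩ g)] at h1
  have h2 : d = d⁻¹ := by simpa using congrFun (congrFun h1 0) 0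
  have hd0 := ne_zero_of_eq_smul hd
  have h4 : d = 1 := by
    have : d * d = 1 := by nth_rewrite 2 [h2]; exact mul_inv_cancel₀ hd0
    linear_combination hd3 - d * this
  exact Units.ext (by rw [hd, h4, one_smul, Units.val_one])

end Cfsg.Agent.H5.MH
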