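import Cfsg.Agent.H5.MH9
import Cfsg.Agent.H4.Subf

set_option autoImplicit false

/-! The residual classes of `SL₃(q)` and `SU₃(q)`. -/

namespace Cfsg.Agent.H5.MH
open Cfsg Matrix Cfsg.Agent.Asch Cfsg.Agent.Form Equiv

universe u
variable {K : Type*} [Field K] {P H : Subgroup (G3 K)}

abbrev SL3 (K : Type*) [Field K] : Subgroup (G3 K) := Geo.specialLinear (Fin 3) K
abbrev SU3 (K : Type*) [Field K] (q : ℕ) : Subgroup (G3 K) := GU 3 K q ⊓ Geo.specialLinear (Fin 3) K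

theorem mem_SL3 {g : G3 K} : g ∈ SL3 K ↔ g.val.det = 1 := by
  rw [SL3, Geo.specialLinear, MonoidHom.mem_ker, Units.ext_iff]; rfl

theorem herm_eq [Fintype K] {q : ℕ} (hq : Fintype.card K = q ^ 2) : hermForm 3 K q = ofG (UP hq).σ 1 := by
  funext u v; simp [hermForm, ofG, dotProduct, UP_σ]

theorem mem_GU3 [Fintype K] {q : ℕ} (hq : Fintype.card K = q ^ 2) {g : G3 K} :
    g ∈ GU 3 K q ↔ g.valᵀ * 1 * g.val.map (UP hq).σ = 1 := by
  rw [← fix_iff, ← herm_eq hq]; rfl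

section frob
variable (p : ℕ) [Fact p.Prime] [CharP K p] (k : ℕ)

theorem int_pow (n : ℤ) : (n : K) ^ p ^ k = n := by rw [← iterateFrobenius_def, map_intCast]

theorem frob8a [Finite K] (hp : ⁅P, P⁆ = P) (π : bar P ≃* X8) (h : p ^ k % 7 = 1 ∨ p ^ k % 7 = 2 ∨ p ^ k % 7 = 4) :
    ∀ x ∈ P, T x ^ p ^ k = T x := fun x hx => by
  obtain ⟨s, -, hs, ht⟩ := tr8 hp π
  rcases ht x hx with ⟨n, h1, -⟩ | ⟨h1, -⟩ | ⟨h1, -⟩ <;> rw [h1]
  exacts [int_pow p k n, by rw [← T_pow_char_pow, hs.res h], by rw [← T_pow_char_pow, hs.inv.res h]]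

theorem frob8b [Finite K] (hp : ⁅P, P⁆ = P) (π : bar P ≃* X8) (h : p ^ k % 7 = 3 ∨ p ^ k % 7 = 5 ∨ p ^ k % 7 = 6) :
    ∀ x ∈ P, T x ^ p ^ k = T x⁻¹ := fun x hx => by
  obtain ⟨s, -, hs, ht⟩ := tr8 hp π
  rcases ht x hx with ⟨n, h1, h2⟩ | ⟨h1, h2⟩ | ⟨h1, h2⟩ <;> rw [h1, h2]
  exacts [int_pow p k n, by rw [← T_pow_char_pow, hs.nres h], by rw [← T_pow_char_pow, hs.inv.nres h, inv_inv]]

theorem real8 [Finite K] (hp : ⁅P, P⁆ = P) (π : bar P ≃* X8) (h : p = 7) : ∀ x ∈ P, T x⁻¹ = T x := fun x hx => by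
  obtain ⟨s, -, hs, ht⟩ := tr8 hp π
  have h1 : T s = 3 := T_unip p (k := 1) (by rw [pow_one, h, hs.pow])
  have h2 : T s⁻¹ = 3 := T_unip p (k := 1) (by rw [pow_one, h, hs.inv.pow])
  rcases ht x hx with ⟨n, h3, h4⟩ | ⟨h3, h4⟩ | ⟨h3, h4⟩ <;> simp only [h1, h2, h3, h4]

theorem frob6 (hd : ∀ x ∈ P, x.val.det = 1) (π : bar P ≃* A6) (h : p = 5 ∨ p ^ k % 5 = 1 ∨ p ^ k % 5 = 4) :
    ∀ x ∈ P, ∃ c t : K, c ^ 3 = 1 ∧ T x = c * t ∧ T x⁻¹ = c⁻¹ * t ∧ t ^ p ^ k = t := fun x hx => by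
  obtain ⟨-, -, c, -, h1, t, h2, h3, ⟨n, rfl⟩ | ⟨y, hy, rfl⟩⟩ := tr6 hd π hx
  · exact ⟨c, n, h1, h2, h3, int_pow p k n⟩
  refine ⟨c, _, h1, h2, h3, ?_⟩
  rcases h with h | h
  · rw [T_unip p (k := 1) (by rw [pow_one, h, hy.pow])]
    simpa using int_pow (K := K) p k 3
  · rw [← T_pow_char_pow, hy.res h]

theorem cube_pow {c : K} (hc : c ^ 3 = 1) (n : ℕ) : c ^ n = c ^ (n % 3) := by
  conv_lhs => rw [← Nat.div_add_mod n 3, pow_add, pow_mul, hc, one_pow, one_mul]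

theorem frob6a (hd : ∀ x ∈ P, x.val.det = 1) (π : bar P ≃* A6) (h : p = 5 ∨ p ^ k % 5 = 1 ∨ p ^ k % 5 = 4)
    (h3 : p ^ k % 3 = 1) : ∀ x ∈ P, T x ^ p ^ k = T x := fun x hx => by
  obtain ⟨c, t, h1, h2, -, h4⟩ := frob6 p k hd π h x hx
  rw [h2, mul_pow, h4, cube_pow h1, h3, pow_one]

theorem frob6b (hd : ∀ x ∈ P, x.val.det = 1) (π : bar P ≃* A6) (h : p = 5 ∨ p ^ k % 5 = 1 ∨ p ^ k % 5 = 4)
    (h3 : p ^ k % 3 = 2) : ∀ x ∈ P, T x ^ p ^ k = T x⁻¹ := fun x hx => by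
  obtain ⟨c, t, h1, h2, h5, h4⟩ := frob6 p k hd π h x hx
  rw [h2, h5, mul_pow, h4, cube_pow h1, h3, eq_inv_of_mul_eq_one_left (show c ^ 2 * c = 1 by rw [← h1]; ring)]

theorem real6 (hd : ∀ x ∈ P, x.val.det = 1) (π : bar P ≃* A6)
    (h : ∀ z ∈ P, ∀ c : K, z.val = c • (1 : M3 K) → c ^ 3 = 1 → c = 1) : ∀ x ∈ P, T x⁻¹ = T x := fun x hx => by
  obtain ⟨z, hz, c, h0, h1, t, h2, h3, -⟩ := tr6 hd π hx
  simp [h2, h3, h z hz c h0 h1]

theorem cube_three (h : p = 3) {c : K} (hc : c ^ 3 = 1) : c = 1 := by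
  subst h
  exact frobenius_inj K 3 (by rw [frobenius_def, hc, map_one])

theorem sq_mod (h3 : p ≠ 3) : (p = 5 ∨ p ^ 2 % 5 = 1 ∨ p ^ 2 % 5 = 4) ∧ p ^ 2 % 3 = 1 := by
  have h1 : p % 3 ≠ 0 := fun h => h3 ((Nat.prime_dvd_prime_iff_eq (by norm_num) Fact.out).1
    (Nat.dvd_of_mod_eq_zero h)).symm
  have h2 : p % 5 = 0 → p = 5 := fun h => ((Nat.prime_dvd_prime_iff_eq (by norm_num) Fact.out).1
    (Nat.dvd_of_mod_eq_zero h)).symm
  rw [Nat.pow_mod, Nat.pow_mod p 2 3]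
  have : p % 3 < 3 := Nat.mod_lt _ (by norm_num)
  have : p % 5 < 5 := Nat.mod_lt _ (by norm_num)
  constructor
  · interval_cases p % 5 <;> simp_all
  · interval_cases p % 3 <;> simp_all

theorem mod_seven (h7 : p ≠ 7) : (p % 7 = 1 ∨ p % 7 = 2 ∨ p % 7 = 4) ∨ (p % 7 = 3 ∨ p % 7 = 5 ∨ p % 7 = 6) := by
  have h1 : p % 7 ≠ 0 := fun h => h7 ((Nat.prime_dvd_prime_iff_eq (by norm_num) Fact.out).1
    (Nat.dvd_of_mod_eq_zero h)).symm
  omega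

theorem core_fix [Finite K] (hc : Geo.IsResidualCore H P) (h : ∀ x ∈ P, T x ^ p ^ k = T x) (a : K) : a ^ p ^ k = a := by
  by_contra ha
  obtain ⟨Q, hQ⟩ := exists_over_of_trace (fixSub (iterateFrobenius K p k)) (one_mem_matrixSet P) (mul_mem_matrixSet P)
    (full_iff_absIrr.2 hc.absIrred) (by rintro _ ⟨x, hx, rfl⟩; exact h x hx)
  exact hc.no_subfield _ (fixSub_ne_top _ ⟨a, ha⟩) ⟨Q⁻¹, fun s hs => (hQ s).1 (Submodule.subset_span hs)⟩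

omit [CharP K p] in
theorem card_le_pow [Fintype K] (hk : k ≠ 0) (h : ∀ a : K, a ^ p ^ k = a) : Fintype.card K ≤ p ^ k :=
  card_le_of_pow_eq (Nat.one_lt_pow hk (Fact.out : p.Prime).one_lt) Finset.univ fun a _ => h a

theorem card_cases [Fintype K] (h : Fintype.card K ≤ p ^ 2) : Fintype.card K = p ∨ Fintype.card K = p ^ 2 := by
  obtain ⟨⟨n, hn⟩, -, e⟩ := FiniteField.card K p
  rw [e] at h ⊢
  have := (Nat.pow_le_pow_iff_right (Fact.out : p.Prime).one_lt).1 h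
  simp only [PNat.mk_coe] at this ⊢
  interval_cases n <;> simp

theorem card_eq_p [Fintype K] (h : Fintype.card K ≤ p ^ 1) : Fintype.card K = p := by
  have := (Fact.out : p.Prime).one_lt
  rcases card_cases p (h.trans (Nat.pow_le_pow_right (by omega) (by omega))) with e | e
  · exact e
  · rw [e, Nat.pow_le_pow_iff_right this] at h; omega

omit [Fact (Nat.Prime p)] [CharP K p] in
theorem two_step (h : ∀ x ∈ P, T x ^ p ^ 1 = T x⁻¹) : ∀ x ∈ P, T x ^ p ^ 2 = T x := fun x hx => by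
  have := h _ (inv_mem hx)
  rw [← h x hx, inv_inv] at this
  rwa [← pow_mul, ← pow_add] at this

end frob

theorem core_top (hc : Geo.IsResidualCore H P) {E : Subfield K} {Q : G3 K} (h : ∀ g ∈ P, Over E (cj Q⁻¹ g.val)) :
    E = ⊤ := by
  by_contra hE
  exact hc.no_subfield E hE ⟨Q⁻¹, by rintro _ ⟨g, hg, rfl⟩; exact h g hg⟩

theorem pi_of {G : Type*} [Group G] (e : PQ P ≃* G) : Nonempty (bar P ≃* G) := ⟨(pqEquiv P).symm.trans e⟩

theorem perfect_PQ (hp : ⁅P, P⁆ = P) : Group.IsPerfect (PQ P) :=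
  have := Subgroup.isPerfect_iff.2 hp
  inferInstance

theorem T_of_su [Fintype K] {q : ℕ} (hq : Fintype.card K = q ^ 2) {Q g : G3 K}
    (h : (cj Q⁻¹ g.val)ᵀ * (cj Q⁻¹ g.val).map (· ^ q) = 1) : (UP hq).σ (T g) = T g⁻¹ := by
  rw [cj_coe] at h
  have := T_inv_of_herm (UP hq).σσ (B := 1) (by simp) (x := Q⁻¹ * g * Q⁻¹⁻¹) (by rw [Matrix.mul_one]; exact h)
  rwa [T_conj, show (Q⁻¹ * g * Q⁻¹⁻¹)⁻¹ = Q⁻¹ * g⁻¹ * Q⁻¹⁻¹ by group, T_conj] at this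

theorem s5776 (hM : MHMain.{u}) {F : Type u} [Field F] [Fintype F] (H : Subgroup (G3 F)) (hH : H < SL3 F)
    (hS : Geo.InLinearResidualClass H) :
    ∃ (P : Subgroup (G3 F)) (p : ℕ), Geo.IsResidualCore H P ∧ p.Prime ∧ CharP F p ∧
    ((Nat.card (PQ P) = 168 ∧ Fintype.card F = p ∧ p ≠ 2 ∧ (p % 7 = 1 ∨ p % 7 = 2 ∨ p % 7 = 4)) ∨
     (Nonempty (PQ P ≃* A6) ∧
        ((Fintype.card F = p ∧ (p % 15 = 1 ∨ p % 15 = 4)) ∨
          (Fintype.card F = p ^ 2 ∧ p ≠ 3 ∧ (p % 5 = 2 ∨ p % 5 = 3))))) := by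
  obtain ⟨P, hc, h1, -, h2⟩ := hS
  have hF := full_iff_absIrr.2 hc.absIrred
  have hp := hc.perfect
  have hd : ∀ x ∈ P, x.val.det = 1 := fun x => det_eq_one_of_perfect hp
  obtain ⟨p, _⟩ := CharP.exists F
  have : Fact p.Prime := ⟨CharP.char_is_prime F p⟩
  have nf : ∀ {σ : F →+* F}, (∀ a, σ (σ a) = a) → ¬ ∀ x ∈ P, σ (T x) = T x⁻¹ := fun hσ h =>
    (geo_form_of_trace hF hσ h).elim h1 h2
  have nr : ¬ ∀ x ∈ P, T x⁻¹ = T x := fun h => nf (σ := RingHom.id F) (fun _ => rfl) fun x hx => (h x hx).symm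
  have nb : ¬ ∀ x ∈ P, T x ^ p ^ 1 = T x⁻¹ := fun h => nf (σ := iterateFrobenius F p 1) (fun a => by
    rw [iterateFrobenius_def, iterateFrobenius_def, ← pow_mul, ← pow_add]; exact core_fix p 2 hc (two_step p h) a) h
  have na : (∀ x ∈ P, T x ^ p ^ 1 = T x) → Fintype.card F = p := fun h =>
    card_eq_p p (card_le_pow p 1 one_ne_zero (core_fix p 1 hc h))
  refine ⟨P, p, hc, Fact.out, ‹_›, ?_⟩
  rcases mainF hM hp hF with ⟨E, Q, -, h⟩ | ⟨E, q, Q, -, hE, h⟩ | ⟨-, B, -, h3, h⟩ | h | ⟨⟨e⟩⟩ | ⟨h5, ⟨e⟩⟩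
  · obtain rfl := core_top hc fun g hg => ((h g).1 hg).2
    exact (hH.not_ge fun g hg => hc.le ((h g).2 ⟨mem_SL3.1 hg, fun _ _ => trivial⟩)).elim
  · obtain rfl := core_top hc fun g hg => ((h g).1 hg).2.1
    rw [H4.Subf.card_top, Nat.card_eq_fintype_card] at hE
    exact (nf (UP hE).σσ fun x hx => T_of_su hE ((h x).1 hx).2.2).elim
  · exact (nr fun x hx => T_inv_of_symm h3 (h x hx)).elim
  · obtain ⟨π⟩ := exists_pi8 hp h
    have h7 : p ≠ 7 := fun e => nr (real8 p hp π e)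
    have h8 := (mod_seven p h7).resolve_right fun e => nb (frob8b p 1 hp π (by rwa [pow_one]))
    have h9 := na (frob8a p 1 hp π (by rwa [pow_one]))
    refine .inl ⟨h, h9, ?_, h8⟩
    rintro rfl
    have h3 : Nat.card (G3 F) = 168 := by rw [card_GL_field, h9]; simp [Fin.prod_univ_three]
    have h4 := Subgroup.card_quotient_dvd_card ((Sc F).subgroupOf P)
    have : P = ⊤ := Subgroup.eq_top_of_le_card _ (by rw [h3, ← h]; exact Nat.le_of_dvd Nat.card_pos h4)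
    exact hH.not_ge (le_top.trans (this ▸ hc.le))
  · obtain ⟨π⟩ := pi_of e
    have h3 : p ≠ 3 := fun e => nr (real6 hd π fun _ _ c _ => cube_three p e)
    have h4 := sq_mod p h3
    have h6 : p % 3 ≠ 0 := fun e => by rw [Nat.pow_mod p 2 3, e] at h4; omega
    refine .inr ⟨⟨e⟩, ?_⟩
    by_cases h5 : p = 5 ∨ p % 5 = 1 ∨ p % 5 = 4
    · have h7 : p % 3 = 1 := by
        by_contra h7
        exact nb (frob6b p 1 hd π (by rwa [pow_one]) (by rw [pow_one]; omega))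
      exact .inl ⟨na (frob6a p 1 hd π (by rwa [pow_one]) (by rwa [pow_one])), by omega⟩
    · have h7 : p % 5 = 2 ∨ p % 5 = 3 := by
        have : p % 5 ≠ 0 := fun e => by rw [Nat.pow_mod, e] at h4; omega
        omega
      refine .inr ⟨(card_cases p (card_le_pow p 2 two_ne_zero (core_fix p 2 hc
        (frob6a p 2 hd π h4.1 h4.2)))).resolve_left fun h8 => ?_, h3, h7⟩
      obtain ⟨w, -, h9, h10⟩ := ex5 hd π
      have := h9.five h10 (by rw [← h9.nres h7, T_pow_char, ← h8, FiniteField.pow_card])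
      exact h5 (.inl ((Nat.prime_dvd_prime_iff_eq Fact.out (by norm_num)).1 ((CharP.cast_eq_zero_iff F p 5).1 this)))
  · obtain ⟨π⟩ := pi_of e
    obtain rfl : p = 5 := (Nat.prime_dvd_prime_iff_eq Fact.out (by norm_num)).1 ((CharP.cast_eq_zero_iff F p 5).1 h5)
    exact (nb fun x hx => tr7 hd π hx).elim

theorem s5779a (hM : MHMain.{u}) {F : Type u} [Field F] [Fintype F] {q : ℕ} (hq : Fintype.card F = q ^ 2)
    (H : Subgroup (G3 F)) (hH : H < SU3 F q) (hS : Geo.InUnitaryResidualClass H) :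
    ∃ P : Subgroup (G3 F), Geo.IsResidualCore H P ∧ q.Prime ∧ CharP F q ∧
    ((Nat.card (PQ P) = 168 ∧ (q % 7 = 3 ∨ q % 7 = 5 ∨ q % 7 = 6)) ∨
     (Nonempty (PQ P ≃* A6) ∧ (q % 15 = 11 ∨ q % 15 = 14 ∨ q = 5)) ∨ (Nonempty (PQ P ≃* A7) ∧ q = 5)) := by
  obtain ⟨P, hc, -⟩ := hS
  have hF := full_iff_absIrr.2 hc.absIrred
  have hp := hc.perfect
  have hd : ∀ x ∈ P, x.val.det = 1 := fun x => det_eq_one_of_perfect hp
  obtain ⟨p, _⟩ := CharP.exists F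
  have : Fact p.Prime := ⟨CharP.char_is_prime F p⟩
  obtain ⟨k, rfl⟩ : ∃ k, q = p ^ k := by
    obtain ⟨n, -, e⟩ := FiniteField.card F p
    obtain ⟨k, -, h⟩ := (Nat.dvd_prime_pow Fact.out).1 (show q ∣ p ^ (n : ℕ) from ⟨q, by rw [← e, hq, sq]⟩)
    exact ⟨k, h⟩
  have hu : ∀ x ∈ P, T x ^ p ^ k = T x⁻¹ := fun x hx =>
    T_inv_of_herm (UP hq).σσ (B := 1) (by simp) ((mem_GU3 hq).1 (hH.le (hc.le hx)).1)
  have na : ¬ ∀ x ∈ P, T x ^ p ^ k = T x := fun h => by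
    obtain ⟨a, ha⟩ := UP_ne hq
    exact ha (core_fix p k hc h a)
  have nr : ¬ ∀ x ∈ P, T x⁻¹ = T x := fun h => na fun x hx => (hu x hx).trans (h x hx)
  have n1 : ¬ ∀ x ∈ P, T x ^ p ^ 1 = T x := fun h => na fun x hx => by
    clear hq hu hH na
    induction k with
    | zero => simp
    | succ k ih => rw [pow_succ, pow_mul, ih, ← pow_one p, h x hx]
  have k1 : (∀ x ∈ P, T x ^ p ^ 2 = T x) → k = 1 := fun h => by
    have h1 := card_le_pow p 2 two_ne_zero (core_fix p 2 hc h)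
    rw [hq, ← pow_mul, Nat.pow_le_pow_iff_right (Fact.out : p.Prime).one_lt] at h1
    have : k ≠ 0 := by
      rintro rfl
      have := Fintype.one_lt_card (α := F)
      simp [hq] at this
    omega
  suffices k = 1 ∧ ((Nat.card (PQ P) = 168 ∧ (p % 7 = 3 ∨ p % 7 = 5 ∨ p % 7 = 6)) ∨
     (Nonempty (PQ P ≃* A6) ∧ (p % 15 = 11 ∨ p % 15 = 14 ∨ p = 5)) ∨ (Nonempty (PQ P ≃* A7) ∧ p = 5)) by
    obtain ⟨rfl, h⟩ := this
    rw [pow_one]
    exact ⟨P, hc, Fact.out, ‹_›, h⟩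
  rcases mainF hM hp hF with ⟨E, Q, -, h⟩ | ⟨E, q, Q, -, hE, h⟩ | ⟨-, B, -, h3, h⟩ | h | ⟨⟨e⟩⟩ | ⟨h5, ⟨e⟩⟩
  · have := hu (Q * comp 0 1 * Q⁻¹) ((h _).2 ⟨det_conj _ (comp_det _ _), by
      rw [← cj_coe, cj_inv_cj]; exact comp_over (zero_mem _) (one_mem _)⟩)
    rw [T_conj, show (Q * comp 0 1 * Q⁻¹)⁻¹ = Q * (comp 0 1)⁻¹ * Q⁻¹ by group, T_conj, T_comp, T_comp_inv,
      zero_pow (pow_ne_zero _ (Fact.out : p.Prime).ne_zero)] at this
    exact (zero_ne_one this).elim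
  · obtain rfl := core_top hc fun g hg => ((h g).1 hg).2.1
    rw [H4.Subf.card_top, Nat.card_eq_fintype_card, hq] at hE
    obtain rfl := Nat.pow_left_injective two_ne_zero hE
    refine (hH.not_ge fun g hg => hc.le ((eq_of_inj (RingHom.id F) (S := (· ∈ SU3 F (p ^ k)))
      (fun g hg => hH.le (hc.le hg)) Q 1 (fun g hg => ⟨Q * g * Q⁻¹, (h _).2 ⟨det_conj _ (mem_SL3.1 hg.2),
        fun _ _ => trivial, ?_⟩, Units.ext (by simp)⟩) g).2 hg)).elim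
    rw [← cj_coe, cj_inv_cj]
    exact (Matrix.mul_one g.valᵀ ▸ (mem_GU3 hq).1 hg.1 :)
  · exact (nr fun x hx => T_inv_of_symm h3 (h x hx)).elim
  · obtain ⟨π⟩ := exists_pi8 hp h
    have h7 : p ≠ 7 := fun e => nr (real8 p hp π e)
    have h8 := (mod_seven p h7).resolve_left fun e => n1 (frob8a p 1 hp π (by rwa [pow_one]))
    exact ⟨k1 (two_step p (frob8b p 1 hp π (by rwa [pow_one]))), .inl ⟨h, h8⟩⟩
  · obtain ⟨π⟩ := pi_of e
    have h3 : p ≠ 3 := fun e => nr (real6 hd π fun _ _ c _ => cube_three p e)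
    have h4 := sq_mod p h3
    obtain rfl := k1 (frob6a p 2 hd π h4.1 h4.2)
    have h6 : p % 3 ≠ 0 := fun e => by rw [Nat.pow_mod p 2 3, e] at h4; omega
    have h5 : p = 5 ∨ p % 5 = 1 ∨ p % 5 = 4 := by
      by_contra h5
      have h7 : p % 5 = 2 ∨ p % 5 = 3 := by
        have : p % 5 ≠ 0 := fun e => by rw [Nat.pow_mod, e] at h4; omega
        omega
      obtain ⟨w, hw, h9, h10⟩ := ex5 hd π
      have := h9.five h10 (by rw [← h9.nres h7, T_pow_char, ← pow_one p, hu w hw.1, h9.inv])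
      exact h5 (.inl ((Nat.prime_dvd_prime_iff_eq Fact.out (by norm_num)).1 ((CharP.cast_eq_zero_iff F p 5).1 this)))
    have h7 : p % 3 = 2 := by
      by_contra h7
      exact n1 (frob6a p 1 hd π (by rwa [pow_one]) (by rw [pow_one]; omega))
    exact ⟨rfl, .inr (.inl ⟨⟨e⟩, by omega⟩)⟩
  · obtain ⟨π⟩ := pi_of e
    obtain rfl : p = 5 := (Nat.prime_dvd_prime_iff_eq Fact.out (by norm_num)).1 ((CharP.cast_eq_zero_iff F p 5).1 h5)
    exact ⟨k1 (two_step 5 fun x hx => tr7 hd π hx), .inr (.inr ⟨⟨e⟩, rfl⟩)⟩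

end Cfsg.Agent.H5.MH
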