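import Cfsg.Agent.H5.Core
import Cfsg.Agent.H4.Subf
import Cfsg.Agent.H4.Small

set_option autoImplicit false

/-! Groups without nontrivial elementary abelian normal subgroups, and Dickson's theorem for them. -/

namespace Cfsg.Agent.H5.MH
open Subgroup MulAction Cfsg.Agent.H4 Cfsg.Agent.H4.Mob Cfsg.Agent.H4.Dick Cfsg.Agent.H5.Core
open scoped commutatorElement

variable {Γ Δ : Type*} [Group Γ] [Group Δ]

/-- no nontrivial elementary abelian normal subgroup -/
def NA (Γ : Type*) [Group Γ] : Prop :=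
  ∀ N : Subgroup Γ, N.Normal → IsMulCommutative N → (∃ r : ℕ, r.Prime ∧ ∀ x ∈ N, x ^ r = 1) → N = ⊥

theorem comm_of {A : Subgroup Γ} (h : ∀ x ∈ A, ∀ y ∈ A, x * y = y * x) : IsMulCommutative A :=
  ⟨⟨fun x y => Subtype.ext (h _ x.2 _ y.2)⟩⟩

theorem NA.congr (h : NA Γ) (e : Γ ≃* Δ) : NA Δ := fun N hN hc ⟨r, hr, hx⟩ => by
  have := h (N.comap e.toMonoidHom) (hN.comap _) (comm_of fun x a y b => e.injective (by
    simpa using congrArg Subtype.val (hc.is_comm.comm ⟨_, a⟩ ⟨_, b⟩))) ⟨r, hr, fun x a => e.injective (by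
      simpa using hx _ a)⟩
  rw [eq_bot_iff] at this ⊢
  intro y hy
  have h1 : e.symm y = 1 := this (show e (e.symm y) ∈ N by simpa using hy)
  simpa using h1

theorem NA.ab [Finite Γ] (h : NA Γ) (A : Subgroup Γ) [hA : A.Normal] (hc : ∀ x ∈ A, ∀ y ∈ A, x * y = y * x) :
    A = ⊥ := by
  by_contra h0
  obtain ⟨r, hr, hd⟩ := Nat.exists_prime_and_dvd (fun e => h0 (card_eq_one.1 e) : Nat.card A ≠ 1)
  have := Fact.mk hr
  obtain ⟨x, hx⟩ := exists_prime_orderOf_dvd_card' r hd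
  let N : Subgroup Γ :=
    { carrier := {y | y ∈ A ∧ y ^ r = 1}
      mul_mem' := fun {a b} ha hb => ⟨mul_mem ha.1 hb.1, by
        rw [Commute.mul_pow (hc _ ha.1 _ hb.1), ha.2, hb.2, mul_one]⟩
      one_mem' := ⟨one_mem _, one_pow _⟩
      inv_mem' := fun {a} ha => ⟨inv_mem ha.1, by rw [inv_pow, ha.2, inv_one]⟩ }
  have h1 := h N ⟨fun a ha g => ⟨hA.conj_mem _ ha.1 g, by rw [conj_pow, ha.2]; simp⟩⟩
    (comm_of fun a ha b hb => hc _ ha.1 _ hb.1) ⟨r, hr, fun a ha => ha.2⟩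
  have h2 : x.1 ∈ N := ⟨x.2, by rw [← hx]; exact congrArg Subtype.val (pow_orderOf_eq_one x)⟩
  rw [h1, mem_bot] at h2
  exact hr.ne_one (by rw [← hx, show x = 1 from Subtype.ext h2, orderOf_one])

theorem NA.eq_one [Finite Γ] (h : NA Γ) {i : Γ} (hc : ∀ g, g * i * g⁻¹ * i = i * (g * i * g⁻¹)) : i = 1 := by
  have h1 : ∀ x ∈ Group.conjugatesOfSet {i}, ∀ y ∈ Group.conjugatesOfSet {i}, x * y = y * x := by
    intro x hx y hy
    simp only [Group.mem_conjugatesOfSet_iff, Set.mem_singleton_iff, exists_eq_left, isConj_iff] at hx hy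
    obtain ⟨a, rfl⟩ := hx
    obtain ⟨b, rfl⟩ := hy
    have := congrArg (fun z => b * z * b⁻¹) (hc (b⁻¹ * a))
    simpa [mul_assoc] using this
  have h2 := h.ab (normalClosure {i}) fun x hx y hy => by
    have := closure_le_centralizer_centralizer (Group.conjugatesOfSet {i})
    refine (this hx y (closure_induction (fun z hz w hw => h1 _ hw _ hz) (one_mem _) (fun _ _ _ _ => mul_mem)
      (fun _ _ => inv_mem) hy)).symm
  have h3 : i ∈ normalClosure {i} := subset_normalClosure rfl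
  rwa [h2, mem_bot] at h3

theorem NA.meta [Finite Γ] (h : NA Γ) (hc : ∀ a b c d : Γ, ⁅a, b⁆ * ⁅c, d⁆ = ⁅c, d⁆ * ⁅a, b⁆) (x : Γ) : x = 1 :=
  h.eq_one fun g => commutatorElement_eq_one_iff_mul_comm.1 (h.eq_one fun k => by
    rw [conjugate_commutatorElement]; exact hc _ _ _ _)

theorem NA.solv [Finite Γ] (h : NA Γ) (A : Subgroup Γ) [A.Normal] [hs : Group.IsSolvable A] : A = ⊥ := by
  obtain ⟨n, hn⟩ := hs.solvable
  have key : ∀ k, derivedSeries A k = ⊥ → A = ⊥ := fun k => by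
    induction k with
    | zero => exact fun e => by simpa [← MonoidHom.range_eq_map] using congrArg (map A.subtype) e
    | succ k ih =>
      refine fun e => ih (map_injective A.subtype_injective ?_)
      rw [Subgroup.map_bot]
      refine h.ab _ fun _ ⟨x, hx, e1⟩ _ ⟨y, hy, e2⟩ => ?_
      have := commutator_mem_commutator hx hy
      rw [← derivedSeries_succ, e, mem_bot, commutatorElement_eq_one_iff_mul_comm] at this
      rw [← e1, ← e2, ← map_mul, this, map_mul]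
  exact key n hn

theorem NA.normal [Finite Γ] (h : NA Γ) (L : Subgroup Γ) [hL : L.Normal] : NA L := fun N hN _ ⟨r, hr, hx⟩ => by
  have := Fact.mk hr
  have h1 : IsPi {r} (N.map L.subtype) := isPi_map_subtype.2 (isPi_singleton_iff.2 fun x => ⟨1, Subtype.ext (by
    simpa using hx _ x.2)⟩)
  have h2 := subnormal_le_Opi (hN.isSubnormal.trans' hL.isSubnormal) h1
  have h3 := (isPi_singleton_iff.1 (isPi_Opi (π := {r}) (G := Γ))).isNilpotent
  rw [h.solv (Opi {r} Γ), le_bot_iff] at h2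
  exact map_injective L.subtype_injective (by rw [h2, Subgroup.map_bot])

theorem NA.hno [Finite Γ] (h : NA Γ) (N : Subgroup Γ) (hN : N.Normal) : ¬ (Nat.card N).Prime := fun hp => by
  have := Fact.mk hp
  have := isCyclic_of_prime_card (α := N) rfl
  have h1 := h.ab N fun x hx y hy => congrArg Subtype.val (IsCyclic.isMulCommutative.is_comm.comm (⟨x, hx⟩ : N) ⟨y, hy⟩)
  rw [h1, card_bot] at hp
  exact Nat.not_prime_one hp

theorem not_NA_A4 : ¬ NA (alternatingGroup (Fin 4)) := fun h => by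
  obtain ⟨i, j, h1, -, -, -, -, h2, -, -, h3⟩ := Small.A4_facts
  refine h1 (h.eq_one fun g => ?_)
  rcases (h3 g).1 with e | e | e <;> rw [e]
  exacts [h2.symm, by rw [mul_assoc, ← h2]]

theorem not_NA_S4 : ¬ NA (Equiv.Perm (Fin 4)) := fun h => by
  obtain ⟨i, j, h1, -, -, -, -, h2, -, -, h3⟩ := Small.S4_facts
  refine h1 (h.eq_one fun g => ?_)
  rcases (h3 g).1 with e | e | e <;> rw [e]
  exacts [h2.symm, by rw [mul_assoc, ← h2]]

theorem eq_or_eq_of_card [Finite Γ] {A X B : Subgroup Γ} (h1 : A ≤ X) (h2 : X ≤ B) (h : 2 * Nat.card A = Nat.card B) :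
    X = A ∨ X = B := by
  obtain ⟨k, hk⟩ := card_dvd_of_le h1
  obtain ⟨l, hl⟩ := card_dvd_of_le h2
  have h0 : 0 < Nat.card A := Nat.card_pos
  have h3 : k * l = 2 := Nat.eq_of_mul_eq_mul_left h0 (by rw [← mul_assoc, ← hk, ← hl, ← h, mul_comm])
  have h4 : k = 1 ∨ l = 1 := by
    have : k ≤ 2 := Nat.le_of_dvd two_pos ⟨l, h3.symm⟩
    interval_cases k <;> omega
  rcases h4 with rfl | rfl
  · exact Or.inl (eq_of_le_of_card_ge h1 (by omega)).symm
  · exact Or.inr (eq_of_le_of_card_ge h2 (by omega))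

variable {F : Type*} [Field F] [Finite F]

theorem dick (h2 : (2 : F) ≠ 0) (M : Subgroup (PG F)) (h : NA M) (h0 : M ≠ ⊥) :
    ((5 : F) ≠ 0 ∧ Nonempty (M ≃* alternatingGroup (Fin 5))) ∨
    ∃ E : Subfield F, Nat.card E ≠ 3 ∧ (Nonempty (M ≃* PS E) ∨ Nonempty (M ≃* PG E)) := by
  have hm : ¬ ∀ a b c d : M, ⁅a, b⁆ * ⁅c, d⁆ = ⁅c, d⁆ * ⁅a, b⁆ := fun hc =>
    h0 (eq_bot_iff.2 fun x hx => congrArg Subtype.val (h.meta hc ⟨x, hx⟩))
  rcases dickson M with ⟨x, hx⟩ | ⟨x, y, hxy, hx⟩ | ⟨-, -, ⟨⟨e⟩⟩ | ⟨⟨e⟩⟩⟩ | ⟨-, h5, -, e⟩ | ⟨g, E, -, h3, h4⟩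
  · obtain ⟨g, rfl⟩ := exists_smul_inf x
    have key : ∀ a b : M, ∃ t, (⁅a, b⁆ : M).1 = g * tr t * g⁻¹ := fun a b => by
      have h1 : ∀ a : M, ∃ u v hu, a.1 = g * aff u v hu * g⁻¹ := fun a => by
        obtain ⟨u, v, hu, e⟩ := exists_aff_of_fix (g := g⁻¹ * a.1 * g) (by
          rw [mul_smul, mul_smul, hx a.2, inv_smul_smul])
        exact ⟨u, v, hu, by rw [← e]; group⟩
      obtain ⟨u, v, hu, e⟩ := h1 a
      obtain ⟨u', v', hu', e'⟩ := h1 b
      refine ⟨u * v' + v - u' * v - v', ?_⟩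
      have : (⁅a, b⁆ : M).1 = g * ⁅aff u v hu, aff u' v' hu'⁆ * g⁻¹ := by
        rw [conjugate_commutatorElement, ← e, ← e']; rfl
      rw [this, commutatorElement_def, aff_inv, aff_inv, aff_mul, aff_mul, aff_mul, tr]
      congr 2
      rw [aff_eq_aff]
      constructor <;> field_simp <;> ring
    refine (hm fun a b c d => Subtype.ext ?_).elim
    obtain ⟨t, e⟩ := key a b
    obtain ⟨s, e'⟩ := key c d
    rw [coe_mul, coe_mul, e, e', conj_mul, conj_mul, tr_mul, tr_mul, add_comm]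
  · refine (hm fun a b c d => Subtype.ext ?_).elim
    have key : ∀ a b : M, (⁅a, b⁆ : M).1 ∈ Bar.Tor x y := fun a b => by
      have ha := hx a.2
      have hb := hx b.2
      by_cases h1 : a.1 ∈ Bar.Tor x y
      · have := mul_mem h1 (Bar.conj_mem_Tor hb (inv_mem h1))
        simpa [commutatorElement_def, mul_assoc] using this
      by_cases h3 : b.1 ∈ Bar.Tor x y
      · exact mul_mem (Bar.conj_mem_Tor ha h3) (inv_mem h3)
      have := mul_mem (Bar.mul_mem_Tor ha hb h1 h3) (Bar.mul_mem_Tor (inv_mem ha) (inv_mem hb) (by simpa using h1)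
        (by simpa using h3))
      simpa [commutatorElement_def, mul_assoc] using this
    exact Bar.Tor_comm hxy.ne (key a b) (key c d)
  · exact (not_NA_A4 (h.congr e)).elim
  · exact (not_NA_S4 (h.congr e)).elim
  · exact Or.inl ⟨h5, e⟩
  have hc := (Subf.card_PSsub h2 E).trans (Subf.card_PGsub E).symm
  refine Or.inr ⟨E, fun h5 => ?_, ?_⟩
  · have h6 := Subf.card_PGsub E
    rw [h5] at h6
    rcases eq_or_eq_of_card h3 h4 hc with e | e
    · obtain ⟨e'⟩ := Small.A4_of h.hno (by rw [← Pair.card_cj g, e]; omega)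
      exact not_NA_A4 (h.congr e')
    · obtain ⟨e'⟩ := Small.S4_of h.hno (by rw [← Pair.card_cj g, e]; omega)
      exact not_NA_S4 (h.congr e')
  · rcases eq_or_eq_of_card h3 h4 hc with e | e
    · exact Or.inl ⟨((Pair.cjEquiv g M).trans (MulEquiv.subgroupCongr e)).trans (psSubEquiv E).symm⟩
    · exact Or.inr ⟨((Pair.cjEquiv g M).trans (MulEquiv.subgroupCongr e)).trans (pgSubEquiv E).symm⟩

end Cfsg.Agent.H5.MH
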