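import Cfsg.Agent.H5.MH12
import Cfsg.Agent.H5.MH11
import Cfsg.Agent.Asch.OrthAux

set_option autoImplicit false

/-! The adjoint map `PGL₂ → PGL₃` and its image, the similarities of a conic. -/

namespace Cfsg.Agent.H5.MH
open Cfsg Matrix Cfsg.Agent.Asch Cfsg.Agent.H4.Mob

variable {F : Type*} [Field F]

/-- the adjoint matrix -/
def adA (a b c d : F) : M3 F := !![a ^ 2, -2 * a * b, -b ^ 2; -a * c, a * d + b * c, b * d; -c ^ 2, 2 * c * d, d ^ 2]

/-- the adjoint map on matrices -/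
def adH : Matrix (Fin 2) (Fin 2) F →* M3 F where
  toFun X := adA (X 0 0) (X 0 1) (X 1 0) (X 1 1)
  map_one' := by ext i j; fin_cases i <;> fin_cases j <;> simp [adA]
  map_mul' X Y := by
    ext i j; fin_cases i <;> fin_cases j <;> simp [adA, Matrix.mul_apply, Fin.sum_univ_succ] <;> ring

/-- the adjoint map on invertible matrices -/
def adG : GL (Fin 2) F →* G3 F := Units.map adH

theorem adG_mat {a b c d : F} (h : a * d - b * c ≠ 0) : (adG (mat a b c d h)).val = adA a b c d := rfl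

/-- the adjoint map on projective groups -/
noncomputable def adP : PG F →* PG3 F := ProjGenLinGroup.lift (pr.comp adG) (by
  ext u
  simp only [MonoidHom.comp_apply, MonoidHom.one_apply, pr_eq_one']
  exact ⟨u ^ 2, by ext i j; fin_cases i <;> fin_cases j <;> simp [adG, adH, adA, sq]⟩)

theorem adP_mob {a b c d : F} (h : a * d - b * c ≠ 0) : adP (mob a b c d h) = pr (adG (mat a b c d h)) := rfl

theorem adP_inj : Function.Injective (adP : PG F → PG3 F) := (injective_iff_map_eq_one _).2 fun g hg => by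
  obtain ⟨a, b, c, d, h, rfl⟩ := exists_mob g
  obtain ⟨e, he⟩ := pr_eq_one'.1 hg
  rw [adG_mat] at he
  have h1 := congrFun (congrFun he 0) 2
  have h2 := congrFun (congrFun he 2) 0
  have h3 := congrFun (congrFun he 0) 0
  have h4 := congrFun (congrFun he 1) 1
  simp [adA] at h1 h2 h3 h4
  subst h1 h2
  exact mob_eq_one.2 ⟨rfl, rfl, mul_left_cancel₀ (a := a) (by rintro rfl; simp at h) (by linear_combination h3 - h4)⟩

/-- the standard conic -/
def B0 (F : Type*) [Field F] : M3 F := !![0, 0, 1; 0, 2, 0; 1, 0, 0]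

theorem B0_tr : (B0 F)ᵀ = B0 F := by ext i j; fin_cases i <;> fin_cases j <;> rfl

theorem B0_det (h2 : (2 : F) ≠ 0) : (B0 F).det ≠ 0 := by simpa [B0, Matrix.det_fin_three] using h2

theorem adA_sim (a b c d : F) : (adA a b c d)ᵀ * B0 F * adA a b c d = (a * d - b * c) ^ 2 • B0 F := by
  ext i j; fin_cases i <;> fin_cases j <;> simp [adA, B0, Matrix.mul_apply, Fin.sum_univ_succ] <;> ring

theorem adA_det (a b c d : F) : (adA a b c d).det = (a * d - b * c) ^ 3 := by
  simp [adA, Matrix.det_fin_three]; ring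

/-- similarity of the standard conic -/
def Sim (X : M3 F) : Prop := ∃ l : F, Xᵀ * B0 F * X = l • B0 F

theorem Sim.mul {X Y : M3 F} (hX : Sim X) (hY : Sim Y) : Sim (X * Y) := by
  obtain ⟨l, h⟩ := hX
  obtain ⟨m, h'⟩ := hY
  refine ⟨l * m, ?_⟩
  rw [transpose_mul, show Yᵀ * Xᵀ * B0 F * (X * Y) = Yᵀ * (Xᵀ * B0 F * X) * Y by simp only [Matrix.mul_assoc], h,
    Matrix.mul_smul, Matrix.smul_mul, h', smul_smul]

theorem Sim.eqs (h2 : (2 : F) ≠ 0) {X : M3 F} (h : Sim X) : X 0 0 * X 2 0 + X 1 0 ^ 2 = 0 ∧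
    X 0 2 * X 2 2 + X 1 2 ^ 2 = 0 ∧ X 0 0 * X 2 1 + 2 * X 1 0 * X 1 1 + X 2 0 * X 0 1 = 0 ∧
    X 0 2 * X 2 1 + 2 * X 1 2 * X 1 1 + X 2 2 * X 0 1 = 0 ∧
    X 0 1 * X 2 1 + X 1 1 ^ 2 = X 0 0 * X 2 2 + 2 * X 1 0 * X 1 2 + X 2 0 * X 0 2 := by
  obtain ⟨l, h⟩ := h
  have h00 := congrFun (congrFun h 0) 0
  have h22 := congrFun (congrFun h 2) 2
  have h01 := congrFun (congrFun h 0) 1
  have h21 := congrFun (congrFun h 2) 1
  have h11 := congrFun (congrFun h 1) 1
  have h02 := congrFun (congrFun h 0) 2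
  simp [B0, Matrix.mul_apply, Fin.sum_univ_succ] at h00 h22 h01 h21 h11 h02
  exact ⟨mul_left_cancel₀ h2 (by linear_combination h00), mul_left_cancel₀ h2 (by linear_combination h22),
    by linear_combination h01, by linear_combination h21,
    mul_left_cancel₀ h2 (by linear_combination h11 - 2 * h02)⟩

theorem ad_step {X : G3 F} (hX : Sim X.val) {a b c d : F} (h : a * d - b * c ≠ 0)
    (H : ∀ Y : G3 F, Sim Y.val → Y.val = adA a b c d * X.val → pr Y ∈ (adP : PG F →* _).range) :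
    pr X ∈ (adP : PG F →* _).range := by
  have := H (adG (mat a b c d h) * X) (Sim.mul ⟨_, adA_sim a b c d⟩ hX) rfl
  rwa [map_mul, Subgroup.mul_mem_cancel_left _ (MonoidHom.mem_range.2 ⟨_, adP_mob h⟩)] at this

theorem mem_adP (h2 : (2 : F) ≠ 0) {X : G3 F} (hX : Sim X.val) : pr X ∈ (adP : PG F →* _).range := by
  have s2 : ∀ X : G3 F, Sim X.val → X.val 1 0 = 0 → X.val 2 0 = 0 → pr X ∈ (adP : PG F →* _).range :=
      fun X hX h1 h3 => by
    have hd := X.det_ne_zero
    obtain ⟨-, e2, e3, -, -⟩ := hX.eqs h2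
    have h0 : X.val 0 0 ≠ 0 := fun e => hd (by simp [Matrix.det_fin_three, h1, h3, e])
    have h4 : X.val 2 1 = 0 := by simpa [h0, h1, h3] using e3
    have h5 : X.val 2 2 ≠ 0 := fun e => hd (by simp [Matrix.det_fin_three, h3, h4, e])
    refine ad_step hX (a := 1) (b := -X.val 1 2 / X.val 2 2) (c := 0) (d := 1) (by simp) fun Y hY e => ?_
    have f : ∀ i j, Y.val i j = _ := fun i j => congrFun (congrFun e i) j
    have f00 := f 0 0
    have f10 := f 1 0
    have f20 := f 2 0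
    have f21 := f 2 1
    have f02 := f 0 2
    have f12 := f 1 2
    have f22 := f 2 2
    simp [adA, Matrix.mul_apply, Fin.sum_univ_succ, h1, h3, h4] at f00 f10 f20 f21 f02 f12 f22
    replace f12 : Y.val 1 2 = 0 := by rw [f12]; field_simp; ring
    replace f02 : Y.val 0 2 = 0 := by rw [f02]; field_simp; linear_combination e2
    obtain ⟨-, -, -, e4, e5⟩ := hY.eqs h2
    have f01 : Y.val 0 1 = 0 := by simpa [f02, f12, f22, h5] using e4
    simp only [f01, f10, f20, zero_mul, mul_zero, add_zero, zero_add] at e5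
    rw [← f00] at h0
    rw [← f22] at h5
    have h6 : Y.val 0 0 * Y.val 1 1 - 0 * 0 ≠ 0 := by
      rw [mul_zero, sub_zero]
      exact mul_ne_zero h0 fun e => mul_ne_zero h0 h5 (by rw [← e5, e]; ring)
    refine ⟨_, (adP_mob h6).trans (pr_eq_iff.2 ⟨Y.val 0 0, ?_⟩)⟩
    ext i j
    fin_cases i <;> fin_cases j <;> simp [adG_mat, adA, f01, f02, f10, f12, f20, f21, e5, sq]
  have s1 : ∀ X : G3 F, Sim X.val → X.val 0 0 ≠ 0 → pr X ∈ (adP : PG F →* _).range := fun X hX h0 => by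
    obtain ⟨e1, -⟩ := hX.eqs h2
    refine ad_step hX (a := 1) (b := 0) (c := X.val 1 0 / X.val 0 0) (d := 1) (by simp) fun Y hY e => s2 Y hY ?_ ?_
    · simp [e, adA, Matrix.mul_apply, Fin.sum_univ_succ, h0]
    · simp [e, adA, Matrix.mul_apply, Fin.sum_univ_succ]
      field_simp
      linear_combination e1
  by_cases h0 : X.val 0 0 = 0
  · obtain ⟨e1, -⟩ := hX.eqs h2
    have h1 : X.val 1 0 = 0 := by simpa [h0] using e1
    refine ad_step hX (a := 0) (b := 1) (c := 1) (d := 0) (by simp) fun Y hY e => s1 Y hY fun h => X.det_ne_zero ?_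
    simp [e, adA, Matrix.mul_apply, Fin.sum_univ_succ] at h
    simp [Matrix.det_fin_three, h0, h1, h]
  · exact s1 X hX h0

theorem exists_pgl [Finite F] (h2 : (2 : F) ≠ 0) {B : M3 F} (hB : Bᵀ = B) (hd : B.det ≠ 0) (M : Subgroup (G3 F))
    (h : ∀ m ∈ M, ∃ l : F, m.valᵀ * B * m.val = l • B) : ∃ M' : Subgroup (PG F), Nonempty (bar M ≃* M') := by
  have := Fintype.ofFinite F
  obtain ⟨a, d, hd0, ha⟩ := exists_similar h2 (by decide) hB B0_tr hd (B0_det h2)
  let f : PG F →* PG3 F := (MulAut.conj (pr a)).toMonoidHom.comp adP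
  have hf : Function.Injective f := (MulAut.conj (pr a)).injective.comp adP_inj
  have h1 : bar M ≤ f.range := by
    rintro _ ⟨m, hm, rfl⟩
    obtain ⟨l, hl⟩ := h m hm
    have := (cj_form (RingHom.id F) (a := a) (G := B) (G' := d • B0 F) (by simpa using ha) (cj a⁻¹ m.val) l).1
      (by simpa [cj_cj_inv] using hl)
    obtain ⟨g, hg⟩ := mem_adP h2 (X := a⁻¹ * m * a) ⟨l, by
      simp only [RingHom.coe_id, Matrix.map_id, Matrix.mul_smul, Matrix.smul_mul, smul_comm l d] at this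
      simpa [cj_apply] using smul_right_injective _ hd0 this⟩
    exact ⟨g, by simp [f, hg, mul_assoc]⟩
  exact ⟨(bar M).comap f, ⟨((MulEquiv.subgroupCongr (Subgroup.map_comap_eq_self h1)).symm.trans
    (((bar M).comap f).equivMapOfInjective f hf).symm)⟩⟩

end Cfsg.Agent.H5.MH
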