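import Cfsg.Agent.H5.MH5a
import Cfsg.Agent.H4.ZEven
import Cfsg.Agent.H4.Small

set_option autoImplicit false

/-! Recognition of `A₆`. -/

namespace Cfsg.Agent.H5.MH
open Equiv Subgroup MulAction Cfsg.Agent.H5.CT2 Pointwise

theorem psl9 {G : Type*} [Group G] [Finite G] (hc : Nat.card G = 360) (S : Sylow 3 G)
    (hCA : ∀ y ∈ S, y ≠ 1 → centralizer {y} = (S : Subgroup G)) (hn : Nat.card (Sylow 3 G) ≠ 1)
    (K : Type) [Field K] (hK : Nat.card K = 9) : Nonempty (G ≃* H4.Mob.PS K) := by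
  have : Fact (Nat.Prime 3) := ⟨by norm_num⟩
  have c9 : ∀ P : Sylow 3 G, Nat.card P = 9 := fun P => by
    rw [P.card_eq_multiplicity, hc]; decide +kernel
  have hCA' : ∀ P : Sylow 3 G, ∀ y ∈ P, y ≠ 1 → centralizer {y} = (P : Subgroup G) := fun P y hy h1 => by
    obtain ⟨g, rfl⟩ := exists_smul_eq G S P
    have hm : ∀ x, x ∈ g • S ↔ g⁻¹ * x * g ∈ S := fun x => by
      change x ∈ MulAut.conj g • (S : Subgroup G) ↔ _
      rw [mem_pointwise_smul_iff_inv_smul_mem]; simp; rfl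
    have := hCA _ ((hm y).1 hy) (fun h => h1 (by
      rw [mul_assoc, inv_mul_eq_one] at h; exact mul_right_cancel (h.symm.trans (one_mul g).symm)))
    ext x
    change _ ↔ x ∈ g • S
    rw [hm]
    change _ ↔ _ ∈ (S : Subgroup G)
    rw [← this, mem_centralizer_singleton_iff, mem_centralizer_singleton_iff]
    simp only [mul_assoc, mul_inv_cancel_left, mul_right_inj]
    simp only [← mul_assoc, mul_left_inj]
  have hfree : ∀ P Q : Sylow 3 G, Q ≠ P → ∀ x ∈ P, x • Q = Q → x = 1 := fun P Q hQ x hx h => by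
    by_contra h1
    have h2 : IsPGroup 3 (zpowers x) := P.2.to_le (zpowers_le.2 hx)
    have h3 : x ∈ zpowers x ⊓ normalizer (Q : Set G) := ⟨mem_zpowers x, Sylow.smul_eq_iff_mem_normalizer.1 h⟩
    rw [h2.inf_normalizer_sylow Q] at h3
    exact hQ (Sylow.ext ((hCA' Q x h3.2 h1).symm.trans (hCA' P x hx h1)))
  have hSS : ∀ P : Sylow 3 G, ∀ x ∈ P, x • P = P := fun P x hx =>
    Sylow.smul_eq_iff_mem_normalizer.2 (le_normalizer hx)
  have hne : ∀ P Q : Sylow 3 G, Q ≠ P → ∀ x ∈ P, x • Q ≠ P := fun P Q hQ x hx h => hQ (by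
    rw [← hSS P x hx] at h; exact smul_left_cancel _ h)
  have hcompl : ∀ P : Sylow 3 G, ({P}ᶜ : Set (Sylow 3 G)).ncard + 1 = Nat.card (Sylow 3 G) := fun P => by
    rw [← Set.ncard_add_ncard_compl {P}, Set.ncard_singleton, add_comm]
  have hn : Nat.card (Sylow 3 G) = 10 := by
    have h1 := H4.Small.card_normalizer_sylow S
    obtain ⟨k, hk⟩ : 9 ∣ Nat.card (normalizer (S : Set G)) := (c9 S).symm.dvd.trans (card_dvd_of_le le_normalizer)
    rw [hk, hc] at h1
    have h4 : Nat.card (Sylow 3 G) ∣ 40 := ⟨k, by linarith⟩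
    have h5 := H4.Util.card_dvd_of_free' (S : Subgroup G) ({S}ᶜ : Set (Sylow 3 G))
      (fun g hg Q hQ => hne S Q hQ g hg) fun g hg Q hQ => hfree S Q hQ g hg
    rw [c9] at h5
    have h6 := Nat.le_of_dvd (by norm_num) h4
    have h7 := hcompl S
    interval_cases (Nat.card (Sylow 3 G)) <;> omega
  have hreg : ∀ P Q T : Sylow 3 G, Q ≠ P → T ≠ P → ∃ u ∈ P, u • Q = T := fun P Q T hQ hT => by
    have : Function.Bijective fun u : P => (⟨u.1 • Q, hne P Q hQ u.1 u.2⟩ : ({P}ᶜ : Set (Sylow 3 G))) := by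
      refine Function.Injective.bijective_of_nat_card_le (fun u v e => Subtype.ext ?_) ?_
      · have e : u.1 • Q = v.1 • Q := congrArg Subtype.val e
        have := hfree P Q hQ (v.1⁻¹ * u.1) (P.1.mul_mem (P.1.inv_mem v.2) u.2) (by rw [mul_smul, e, inv_smul_smul])
        exact (inv_mul_eq_one.1 this).symm
      · have := hcompl P
        have h9 := c9 P
        change ({P}ᶜ : Set (Sylow 3 G)).ncard ≤ Nat.card (P : Subgroup G)
        omega
    obtain ⟨u, hu⟩ := this.2 ⟨T, hT⟩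
    exact ⟨u.1, u.2, congrArg Subtype.val hu⟩
  have three : ∀ (g : G) (a b c : Sylow 3 G), a ≠ b → b ≠ c → a ≠ c → g • a = a → g • b = b → g • c = c → g = 1 := by
    intro g a b c hab hbc hac ha hb hc'
    obtain ⟨u, hu, rfl⟩ := hreg a b c hab.symm hac.symm
    have hu1 : u ≠ 1 := by rintro rfl; simp at hbc
    have h1 : g * u * g⁻¹ ∈ a := (mem_normalizer_iff.1 (Sylow.smul_eq_iff_mem_normalizer.1 ha) u).1 hu
    have h2 := hfree a b hab.symm (u⁻¹ * (g * u * g⁻¹)) (a.1.mul_mem (a.1.inv_mem hu) h1) (by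
      rw [mul_smul, mul_smul, inv_smul_eq_iff.2 hb.symm, mul_smul, hc', inv_smul_smul])
    have h3 : g ∈ centralizer {u} := by
      rw [mem_centralizer_singleton_iff, ← mul_inv_eq_iff_eq_mul, (inv_mul_eq_one.1 h2).symm]
    rw [hCA' a u hu hu1] at h3
    exact hfree a b hab.symm g h3 hb
  have : Nontrivial (Sylow 3 G) := Finite.one_lt_card_iff_nontrivial.1 (by omega)
  obtain ⟨T, hT⟩ := exists_ne S
  have hZ : H4.ZBasic.ZT G (Sylow 3 G) := ⟨fun g hg => by
    obtain ⟨c, h1, h2⟩ := H4.ZBasic.exists_third (by omega) S T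
    exact three g S T c hT.symm h2.symm h1.symm (hg _) (hg _) (hg _), fun a b c d hab hcd => by
    obtain ⟨g, rfl⟩ := exists_smul_eq G a c
    obtain ⟨u, hu, e⟩ := hreg a b (g⁻¹ • d) hab.symm (by
      intro h; rw [inv_smul_eq_iff] at h; exact hcd h.symm)
    exact ⟨g * u, by rw [mul_smul, hSS a u hu], by rw [mul_smul, e, smul_inv_smul]⟩, three⟩
  obtain ⟨Z, -, -⟩ := H4.ZIdent.exists_ZK hZ hT
  have h1 := Z.card_F
  have h2 := Z.card_G
  have h3 : Nat.card Z.F = 9 := by omega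
  rw [h3, hc] at h2
  have h4 : Nat.card Z.H = 4 := by omega
  exact (H4.ZEven.psl_of_even_small Z (by rw [h4]; decide) (by omega)).2 K (by omega)

theorem a6_cent {a b : Perm (Fin 6)} (ha : a ∈ A6) (hb : b ∈ A6) (h3 : a ^ 3 = 1) (h1 : a ≠ 1)
    (h : b * a = a * b) : b ^ 3 = 1 := by
  have h0 := allA_spec h6 (f := fun a =>
    !Nat.beq (pw 6 a 3) (cd (1 : Perm (Fin 6))) || Nat.beq a (cd (1 : Perm (Fin 6))) ||
    allP 6 fun b => !Nat.beq (pm 6 b a) (pm 6 a b) || !evn 6 b || Nat.beq (pw 6 b 3) (cd (1 : Perm (Fin 6))))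
    (by decide +kernel) ha
  simp only [Bool.or_eq_true, Nat.beq_eq, ← cd_pow h6, cd_inj h6, Bool.not_eq_true', beq_false,
    ne_eq, h3, h1, not_true_eq_false, false_or] at h0
  have h1 := allP_spec h0 b
  simpa only [Bool.or_eq_true, Nat.beq_eq, ← cd_pow h6, ← cd_mul h6, cd_inj h6, Bool.not_eq_true', beq_false,
    ne_eq, h, not_true_eq_false, false_or, (evn_cd h6 b).2 hb, Bool.true_eq_false, or_assoc] using h1

theorem card_A6 : Nat.card A6 = 360 := by
  have := two_mul_nat_card_alternatingGroup (α := Fin 6)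
  rw [Nat.card_perm, Nat.card_fin] at this
  change 2 * Nat.card A6 = 720 at this
  omega

theorem card_A7 : Nat.card A7 = 2520 := by
  have := two_mul_nat_card_alternatingGroup (α := Fin 7)
  rw [Nat.card_perm, Nat.card_fin] at this
  change 2 * Nat.card A7 = 5040 at this
  omega

theorem A6_psl (K : Type) [Field K] (hK : Nat.card K = 9) : Nonempty (A6 ≃* H4.Mob.PS K) := by
  have : Fact (Nat.Prime 3) := ⟨by norm_num⟩
  obtain ⟨S⟩ : Nonempty (Sylow 3 A6) := inferInstance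
  have c9 : Nat.card S = 3 ^ 2 := by rw [S.card_eq_multiplicity, card_A6]; decide +kernel
  have hcomm := IsPGroup.isMulCommutative_of_card_eq_prime_sq c9
  have hc : ∀ x ∈ S, ∀ y ∈ S, x * y = y * x := fun x hx y hy =>
    congrArg Subtype.val (hcomm.1.1 (⟨x, hx⟩ : S) ⟨y, hy⟩)
  refine psl9 card_A6 S (fun y hy h1 => ?_) (fun h => ?_) K hK
  · have h9 : y ^ 9 = 1 := congrArg Subtype.val (c9 ▸ pow_card_eq_one' (x := (⟨y, hy⟩ : S)))
    have h9' : y.1 ^ 9 = 1 := congrArg Subtype.val h9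
    have h1' : y.1 ≠ 1 := fun h => h1 (Subtype.ext h)
    have h3 : y.1 ^ 3 = 1 := by
      rcases (a6_elt y.2).1 with h | h | h
      · exact h
      · exact absurd (by simpa using (pow_gcd_eq_one (a := y.1)).2 ⟨h9', h⟩) h1'
      · exact absurd (by simpa using (pow_gcd_eq_one (a := y.1)).2 ⟨h9', h⟩) h1'
    refine S.is_maximal' (fun g => ⟨1, Subtype.ext (Subtype.ext ?_)⟩) fun x hx =>
      mem_centralizer_singleton_iff.2 (hc x hx y hy)
    exact a6_cent y.2 g.1.2 h3 h1' (congrArg Subtype.val (mem_centralizer_singleton_iff.1 g.2))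
  · have hs : Subsingleton (Sylow 3 A6) := (Nat.card_eq_one_iff_unique.1 h).1
    have key : ∀ x : A6, x ^ 3 = 1 → x ∈ S := fun x hx => by
      have h1 : IsPGroup 3 (zpowers x) := by
        rintro ⟨_, k, rfl⟩
        refine ⟨1, Subtype.ext ?_⟩
        change (x ^ k) ^ 3 ^ 1 = 1
        rw [pow_one, ← zpow_natCast, ← zpow_mul, mul_comm k, zpow_mul, zpow_natCast, hx, one_zpow]
      obtain ⟨P, hP⟩ := h1.exists_le_sylow
      rw [Subsingleton.elim P S] at hP
      exact hP (mem_zpowers x)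
    have := congrArg Subtype.val (hc ⟨x6, x6_mem⟩ (key _ (Subtype.ext (by decide))) ⟨g6, g6_mem⟩
      (key _ (Subtype.ext (by decide))))
    exact absurd this (by decide)

theorem A6_of {Γ : Type*} [Group Γ] [Finite Γ] (hc : Nat.card Γ = 360) (R : Subgroup Γ) (hR : Nat.card R = 9)
    (hCA : ∀ y ∈ R, y ≠ 1 → centralizer {y} = R) (hN : Nat.card (normalizer (R : Set Γ)) = 36) :
    Nonempty (Γ ≃* alternatingGroup (Fin 6)) := by
  have : Fact (Nat.Prime 3) := ⟨by norm_num⟩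
  let S : Sylow 3 Γ := Sylow.ofCard R (by rw [hR, hc]; decide +kernel)
  have hK : Nat.card (GaloisField 3 2) = 9 := GaloisField.card 3 2 two_ne_zero
  obtain ⟨e⟩ := psl9 hc S hCA (fun h => by
    have := H4.Small.card_normalizer_sylow S
    change _ * Nat.card (normalizer (R : Set Γ)) = _ at this
    rw [h, hN, hc] at this
    omega) _ hK
  obtain ⟨f⟩ := A6_psl _ hK
  exact ⟨e.trans f.symm⟩

end Cfsg.Agent.H5.MH
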