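import Cfsg.Agent.H5.MH3
import Cfsg.Agent.H5.MHA6
import Cfsg.Agent.H5.MHA7
import Cfsg.Agent.MH.Out
import Cfsg.Agent.H6.SUGlue

set_option autoImplicit false

/-! From the abstract projective representations to matrix groups. -/

namespace Cfsg.Agent.H5.MH
open Cfsg Matrix Cfsg.Agent.Asch Cfsg.Agent.Form Polynomial commutatorElement

universe u
variable {K : Type*} [Field K]

theorem sl3_ind (P : SpecialLinearGroup (Fin 3) K → Prop)
    (ht : ∀ (i j : Fin 3) (h : i ≠ j) c, P (SpecialLinearGroup.transvection h c))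
    (hmul : ∀ A B, P A → P B → P (A * B)) (A : SpecialLinearGroup (Fin 3) K) : P A := by
  refine SpecialLinearGroup.diagonal_transvection_induction' P _ (fun i j hij a ha => ?_) ht hmul
  have : SpecialLinearGroup.diag2n hij a ha = SpecialLinearGroup.transvection hij a *
      SpecialLinearGroup.transvection hij.symm (- a⁻¹) * SpecialLinearGroup.transvection hij a *
      SpecialLinearGroup.transvection hij (-1) * SpecialLinearGroup.transvection hij.symm 1 *
      SpecialLinearGroup.transvection hij (-1) := by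
    apply Subtype.ext
    change (diagonal fun k => if k = i then a else if k = j then a⁻¹ else 1 : M3 K) =
      (1 + single i j a) * (1 + single j i (-a⁻¹)) * (1 + single i j a) * (1 + single i j (-1)) *
        (1 + single j i 1) * (1 + single i j (-1))
    simp only [mul_add, add_mul, mul_one, one_mul, single_mul_single_same, single_mul_single_of_ne, hij, hij.symm,
      ne_eq, not_false_eq_true, mul_neg, neg_mul, mul_inv_cancel₀ ha, inv_mul_cancel₀ ha, zero_mul]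
    ext u v
    fin_cases i <;> fin_cases j <;> first | exact (hij rfl).elim | (fin_cases u <;> fin_cases v <;> simp)
  rw [this]
  exact hmul _ _ (hmul _ _ (hmul _ _ (hmul _ _ (hmul _ _ (ht _ _ _ _) (ht _ _ _ _)) (ht _ _ _ _)) (ht _ _ _ _))
    (ht _ _ _ _)) (ht _ _ _ _)

theorem splits_smul {X : M3 K} (h : X.charpoly.Splits) {c : K} (hc : c ≠ 0) : (c • X).charpoly.Splits := by
  have : (c • X).charpoly = C (c ^ 3) * X.charpoly.comp (C c⁻¹ * Polynomial.X) := by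
    have h1 : X.charpoly.comp (C c⁻¹ * Polynomial.X) = ((compRingHom (C c⁻¹ * Polynomial.X)).mapMatrix X.charmatrix).det :=
      RingHom.map_det (compRingHom (C c⁻¹ * Polynomial.X)) X.charmatrix
    rw [h1, map_pow, show C c ^ 3 = C c ^ Fintype.card (Fin 3) from rfl, ← Matrix.det_smul, Matrix.charpoly]
    congr 1
    ext1 i j
    by_cases e : i = j
    · subst e; simp [mul_sub, ← mul_assoc, ← map_mul, hc]
    · simp [e]
  rw [this]
  exact (h.comp_of_natDegree_le_one ((natDegree_C_mul_le _ _).trans natDegree_X_le)).C_mul _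

/-- the projective representation of a matrix group -/
def prep (L : Subgroup (G3 K)) : Cfsg.Agent.MH.PRep (bar L) K where
  r x X := ∃ g : G3 K, pr g = x.1 ∧ g.val = X
  r_ex x := by
    obtain ⟨g, hg⟩ := pr_surj x.1
    exact ⟨_, g, hg, rfl⟩
  r_det := by rintro x _ ⟨g, -, rfl⟩; exact g.det_ne_zero
  r_one := ⟨1, map_one _, rfl⟩
  r_mul := by
    rintro x y _ _ ⟨g, hg, rfl⟩ ⟨h, hh, rfl⟩
    exact ⟨g * h, by rw [map_mul, hg, hh]; rfl, rfl⟩
  r_smul := by
    rintro x _ c ⟨g, hg, rfl⟩ hc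
    exact ⟨sc c hc * g, by rw [map_mul, pr_eq_one.2 (sc_mem c hc), one_mul, hg], by simp [sc]⟩
  r_uniq := by
    rintro x _ _ ⟨g, hg, rfl⟩ ⟨h, hh, rfl⟩
    exact pr_eq_iff.1 (hh.trans hg.symm)
  r_inj := by
    rintro x y _ ⟨g, hg, rfl⟩ ⟨h, hh, e⟩
    exact Subtype.ext (by rw [← hg, ← hh, Units.ext e])

variable {L : Subgroup (G3 K)}

theorem prep_R {g : G3 K} (hg : g ∈ L) : (prep L).R ⟨pr g, mem_bar hg⟩ g.val := ⟨g, rfl, rfl⟩

theorem of_R {x : bar L} {X : M3 K} (h : (prep L).R x X) : ∃ g ∈ L, pr g = x.1 ∧ ∃ c : K, c ≠ 0 ∧ X = c • g.val := by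
  obtain ⟨g, hg, e⟩ := x.2
  obtain ⟨c, h1, h2⟩ := Cfsg.Agent.MH.PRep.R.uniq (show (prep L).R x g.val from ⟨g, e, rfl⟩) h
  exact ⟨g, hg, e, c, h1, h2⟩

theorem prep_hyp (hp : ⁅L, L⁆ = L) (hi : Irr L) (hs : ∀ g ∈ L, g.val.charpoly.Splits) : (prep L).Hyp where
  perf := by
    have : ⁅bar L, bar L⁆ = bar L := by rw [bar, ← Subgroup.map_commutator, hp]
    apply Subgroup.map_injective (bar L).subtype_injective
    rw [commutator_def, Subgroup.map_commutator, ← MonoidHom.range_eq_map, Subgroup.range_subtype, this]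
  pt v hv := by
    by_contra h
    push Not at h
    rcases hi (K ∙ v) (fun g hg w hw => by
      obtain ⟨a, rfl⟩ := Submodule.mem_span_singleton.1 hw
      obtain ⟨c, hc⟩ := h _ _ (prep_R hg)
      rw [mulVec_smul, hc]
      exact Submodule.smul_mem _ _ (Submodule.smul_mem _ _ (Submodule.mem_span_singleton_self v))) with e | e
    · exact hv (Submodule.span_singleton_eq_bot.1 e)
    · have := finrank_span_singleton (K := K) hv
      rw [e] at this; simp at this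
  ln v hv := by
    by_contra h
    push Not at h
    rcases hi (LinearMap.ker (dotProductBilin K K v)) (fun g hg w hw => by
      obtain ⟨c, hc⟩ := h _ _ (prep_R hg)
      have hw' : v ⬝ᵥ w = 0 := hw
      change v ⬝ᵥ (g.val *ᵥ w) = 0
      rw [dotProduct_mulVec, hc, smul_dotProduct, hw', smul_zero]) with e | e
    · have := LinearMap.finrank_le_finrank_of_injective (LinearMap.ker_eq_bot.1 e)
      simp at this
    · apply hv
      ext i
      have : Pi.single i 1 ∈ LinearMap.ker (dotProductBilin K K v) := e ▸ Submodule.mem_top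
      simpa using this
  split h := by
    obtain ⟨g, hg, -, c, hc, rfl⟩ := of_R h
    exact splits_smul (hs g hg) hc

theorem mem_of_unip [Finite K] {u : G3 K} (hu : pr u ∈ bar L) (h : (u.val - 1) ^ 2 = 0) : u ∈ L := by
  obtain ⟨g, hg, e⟩ := hu
  obtain ⟨c, hc⟩ := pr_eq_iff.1 e
  have := Fintype.ofFinite K
  have h1 : ∀ n : ℕ, u.val ^ n = 1 + (n : K) • (u.val - 1) := fun n => by
    induction n with
    | zero => simp
    | succ n ih =>
      rw [pow_succ, ih]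
      have : u.val = 1 + (u.val - 1) := by abel
      generalize u.val - 1 = N at *
      rw [this, Nat.cast_succ, add_smul, add_mul, mul_add, mul_add, Matrix.smul_mul, Matrix.smul_mul, ← sq N, h]
      simp; abel
  have : u = (g ^ (Fintype.card K - 1))⁻¹ := by
    rw [eq_inv_iff_mul_eq_one]
    apply Units.ext
    rw [Units.val_mul, Units.val_pow_eq_pow_val, hc, _root_.smul_pow,
      FiniteField.pow_card_sub_one_eq_one c (ne_zero_of_eq_smul hc), one_smul, ← pow_succ',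
      Nat.sub_add_cancel Fintype.card_pos, h1, FiniteField.cast_card_eq_zero]
    simp
  rw [this]; exact inv_mem (pow_mem hg _)

theorem exists_unit {P Q : M3 K} (h : P * Q = 1) : ∃ A : G3 K, A.val = P ∧ (A⁻¹).val = Q :=
  ⟨⟨P, Q, h, mul_eq_one_comm.1 h⟩, rfl, rfl⟩

theorem cj_of_R {A : G3 K} (h : A.val * (A⁻¹).val = 1) {x : bar L} {X : M3 K} (hx : ((prep L).cj _ _ h).R x X) :
    ∃ g ∈ L, pr g = x.1 ∧ ∃ c : K, c ≠ 0 ∧ cj A⁻¹ g.val = c • X := by
  obtain ⟨g, hg, e, c, hc, e'⟩ := of_R (Cfsg.Agent.MH.PRep.cj_R.1 hx)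
  refine ⟨g, hg, e, c⁻¹, inv_ne_zero hc, ?_⟩
  have : g.val = c⁻¹ • (A.val * X * (A⁻¹).val) := by rw [e', smul_smul, inv_mul_cancel₀ hc, one_smul]
  rw [this, map_smul]
  congr 1
  exact cj_inv_cj A X

theorem cj_of_mem {A : G3 K} (h : A.val * (A⁻¹).val = 1) {g : G3 K} (hg : g ∈ L) {X : M3 K}
    (hx : ((prep L).cj _ _ h).R ⟨pr g, mem_bar hg⟩ X) : ∃ c : K, c ≠ 0 ∧ cj A⁻¹ g.val = c • X := by
  obtain ⟨g', -, e, c, hc, e'⟩ := cj_of_R h hx
  obtain ⟨d, hd⟩ := pr_eq_iff.1 e.symm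
  exact ⟨d * c, mul_ne_zero (ne_zero_of_eq_smul hd) hc, by rw [hd, map_smul, e', smul_smul]⟩

/-- commutators of elements rational up to scalars are rational -/
theorem over_comm {E : Subfield K} {x y : G3 K} {c d : K} {X Y : M3 K} (hx : x.val = c • X) (hy : y.val = d • Y)
    (hX : Over E X) (hY : Over E Y) : Over E (⁅x, y⁆ : G3 K).val := by
  have key : ∀ {x : G3 K} {c : K} {X : M3 K}, x.val = c • X → Over E X →
      ∃ x0 : G3 E, ∃ z ∈ Subgroup.center (G3 K), x = z * gm E.subtype x0 := fun {x c X} hx hX => by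
    have hc := ne_zero_of_eq_smul hx
    have : Over E (sc c⁻¹ (inv_ne_zero hc) * x).val := by
      simpa [sc, hx, smul_smul, hc] using hX
    obtain ⟨x0, h0⟩ := this.exists_gl
    refine ⟨x0, sc c hc, Subgroup.mem_center_iff.2 fun g => Units.ext (by simp [sc]), ?_⟩
    change x = _ * Matrix.GeneralLinearGroup.map _ _
    rw [h0]
    exact Units.ext (by simp [sc, smul_smul, hc])
  obtain ⟨x0, z, hz, rfl⟩ := key hx hX
  obtain ⟨y0, w, hw, rfl⟩ := key hy hY
  have : ⁅z * gm E.subtype x0, w * gm E.subtype y0⁆ = gm E.subtype ⁅x0, y0⁆ := by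
    rw [map_commutatorElement]
    generalize gm E.subtype x0 = a
    generalize gm E.subtype y0 = b
    have h1 := Subgroup.mem_center_iff.1 hz
    have h2 := Subgroup.mem_center_iff.1 hw
    simp only [commutatorElement_def, _root_.mul_inv_rev]
    calc z * a * (w * b) * (a⁻¹ * z⁻¹) * (b⁻¹ * w⁻¹) = z * (a * (w * b) * a⁻¹) * z⁻¹ * (b⁻¹ * w⁻¹) := by group
      _ = (a * w) * (b * a⁻¹ * b⁻¹) * w⁻¹ := by rw [← h1]; group
      _ = w * (a * b * a⁻¹ * b⁻¹) * w⁻¹ := by rw [h2]; group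
      _ = _ := by rw [← h2]; group
  rw [this]; exact over_map _

theorem of_isSL [Finite K] (hp : ⁅L, L⁆ = L) (h : (prep L).IsSL) :
    ∃ (E : Subfield K) (P : G3 K), 3 ≤ Nat.card E ∧ ∀ g, g ∈ L ↔ g.val.det = 1 ∧ Over E (cj P⁻¹ g.val) := by
  obtain ⟨P, Q, hPQ, E, h3, h1, h2⟩ := h
  obtain ⟨A, rfl, rfl⟩ := exists_unit hPQ
  let φ : G3 E →* G3 K := (MulAut.conj A).toMonoidHom.comp (gm E.subtype)
  refine ⟨E, A, h3, fun g => ⟨fun hg => ⟨det_eq_one_of_perfect hp hg, ?_⟩, fun ⟨h4, h5⟩ => ?_⟩⟩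
  · have : L ≤ φ.range := by
      rw [← hp, Subgroup.commutator_le]
      intro x hx y hy
      obtain ⟨X, a1, a2⟩ := h2 ⟨pr x, mem_bar hx⟩
      obtain ⟨Y, b1, b2⟩ := h2 ⟨pr y, mem_bar hy⟩
      obtain ⟨c, -, hc⟩ := cj_of_mem hPQ hx a1
      obtain ⟨d, -, hd⟩ := cj_of_mem hPQ hy b1
      rw [cj_coe] at hc hd
      obtain ⟨z, hz⟩ := (over_comm hc hd a2 b2).exists_gl
      refine ⟨z, ?_⟩
      change A * gm E.subtype z * A⁻¹ = _
      rw [hz]; simp only [commutatorElement_def]; group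
    obtain ⟨z, rfl⟩ := this hg
    change Over E (cj A⁻¹ (A * gm E.subtype z * A⁻¹).val)
    rw [← cj_coe, cj_inv_cj]; exact over_map _
  · rw [cj_coe] at h5
    obtain ⟨z, hz⟩ := h5.exists_gl
    have hd : z.val.det = 1 := E.subtype.injective (by rw [← det_gm, hz, det_conj _ h4, map_one])
    have : g = φ (SpecialLinearGroup.toGL ⟨z.val, hd⟩) := by
      rw [show SpecialLinearGroup.toGL ⟨z.val, hd⟩ = z from Units.ext rfl]
      change g = A * gm E.subtype z * A⁻¹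
      rw [hz]; group
    rw [this]
    refine sl3_ind (fun B => φ (SpecialLinearGroup.toGL B) ∈ L) (fun i j hij r => ?_)
      (fun _ _ a b => by rw [map_mul, map_mul]; exact mul_mem a b) _
    obtain ⟨-, x, hx⟩ := h1 i j hij r r.2
    obtain ⟨g, hg, -, c, hc, e⟩ := cj_of_R hPQ hx
    have e1 : (φ (SpecialLinearGroup.toGL (SpecialLinearGroup.transvection hij r))).val =
        cj A (1 + Matrix.single i j (r : K)) := by
      change (A * gm E.subtype _ * A⁻¹).val = _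
      rw [← cj_coe]; congr 1
      ext a b; simp [SpecialLinearGroup.transvection_coe, one_apply, single_apply, apply_ite ((↑) : E → K)]
    refine mem_of_unip ⟨g, hg, pr_eq_iff.2 ⟨c, ?_⟩⟩ ?_
    · rw [e1, ← cj_cj_inv A g.val, e, map_smul]
      congr 2
      ext a b
      simp only [Cfsg.Agent.MH.T, Matrix.add_apply, vecMulVec_apply, single_apply, Pi.single_apply, add_right_inj]
      by_cases e1 : a = i <;> by_cases e2 : b = j <;> simp [e1, e2, Ne.symm]
    · rw [e1, map_add, map_one, add_sub_cancel_left, ← map_pow, sq, single_mul_single_of_ne _ _ _ _ hij.symm,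
        map_zero]

theorem of_isSU [Finite K] (hp : ⁅L, L⁆ = L) (h : (prep L).IsSU) :
    ∃ (E : Subfield K) (q : ℕ) (P : G3 K), 3 ≤ q ∧ Nat.card E = q ^ 2 ∧ ∀ g, g ∈ L ↔ g.val.det = 1 ∧
    Over E (cj P⁻¹ g.val) ∧ (cj P⁻¹ g.val)ᵀ * (cj P⁻¹ g.val).map (· ^ q) = 1 := by
  obtain ⟨P, Q, hPQ, E, q, β, h3, hE, hβ, hβ', h1, h2⟩ := h
  obtain ⟨A, rfl, rfl⟩ := exists_unit hPQ
  obtain ⟨P', h⟩ := H6.SU.su_glue L hp E q h3 hE β hβ hβ' A (fun i e he => by
    obtain ⟨-, x, hx⟩ := h1 i e he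
    obtain ⟨g, hg, -, c, -, e⟩ := cj_of_R hPQ hx
    exact ⟨g, hg, c, e⟩) (fun g hg => by
    obtain ⟨G, f, a1, a2, a3⟩ := h2 ⟨pr g, mem_bar hg⟩
    obtain ⟨c, -, hc⟩ := cj_of_mem hPQ hg a1
    exact ⟨c, f, G, a2, hc, a3⟩)
  exact ⟨E, q, P', h3, hE, h⟩

theorem of_isConic (hp : ⁅L, L⁆ = L) (h : (prep L).IsConic) :
    (2 : K) ≠ 0 ∧ ∃ B : M3 K, Bᵀ = B ∧ B.det ≠ 0 ∧ ∀ g ∈ L, g.valᵀ * B * g.val = B := by
  obtain ⟨h2, B, h3, h4, h⟩ := h
  refine ⟨h2, B, h3, h4, ?_⟩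
  have mul : ∀ (x y : G3 K) (c d : K), x.valᵀ * B * x.val = c • B → y.valᵀ * B * y.val = d • B →
      (x * y).valᵀ * B * (x * y).val = (c * d) • B := fun x y c d hx hy => by
    rw [Units.val_mul, Matrix.transpose_mul]
    calc _ = y.valᵀ * (x.valᵀ * B * x.val) * y.val := by simp only [Matrix.mul_assoc]
      _ = _ := by rw [hx, Matrix.mul_smul, Matrix.smul_mul, hy, smul_smul]
  have uniq : ∀ {c d : K}, c • B = d • B → c = d := fun {c d} e => by
    by_contra hne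
    apply h4
    rw [(smul_eq_zero.1 (show (c - d) • B = 0 by rw [sub_smul, e, sub_self])).resolve_left (sub_ne_zero.2 hne)]
    simp
  let N : Subgroup (G3 K) :=
    { carrier := {g | g.valᵀ * B * g.val = B}
      one_mem' := by simp
      mul_mem' := fun {x y} hx hy => by simpa using mul x y 1 1 (by simpa using hx) (by simpa using hy)
      inv_mem' := fun {x} hx => by
        change (x⁻¹).valᵀ * B * (x⁻¹).val = B
        nth_rewrite 1 [← show x.valᵀ * B * x.val = B from hx]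
        rw [← Matrix.mul_assoc, ← Matrix.mul_assoc, ← Matrix.transpose_mul, Matrix.mul_assoc, Units.mul_inv]
        simp }
  change L ≤ N
  rw [← hp, Subgroup.commutator_le]
  intro x hx y hy
  obtain ⟨a, ha⟩ := h _ _ (prep_R hx)
  obtain ⟨a', ha'⟩ := h _ _ (prep_R (inv_mem hx))
  obtain ⟨b, hb⟩ := h _ _ (prep_R hy)
  obtain ⟨b', hb'⟩ := h _ _ (prep_R (inv_mem hy))
  have e1 : a * a' = 1 := uniq (by simpa using (mul _ _ _ _ ha ha').symm)
  have e2 : b * b' = 1 := uniq (by simpa using (mul _ _ _ _ hb hb').symm)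
  have := mul _ _ _ _ (mul _ _ _ _ (mul _ _ _ _ ha hb) ha') hb'
  rwa [show a * b * a' * b' = 1 by linear_combination b * b' * e1 + e2, one_smul] at this

theorem of_isA7 (h : (prep L).IsA7) : (5 : K) = 0 ∧ Nonempty (PQ L ≃* alternatingGroup (Fin 7)) := by
  obtain ⟨h5, hc, P, Q, hPQ, ω, a, v, φ, hω, ha, h0, h1, h2, ⟨x1, e1⟩, ⟨x2, e2⟩, ⟨x3, e3⟩, x4, e4⟩ := h
  obtain ⟨A, rfl, rfl⟩ := exists_unit hPQ
  let L' := L.map (MulAut.conj A⁻¹).toMonoidHom
  have e : PQ L ≃* PQ L' := QuotientGroup.congr _ _ (L.equivMapOfInjective _ (MulAut.conj A⁻¹).injective) (by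
    have k : ∀ x : G3 K, A⁻¹ * x * A⁻¹⁻¹ ∈ Sc K ↔ x ∈ Sc K := fun x => by
      rw [← pr_eq_one, ← pr_eq_one, map_mul, map_mul, map_inv pr A⁻¹, mul_inv_eq_one, mul_eq_left]
    ext ⟨_, x, hx, rfl⟩
    simp only [Subgroup.mem_map, Subgroup.mem_subgroupOf]
    constructor
    · rintro ⟨y, hy, e⟩
      have : A⁻¹ * y.1 * A⁻¹⁻¹ = A⁻¹ * x * A⁻¹⁻¹ := congrArg Subtype.val e
      change A⁻¹ * x * A⁻¹⁻¹ ∈ Sc K
      rw [← this, k]; exact hy
    · intro h
      exact ⟨⟨x, hx⟩, (k x).1 h, rfl⟩)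
  have key : ∀ {x : bar L} {X : M3 K}, ((prep L).cj _ _ hPQ).R x X → ∃ g ∈ L' ⊔ Sc K, g.val = X := fun hx => by
    obtain ⟨g, hg, -, c, hc, e⟩ := cj_of_R hPQ hx
    rw [cj_coe] at e
    refine ⟨(A⁻¹ * g * A⁻¹⁻¹) * sc c⁻¹ (inv_ne_zero hc), mul_mem (Subgroup.mem_sup_left ⟨g, hg, rfl⟩)
      (Subgroup.mem_sup_right (sc_mem _ _)), ?_⟩
    rw [Units.val_mul, e]; simp [sc, smul_smul, hc]
  obtain ⟨g1, m1, f1⟩ := key e1
  obtain ⟨g2, m2, f2⟩ := key e2
  obtain ⟨g3, m3, f3⟩ := key e3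
  obtain ⟨g4, m4, f4⟩ := key e4
  obtain ⟨f⟩ := A7_of_gens h5 hω L' (by rw [← Nat.card_congr e.toEquiv, ← card_bar, hc]) m1 m2 m3 m4 f1 f2 f3 f4
    ha h0 h1 h2
  exact ⟨h5, ⟨e.trans f⟩⟩

theorem main_of [Finite K] (L : Subgroup (G3 K)) (hp : ⁅L, L⁆ = L) (hi : Irr L)
    (hs : ∀ g ∈ L, g.val.charpoly.Splits)
    (hB : ∀ ρ : Cfsg.Agent.MH.PRep (bar L) K, ρ.Hyp → ρ.Small → ρ.OutB) : Concl L := by
  have H := prep_hyp hp hi hs
  rcases Cfsg.Agent.MH.PRep.caseA H with h | h | h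
  · exact .inl (of_isSL hp h)
  · exact .inr (.inl (of_isSU hp h))
  rcases hB _ H h with h | h | ⟨h1, R, h2, h3, h4⟩ | h
  · exact .inr (.inr (.inl (of_isConic hp h)))
  · exact .inr (.inr (.inr (.inl (card_bar L ▸ h))))
  · have : Finite (bar L) := Nat.finite_of_card_ne_zero (by omega)
    obtain ⟨e⟩ := A6_of h1 R h2 h3 h4
    exact .inr (.inr (.inr (.inr (.inl ⟨(pqEquiv L).trans e⟩))))
  · exact .inr (.inr (.inr (.inr (.inr (of_isA7 h)))))

theorem mhMain_of (hB : ∀ {Γ K : Type u} [Group Γ] [Field K] [Finite Γ] [Finite K] {ρ : Cfsg.Agent.MH.PRep Γ K},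
    ρ.Hyp → ρ.Small → ρ.OutB) : MHMain.{u} := fun K _ _ L hp hi hs =>
  have : Finite (PG3 K) := Finite.of_surjective _ pr_surj
  main_of L hp hi hs fun _ => hB

end Cfsg.Agent.H5.MH
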