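import Cfsg.Agent.H5.MH13
import Cfsg.Agent.H5.MHMain

set_option autoImplicit false

/-! A perfect group without abelian normal subgroups is absolutely irreducible in odd characteristic. -/

namespace Cfsg.Agent.H5.MH
open Cfsg Matrix Cfsg.Agent.Asch Cfsg.Agent.H4 Cfsg.Agent.H4.Mob
open Cfsg.Agent.MH (PRep V3 col3 Ind)
open scoped commutatorElement

universe u
variable {K : Type*} [Field K] [Finite K] {Γ : Type*} [Group Γ] [Finite Γ]

theorem even_card (h2 : (2 : K) ≠ 0) (M : Subgroup (PG K)) (h : NA M) (h0 : M ≠ ⊥) : 2 ∣ Nat.card M := by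
  rcases dick h2 M h h0 with ⟨-, ⟨e⟩⟩ | ⟨E, -, he⟩
  · rw [Nat.card_congr e.toEquiv, Small.card_A5]; norm_num
  have ho := Pair.odd_of_two_ne (Subf.two_ne_sub h2 E)
  have h1 := MobCard.card_PS_odd E ho
  rcases he with ⟨⟨e⟩⟩ | ⟨⟨e⟩⟩ <;> rw [Nat.card_congr e.toEquiv]
  · obtain ⟨k, hk⟩ := ho
    rw [hk, Nat.add_sub_cancel] at h1
    exact ⟨(k + 1) * (2 * k + 1) * k, by linarith⟩
  · rw [MobCard.card_PG, ← h1]; exact dvd_mul_right _ _

theorem no_line (h2 : (2 : K) ≠ 0) (ρ : PRep Γ K) (hp : commutator Γ = ⊤) (hN : NA Γ) [Nontrivial Γ]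
    (hs : ∀ x X, ρ.R x X → X 2 0 = 0 ∧ X 2 1 = 0) : False := by
  have mem : ∀ x, x ∈ ρ.stabL := fun x => (ρ.ex x).elim fun X hX => ⟨X, hX, hs x X hX⟩
  let π : Γ →* PG K := ρ.pi.comp ((MonoidHom.id Γ).codRestrict ρ.stabL mem)
  have hπ : ∀ {x X} (h : ρ.R x X), π x = mob _ _ _ _ (h.minor (mem x)) := fun h => h.pi_eq _
  have nf : ∀ x, ∃ a b c d u w, ρ.R x !![a, b, u; c, d, w; 0, 0, 1] := fun x => by
    obtain ⟨X, hX⟩ := ρ.ex x
    obtain ⟨h0, h1⟩ := hs x X hX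
    have h3 := (Cfsg.Agent.MH.minor_ne hX.det h0 h1).2
    refine ⟨(X 2 2)⁻¹ * X 0 0, (X 2 2)⁻¹ * X 0 1, (X 2 2)⁻¹ * X 1 0, (X 2 2)⁻¹ * X 1 1, (X 2 2)⁻¹ * X 0 2,
      (X 2 2)⁻¹ * X 1 2, (hX.smul (inv_ne_zero h3)).congr ?_⟩
    ext i j; fin_cases i <;> fin_cases j <;> simp [h0, h1, h3]
  have hk : ∀ x : π.ker, ∃ a u w, ρ.R x.1 !![a, 0, u; 0, a, w; 0, 0, 1] := fun x => by
    obtain ⟨a, b, c, d, u, w, h⟩ := nf x
    obtain ⟨h1, h3, h4⟩ := mob_eq_one.1 ((hπ h).symm.trans x.2)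
    simp at h1 h3 h4
    subst h1 h3 h4
    exact ⟨_, _, _, h⟩
  have hc : ∀ x y : π.ker, ∃ u w, ρ.R (⁅x, y⁆ : π.ker).1 !![1, 0, u; 0, 1, w; 0, 0, 1] := fun x y => by
    obtain ⟨a, u, w, h⟩ := hk x
    obtain ⟨a', u', w', h'⟩ := hk y
    refine ⟨a * u' + u - a' * u - u', a * w' + w - a' * w - w', ((h'.mul h).of_mul_right ((h.mul h').congr ?_)).congr'
      (by simp [commutatorElement_def, mul_assoc])⟩
    ext i j; fin_cases i <;> fin_cases j <;> simp [Matrix.mul_apply, Fin.sum_univ_succ] <;> ring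
  have hi : Function.Injective π := (injective_iff_map_eq_one _).2 fun x hx =>
    congrArg Subtype.val ((hN.normal π.ker).meta (fun a b c d => Subtype.ext (by
      obtain ⟨u, w, h⟩ := hc a b
      obtain ⟨u', w', h'⟩ := hc c d
      refine h.comm_of h' ?_
      ext i j; fin_cases i <;> fin_cases j <;> simp [Matrix.mul_apply, Fin.sum_univ_succ] <;> ring)) ⟨x, hx⟩)
  choose a b c d u w hx using nf
  let χ : Γ →* Kˣ := MonoidHom.mk' (fun x => Units.mk0 (a x * d x - b x * c x) ((hx x).minor (mem x))) fun x y => by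
    obtain ⟨e, -, he⟩ := ((hx x).mul (hx y)).uniq (hx (x * y))
    have f : ∀ i j, _ := fun i j => congrFun (congrFun he i) j
    have f0 := f 0 0
    have f1 := f 0 1
    have f2 := f 1 0
    have f3 := f 1 1
    have f4 := f 2 2
    simp at f0 f1 f2 f3 f4
    ext
    change a _ * d _ - b _ * c _ = (a _ * d _ - b _ * c _) * (a _ * d _ - b _ * c _)
    rw [f0, f1, f2, f3, ← f4]
    ring
  have h3 := even_card h2 π.range (hN.congr (MonoidHom.ofInjective hi)) fun e => by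
    obtain ⟨x, hx⟩ := exists_ne (1 : Γ)
    exact hx (hi (by rw [map_one, ← Subgroup.mem_bot, ← e]; exact ⟨x, rfl⟩))
  rw [← Nat.card_congr (MonoidHom.ofInjective hi).toEquiv] at h3
  obtain ⟨t, ht⟩ := exists_prime_orderOf_dvd_card' 2 h3
  have h4 : a t * d t - b t * c t = 1 :=
    congrArg Units.val (Abelianization.commutator_subset_ker χ (hp ▸ Subgroup.mem_top t : t ∈ commutator Γ))
  obtain ⟨e, he⟩ := ((hx t).mul (hx t)).eq_one_iff.1 (by rw [← sq, ← ht, pow_orderOf_eq_one])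
  have f : ∀ i j, _ := fun i j => congrFun (congrFun he i) j
  have f0 := f 0 0
  have f1 := f 0 1
  have f2 := f 1 0
  have f3 := f 1 1
  have f4 := f 2 2
  simp [Matrix.mul_apply, Fin.sum_univ_succ] at f0 f1 f2 f3 f4
  rw [← f4] at f0 f3
  have h5 : a t + d t ≠ 0 := fun h => h2 (by linear_combination -f0 - h4 + a t * h)
  have h6 : t = 1 := hi (by
    rw [map_one, hπ (hx t), mob_eq_one]
    change b t = 0 ∧ c t = 0 ∧ a t = d t
    exact ⟨mul_left_cancel₀ h5 (by linear_combination f1), mul_left_cancel₀ h5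
      (by linear_combination f2), mul_left_cancel₀ h5 (by linear_combination f0 - f3)⟩)
  simp [h6] at ht

theorem no_pt (h2 : (2 : K) ≠ 0) (ρ : PRep Γ K) (hp : commutator Γ = ⊤) (hN : NA Γ) [Nontrivial Γ] {v : V3 K}
    (hv : v ≠ 0) (hs : ∀ x X, ρ.R x X → ∃ c : K, X *ᵥ v = c • v) : False := by
  obtain ⟨u, hu⟩ := Cfsg.Agent.MH.exists_ind hv
  obtain ⟨w, hw⟩ := hu.exists_third
  obtain ⟨Q, hQ⟩ := Cfsg.Agent.MH.exists_inv (P := col3 u w v) (by
    rw [Cfsg.Agent.MH.det_col3_eq] at hw ⊢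
    rwa [dotProduct_comm, triple_product_permutation, triple_product_permutation, dotProduct_comm])
  refine no_line h2 (ρ.cj _ _ hQ).tp hp hN fun x X hX => ?_
  obtain ⟨c, hc⟩ := hs _ _ hX
  have h1 := Cfsg.Agent.MH.PRep.col3_e2 u w v
  generalize col3 u w v = P at *
  rw [← h1, Cfsg.Agent.MH.PRep.cj_mulVec hQ, ← mulVec_smul] at hc
  have := congrArg (Q *ᵥ ·) hc
  simp only [mulVec_mulVec, ← Matrix.mul_assoc, mul_eq_one_comm.1 hQ, Matrix.one_mul, one_mulVec] at this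
  exact ⟨by simpa [mulVec, dotProduct, Fin.sum_univ_succ] using congrFun this 0,
    by simpa [mulVec, dotProduct, Fin.sum_univ_succ] using congrFun this 1⟩

theorem irr_of_NA (h2 : (2 : K) ≠ 0) {L : Subgroup (G3 K)} (hp : ⁅L, L⁆ = L) (hN : NA (bar L)) (h0 : bar L ≠ ⊥) :
    Irr L := fun W hW => by
  have : Finite (PG3 K) := Finite.of_surjective _ pr_surj
  have := (Subgroup.nontrivial_iff_ne_bot _).2 h0
  have hc : commutator (bar L) = ⊤ := (perfect_bar hp).commutator_eq_top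
  have hW' : ∀ x X, (prep L).R x X → ∀ v ∈ W, X *ᵥ v ∈ W := fun x X hX v hv => by
    obtain ⟨g, hg, -, c, -, rfl⟩ := of_R hX
    rw [smul_mulVec]
    exact W.smul_mem _ (hW g hg v hv)
  by_contra h
  obtain ⟨h1, h3⟩ := not_or.1 h
  obtain ⟨v, hv, hv0⟩ := W.exists_mem_ne_zero_of_ne_bot h1
  by_cases h4 : ∀ w ∈ W, ∃ c : K, w = c • v
  · exact no_pt h2 (prep L) hc hN hv0 fun x X hX => h4 _ (hW' x X hX v hv)
  push Not at h4
  obtain ⟨w, hw, h4⟩ := h4
  have h5 := (Cfsg.Agent.MH.ind_iff hv0).2 h4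
  have h6 : ∀ z ∈ W, (v ⨯₃ w) ⬝ᵥ z = 0 := fun z hz => by
    by_contra h7
    refine h3 (eq_top_iff.2 fun y _ => ?_)
    obtain ⟨a, b, c, rfl⟩ := Cfsg.Agent.MH.span_of_det (by rwa [Cfsg.Agent.MH.det_col3_eq]) y
    exact add_mem (add_mem (W.smul_mem _ hv) (W.smul_mem _ hw)) (W.smul_mem _ hz)
  refine no_pt h2 (prep L).tp hc hN h5.cross_ne fun x X hX => h5.eq_smul_cross ?_ ?_
  · rw [← transpose_transpose X, mulVec_transpose, ← dotProduct_mulVec]; exact h6 _ (hW' _ _ hX v hv)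
  · rw [← transpose_transpose X, mulVec_transpose, ← dotProduct_mulVec]; exact h6 _ (hW' _ _ hX w hw)

omit [Finite K] in
theorem eq_of_eigen {L : Subgroup (G3 K)} (hi : Irr L) {Z : M3 K} (hZ : ∀ x ∈ L, Z * x.val = x.val * Z) {μ : K}
    (h : (Z - μ • 1).det = 0) : Z = μ • 1 := by
  rcases hi (LinearMap.ker (Matrix.toLin' (Z - μ • 1))) (fun g hg v hv => by
    have hv' : (Z - μ • 1) *ᵥ v = 0 := hv
    change (Z - μ • 1) *ᵥ (g.val *ᵥ v) = 0
    rw [mulVec_mulVec, show (Z - μ • 1) * g.val = g.val * (Z - μ • 1) by simp [sub_mul, mul_sub, hZ g hg],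
      ← mulVec_mulVec, hv', mulVec_zero]) with e | e
  · obtain ⟨v, h0, hv⟩ := Matrix.exists_mulVec_eq_zero_iff.2 h
    exact (h0 (by rw [← Submodule.mem_bot K, ← e]; exact hv)).elim
  · exact sub_eq_zero.1 (Matrix.toLin'.map_eq_zero_iff.1 (LinearMap.ker_eq_top.1 e))

theorem full_of_NA {F : Type u} [Field F] [Finite F] (h2 : (2 : F) ≠ 0) {L : Subgroup (G3 F)} (hp : ⁅L, L⁆ = L)
    (hN : NA (bar L)) (h0 : bar L ≠ ⊥) : Full (Geo.matrixSet L) := by
  have hi := irr_of_NA h2 hp hN h0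
  refine full_of_absIrr hi fun Z hZ => ?_
  by_cases hd : Z.det = 0
  · exact ⟨0, eq_of_eigen hi hZ (by simpa using hd)⟩
  obtain ⟨K, _, _, φ, hφ⟩ := exists_ext F
  let e : bar L ≃* bar (L.map (gm φ)) := ((pqEquiv L).symm.trans (pqMap φ L)).trans (pqEquiv _)
  have hi' := irr_of_NA (L := L.map (gm φ)) (by rw [← map_ofNat φ 2]; exact (map_ne_zero φ).2 h2)
    (by rw [← Subgroup.map_commutator, hp]) (hN.congr e) fun h => h0 (by
      rw [← Subgroup.card_eq_one, Nat.card_congr e.toEquiv, h, Subgroup.card_bot])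
  let g : G3 F := GeneralLinearGroup.mkOfDetNeZero Z hd
  obtain ⟨μ, hμ⟩ := (hφ g).exists_eval_eq_zero (by rw [Matrix.charpoly_degree_eq_dim]; simp)
  have := eq_of_eigen hi' (Z := (gm φ g).val) (by
    rintro _ ⟨x, hx, rfl⟩
    rw [← Units.val_mul, ← Units.val_mul, ← map_mul, ← map_mul, show g * x = x * g from Units.ext (hZ x hx)]) (μ := μ)
    (by rw [Matrix.eval_charpoly] at hμ
        rw [← neg_sub, det_neg, smul_one_eq_diagonal]
        simpa using hμ)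
  exact pr_eq_one'.1 ((pr_gm φ g).1 (pr_eq_one'.2 ⟨μ, this⟩))

end Cfsg.Agent.H5.MH
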