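import Cfsg.Agent.H5.MH14

set_option autoImplicit false

/-! Normalisers of fixed point groups, and models of the subfield groups. -/

namespace Cfsg.Agent.H5.MH
open Cfsg Matrix Cfsg.Agent.Asch Cfsg.Agent.H4 Cfsg.Agent.H4.Mob

variable {F : Type*} [Field F] {G : Type*} [Group G]

theorem exists_qI (ψ : G →* G3 F) (hk : ∀ g, pr (ψ g) = 1 ↔ g ∈ Subgroup.center G) :
    ∃ Φ : G ⧸ Subgroup.center G →* PG3 F, Function.Injective Φ ∧ ∀ g : G, Φ g = pr (ψ g) := by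
  refine ⟨QuotientGroup.lift _ (pr.comp ψ) fun g hg => (hk g).2 hg, (injective_iff_map_eq_one _).2 fun x hx => ?_,
    fun _ => rfl⟩
  obtain ⟨g, rfl⟩ := QuotientGroup.mk_surjective x
  exact (QuotientGroup.eq_one_iff g).2 ((hk g).1 hx)

theorem iso_bar (ψ : G →* G3 F) (hi : Function.Injective ψ) {L : Subgroup (G3 F)} (hL : ∀ g, g ∈ L ↔ ∃ x, ψ x = g)
    (hF : Full (Geo.matrixSet L)) : Nonempty (bar L ≃* G ⧸ Subgroup.center G) := by
  obtain ⟨Φ, h1, h2⟩ := exists_qI ψ fun g => ⟨fun h => Subgroup.mem_center_iff.2 fun x => hi (by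
    rw [map_mul, map_mul, sc_central h]), fun h => pr_eq_one'.2 (hF.isSc (by
      rintro _ ⟨y, hy, rfl⟩
      obtain ⟨x, rfl⟩ := (hL y).1 hy
      exact congrArg Units.val (by rw [← map_mul, ← Subgroup.mem_center_iff.1 h, map_mul] : ψ g * ψ x = ψ x * ψ g)))⟩
  refine ⟨(MulEquiv.subgroupCongr (le_antisymm ?_ ?_)).trans (MonoidHom.ofInjective h1).symm⟩
  · rintro _ ⟨y, hy, rfl⟩
    obtain ⟨x, rfl⟩ := (hL y).1 hy
    exact ⟨x, h2 x⟩
  · rintro _ ⟨x, rfl⟩
    obtain ⟨g, rfl⟩ := QuotientGroup.mk_surjective x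
    exact h2 g ▸ mem_bar ((hL _).2 ⟨g, rfl⟩)

theorem sc_mul (c d : F) (hc : c ≠ 0) (hd : d ≠ 0) : sc c hc * sc d hd = sc (c * d) (mul_ne_zero hc hd) :=
  Units.ext (by simp [smul_smul, mul_comm])

theorem pr_sc (c : F) (hc : c ≠ 0) : pr (sc c hc) = 1 := pr_eq_one.2 (sc_mem c hc)

theorem det_sc {z : G3 F} (h : pr z = 1) (h3 : z ^ 3 = 1) : z.val.det = 1 := by
  obtain ⟨c, hc⟩ := pr_eq_one'.1 h
  have : z.val ^ 3 = 1 := congrArg Units.val h3
  rw [hc, smul_pow, one_pow] at this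
  simpa [hc] using congrFun (congrFun this 0) 0

theorem exists_twist (θ : G3 F →* G3 F) {L M : Subgroup (G3 F)} (hL : ∀ g ∈ L, θ g = g) (hF : Full (Geo.matrixSet L))
    (hn : NormsG M L) {m : G3 F} (hm : m ∈ M) : ∃ z, pr z = 1 ∧ θ m = z * m := by
  refine ⟨θ m * m⁻¹, pr_eq_one'.2 (hF.isSc ?_), by simp⟩
  rintro _ ⟨y, hy, rfl⟩
  have h1 := hL _ (hn _ (inv_mem hm) y hy)
  simp only [map_mul, map_inv, hL y hy, inv_inv] at h1
  refine congrArg Units.val (?_ : θ m * m⁻¹ * y = y * (θ m * m⁻¹))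
  calc θ m * m⁻¹ * y = θ m * (m⁻¹ * y * m) * m⁻¹ := by group
    _ = _ := by rw [← h1]; group

theorem twist (θ : G3 F →* G3 F) (hdet : ∀ g : G3 F, g.val.det = 1 → (θ g).val.det = 1) {L M : Subgroup (G3 F)}
    (hL : ∀ g, g ∈ L ↔ g.val.det = 1 ∧ θ g = g) (hF : Full (Geo.matrixSet L)) (hd : ∀ m ∈ M, m.val.det = 1)
    (hn : NormsG M L) {A : Prop} (hA : ∀ z, pr z = 1 → z ^ 3 = 1 → (A → θ z = z) ∧ (¬ A → θ z = z ^ 2)) {N : ℕ}
    (hN : ∀ g, θ^[N] g = g) : bar M ≤ bar L ∨ (A ∧ 3 ∣ N ∧ (bar L).relIndex (bar M) = 3) := by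
  choose z hz hθ using fun m : M => exists_twist θ (fun g hg => ((hL g).1 hg).2) hF hn m.2
  have h3 : ∀ m, z m ^ 3 = 1 := fun m => sc_cube (by
    have := hdet _ (hd _ m.2)
    rwa [hθ, Units.val_mul, det_mul, hd _ m.2, mul_one] at this) (hz m)
  have hc : ∀ m g, g * z m = z m * g := fun m => sc_central (hz m)
  by_cases h0 : A; swap
  · left
    rintro _ ⟨m, hm, rfl⟩
    have h1 : pr (z ⟨m, hm⟩ ^ 2) = 1 := by rw [map_pow, hz, one_pow]
    have h2 : (z ⟨m, hm⟩ ^ 2) ^ 3 = 1 := by rw [← pow_mul, mul_comm, pow_mul, h3, one_pow]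
    refine ⟨z ⟨m, hm⟩ ^ 2 * m, (hL _).2 ⟨by rw [Units.val_mul, det_mul, det_sc h1 h2, hd m hm, mul_one], ?_⟩,
      by rw [map_mul, h1, one_mul]⟩
    rw [map_mul, (hA _ h1 h2).2 h0, hθ ⟨m, hm⟩, ← mul_assoc, ← pow_mul, ← pow_succ, show 2 * 2 + 1 = 3 + 2 from rfl,
      pow_add, h3, one_mul]
  by_cases h1 : ∀ m, z m = 1
  · left
    rintro _ ⟨m, hm, rfl⟩
    exact mem_bar ((hL m).2 ⟨hd m hm, by rw [hθ ⟨m, hm⟩, h1, one_mul]⟩)
  obtain ⟨m, hm⟩ := not_forall.1 h1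
  have ho : orderOf (z m) = 3 := orderOf_eq_prime (h3 m) hm
  refine .inr ⟨h0, ?_, ?_⟩
  · have : ∀ k, θ^[k] m = z m ^ k * m := fun k => by
      induction k with
      | zero => simp
      | succ k ih => rw [Function.iterate_succ_apply', ih, map_mul, map_pow, (hA _ (hz m) (h3 m)).1 h0, hθ, pow_succ,
          mul_assoc]
    rw [← ho, orderOf_dvd_iff_pow_eq_one]
    simpa [hN] using (this N).symm
  choose c hc' using fun m => pr_eq_one'.1 (hz m)
  have hc0 : ∀ m, c m ≠ 0 := fun m => ne_zero_of_eq_smul (hc' m)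
  have hi : ∀ {a b : F}, a • (1 : M3 F) = b • 1 → a = b := fun h => by simpa using congrFun (congrFun h 0) 0
  let χ : M →* Fˣ := MonoidHom.mk' (fun m => Units.mk0 (c m) (hc0 m)) fun a b => Units.ext (hi (by
    have : z (a * b) = z a * z b := mul_right_cancel (b := a.1 * b.1) (by
      rw [← Subgroup.coe_mul, ← hθ, Subgroup.coe_mul, map_mul, hθ, hθ, mul_assoc, mul_assoc, ← mul_assoc a.1, hc,
        mul_assoc])
    change c (a * b) • _ = (c a * c b) • _
    rw [← hc', this, Units.val_mul, hc', hc', smul_mul_smul, mul_one]))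
  have hχ : ∀ m, χ m = 1 ↔ z m = 1 := fun m => ⟨fun h => Units.ext (by
    rw [hc', show c m = 1 from congrArg Units.val h, one_smul, Units.val_one]), fun h => Units.ext (hi (by
      change c m • _ = (1 : F) • _
      rw [← hc', h, one_smul, Units.val_one]))⟩
  have hχ3 : ∀ m, χ m ^ 3 = 1 := fun m => Units.ext (cube_of_sc (det_sc (hz m) (h3 m)) (hc' m))
  have hk : ((bar L).comap pr).subgroupOf M = χ.ker := by
    ext a
    rw [MonoidHom.mem_ker, hχ]
    refine ⟨fun ⟨l, hl, e⟩ => ?_, fun h => mem_bar ((hL _).2 ⟨hd _ a.2, (hθ a).trans (by rw [h, one_mul]; rfl)⟩)⟩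
    have h4 : pr (a.1 * l⁻¹) = 1 := by rw [map_mul, map_inv, e]; exact mul_inv_cancel _
    have h5 := (hA _ h4 (sc_cube (by rw [Units.val_mul, det_mul, hd _ a.2, det_inv ((hL l).1 hl).1, mul_one]) h4)).1 h0
    rw [map_mul, map_inv, ((hL l).1 hl).2, hθ] at h5
    simpa using h5
  rw [bar, bar, ← Subgroup.relIndex_comap, Subgroup.relIndex, ← bar, hk, Subgroup.index_ker]
  have h4 : Nat.card χ.range ≤ 3 := (Subgroup.card_le_of_le (K := rootsOfUnity 3 F) (by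
    rintro _ ⟨a, rfl⟩; exact hχ3 a)).trans (card_rootsOfUnity F 3)
  have h5 : orderOf (χ m) ∣ Nat.card χ.range := Subgroup.orderOf_dvd_natCard _ ⟨m, rfl⟩
  rw [orderOf_eq_prime (hχ3 m) fun h => hm ((hχ m).1 h)] at h5
  have : Finite χ.range := Finite.of_injective _ (Subgroup.inclusion_injective (K := rootsOfUnity 3 F) (by
    rintro _ ⟨a, rfl⟩; exact hχ3 a))
  exact le_antisymm h4 (Nat.le_of_dvd Nat.card_pos h5)

/-- a conjugated endomorphism -/
def tw (P : G) (θ : G →* G) : G →* G := ((MulAut.conj P).toMonoidHom.comp θ).comp (MulAut.conj P⁻¹).toMonoidHom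

theorem tw_apply (P : G) (θ : G →* G) (g : G) : tw P θ g = P * θ (P⁻¹ * g * P⁻¹⁻¹) * P⁻¹ := rfl

theorem tw_eq {P : G} {θ : G →* G} {g : G} : tw P θ g = g ↔ θ (P⁻¹ * g * P⁻¹⁻¹) = P⁻¹ * g * P⁻¹⁻¹ := by
  rw [tw_apply, mul_inv_eq_iff_eq_mul, ← eq_inv_mul_iff_mul_eq, inv_inv, mul_assoc]

theorem tw_iter (P : G) {θ : G →* G} {N : ℕ} (h : ∀ g, θ^[N] g = g) (g : G) : (tw P θ)^[N] g = g := by
  have : Function.Semiconj (MulAut.conj P) θ (tw P θ) := fun x => by simp [tw_apply, mul_assoc]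
  have := this.iterate_right N (P⁻¹ * g * P)
  simpa [h, mul_assoc] using this.symm

theorem tw_sc (P : G3 F) {θ : G3 F →* G3 F} {z : G3 F} (hz : pr z = 1) {k : ℕ} (h : θ z = z ^ k) : tw P θ z = z ^ k := by
  rw [tw_apply, sc_central hz, inv_inv, inv_mul_cancel_right, h, sc_central (z := z ^ k) (by rw [map_pow, hz, one_pow]),
    mul_inv_cancel_right]

variable (p : ℕ) [Fact p.Prime] [CharP F p]

theorem gm_iter (β k : ℕ) (g : G3 F) : (gm (iterateFrobenius F p β))^[k] g = gm (iterateFrobenius F p (β * k)) g := by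
  induction k with
  | zero => exact Units.ext (by ext; simp)
  | succ k ih =>
    rw [Function.iterate_succ_apply', ih]
    exact Units.ext (by ext; simp [iterateFrobenius_def, ← pow_mul, ← pow_add, mul_add])

theorem gm_card [Fintype F] {α : ℕ} (h : Fintype.card F = p ^ α) (g : G3 F) : gm (iterateFrobenius F p α) g = g :=
  Units.ext (by ext; simp [iterateFrobenius_def, ← h, FiniteField.pow_card])

theorem dualG_sq (β : ℕ) (g : G3 F) :
    dualG (iterateFrobenius F p β) (dualG (iterateFrobenius F p β) g) = gm (iterateFrobenius F p (2 * β)) g :=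
  Units.ext (by
    ext i j
    change (g.val i j ^ p ^ β) ^ p ^ β = g.val i j ^ p ^ (2 * β)
    rw [← pow_mul, ← pow_add, two_mul])

theorem gm_eq_iff [Finite F] {E : Subfield F} {β : ℕ} (h : Nat.card E = p ^ β) {g : G3 F} :
    gm (iterateFrobenius F p β) g = g ↔ Over E g.val := by
  simp only [Units.ext_iff, ← Matrix.ext_iff, Over]
  exact forall₂_congr fun i j => by rw [Subf.mem_iff_pow, h]; rfl

theorem gm_sc (β : ℕ) {z : G3 F} (hz : pr z = 1) : gm (iterateFrobenius F p β) z = z ^ p ^ β := by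
  obtain ⟨c, hc⟩ := pr_eq_one'.1 hz
  refine Units.ext ?_
  rw [gm_val, Units.val_pow_eq_pow_val, hc, smul_pow, one_pow]
  ext i j
  by_cases h : i = j <;> simp [h, iterateFrobenius_def, (Fact.out : p.Prime).ne_zero]

theorem dualG_sc (β : ℕ) {z : G3 F} (hz : pr z = 1) : dualG (iterateFrobenius F p β) z = z⁻¹ ^ p ^ β := by
  rw [← gm_sc p β (by rw [map_inv, hz, inv_one])]
  obtain ⟨c, hc⟩ := pr_eq_one'.1 (by rw [map_inv, hz, inv_one] : pr z⁻¹ = 1)
  refine Units.ext ?_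
  change ((z⁻¹).valᵀ).map _ = _
  rw [gm_val, hc, transpose_smul, transpose_one]

theorem sc_three (h : p = 3) {z : G3 F} (hz : pr z = 1) (h3 : z ^ 3 = 1) : z = 1 := by
  obtain ⟨c, hc⟩ := pr_eq_one'.1 hz
  exact Units.ext (by rw [hc, cube_three p h (cube_of_sc (det_sc hz h3) hc), one_smul, Units.val_one])

omit [CharP F p] in
theorem sub_card [Fintype F] {α : ℕ} (h : Fintype.card F = p ^ α) (E : Subfield F) :
    ∃ β r, Nat.card E = p ^ β ∧ α = β * r := by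
  have h1 := Subf.card_eq_pow E
  rw [Nat.card_eq_fintype_card, h] at h1
  obtain ⟨β, -, h2⟩ := (Nat.dvd_prime_pow (Fact.out : p.Prime)).1
    (h1 ▸ dvd_pow_self (Nat.card E) (Module.finrank_pos (R := E) (M := F)).ne')
  refine ⟨β, Module.finrank E F, h2, Nat.pow_right_injective (Fact.out : p.Prime).two_le ?_⟩
  simp only [pow_mul, ← h2, h1]

theorem exists_mod [Finite F] (E : Subfield F) : ∃ (K : Type) (_ : Field K) (_ : Fintype K) (φ : K →+* F),
    Fintype.card K = Nat.card E ∧ Nonempty (E ≃+* K) ∧ ∀ X : M3 F, Over E X ↔ ∃ Y : M3 K, Y.map φ = X := by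
  obtain ⟨K, _, _, h, ⟨e⟩⟩ := Subf.exists_model E
  refine ⟨K, _, _, E.subtype.comp e.symm, h, ⟨e⟩, fun X => ⟨fun hX => ⟨fun i j => e ⟨_, hX i j⟩, ?_⟩, ?_⟩⟩
  · ext i j; exact congrArg Subtype.val (e.symm_apply_apply ⟨_, hX i j⟩)
  · rintro ⟨Y, rfl⟩ i j; exact (e.symm (Y i j)).2

end Cfsg.Agent.H5.MH
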