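import Cfsg.Agent.H5.MH15

set_option autoImplicit false

/-! Subgroups of `PSL₃(q)`, `q` odd, without abelian normal subgroups. -/

namespace Cfsg.Agent.H5.MH
open Cfsg Matrix Cfsg.Agent.Asch Cfsg.Agent.H4 Cfsg.Agent.H4.Mob

universe u

/-- the list of groups -/
def Out (p α : ℕ) (H : Type*) [Group H] : Prop :=
    (∃ (K : Type) (_ : Field K) (_ : Fintype K) (β : ℕ), Fintype.card K = p ^ β ∧ β ∣ α ∧ Nonempty (H ≃* Matrix.ProjectiveSpecialLinearGroup (Fin 3) K)) ∨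
    (∃ (K : Type) (_ : Field K) (_ : Fintype K) (β : ℕ), Fintype.card K = p ^ (2 * β) ∧ 2 * β ∣ α ∧ Nonempty (H ≃* Cfsg.PSU 3 K (p ^ β))) ∨
    (∃ (K : Type) (_ : Field K) (_ : Fintype K) (β : ℕ), Fintype.card K = p ^ β ∧ 3 ∣ p ^ β - 1 ∧ 3 * β ∣ α ∧ ∃ L : Subgroup H, L.index = 3 ∧ Nonempty (↥L ≃* Matrix.ProjectiveSpecialLinearGroup (Fin 3) K)) ∨
    (∃ (K : Type) (_ : Field K) (_ : Fintype K) (β : ℕ), Fintype.card K = p ^ (2 * β) ∧ 3 ∣ p ^ β + 1 ∧ 6 * β ∣ α ∧ ∃ L : Subgroup H, L.index = 3 ∧ Nonempty (↥L ≃* Cfsg.PSU 3 K (p ^ β))) ∨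
    (∃ (K : Type) (_ : Field K) (_ : Fintype K) (β : ℕ), Fintype.card K = p ^ β ∧ β ∣ α ∧ p ^ β ≠ 3 ∧ (Nonempty (H ≃* Matrix.ProjectiveSpecialLinearGroup (Fin 2) K) ∨ Nonempty (H ≃* (GL (Fin 2) K ⧸ Subgroup.center (GL (Fin 2) K))))) ∨
    ((p ^ α % 10 = 1 ∨ p ^ α % 10 = 9) ∧ ∃ (K : Type) (_ : Field K) (_ : Fintype K), Fintype.card K = 5 ∧ Nonempty (H ≃* Matrix.ProjectiveSpecialLinearGroup (Fin 2) K)) ∨
    ((p ^ α) ^ 3 % 7 = 1 ∧ ∃ (K : Type) (_ : Field K) (_ : Fintype K), Fintype.card K = 7 ∧ Nonempty (H ≃* Matrix.ProjectiveSpecialLinearGroup (Fin 2) K)) ∨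
    (p = 5 ∧ Even α ∧ (Nonempty (H ≃* ↥(alternatingGroup (Fin 6))) ∨ Nonempty (H ≃* ↥(alternatingGroup (Fin 7))) ∨
      ∃ L : Subgroup H, L.index = 2 ∧ Nonempty (↥L ≃* ↥(alternatingGroup (Fin 6))))) ∨
    ((p ^ α % 30 = 1 ∨ p ^ α % 30 = 19) ∧ Nonempty (H ≃* ↥(alternatingGroup (Fin 6))))

variable {G H X : Type*} [Group G] [Group H] [Group X]

theorem ne_tr (e : G ≃* H) (h : Nonempty (H ≃* X)) : Nonempty (G ≃* X) := h.map e.trans

theorem sub_tr (e : G ≃* H) {k : ℕ} (h : ∃ L : Subgroup H, L.index = k ∧ Nonempty (L ≃* X)) :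
    ∃ L : Subgroup G, L.index = k ∧ Nonempty (L ≃* X) := by
  obtain ⟨L, h1, h2⟩ := h
  exact ⟨L.map e.symm.toMonoidHom, by rw [← h1]; exact Subgroup.index_map_equiv L e.symm,
    ne_tr (e.symm.subgroupMap L).symm h2⟩

theorem Out.congr {p α : ℕ} (e : G ≃* H) (h : Out p α H) : Out p α G := by
  rcases h with ⟨K, _, _, β, a, b, c⟩ | ⟨K, _, _, β, a, b, c⟩ | ⟨K, _, _, β, a, b, c, d⟩ | ⟨K, _, _, β, a, b, c, d⟩ |
    ⟨K, _, _, β, a, b, c, d⟩ | ⟨a, K, _, _, b, c⟩ | ⟨a, K, _, _, b, c⟩ | ⟨a, b, c⟩ | ⟨a, b⟩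
  · exact .inl ⟨K, _, _, β, a, b, ne_tr e c⟩
  · exact .inr (.inl ⟨K, _, _, β, a, b, ne_tr e c⟩)
  · exact .inr (.inr (.inl ⟨K, _, _, β, a, b, c, sub_tr e d⟩))
  · exact .inr (.inr (.inr (.inl ⟨K, _, _, β, a, b, c, sub_tr e d⟩)))
  · exact .inr (.inr (.inr (.inr (.inl ⟨K, _, _, β, a, b, c, d.imp (ne_tr e) (ne_tr e)⟩))))
  · exact .inr (.inr (.inr (.inr (.inr (.inl ⟨a, K, _, _, b, ne_tr e c⟩)))))
  · exact .inr (.inr (.inr (.inr (.inr (.inr (.inl ⟨a, K, _, _, b, ne_tr e c⟩))))))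
  · exact .inr (.inr (.inr (.inr (.inr (.inr (.inr (.inl ⟨a, b, c.imp (ne_tr e) (Or.imp (ne_tr e) (sub_tr e))⟩)))))))
  · exact .inr (.inr (.inr (.inr (.inr (.inr (.inr (.inr ⟨a, ne_tr e b⟩)))))))

theorem sub_of {A B : Subgroup G} (h : A ≤ B) {k : ℕ} (hk : A.relIndex B = k) (e : Nonempty (A ≃* X)) :
    ∃ L : Subgroup B, L.index = k ∧ Nonempty (L ≃* X) :=
  ⟨A.subgroupOf B, hk, ne_tr (Subgroup.subgroupOfEquivOfLe h) e⟩

theorem A5_psl : haveI : Fact (Nat.Prime 5) := ⟨by norm_num⟩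
    Nonempty (alternatingGroup (Fin 5) ≃* PS (ZMod 5)) := by
  have : Fact (Nat.Prime 5) := ⟨by norm_num⟩
  have h1 := MobCard.card_PS_odd (ZMod 5) (by simp; decide)
  simp only [Nat.card_zmod] at h1
  have h2 : IsSimpleGroup (PS (ZMod 5)) := ProjectiveSpecialLinearGroup.rank_two_simple (by simp)
  refine (Small.A5_of (fun N hN h => ?_) (by omega)).map MulEquiv.symm
  rcases hN.eq_bot_or_eq_top with rfl | rfl
  · exact Nat.not_prime_one (by simpa using h)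
  · rw [Subgroup.card_top, show Nat.card (PS (ZMod 5)) = 60 by omega] at h; norm_num at h

variable {F : Type*} [Field F] [Fintype F] {p α : ℕ} [Fact p.Prime] [CharP F p] {L M : Subgroup (G3 F)}

omit [Fintype F] in
theorem cast_iff {r : ℕ} (hr : r.Prime) : (r : F) = 0 ↔ p = r :=
  (CharP.cast_eq_zero_iff F p r).trans (Nat.prime_dvd_prime_iff_eq Fact.out hr)

theorem pow_mod_ne {r : ℕ} (hr : r.Prime) (h : p ≠ r) (k : ℕ) : p ^ k % r ≠ 0 := fun e =>
  h ((Nat.prime_dvd_prime_iff_eq hr Fact.out).1 (hr.dvd_of_dvd_pow (Nat.dvd_of_mod_eq_zero e))).symm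

theorem out_pgl (hp : p ≠ 2) (hq : Fintype.card F = p ^ α) (M : Subgroup (PG F)) (hN : NA M) (h0 : M ≠ ⊥) :
    Out p α M := by
  have h2 : (2 : F) ≠ 0 := fun h => hp ((cast_iff Nat.prime_two).1 h)
  rcases dick h2 M hN h0 with ⟨h5, ⟨e⟩⟩ | ⟨E, h3, he⟩
  · have : Fact (Nat.Prime 5) := ⟨by norm_num⟩
    refine .inr (.inr (.inr (.inr (.inr (.inl ⟨?_, ZMod 5, _, inferInstance, by simp, ne_tr e A5_psl⟩)))))
    obtain ⟨g, hg⟩ := exists_prime_orderOf_dvd_card' (G := M) 5 (by rw [Nat.card_congr e.toEquiv, Small.card_A5]; norm_num)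
    have h1 := Pair.pow_cases p g.1
    simp only [← orderOf_dvd_iff_pow_eq_one, Subgroup.orderOf_coe, hg, Nat.card_eq_fintype_card, hq] at h1
    have h4 := pow_mod_ne Nat.prime_two hp α
    rcases h1 with h1 | h1 | h1
    · exact (h5 ((CharP.cast_eq_zero_iff F p 5).2 ((Nat.prime_dvd_prime_iff_eq Nat.prime_five Fact.out).1 h1).symm.dvd)).elim
    all_goals omega
  obtain ⟨β, r, h4, rfl⟩ := sub_card p hq E
  obtain ⟨K, _, _, -, h5, ⟨e⟩, -⟩ := exists_mod E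
  exact .inr (.inr (.inr (.inr (.inl ⟨K, _, _, β, h5.trans h4, dvd_mul_right _ _, h4 ▸ h3,
    he.imp (Nonempty.map (·.trans (MobCard.psCongr e))) (Nonempty.map (·.trans (MobCard.pgCongr e)))⟩))))

theorem out_real (hp : p ≠ 2) (hq : Fintype.card F = p ^ α) (hF : Full (Geo.matrixSet L)) (hn : NormsG M L)
    (hN : NA (bar M)) (h0 : bar M ≠ ⊥) (hr : ∀ x ∈ L, T x⁻¹ = T x) : Out p α (bar M) := by
  obtain ⟨h2, B, h3, h4, h5⟩ := symm_of_trace hF hr
  obtain ⟨M', ⟨e⟩⟩ := exists_pgl h2 h3 h4 M fun m hm => schur_gram hF (RingHom.id F) h4 (by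
    rintro _ ⟨x, hx, rfl⟩
    refine ⟨x.det_ne_zero, 1, by simpa using h5 x hx, ?_⟩
    have h6 := h5 _ (hn m hm x hx)
    have h7 : m.val * x.val = (m * x * m⁻¹).val * m.val := by simp [mul_assoc]
    simp only [RingHom.coe_id, Matrix.map_id, one_smul]
    calc _ = (m.val * x.val)ᵀ * B * (m.val * x.val) := by simp only [transpose_mul, Matrix.mul_assoc]
      _ = m.valᵀ * ((m * x * m⁻¹).valᵀ * B * (m * x * m⁻¹).val) * m.val := by
        rw [h7]; simp only [transpose_mul, Matrix.mul_assoc]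
      _ = _ := by rw [h6])
  exact (out_pgl hp hq M' (hN.congr e) fun h => h0 (by
    rw [← Subgroup.card_eq_one, Nat.card_congr e.toEquiv, h, Subgroup.card_bot])).congr e

omit [Fintype F] in
theorem det_tw {θ : G3 F →* G3 F} (h : ∀ g : G3 F, g.val.det = 1 → (θ g).val.det = 1) (P g : G3 F)
    (hg : g.val.det = 1) : (tw P θ g).val.det = 1 := det_conj P (h _ (det_conj _ hg))

omit [Fintype F] in
theorem det_dualG (σ : F →+* F) (g : G3 F) (hg : g.val.det = 1) : (dualG σ g).val.det = 1 :=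
  (RingHom.map_det σ (g⁻¹).valᵀ).symm.trans (by rw [det_transpose, det_inv hg, map_one])

omit [Fintype F] in
theorem pow_three {z : G3 F} (hz : pr z = 1) (h3 : z ^ 3 = 1) {s k : ℕ} (h : s % 3 = k ∨ p = 3) : z ^ s = z ^ k := by
  rcases h with h | h
  · rw [← h, ← pow_eq_pow_mod _ h3]
  · simp [sc_three p h hz h3]

theorem out_sl (hq : Fintype.card F = p ^ α) (hF : Full (Geo.matrixSet L)) (hn : NormsG M L) (hle : L ≤ M)
    (hd : ∀ m ∈ M, m.val.det = 1) {E : Subfield F} {P : G3 F}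
    (h : ∀ g, g ∈ L ↔ g.val.det = 1 ∧ Over E (cj P⁻¹ g.val)) : Out p α (bar M) := by
  obtain ⟨β, r, h4, rfl⟩ := sub_card p hq E
  obtain ⟨K, _, _, φ, h5, -, hφ⟩ := exists_mod E
  have e : Nonempty (bar L ≃* ProjectiveSpecialLinearGroup (Fin 3) K) :=
    iso_bar (((MulAut.conj P).toMonoidHom.comp (gm φ)).comp SpecialLinearGroup.toGL)
      ((MulAut.conj P).injective.comp ((gm_inj φ).comp SpecialLinearGroup.toGL_injective)) (fun g => by
        rw [h, hφ]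
        refine ⟨fun ⟨h1, Y, hY⟩ => ⟨⟨Y, φ.injective ?_⟩, Units.ext ?_⟩, ?_⟩
        · rw [RingHom.map_det, RingHom.mapMatrix_apply, hY, det_cj, h1, map_one]
        · exact (congrArg (cj P) hY).trans (cj_cj_inv _ _)
        · rintro ⟨x, rfl⟩
          exact ⟨det_conj P (by rw [det_gm]; simp), x.1, (cj_inv_cj P _).symm⟩) hF
  have h3 : p ^ β ≠ 0 := pow_ne_zero _ (Fact.out : p.Prime).ne_zero
  rcases twist (tw P (gm (iterateFrobenius F p β))) (det_tw (fun g hg => by rw [det_gm, hg, map_one]) P)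
    (fun g => by rw [h, tw_eq, gm_eq_iff p h4, cj_coe]) hF hd hn (A := 3 ∣ p ^ β - 1) (fun z hz h1 =>
      ⟨fun h2 => (tw_sc P hz (k := 1) (by rw [gm_sc p β hz, pow_three (p := p) (k := 1) hz h1 (.inl (by omega))])).trans (pow_one z),
      fun h2 => tw_sc P hz (by
        rw [gm_sc p β hz, pow_three (p := p) (k := 2) hz h1]
        by_contra h6
        have := pow_mod_ne Nat.prime_three (not_or.1 h6).2 β
        omega)⟩) (N := r) (tw_iter P fun g => by rw [gm_iter, gm_card p hq]) with h1 | ⟨h1, h2, h6⟩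
  · exact .inl ⟨K, _, _, β, h5.trans h4, dvd_mul_right _ _,
      ne_tr (MulEquiv.subgroupCongr (le_antisymm h1 (Subgroup.map_mono hle))) e⟩
  · exact .inr (.inr (.inl ⟨K, _, _, β, h5.trans h4, h1, mul_comm β 3 ▸ Nat.mul_dvd_mul_left β h2,
      sub_of (Subgroup.map_mono hle) h6 e⟩))

theorem out_su (hq : Fintype.card F = p ^ α) (hF : Full (Geo.matrixSet L)) (hn : NormsG M L) (hle : L ≤ M)
    (hd : ∀ m ∈ M, m.val.det = 1) {E : Subfield F} {q : ℕ} {P : G3 F} (hE : Nat.card E = q ^ 2)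
    (h : ∀ g, g ∈ L ↔ g.val.det = 1 ∧ Over E (cj P⁻¹ g.val) ∧ (cj P⁻¹ g.val)ᵀ * (cj P⁻¹ g.val).map (· ^ q) = 1) :
    Out p α (bar M) := by
  obtain ⟨γ, r, h4, rfl⟩ := sub_card p hq E
  obtain ⟨β, -, rfl⟩ := (Nat.dvd_prime_pow (Fact.out : p.Prime)).1 (h4 ▸ hE ▸ dvd_pow_self q two_ne_zero)
  obtain rfl : γ = 2 * β := Nat.pow_right_injective (Fact.out : p.Prime).two_le (by
    simp only [← h4, hE, ← pow_mul, mul_comm])
  obtain ⟨K, _, _, φ, h5, -, hφ⟩ := exists_mod E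
  have hK := h5.trans hE
  have hm : ∀ Y : M3 K, (Y.map φ)ᵀ * (Y.map φ).map (· ^ p ^ β) = 1 ↔ Yᵀ * 1 * Y.map (UP hK).σ = 1 := fun Y => by
    rw [← (Matrix.map_injective φ.injective).eq_iff, Matrix.mul_one, Matrix.map_mul, Matrix.map_one _ (map_zero φ)
      (map_one φ), transpose_map, show (Y.map (UP hK).σ).map φ = (Y.map φ).map (· ^ p ^ β) by ext; simp [UP_σ]]
  have hS : ∀ x : SpecialLinearGroup (Fin 3) K, x ∈ SU 3 K (p ^ β) ↔ x.1ᵀ * 1 * x.1.map (UP hK).σ = 1 := fun x => by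
    rw [← fix_iff, ← herm_eq]; rfl
  have e : Nonempty (bar L ≃* PSU 3 K (p ^ β)) :=
    iso_bar ((((MulAut.conj P).toMonoidHom.comp (gm φ)).comp SpecialLinearGroup.toGL).comp (SU 3 K (p ^ β)).subtype)
      (((MulAut.conj P).injective.comp ((gm_inj φ).comp SpecialLinearGroup.toGL_injective)).comp
        Subtype.val_injective) (fun g => by
        rw [h, hφ]
        refine ⟨fun ⟨h1, ⟨Y, hY⟩, h2⟩ => ⟨⟨⟨Y, φ.injective ?_⟩, (hS _).2 ((hm Y).1 (hY ▸ h2))⟩, Units.ext ?_⟩, ?_⟩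
        · rw [RingHom.map_det, RingHom.mapMatrix_apply, hY, det_cj, h1, map_one]
        · exact (congrArg (cj P) hY).trans (cj_cj_inv _ _)
        · rintro ⟨x, rfl⟩
          have h1 := cj_inv_cj P (x.1.1.map φ)
          exact ⟨det_conj P (by rw [det_gm]; simp), ⟨x.1.1, h1.symm⟩, h1.symm ▸ (hm _).2 ((hS _).1 x.2)⟩) hF
  have hθ : ∀ x : G3 F, dualG (iterateFrobenius F p β) x = x ↔ x.valᵀ * x.val.map (· ^ p ^ β) = 1 := fun x => by
    rw [← _root_.inv_inj, ← map_inv, Units.ext_iff, eq_comm, ← Units.mul_eq_one_iff_inv_eq, ← transpose_inj, transpose_mul,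
      transpose_one, mul_eq_one_comm]
    rfl
  rcases twist (tw P (dualG (iterateFrobenius F p β))) (det_tw (det_dualG _) P)
    (fun g => by
      rw [h, tw_eq, cj_coe, ← hθ, ← gm_eq_iff p h4, ← dualG_sq]
      exact and_congr_right fun _ => ⟨fun h => h.2, fun h => ⟨by rw [h, h], h⟩⟩) hF hd hn (A := 3 ∣ p ^ β + 1)
    (fun z hz h1 => by
      have h7 : dualG (iterateFrobenius F p β) z = z ^ (2 * p ^ β) := by
        rw [dualG_sc p β hz, pow_mul, inv_eq_of_mul_eq_one_left (by rw [← pow_succ, h1])]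
      refine ⟨fun h2 => (tw_sc P hz (k := 1) (by rw [h7, pow_three (p := p) (k := 1) hz h1 (.inl (by omega))])).trans (pow_one z),
        fun h2 => tw_sc P hz ?_⟩
      rw [h7, pow_three (p := p) (k := 2) hz h1]
      by_contra h6
      have := pow_mod_ne Nat.prime_three (not_or.1 h6).2 β
      have : p ^ β % 3 = 1 := by omega
      omega) (N := 2 * r) (tw_iter P fun g => by
        rw [Function.iterate_mul, show (dualG (iterateFrobenius F p β))^[2] = gm (iterateFrobenius F p (2 * β)) from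
          funext (dualG_sq p β), gm_iter, gm_card p hq]) with h1 | ⟨h1, h2, h6⟩
  · exact .inr (.inl ⟨K, _, _, β, h5.trans h4, dvd_mul_right _ _,
      ne_tr (MulEquiv.subgroupCongr (le_antisymm h1 (Subgroup.map_mono hle))) e⟩)
  · obtain ⟨s, rfl⟩ : 3 ∣ r := by omega
    exact .inr (.inr (.inr (.inl ⟨K, _, _, β, h5.trans h4, h1, ⟨s, by ring⟩, sub_of (Subgroup.map_mono hle) h6 e⟩)))

theorem exists_core [Finite G] (M : Subgroup G) (h : ¬ Group.IsSolvable M) :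
    ∃ L ≤ M, L ≠ ⊥ ∧ ⁅L, L⁆ = L ∧ NormsG M L := by
  obtain ⟨n, h0, h1⟩ := H2.Dihed3.exists_perfect h
  refine ⟨(derivedSeries M n).map M.subtype, Subgroup.map_subtype_le _, fun e => h0 (Subgroup.map_injective
    M.subtype_injective (by rw [e, Subgroup.map_bot])), by rw [← Subgroup.map_commutator, h1], ?_⟩
  rintro m hm _ ⟨x, hx, rfl⟩
  exact ⟨_, (derivedSeries_normal M n).conj_mem x hx ⟨m, hm⟩, rfl⟩

omit [Fintype F] in
theorem bar_ne_bot (hp : ⁅L, L⁆ = L) (h0 : L ≠ ⊥) : bar L ≠ ⊥ := fun h => h0 (by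
  rw [← hp, Subgroup.commutator_eq_bot_iff_le_centralizer]
  exact fun x hx y _ => sc_central (by rw [← Subgroup.mem_bot, ← h]; exact mem_bar hx) y)

theorem s5711M (hM : MHMain.{u}) {F : Type u} [Field F] [Fintype F] [CharP F p] (hp : p ≠ 2)
    (hq : Fintype.card F = p ^ α) (M : Subgroup (G3 F)) (hdM : ∀ m ∈ M, m.val.det = 1) (hN : NA (bar M))
    (h0 : bar M ≠ ⊥) : Out p α (bar M) := by
  have : Finite (PG3 F) := Finite.of_surjective _ pr_surj
  have h2 : (2 : F) ≠ 0 := fun h => hp ((cast_iff Nat.prime_two).1 h)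
  obtain ⟨L, hle, hL0, hP, hn⟩ := exists_core M fun _ => by
    have : Group.IsSolvable (bar M) := Group.isSolvable_of_surjective (pr.subgroupMap_surjective M)
    exact h0 (eq_bot_iff.2 fun x hx => Subgroup.mem_bot.2
      (congrArg Subtype.val (Subgroup.mem_bot.1 ((hN.solv ⊤).le (Subgroup.mem_top ⟨x, hx⟩)))))
  have hle' : bar L ≤ bar M := Subgroup.map_mono hle
  have hn' : ∀ n ∈ bar M, Nm L n := by rintro _ ⟨m, hm, rfl⟩; exact nm_of (hn m hm)
  have hF := full_of_NA h2 hP ((@NA.normal _ _ _ hN ((bar L).subgroupOf (bar M)) ⟨fun a ha g => hn' _ g.2 _ ha⟩).congr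
    (Subgroup.subgroupOfEquivOfLe hle')) (bar_ne_bot hP hL0)
  have hd : ∀ x ∈ L, x.val.det = 1 := fun x hx => hdM x (hle hx)
  have real := out_real hp hq hF hn hN h0
  have hT : ∀ x : G3 F, T x ^ p ^ α = T x := fun x => by rw [← hq, FiniteField.pow_card]
  have he : bar M ≤ bar L → bar M ≃* bar L := fun h => MulEquiv.subgroupCongr (le_antisymm h hle')
  have h4 := pow_mod_ne Nat.prime_two hp α
  rcases mainF hM hP hF with ⟨E, Q, -, h⟩ | ⟨E, q, Q, -, hE, h⟩ | ⟨-, B, -, h3, h⟩ | h | ⟨⟨e⟩⟩ | ⟨h5, ⟨e⟩⟩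
  · exact out_sl hq hF hn hle hdM h
  · exact out_su hq hF hn hle hdM hE h
  · exact real fun x hx => T_inv_of_symm h3 (h x hx)
  · obtain ⟨π⟩ := exists_pi8 hP h
    by_cases h7 : p = 7
    · exact real (real8 p hP π h7)
    by_cases h8 : p ^ α % 7 = 3 ∨ p ^ α % 7 = 5 ∨ p ^ α % 7 = 6
    · exact real fun x hx => by rw [← frob8b p α hP π h8 x hx, hT]
    have h9 := pow_mod_ne (by norm_num) h7 α
    have : Fact (Nat.Prime 7) := ⟨by norm_num⟩
    have := perfect_bar hP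
    refine .inr (.inr (.inr (.inr (.inr (.inr (.inl ⟨?_, ZMod 7, _, inferInstance, by simp, ne_tr (he fun n h => norm8 hP hF π
      (fun h => h7 ((cast_iff (by norm_num)).1 h)) (hn' n h)) (iso_PSL2 ((card_bar L).trans h))⟩))))))
    rw [Nat.pow_mod]
    have : p ^ α % 7 = 1 ∨ p ^ α % 7 = 2 ∨ p ^ α % 7 = 4 := by omega
    rcases this with h | h | h <;> rw [h]
  · obtain ⟨π⟩ := pi_of e
    by_cases h3 : p = 3
    · exact real (real6 hd π fun _ _ c _ => cube_three p h3)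
    have h6 := pow_mod_ne Nat.prime_three h3 α
    by_cases h7 : p ^ α % 3 = 2
    · refine real (real6 hd π fun _ _ c _ hc => ?_)
      have h8 := cube_pow hc (p ^ α)
      rw [h7, ← hq, FiniteField.pow_card] at h8
      rw [← hc, pow_succ, ← h8, ← sq, ← h8]
    have h3' : (3 : F) ≠ 0 := fun h => h3 ((cast_iff Nat.prime_three).1 h)
    by_cases h5 : p = 5
    · refine .inr (.inr (.inr (.inr (.inr (.inr (.inr (.inl ⟨h5, ?_, ?_⟩)))))))
      · by_contra h8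
        obtain ⟨k, rfl⟩ := Nat.not_even_iff_odd.1 h8
        exact h7 (by rw [h5, pow_succ, pow_mul, Nat.mul_mod, Nat.pow_mod]; simp)
      by_cases h8 : bar M ≤ bar L
      · exact .inl ⟨(he h8).trans π⟩
      obtain ⟨n, h9, h10⟩ := SetLike.not_le_iff_exists.1 h8
      refine .inr (.inr (sub_of hle' (Subgroup.index_eq_two_iff_exists_notMem_and.2 ⟨⟨n, h9⟩⁻¹, fun h => h10 (by
        simpa [Subgroup.mem_subgroupOf] using h), fun b => ?_⟩) ⟨π⟩))
      exact or_iff_not_imp_right.2 (norm6' hP hF π h3' (hn' n h9) (hn' _ b.2) h10)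
    have h5' : (5 : F) ≠ 0 := fun h => h5 ((cast_iff Nat.prime_five).1 h)
    refine .inr (.inr (.inr (.inr (.inr (.inr (.inr (.inr ⟨?_, ⟨(he fun n h => norm6 hP hF π h3' h5' (hn' n h)).trans
      π⟩⟩)))))))
    have h8 := pow_mod_ne Nat.prime_five h5 α
    obtain ⟨w, -, h9, h10⟩ := ex5 hd π
    have : ¬ (p ^ α % 5 = 2 ∨ p ^ α % 5 = 3) := fun h => h5' (h9.five h10 (by rw [← h9.nres h, T_pow_char_pow, hT]))
    omega
  · obtain ⟨π⟩ := pi_of e
    obtain rfl : p = 5 := (cast_iff Nat.prime_five).1 h5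
    by_cases h8 : Even α
    · exact .inr (.inr (.inr (.inr (.inr (.inr (.inr (.inl ⟨rfl, h8, .inr (.inl ⟨(he fun n h => norm7 hP hF π
        (fun h => absurd ((cast_iff (p := 5) (by norm_num)).1 h) (by norm_num)) (hn' n h)).trans π⟩)⟩)))))))
    obtain ⟨k, rfl⟩ := Nat.not_even_iff_odd.1 h8
    refine real fun x hx => ?_
    have h9 : T x ^ 5 ^ 2 = T x := two_step 5 (fun x hx => tr7 hd π hx) x hx
    have h10 : ∀ k, T x ^ 5 ^ (2 * k) = T x := fun k => by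
      induction k with
      | zero => simp
      | succ k ih => rw [mul_add, pow_add, pow_mul, ih, h9]
    rw [← tr7 hd π hx, ← h10 k, ← pow_mul, ← pow_succ, hT, h10]

theorem s5711 (hM : MHMain.{u}) {F : Type u} [Field F] [Fintype F] (hp : p ≠ 2)
    (hq : Fintype.card F = p ^ α) (H : Subgroup (ProjectiveSpecialLinearGroup (Fin 3) F)) (hH : H ≠ ⊥) (hN : NA H) :
    Out p α H := by
  have : CharP F p := charP_of_card_eq_prime_pow hq
  obtain ⟨Φ, h1, h2⟩ := exists_qI (SpecialLinearGroup.toGL (n := Fin 3) (R := F)) fun g => by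
    rw [pr_eq_one', Matrix.SpecialLinearGroup.mem_center_iff]
    refine ⟨fun ⟨c, hc⟩ => ⟨c, cube_of_sc g.2 hc, ?_⟩, fun ⟨c, _, hc⟩ => ⟨c, hc.symm.trans ?_⟩⟩
    · exact Eq.trans (by simp [smul_one_eq_diagonal]) hc.symm
    · simp [smul_one_eq_diagonal]
  have h3 : H.map Φ = bar ((H.comap (QuotientGroup.mk' _)).map SpecialLinearGroup.toGL) := by
    rw [bar, Subgroup.map_map, show pr.comp SpecialLinearGroup.toGL = Φ.comp (QuotientGroup.mk' _) from
      MonoidHom.ext fun g => (h2 g).symm, ← Subgroup.map_map,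
      Subgroup.map_comap_eq_self_of_surjective (QuotientGroup.mk'_surjective _)]
  let e := (H.equivMapOfInjective Φ h1).trans (MulEquiv.subgroupCongr h3)
  exact (s5711M hM hp hq _ (by rintro _ ⟨x, -, rfl⟩; exact x.2) (hN.congr e) fun h => hH (by
    rw [← Subgroup.card_eq_one, Nat.card_congr e.toEquiv, h, Subgroup.card_bot])).congr e

end Cfsg.Agent.H5.MH
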