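import Cfsg.Agent.H5.MH1
import Cfsg.Agent.Asch.Uni

set_option autoImplicit false

/-! Equal traces give conjugate representations; invariant forms from traces. -/

namespace Cfsg.Agent.H5.MH
open Cfsg Matrix Cfsg.Agent.Asch

variable {K : Type*} [Field K]

theorem conj_of_trace {G : Type*} [Group G] (θ ρ : G →* G3 K) (hF : Full (Geo.matrixSet θ.range))
    (ht : ∀ g, T (θ g) = T (ρ g)) : ∃ Q : G3 K, ∀ g, (θ g).val = cj Q (ρ g).val := by
  let Θ : MonoidAlgebra K G →ₐ[K] M3 K := MonoidAlgebra.lift K (M3 K) G ((Units.coeHom _).comp θ)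
  let R : MonoidAlgebra K G →ₐ[K] M3 K := MonoidAlgebra.lift K (M3 K) G ((Units.coeHom _).comp ρ)
  have hΘ : ∀ g, Θ (MonoidAlgebra.of K G g) = (θ g).val := fun g => by simp [Θ]
  have hR : ∀ g, R (MonoidAlgebra.of K G g) = (ρ g).val := fun g => by simp [R]
  have htr : ∀ a, (Θ a).trace = (R a).trace := fun a => by
    induction a using MonoidAlgebra.induction_on with
    | of g => rw [hΘ, hR]; exact ht g
    | add a b ha hb => simp [ha, hb]
    | smul c a ha => simp [ha]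
  have hs : Function.Surjective Θ := fun X => by
    refine hF.induction (p := fun X => ∃ a, Θ a = X) ?_ ⟨0, map_zero _⟩ ?_ ?_ X
    · rintro _ ⟨_, ⟨g, rfl⟩, rfl⟩; exact ⟨_, hΘ g⟩
    · rintro _ _ ⟨a, rfl⟩ ⟨b, rfl⟩; exact ⟨a + b, map_add _ _ _⟩
    · rintro c _ ⟨a, rfl⟩; exact ⟨c • a, map_smul _ _ _⟩
  have hk : ∀ a, R a = 0 → Θ a = 0 := fun a ha => by
    ext i j
    obtain ⟨b, hb⟩ := hs (Matrix.single j i 1)
    have := htr (a * b)
    rw [map_mul, map_mul, ha, hb, zero_mul, Matrix.trace_zero, Matrix.trace_mul_single] at this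
    simpa using this
  have hs' : Function.Surjective R := by
    have h1 : LinearMap.range R.toLinearMap = ⊤ := by
      apply Submodule.eq_top_of_finrank_eq
      refine le_antisymm (Submodule.finrank_le _) ?_
      let f : LinearMap.range R.toLinearMap →ₗ[K] M3 K :=
        ((LinearMap.ker R.toLinearMap).liftQ Θ.toLinearMap fun a ha => hk a ha).comp
          R.toLinearMap.quotKerEquivRange.symm.toLinearMap
      refine LinearMap.finrank_le_finrank_of_surjective (f := f) fun X => ?_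
      obtain ⟨a, rfl⟩ := hs X
      exact ⟨R.toLinearMap.quotKerEquivRange (Submodule.Quotient.mk a), by simp [f]; rfl⟩
    exact LinearMap.range_eq_top.1 h1
  let α : M3 K →ₐ[K] M3 K :=
    (Ideal.Quotient.liftₐ (RingHom.ker R) Θ fun a ha => hk a ha).comp
      (Ideal.quotientKerAlgEquivOfSurjective hs').symm.toAlgHom
  have hα : ∀ a, α (R a) = Θ a := fun a => by
    have : (Ideal.quotientKerAlgEquivOfSurjective hs').symm (R a) = Ideal.Quotient.mk _ a := by
      rw [AlgEquiv.symm_apply_eq]; rfl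
    simp [α, this]; rfl
  obtain ⟨Q, hQ⟩ := exists_cj_of_algHom α
  exact ⟨Q, fun g => by rw [← hΘ, ← hα, hR, hQ]⟩

/-- the twisted dual -/
def dualG (σ : K →+* K) : G3 K →* G3 K where
  toFun x := ⟨((x⁻¹).valᵀ).map σ, (x.valᵀ).map σ,
    by rw [← Matrix.map_mul, ← Matrix.transpose_mul, Units.mul_inv]; simp,
    by rw [← Matrix.map_mul, ← Matrix.transpose_mul, Units.inv_mul]; simp⟩
  map_one' := Units.ext (by simp)
  map_mul' x y := Units.ext (by
    simp only [_root_.mul_inv_rev, Units.val_mul, Matrix.transpose_mul, Matrix.map_mul])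

theorem form_of_trace {P : Subgroup (G3 K)} (hP : Full (Geo.matrixSet P)) {σ : K →+* K} (hσ : ∀ a, σ (σ a) = a)
    (ht : ∀ x ∈ P, σ (T x) = T x⁻¹) : ∃ G : M3 K, G.det ≠ 0 ∧ ∀ x ∈ P, x.valᵀ * G * x.val.map σ = G := by
  obtain ⟨Q, hQ⟩ := conj_of_trace P.subtype ((dualG σ).comp P.subtype) (by rwa [Subgroup.range_subtype])
    fun x => by
      change T x.1 = (((x.1⁻¹).valᵀ).map σ).trace
      rw [← AddMonoidHom.map_trace, Matrix.trace_transpose]
      change _ = σ (T _)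
      rw [← ht _ x.2, hσ]
  refine ⟨(Q⁻¹).val.map σ, ?_, fun x hx => ?_⟩
  · rw [← RingHom.mapMatrix_apply, ← RingHom.map_det, _root_.map_ne_zero]
    exact (Q⁻¹).det_ne_zero
  · have h : x.val = cj Q (((x⁻¹).valᵀ).map σ) := hQ ⟨x, hx⟩
    have h2 : (Q⁻¹).val * x.val = ((x⁻¹).valᵀ).map σ * (Q⁻¹).val := by
      conv_lhs => rw [h, cj_apply]
      simp [Matrix.mul_assoc]
    rw [Matrix.mul_assoc, ← Matrix.map_mul, h2, Matrix.map_mul, map_map_invol hσ, ← Matrix.mul_assoc,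
      ← Matrix.transpose_mul, Units.inv_mul, Matrix.transpose_one, Matrix.one_mul]

theorem herm_of_trace {P : Subgroup (G3 K)} (hP : Full (Geo.matrixSet P)) {σ : K →+* K} (hσ : ∀ a, σ (σ a) = a)
    (hne : ∃ a, σ a ≠ a) (ht : ∀ x ∈ P, σ (T x) = T x⁻¹) :
    ∃ G : M3 K, G.det ≠ 0 ∧ (G.map σ)ᵀ = G ∧ ∀ x ∈ P, x.valᵀ * G * x.val.map σ = G := by
  obtain ⟨G, hG, h⟩ := form_of_trace hP hσ ht
  obtain ⟨ε, hε⟩ := exists_eps_of_fix hP hσ hG h
  obtain ⟨ν, hν, h2⟩ := exists_herm_smul hσ hne (fun h0 => hG (by rw [h0]; simp)) hε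
  refine ⟨ν • G, by simp [hν, hG], h2, fun x hx => ?_⟩
  rw [Matrix.mul_smul, Matrix.smul_mul, h x hx]

theorem symm_of_trace [Finite K] {P : Subgroup (G3 K)} (hP : Full (Geo.matrixSet P))
    (ht : ∀ x ∈ P, T x⁻¹ = T x) :
    (2 : K) ≠ 0 ∧ ∃ B : M3 K, Bᵀ = B ∧ B.det ≠ 0 ∧ ∀ x ∈ P, x.valᵀ * B * x.val = B := by
  obtain ⟨G, hG, h⟩ := form_of_trace hP (σ := RingHom.id K) (fun _ => rfl) fun x hx => (ht x hx).symm
  obtain ⟨ε, hε⟩ := exists_eps_of_fix hP (σ := RingHom.id K) (fun _ => rfl) hG h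
  have h0 := herm_scalar (σ := RingHom.id K) (fun _ => rfl) (fun h0 => hG (by rw [h0]; simp)) hε
  simp only [RingHom.coe_id, Matrix.map_id, id_eq] at h hε h0
  have h1 : ε ^ 3 = 1 := by
    have := congrArg Matrix.det hε
    rw [Matrix.det_transpose, Matrix.det_smul, Fintype.card_fin] at this
    exact mul_right_cancel₀ hG (by rw [← this, one_mul])
  have h2 : ε = 1 := by linear_combination h1 - ε * h0
  rw [h2, one_smul] at hε
  refine ⟨fun h2 => ?_, G, hε, hG, h⟩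
  have hd := SimIrr.diag h2 (by simp) hε fun W hW => hP.irred W (by
    rintro _ ⟨x, hx, rfl⟩
    exact hW x 1 (by simpa using h x hx))
  have := even_card_of_symplectic (isSymplecticForm_ofG (by
    rw [hε]; ext i j; simp only [Matrix.neg_apply]; linear_combination G i j * h2) hd hG)
  simp at this
  exact absurd this (by decide)

theorem T_inv_of_symm {B : M3 K} (hB : B.det ≠ 0) {x : G3 K} (h : x.valᵀ * B * x.val = B) : T x⁻¹ = T x :=
  (trace_of_fix (σ := RingHom.id K) (fun _ => rfl) (sesq_ofG _ B) ((nondeg_ofG_iff (fun _ => rfl) B).2 hB)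
    ((fix_iff _ B x.val).2 (by simpa using h))).symm

theorem T_inv_of_herm {σ : K →+* K} (hσ : ∀ a, σ (σ a) = a) {B : M3 K} (hB : B.det ≠ 0) {x : G3 K}
    (h : x.valᵀ * B * x.val.map σ = B) : σ (T x) = T x⁻¹ :=
  trace_of_fix hσ (sesq_ofG _ B) ((nondeg_ofG_iff hσ B).2 hB) ((fix_iff _ B x.val).2 h)

/-- an invariant quadratic or unitary form -/
theorem geo_form_of_trace [Finite K] {P : Subgroup (G3 K)} (hP : Full (Geo.matrixSet P)) {σ : K →+* K}
    (hσ : ∀ a, σ (σ a) = a) (ht : ∀ x ∈ P, σ (T x) = T x⁻¹) :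
    (∃ Q : (Fin 3 → K) → K, Geo.IsNondegenerateQuadraticForm Q ∧ Geo.FixesQuadForm (Geo.matrixSet P) Q) ∨
    (∃ (σ : K ≃+* K) (f : (Fin 3 → K) → (Fin 3 → K) → K), Geo.IsUnitaryForm σ f ∧
      Geo.FixesForm (Geo.matrixSet P) f) := by
  by_cases hne : ∃ a, σ a ≠ a
  · obtain ⟨G, h1, h2, h3⟩ := herm_of_trace hP hσ hne ht
    let s : K ≃+* K := { σ with invFun := σ, left_inv := hσ, right_inv := hσ }
    refine .inr ⟨s, ofG (s : K →+* K) G, isUnitaryForm_ofG hσ hne h2 h1, ?_⟩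
    rintro _ ⟨x, hx, rfl⟩
    exact (fix_iff _ G x.val).2 (h3 x hx)
  · push Not at hne
    obtain ⟨h2, B, h3, h4, h5⟩ := symm_of_trace hP fun x hx => by rw [← ht x hx, hne]
    refine .inl ⟨_, (isNondegQuad_of_symm h2 (isSymmetricForm_ofG h3 h4)).1, ?_⟩
    rintro _ ⟨x, hx, rfl⟩ v
    exact (fix_iff _ B x.val).2 (by simpa using h5 x hx) v v

end Cfsg.Agent.H5.MH
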