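import Cfsg.Agent.H5.MH0

set_option autoImplicit false

/-! A computational model of `F₂₅ = F₅[ω]` and of `3 × 3` matrices over it. -/

namespace Cfsg.Agent.H5.MH
open Cfsg Matrix Cfsg.Agent.H5.CT2 Cfsg.Agent.Asch

noncomputable section

def tbn (b N i : ℕ) : ℕ := Nat.mod (Nat.shiftRight N (Nat.mul b i)) (Nat.pow 2 b)

def a25 (x y : ℕ) : ℕ :=
  Nat.add (Nat.mod (Nat.add x y) 5) (Nat.mul 5 (Nat.mod (Nat.add (Nat.div x 5) (Nat.div y 5)) 5))

def m25' (a b c d : ℕ) : ℕ :=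
  Nat.add (Nat.mod (Nat.add (Nat.mul a c) (Nat.mul 4 (Nat.mul b d))) 5)
    (Nat.mul 5 (Nat.mod (Nat.add (Nat.add (Nat.mul a d) (Nat.mul b c)) (Nat.mul 4 (Nat.mul b d))) 5))

def m25 (x y : ℕ) : ℕ := m25' (Nat.mod x 5) (Nat.div x 5) (Nat.mod y 5) (Nat.div y 5)

def dot3 (a b c d e f : ℕ) : ℕ := a25 (a25 (m25 a b) (m25 c d)) (m25 e f)

def ent (m k : ℕ) : ℕ := Nat.mod (Nat.shiftRight m (Nat.mul 5 k)) 32

def me (a b i j : ℕ) : ℕ :=
  dot3 (ent a (Nat.mul 3 i)) (ent b j) (ent a (Nat.add (Nat.mul 3 i) 1)) (ent b (Nat.add 3 j))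
    (ent a (Nat.add (Nat.mul 3 i) 2)) (ent b (Nat.add 6 j))

def pk (x0 x1 x2 x3 x4 x5 x6 x7 x8 : ℕ) : ℕ :=
  x0 + 32 * (x1 + 32 * (x2 + 32 * (x3 + 32 * (x4 + 32 * (x5 + 32 * (x6 + 32 * (x7 + 32 * x8)))))))

def mm (a b : ℕ) : ℕ := force a fun a => force b fun b =>
  pk (me a b 0 0) (me a b 0 1) (me a b 0 2) (me a b 1 0) (me a b 1 1) (me a b 1 2)
    (me a b 2 0) (me a b 2 1) (me a b 2 2)

theorem nmod_eq (a b : ℕ) : Nat.mod a b = a % b := rfl
theorem ndiv_eq (a b : ℕ) : Nat.div a b = a / b := rfl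

theorem a25_lt (x y : ℕ) : a25 x y < 25 := by
  simp only [a25, Nat.add_eq, Nat.mul_eq, nmod_eq]; omega

theorem m25_lt (x y : ℕ) : m25 x y < 25 := by
  simp only [m25, m25', Nat.add_eq, Nat.mul_eq, nmod_eq]; omega

theorem me_lt (a b i j : ℕ) : me a b i j < 25 := a25_lt _ _

theorem ent_eq (m k : ℕ) : ent m k = m / 32 ^ k % 32 := by
  show m >>> (5 * k) % 32 = _
  rw [Nat.shiftRight_eq_div_pow, pow_mul]; rfl

theorem ent_mm (a b : ℕ) (i j : Fin 3) : ent (mm a b) (3 * i + j) = me a b i j := by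
  simp only [mm, force_eq, ent_eq, pk]
  have h00 := me_lt a b 0 0
  have h01 := me_lt a b 0 1
  have h02 := me_lt a b 0 2
  have h10 := me_lt a b 1 0
  have h11 := me_lt a b 1 1
  have h12 := me_lt a b 1 2
  have h20 := me_lt a b 2 0
  have h21 := me_lt a b 2 1
  have h22 := me_lt a b 2 2
  fin_cases i <;> fin_cases j <;> simp only <;> omega

variable {K : Type*} [Field K]

def ev (ω : K) (x : ℕ) : K := ((x % 5 : ℕ) : K) + ((x / 5 : ℕ) : K) * ω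

theorem cast_mod5 (h5 : (5 : K) = 0) (n : ℕ) : ((n % 5 : ℕ) : K) = n := by
  conv_rhs => rw [← Nat.mod_add_div n 5]
  push_cast; rw [h5]; ring

theorem ev_pair (ω : K) {a : ℕ} (ha : a < 5) (b : ℕ) : ev ω (a + 5 * b) = a + b * ω := by
  have h1 : (a + 5 * b) % 5 = a := by omega
  have h2 : (a + 5 * b) / 5 = b := by omega
  rw [ev, h1, h2]

theorem ev_a25 (h5 : (5 : K) = 0) (ω : K) (x y : ℕ) : ev ω (a25 x y) = ev ω x + ev ω y := by
  simp only [a25, Nat.add_eq, Nat.mul_eq, nmod_eq, ndiv_eq]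
  rw [ev_pair ω (Nat.mod_lt _ (by norm_num)), ev, ev]
  simp only [cast_mod5 h5]; push_cast; ring

theorem ev_m25 (h5 : (5 : K) = 0) {ω : K} (hω : ω ^ 2 + ω + 1 = 0) (x y : ℕ) :
    ev ω (m25 x y) = ev ω x * ev ω y := by
  simp only [m25, m25', Nat.add_eq, Nat.mul_eq, nmod_eq, ndiv_eq]
  rw [ev_pair ω (Nat.mod_lt _ (by norm_num)), ev, ev]
  simp only [cast_mod5 h5]; push_cast
  simp only [cast_mod5 h5]
  generalize ((x / 5 : ℕ) : K) = b
  generalize ((y / 5 : ℕ) : K) = d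
  linear_combination (b * d + b * d * ω) * h5 - b * d * hω

theorem ev_dot3 (h5 : (5 : K) = 0) {ω : K} (hω : ω ^ 2 + ω + 1 = 0) (a b c d e f : ℕ) :
    ev ω (dot3 a b c d e f) = ev ω a * ev ω b + ev ω c * ev ω d + ev ω e * ev ω f := by
  simp only [dot3, ev_a25 h5, ev_m25 h5 hω]

@[simp] theorem ev_zero (ω : K) : ev ω 0 = 0 := by simp [ev]
@[simp] theorem ev_one (ω : K) : ev ω 1 = 1 := by simp [ev]

theorem ev_inj (h5 : (5 : K) = 0) {ω : K} (hω : ω ^ 2 + ω + 1 = 0) {x y : ℕ} (hx : x < 25)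
    (hy : y < 25) (h : ev ω x = ev ω y) : x = y := by
  have k1 : ∀ x < 25, x = 0 ∨ ∃ y < 25, m25 x y = 1 := by decide +kernel
  have k2 : ∀ x < 25, ∀ y < 25, a25 x (m25 4 y) = 0 → x = y := by decide +kernel
  refine k2 x hx y hy ((k1 _ (a25_lt _ _)).resolve_right ?_)
  rintro ⟨u, -, hu⟩
  have := congrArg (ev ω) hu
  rw [ev_m25 h5 hω, ev_a25 h5, ev_m25 h5 hω, h, ev_one] at this
  have h4 : ev ω 4 = -1 := by simp only [ev]; norm_num; linear_combination h5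
  rw [h4] at this
  simp at this

def toM (ω : K) (m : ℕ) : M3 K := Matrix.of fun i j => ev ω (ent m (3 * i + j))

theorem toM_mm (h5 : (5 : K) = 0) {ω : K} (hω : ω ^ 2 + ω + 1 = 0) (a b : ℕ) :
    toM ω (mm a b) = toM ω a * toM ω b := by
  ext i j
  simp only [toM, Matrix.of_apply, ent_mm, me, ev_dot3 h5 hω, Matrix.mul_apply, Fin.sum_univ_three]
  simp

/-- the points -/
def wv (ω : K) (PT j : ℕ) : Fin 3 → K := fun i => ev ω (ent PT (3 * j + i))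

def mvc (m PT j i : ℕ) : ℕ :=
  dot3 (ent m (Nat.mul 3 i)) (ent PT (Nat.mul 3 j)) (ent m (Nat.add (Nat.mul 3 i) 1))
    (ent PT (Nat.add (Nat.mul 3 j) 1)) (ent m (Nat.add (Nat.mul 3 i) 2))
    (ent PT (Nat.add (Nat.mul 3 j) 2))

theorem toM_mulVec (h5 : (5 : K) = 0) {ω : K} (hω : ω ^ 2 + ω + 1 = 0) (m PT j : ℕ) (i : Fin 3) :
    (toM ω m *ᵥ wv ω PT j) i = ev ω (mvc m PT j i) := by
  simp only [toM, wv, Matrix.mulVec, dotProduct, Matrix.of_apply, mvc, ev_dot3 h5 hω,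
    Fin.sum_univ_three]
  simp

def lab (LB j i : ℕ) : Bool := Nat.beq (Nat.mod (Nat.shiftRight LB (Nat.add (Nat.mul 7 j) i)) 2) 1

def chkT (PT LB m ρ π : ℕ) : Bool :=
  allLt 105 fun j => force (tbn 7 ρ j) fun j' => force (mvc m PT j 0) fun u0 =>
    force (mvc m PT j 1) fun u1 => force (mvc m PT j 2) fun u2 =>
      force (cond (Nat.beq u0 0) (cond (Nat.beq u1 0) u2 u1) u0) fun c =>
        Nat.blt j' 105 && Nat.beq u0 (m25 c (ent PT (Nat.mul 3 j'))) &&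
          Nat.beq u1 (m25 c (ent PT (Nat.add (Nat.mul 3 j') 1))) &&
          Nat.beq u2 (m25 c (ent PT (Nat.add (Nat.mul 3 j') 2))) &&
          allLt 7 fun i => !xor (lab LB j' (tbn 3 π i)) (lab LB j i)

/-- pairs (matrix, permutation) acting compatibly on labelled points -/
def TT (W : Fin 105 → Fin 3 → K) (lb : Fin 105 → Fin 7 → Bool) (h0 : ∀ j, W j ≠ 0)
    (hW : ∀ j j' (c : K), W j = c • W j' → j = j') : Subgroup (G3 K × Equiv.Perm (Fin 7)) where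
  carrier := {x | ∀ j, ∃ j', ∃ c : K, x.1.val *ᵥ W j = c • W j' ∧ ∀ i, lb j' (x.2 i) = lb j i}
  one_mem' := fun j => ⟨j, 1, by simp, fun i => rfl⟩
  mul_mem' := by
    intro x y hx hy j
    obtain ⟨j', c, h1, h2⟩ := hy j
    obtain ⟨j'', c', h3, h4⟩ := hx j'
    refine ⟨j'', c * c', ?_, fun i => ?_⟩
    · rw [Prod.fst_mul, Units.val_mul, ← Matrix.mulVec_mulVec, h1, Matrix.mulVec_smul, h3, smul_smul]
    · rw [Prod.snd_mul, Equiv.Perm.mul_apply, h4, h2]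
  inv_mem' := by
    intro x hx
    choose f c h1 h2 using hx
    have hc : ∀ j, c j ≠ 0 := by
      intro j e
      have := h1 j
      rw [e, zero_smul] at this
      apply h0 j
      rw [← inv_mulVec_mulVec x.1 (W j), this, Matrix.mulVec_zero]
    have key : ∀ j, (x.1⁻¹).val *ᵥ W (f j) = (c j)⁻¹ • W j := by
      intro j
      rw [← inv_mulVec_mulVec x.1 (W j), h1, Matrix.mulVec_smul, smul_smul, inv_mul_cancel₀ (hc j),
        one_smul]
    have hf : Function.Injective f := by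
      intro j k e
      refine hW j k (c j * (c k)⁻¹) ?_
      rw [← smul_smul, ← key k, ← e, key j, smul_smul, mul_inv_cancel₀ (hc j), one_smul]
    intro j
    obtain ⟨k, rfl⟩ := Finite.injective_iff_surjective.1 hf j
    exact ⟨k, (c k)⁻¹, key k, fun i => by rw [← h2 k]; simp⟩

theorem mem_TT (h5 : (5 : K) = 0) {ω : K} (hω : ω ^ 2 + ω + 1 = 0) {PT LB m ρ π : ℕ}
    (h : chkT PT LB m ρ π = true) (P : G3 K) {h0 hW} {g : G3 K} {c : K}
    (hg : g.val = c • cj P (toM ω m))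
    {p : Equiv.Perm (Fin 7)} (hp : ∀ i : Fin 7, (p i : ℕ) = tbn 3 π i) :
    (g, p) ∈ TT (fun j => P.val *ᵥ wv ω PT j) (fun j i => lab LB j i) h0 hW := by
  intro j
  simp only [chkT, allLt_iff, force_eq, Bool.and_eq_true, Nat.blt_eq, Nat.beq_eq,
    Bool.not_eq_true', xor_false_iff'] at h
  obtain ⟨⟨⟨⟨h1, h2⟩, h3⟩, h4⟩, h6⟩ := h j j.2
  generalize cond (Nat.beq (mvc m PT j 0) 0) (cond (Nat.beq (mvc m PT j 1) 0) (mvc m PT j 2)
    (mvc m PT j 1)) (mvc m PT j 0) = d at h2 h3 h4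
  refine ⟨⟨_, h1⟩, c * ev ω d, ?_, fun i => by
    show lab LB _ (p i : ℕ) = _
    rw [hp]; exact h6 i i.2⟩
  show g.val *ᵥ (P.val *ᵥ wv ω PT j) = (c * ev ω d) • (P.val *ᵥ wv ω PT (tbn 7 ρ j))
  rw [hg, Matrix.smul_mulVec, cj_mulVec, ← smul_smul, ← Matrix.mulVec_smul P.val (ev ω d)]
  congr 2
  funext i
  rw [toM_mulVec h5 hω, Pi.smul_apply, smul_eq_mul, wv, ← ev_m25 h5 hω]
  fin_cases i
  · exact congrArg _ h2
  · exact congrArg _ h3
  · exact congrArg _ h4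

end

end Cfsg.Agent.H5.MH
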