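import Cfsg.Agent.H5.MH2

set_option autoImplicit false

/-! Standard elements, base change and descent for the main theorem. -/

namespace Cfsg.Agent.H5.MH
open Cfsg Matrix Cfsg.Agent.Asch Cfsg.Agent.Form

universe u
variable {K : Type*} [Field K] {F : Type*} [Field F]

theorem cj_form (σ : K →+* K) {a : G3 K} {G G' : M3 K} (h : a.valᵀ * G * a.val.map σ = G') (X : M3 K) (c : K) :
    (cj a X)ᵀ * G * (cj a X).map σ = c • G ↔ Xᵀ * G' * X.map σ = c • G' := by
  have e : Xᵀ * G' * X.map σ = a.valᵀ * ((cj a X)ᵀ * G * (cj a X).map σ) * a.val.map σ := by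
    rw [← h]
    simp only [Matrix.mul_assoc]
    rw [← Matrix.map_mul, ← Matrix.map_mul, cj_mul_self]
    simp only [← Matrix.mul_assoc]
    rw [← Matrix.transpose_mul, ← Matrix.transpose_mul, cj_mul_self]
  rw [e]
  constructor
  · intro h1; rw [h1, ← h]; simp
  · intro h1
    have h2 := congrArg (fun Y => (a⁻¹).valᵀ * Y * (a⁻¹).val.map σ) h1
    have k : ∀ Y : M3 K, (a⁻¹).valᵀ * (a.valᵀ * Y * a.val.map σ) * (a⁻¹).val.map σ = Y := fun Y => by
      simp only [Matrix.mul_assoc]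
      rw [← Matrix.map_mul, Units.mul_inv, ← Matrix.mul_assoc, ← Matrix.transpose_mul, Units.mul_inv]
      simp
    rw [k, ← h, Matrix.mul_smul, Matrix.smul_mul, k] at h2
    exact h2

theorem cj_form' (σ : K →+* K) {a : G3 K} {G G' : M3 K} (h : a.valᵀ * G * a.val.map σ = G') (X : M3 K) :
    (cj a X)ᵀ * G * (cj a X).map σ = G ↔ Xᵀ * G' * X.map σ = G' := by
  simpa using cj_form σ h X 1

theorem det_cj (a : G3 K) (X : M3 K) : (cj a X).det = X.det := by
  rw [cj_apply, Matrix.det_mul, Matrix.det_mul, mul_right_comm, ← Matrix.det_mul, Units.mul_inv]; simp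

theorem cj_cj_inv (a : G3 K) (X : M3 K) : cj a (cj a⁻¹ X) = X := by rw [← cj_mul]; simp [cj_apply]
theorem cj_inv_cj (a : G3 K) (X : M3 K) : cj a⁻¹ (cj a X) = X := by rw [← cj_mul]; simp [cj_apply]

/-- an element of `GL₃` from a matrix of determinant one -/
noncomputable def mk1 (X : M3 K) (h : X.det = 1) : G3 K :=
  Matrix.GeneralLinearGroup.mkOfDetNeZero X (by rw [h]; exact one_ne_zero)

@[simp] theorem mk1_val (X : M3 K) (h : X.det = 1) : (mk1 X h).val = X := rfl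

/-- companion matrix -/
def comp (e e' : K) : G3 K :=
  ⟨!![0, 0, 1; 1, 0, -e'; 0, 1, e], !![e', 1, 0; -e, 0, 1; 1, 0, 0],
    by ext i j; fin_cases i <;> fin_cases j <;> simp [Matrix.mul_apply, Fin.sum_univ_three],
    by ext i j; fin_cases i <;> fin_cases j <;> simp [Matrix.mul_apply, Fin.sum_univ_three]⟩

theorem comp_det (e e' : K) : (comp e e').val.det = 1 := by simp [comp, Matrix.det_fin_three]
theorem T_comp (e e' : K) : T (comp e e') = e := by simp [comp, T, Matrix.trace_fin_three]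
theorem T_comp_inv (e e' : K) : T (comp e e')⁻¹ = e' := by
  change (!![e', 1, 0; -e, 0, 1; 1, 0, 0] : M3 K).trace = e'
  simp [Matrix.trace_fin_three]
theorem comp_over {E : Subfield K} {e e' : K} (h : e ∈ E) (h' : e' ∈ E) : Over E (comp e e').val := by
  intro i j
  fin_cases i <;> fin_cases j <;> simp [comp, h, h', zero_mem, one_mem]

/-- the antidiagonal form -/
def J3 (K : Type*) [Field K] : M3 K := !![0, 0, 1; 0, 1, 0; 1, 0, 0]

theorem J3_det : (J3 K).det ≠ 0 := by simp [J3, Matrix.det_fin_three]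
theorem J3_map (σ : K →+* K) : ((J3 K).map σ)ᵀ = J3 K := by
  ext i j; fin_cases i <;> fin_cases j <;> simp [J3]
theorem J3_tr : (J3 K)ᵀ = J3 K := by
  ext i j; fin_cases i <;> fin_cases j <;> simp [J3]

/-- upper unitriangular -/
def up (a b c : K) : G3 K :=
  ⟨!![1, a, b; 0, 1, c; 0, 0, 1], !![1, -a, a * c - b; 0, 1, -c; 0, 0, 1],
    by ext i j; fin_cases i <;> fin_cases j <;> simp [Matrix.mul_apply, Fin.sum_univ_three]; ring,
    by ext i j; fin_cases i <;> fin_cases j <;> simp [Matrix.mul_apply, Fin.sum_univ_three]; ring⟩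

/-- lower unitriangular -/
def lo (a b c : K) : G3 K :=
  ⟨!![1, 0, 0; c, 1, 0; b, a, 1], !![1, 0, 0; -c, 1, 0; a * c - b, -a, 1],
    by ext i j; fin_cases i <;> fin_cases j <;> simp [Matrix.mul_apply, Fin.sum_univ_three]; ring,
    by ext i j; fin_cases i <;> fin_cases j <;> simp [Matrix.mul_apply, Fin.sum_univ_three]; ring⟩

theorem up_val (a b c : K) : (up a b c).val = !![1, a, b; 0, 1, c; 0, 0, 1] := rfl
theorem lo_val (a b c : K) : (lo a b c).val = !![1, 0, 0; c, 1, 0; b, a, 1] := rfl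
theorem up_det (a b c : K) : (up a b c).val.det = 1 := by simp [up, Matrix.det_fin_three]
theorem lo_det (a b c : K) : (lo a b c).val.det = 1 := by simp [lo, Matrix.det_fin_three]

theorem up_fix {σ : K →+* K} (hσ : ∀ a, σ (σ a) = a) {a b : K} (h : b + σ b + a * σ a = 0) :
    (up a b (-σ a)).valᵀ * J3 K * (up a b (-σ a)).val.map σ = J3 K := by
  ext i j
  fin_cases i <;> fin_cases j <;> simp [up, J3, Matrix.mul_apply, Fin.sum_univ_three, hσ]
  linear_combination h

theorem lo_fix {σ : K →+* K} (hσ : ∀ a, σ (σ a) = a) {a b : K} (h : b + σ b + a * σ a = 0) :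
    (lo a b (-σ a)).valᵀ * J3 K * (lo a b (-σ a)).val.map σ = J3 K := by
  ext i j
  fin_cases i <;> fin_cases j <;> simp [lo, J3, Matrix.mul_apply, Fin.sum_univ_three, hσ]
  linear_combination h

theorem fix_mul {σ : K →+* K} {G : M3 K} {x y : G3 K} (hx : x.valᵀ * G * x.val.map σ = G)
    (hy : y.valᵀ * G * y.val.map σ = G) : (x * y).valᵀ * G * (x * y).val.map σ = G := by
  rw [Units.val_mul, Matrix.transpose_mul, Matrix.map_mul]
  calc _ = y.valᵀ * (x.valᵀ * G * x.val.map σ) * y.val.map σ := by simp only [Matrix.mul_assoc]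
    _ = G := by rw [hx, hy]

theorem exists_trace_J [Fintype K] {q : ℕ} (hq : Fintype.card K = q ^ 2) (e : K) :
    ∃ a b δ : K, b + (UP hq).σ b + a * (UP hq).σ a = 0 ∧ δ + (UP hq).σ δ + 0 * (UP hq).σ 0 = 0 ∧
      T (up a b (-(UP hq).σ a) * lo 0 δ (-(UP hq).σ 0)) = e := by
  have hσ := (UP hq).σσ
  obtain ⟨δ, hδ, h1⟩ := hilbert90' (UP hq).σ hσ (UP_ne hq) (μ := -1) (by simp)
  obtain ⟨a, ha⟩ := exists_norm_eq hq (a := -((e - 3) / δ + (UP hq).σ ((e - 3) / δ))) (by
    rw [← UP_σ (hq := hq), map_neg, map_add, hσ, add_comm])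
  refine ⟨a, (e - 3) / δ, δ, by rw [UP_σ (hq := hq) a, ha]; ring, by rw [h1]; ring, ?_⟩
  simp [T, up, lo, Matrix.trace_fin_three]
  field_simp; ring

theorem exists_trace_SU [Fintype K] {q : ℕ} (hq : Fintype.card K = q ^ 2) (e : K) :
    ∃ g : G3 K, g.val.det = 1 ∧ g.valᵀ * g.val.map (· ^ q) = 1 ∧ T g = e := by
  obtain ⟨a, ha⟩ := exists_orthonormal (hq := hq) (J3_map (UP hq).σ) J3_det
  obtain ⟨x, y, δ, h1, h2, h3⟩ := exists_trace_J hq e
  set g := up x y (-(UP hq).σ x) * lo 0 δ (-(UP hq).σ 0)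
  refine ⟨a⁻¹ * g * a⁻¹⁻¹, det_conj _ (by simp [g, up_det, lo_det]), ?_, by rw [T_conj, h3]⟩
  have := (cj_form' (UP hq).σ ha (cj a⁻¹ g.val)).1 (by
    rw [cj_cj_inv]; exact fix_mul (up_fix (UP hq).σσ h1) (lo_fix (UP hq).σσ h2))
  rw [cj_coe, Matrix.mul_one] at this
  exact this

/-! ### base change -/

abbrev gm (φ : F →+* K) : G3 F →* G3 K := Matrix.GeneralLinearGroup.map φ

theorem gm_val (φ : F →+* K) (g : G3 F) : (gm φ g).val = g.val.map φ := rfl

theorem gm_inj (φ : F →+* K) : Function.Injective (gm φ) := fun _ _ h =>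
  Units.ext (Matrix.map_injective φ.injective (congrArg Units.val h))

theorem T_gm (φ : F →+* K) (g : G3 F) : T (gm φ g) = φ (T g) := (AddMonoidHom.map_trace φ g.val).symm

theorem det_gm (φ : F →+* K) (g : G3 F) : (gm φ g).val.det = φ g.val.det := (RingHom.map_det φ g.val).symm

theorem pr_gm (φ : F →+* K) (g : G3 F) : pr (gm φ g) = 1 ↔ pr g = 1 := by
  rw [pr_eq_one', pr_eq_one']
  constructor
  · rintro ⟨c, hc⟩
    refine ⟨g.val 0 0, Matrix.map_injective φ.injective ?_⟩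
    have : c = φ (g.val 0 0) := by simpa [gm_val] using (congrFun (congrFun hc 0) 0).symm
    change (gm φ g).val = _
    rw [hc, this]
    ext i j; by_cases h : i = j <;> simp [h]
  · rintro ⟨c, hc⟩
    refine ⟨φ c, ?_⟩
    rw [gm_val, hc]
    ext i j; by_cases h : i = j <;> simp [h]

noncomputable def pqMap (φ : F →+* K) (P : Subgroup (G3 F)) : PQ P ≃* PQ (P.map (gm φ)) :=
  QuotientGroup.congr _ _ (P.equivMapOfInjective _ (gm_inj φ)) (by
    ext ⟨_, x, hx, rfl⟩
    simp only [Subgroup.mem_map, Subgroup.mem_subgroupOf]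
    constructor
    · rintro ⟨y, hy, e⟩
      have : gm φ y.1 = gm φ x := congrArg Subtype.val e
      rw [← this, ← pr_eq_one, pr_gm, pr_eq_one]; exact hy
    · intro h
      exact ⟨⟨x, hx⟩, by rwa [← pr_eq_one, pr_gm, pr_eq_one] at h, rfl⟩)

theorem full_map (φ : F →+* K) {P : Subgroup (G3 F)} (hP : Full (Geo.matrixSet P)) :
    Full (Geo.matrixSet (P.map (gm φ))) := by
  refine full_of_single fun a b => ?_
  have := hP.induction (p := fun X => X.map φ ∈ Submodule.span K (Geo.matrixSet (P.map (gm φ))))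
    (by rintro _ ⟨x, hx, rfl⟩; exact Submodule.subset_span ⟨gm φ x, ⟨x, hx, rfl⟩, rfl⟩) (by simp)
    (fun x y hx hy => by rw [Matrix.map_add _ (map_add φ)]; exact add_mem hx hy)
    (fun c x hx => by
      have : (c • x).map φ = φ c • x.map φ := by ext; simp
      rw [this]; exact Submodule.smul_mem _ _ hx) (Matrix.single a b 1)
  simpa using this

theorem descend [Finite F] {P : Subgroup (G3 F)} (hP : Full (Geo.matrixSet P)) (E : Subfield F)
    (ht : ∀ x ∈ P, T x ∈ E) : ∃ (Q : G3 F) (P0 : Subgroup (G3 E)), Full (Geo.matrixSet P0) ∧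
      ∀ g, g ∈ P ↔ ∃ g0 ∈ P0, g = Q * gm E.subtype g0 * Q⁻¹ := by
  obtain ⟨Q, hQ⟩ := exists_over_of_trace E (one_mem_matrixSet P) (mul_mem_matrixSet P) hP (by
    rintro _ ⟨x, hx, rfl⟩; exact ht x hx)
  let P0 : Subgroup (G3 E) := P.comap ((MulAut.conj Q).toMonoidHom.comp (gm E.subtype))
  have key : ∀ g ∈ P, ∃ g0 ∈ P0, g = Q * gm E.subtype g0 * Q⁻¹ := fun g hg => by
    have := (hQ g.val).1 (Submodule.subset_span ⟨g, hg, rfl⟩)
    rw [cj_coe] at this
    obtain ⟨g0, h0⟩ := this.exists_gl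
    have e : g = Q * gm E.subtype g0 * Q⁻¹ := by rw [h0]; group
    exact ⟨g0, by change Q * gm E.subtype g0 * Q⁻¹ ∈ P; rwa [← e], e⟩
  refine ⟨Q, P0, ?_, fun g => ⟨key g, by rintro ⟨g0, h0, rfl⟩; exact h0⟩⟩
  rw [Full, eq_top_iff]
  rintro Y -
  have h1 := (hQ (cj Q (Y.map E.subtype))).2 (by rw [cj_inv_cj]; exact over_map Y)
  have h2 : ∀ X ∈ Submodule.span E (Geo.matrixSet P), ∃ Y ∈ Submodule.span E (Geo.matrixSet P0),
      X = cj Q (Y.map E.subtype) := fun X hX => by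
    induction hX using Submodule.span_induction with
    | mem x hx =>
      obtain ⟨g, hg, rfl⟩ := hx
      obtain ⟨g0, h0, rfl⟩ := key g hg
      exact ⟨g0.val, Submodule.subset_span ⟨g0, h0, rfl⟩, by rw [← gm_val, cj_coe]⟩
    | zero => exact ⟨0, zero_mem _, by simp⟩
    | add x y _ _ hx hy =>
      obtain ⟨x0, a, rfl⟩ := hx
      obtain ⟨y0, b, rfl⟩ := hy
      exact ⟨x0 + y0, add_mem a b, by rw [Matrix.map_add _ (map_add _), map_add]⟩
    | smul c x _ hx =>
      obtain ⟨x0, a, rfl⟩ := hx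
      refine ⟨c • x0, Submodule.smul_mem _ _ a, ?_⟩
      have : (c • x0).map E.subtype = (c : F) • x0.map E.subtype := by ext; simp
      rw [this, map_smul]; rfl
  obtain ⟨Y', h3, h4⟩ := h2 _ h1
  rwa [Matrix.map_injective E.subtype.injective ((cj Q).injective h4)]

/-- the conclusion of the main theorem -/
def Concl (L : Subgroup (G3 K)) : Prop :=
  (∃ (E : Subfield K) (P : G3 K), 3 ≤ Nat.card E ∧ ∀ g, g ∈ L ↔ g.val.det = 1 ∧ Over E (cj P⁻¹ g.val)) ∨
  (∃ (E : Subfield K) (q : ℕ) (P : G3 K), 3 ≤ q ∧ Nat.card E = q ^ 2 ∧ ∀ g, g ∈ L ↔ g.val.det = 1 ∧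
    Over E (cj P⁻¹ g.val) ∧ (cj P⁻¹ g.val)ᵀ * (cj P⁻¹ g.val).map (· ^ q) = 1) ∨
  ((2 : K) ≠ 0 ∧ ∃ B : M3 K, Bᵀ = B ∧ B.det ≠ 0 ∧ ∀ g ∈ L, g.valᵀ * B * g.val = B) ∨
  Nat.card (PQ L) = 168 ∨ Nonempty (PQ L ≃* alternatingGroup (Fin 6)) ∨
  ((5 : K) = 0 ∧ Nonempty (PQ L ≃* alternatingGroup (Fin 7)))

/-- the main theorem, as a hypothesis -/
def MHMain : Prop := ∀ (K : Type u) [Field K] [Finite K] (L : Subgroup (G3 K)), ⁅L, L⁆ = L → Irr L →
  (∀ g ∈ L, g.val.charpoly.Splits) → Concl L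

theorem exists_ext (F : Type u) [Field F] [Finite F] : ∃ (K : Type u) (_ : Field K) (_ : Finite K) (φ : F →+* K),
    ∀ g : G3 F, (gm φ g).val.charpoly.Splits := by
  have := Fintype.ofFinite (G3 F)
  let f : Polynomial F := ∏ g : G3 F, g.val.charpoly
  have hf : f ≠ 0 := Finset.prod_ne_zero_iff.2 fun g _ => g.val.charpoly_monic.ne_zero
  refine ⟨f.SplittingField, inferInstance, Module.finite_of_finite F, algebraMap _ _, fun g => ?_⟩
  rw [gm_val, Matrix.charpoly_map]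
  exact (Polynomial.SplittingField.splits f).of_dvd (Polynomial.map_ne_zero hf)
    (Polynomial.map_dvd _ (Finset.dvd_prod_of_mem _ (Finset.mem_univ g)))

theorem card_comap (φ : F →+* K) {E : Subfield K} (h : ∀ e ∈ E, ∃ a, φ a = e) :
    Nat.card (E.comap φ) = Nat.card E :=
  Nat.card_congr (Equiv.ofBijective (fun x => (⟨φ x.1, x.2⟩ : E)) ⟨fun x y e =>
    Subtype.ext (φ.injective (congrArg Subtype.val e)), fun y => by
      obtain ⟨a, ha⟩ := h y.1 y.2
      exact ⟨⟨a, by change φ a ∈ E; rw [ha]; exact y.2⟩, Subtype.ext ha⟩⟩)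

theorem eq_of_inj [Finite F] (φ : F →+* K) {P : Subgroup (G3 F)} {S : G3 F → Prop} (h1 : ∀ g ∈ P, S g)
    (A : G3 K) (B : G3 F) (h2 : ∀ g, S g → A * gm φ (B * g * B⁻¹) * A⁻¹ ∈ P.map (gm φ)) (g : G3 F) :
    g ∈ P ↔ S g := by
  have hc : Nat.card {g // S g} ≤ Nat.card P := by
    rw [Nat.card_congr (P.equivMapOfInjective _ (gm_inj φ)).toEquiv]
    have : Finite (P.map (gm φ)) := Finite.of_equiv _ (P.equivMapOfInjective _ (gm_inj φ)).toEquiv
    refine Nat.card_le_card_of_injective (fun g => ⟨_, h2 g.1 g.2⟩) fun x y e => Subtype.ext ?_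
    have := gm_inj φ (mul_left_cancel (mul_right_cancel (congrArg Subtype.val e)))
    exact mul_left_cancel (mul_right_cancel this)
  have : (P : Set (G3 F)) = {g | S g} := Set.eq_of_subset_of_ncard_le h1 hc
  exact Set.ext_iff.1 this g

theorem concl_of_map [Finite F] [Finite K] (φ : F →+* K) {P : Subgroup (G3 F)} (hP : Full (Geo.matrixSet P))
    (h : Concl (P.map (gm φ))) : Concl P := by
  have tr_mem : ∀ {E : Subfield K} {A : G3 K}, (∀ g ∈ P.map (gm φ), Over E (cj A⁻¹ g.val)) →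
      ∀ x ∈ P, T x ∈ E.comap φ := fun {E A} h x hx => by
    have := (h _ ⟨x, hx, rfl⟩).trace
    rw [trace_cj] at this
    change φ (T x) ∈ E
    rw [← T_gm]; exact this
  have det1 : ∀ {x : G3 F}, (gm φ x).val.det = 1 → x.val.det = 1 := fun h =>
    φ.injective (by rw [← det_gm, h, map_one])
  rcases h with ⟨E, A, h3, h⟩ | ⟨E, q, A, h3, hE, h⟩ | ⟨h2, B, h3, h4, h⟩ | h | ⟨⟨e⟩⟩ | ⟨h5, ⟨e⟩⟩
  · have hE : ∀ e ∈ E, ∃ a, φ a = e := fun e he => by
      obtain ⟨x, -, hx⟩ := (h (A * comp e 0 * A⁻¹)).2 ⟨det_conj _ (comp_det _ _), by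
        rw [← cj_coe, cj_inv_cj]; exact comp_over he (zero_mem _)⟩
      exact ⟨T x, by rw [← T_gm, hx, T_conj, T_comp]⟩
    obtain ⟨Q, P0, -, hQ⟩ := descend hP _ (tr_mem fun g hg => ((h g).1 hg).2)
    refine .inl ⟨E.comap φ, Q, by rwa [card_comap φ hE], eq_of_inj φ (fun g hg => ⟨det1 ((h _).1 ⟨g, hg, rfl⟩).1, ?_⟩)
      A Q⁻¹ fun g hg => (h _).2 ⟨det_conj _ (by rw [det_gm, det_conj _ hg.1, map_one]), ?_⟩⟩
    · obtain ⟨g0, -, rfl⟩ := (hQ g).1 hg
      rw [← cj_coe, cj_inv_cj]; exact over_map _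
    · rw [← cj_coe, cj_inv_cj, gm_val, ← cj_coe]; exact hg.2
  · have := Fintype.ofFinite E
    have := Fintype.ofFinite (E.comap φ)
    have hq : Fintype.card E = q ^ 2 := by rw [← hE, Nat.card_eq_fintype_card]
    have hE' : ∀ e ∈ E, ∃ a, φ a = e := fun e he => by
      obtain ⟨g, g1, g2, g3⟩ := exists_trace_SU hq ⟨e, he⟩
      obtain ⟨x, -, hx⟩ := (h (A * gm E.subtype g * A⁻¹)).2 ⟨det_conj _ (by rw [det_gm, g1, map_one]), by
        rw [← cj_coe, cj_inv_cj]; exact over_map _, by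
        rw [← cj_coe, cj_inv_cj]
        have := congrArg (Matrix.map · E.subtype) g2
        simp only [Matrix.map_mul, Matrix.map_one, map_zero, map_one] at this
        exact this⟩
      exact ⟨T x, by rw [← T_gm, hx, T_conj, T_gm, g3]; rfl⟩
    have hq' : Fintype.card (E.comap φ) = q ^ 2 := by rw [← hE, ← card_comap φ hE', Nat.card_eq_fintype_card]
    obtain ⟨Q, P0, hP0, hQ⟩ := descend hP _ (tr_mem fun g hg => ((h g).1 hg).2.1)
    have hmap : ∀ X : M3 (E.comap φ), ((Xᵀ * X.map (UP hq').σ).map (E.comap φ).subtype).map φ =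
        ((X.map (E.comap φ).subtype).map φ)ᵀ * ((X.map (E.comap φ).subtype).map φ).map (· ^ q) := fun X => by
      rw [Matrix.map_mul, Matrix.map_mul]
      congr 1
      ext i j; simp [UP_σ]
    obtain ⟨G, hG, hG2, hG3⟩ := herm_of_trace hP0 (UP hq').σσ (UP_ne hq') fun x hx => by
      obtain ⟨-, h5, h6⟩ := (h _).1 ⟨_, (hQ _).2 ⟨x, hx, rfl⟩, rfl⟩
      rw [cj_coe] at h5 h6
      obtain ⟨y, hy⟩ := h5.exists_gl
      rw [← hy] at h6
      have h7 : y.valᵀ * 1 * y.val.map (UP hq).σ = 1 := by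
        rw [Matrix.mul_one]
        apply Matrix.map_injective E.subtype.injective
        simp only [Matrix.map_mul, Matrix.map_one, map_zero, map_one]
        exact h6
      have h8 := T_inv_of_herm (UP hq).σσ (by simp) h7
      have h9 : ∀ {x y}, gm E.subtype y = A⁻¹ * gm φ (Q * gm (E.comap φ).subtype x * Q⁻¹) * A⁻¹⁻¹ →
          E.subtype (T y) = φ ((E.comap φ).subtype (T x)) := fun {x y} e => by
        have := congrArg T e
        rwa [T_conj, T_gm, T_gm, T_conj, T_gm] at this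
      apply (E.comap φ).subtype.injective; apply φ.injective
      rw [← h9 (y := y⁻¹) (by rw [map_inv, hy]; simp [mul_assoc]), ← h8, UP_σ, UP_σ, map_pow, map_pow, map_pow,
        h9 hy]
    obtain ⟨a, ha⟩ := exists_orthonormal (hq := hq') hG2 hG
    refine .inr (.inl ⟨E.comap φ, q, Q * gm (E.comap φ).subtype a, h3, by rw [Nat.card_eq_fintype_card, hq'],
      eq_of_inj φ (fun g hg => ⟨det1 ((h _).1 ⟨g, hg, rfl⟩).1, ?_⟩)
      A (Q * gm (E.comap φ).subtype a)⁻¹ fun g hg =>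
        (h _).2 ⟨det_conj _ (by rw [det_gm, det_conj _ hg.1, map_one]), ?_⟩⟩)
    · obtain ⟨g0, h0, rfl⟩ := (hQ g).1 hg
      have e : cj (Q * gm (E.comap φ).subtype a)⁻¹ (Q * gm (E.comap φ).subtype g0 * Q⁻¹).val =
          (cj a⁻¹ g0.val).map (E.comap φ).subtype := by
        rw [cj_coe, cj_coe, ← gm_val]; congr 1; simp [mul_assoc]
      rw [e]
      refine ⟨over_map _, Matrix.map_injective φ.injective ?_⟩
      have h1 := (cj_form' (UP hq').σ ha (cj a⁻¹ g0.val)).1 (by rw [cj_cj_inv]; exact hG3 g0 h0)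
      have h2 := hmap (cj a⁻¹ g0.val)
      rw [Matrix.mul_one] at h1
      rw [h1] at h2
      simp only [Matrix.map_mul, Matrix.map_one, map_zero, map_one] at h2 ⊢
      rw [h2]
      congr 1
      ext i j; simp
    · rw [← cj_coe, cj_inv_cj, gm_val, ← cj_coe]
      refine ⟨hg.2.1, ?_⟩
      have := congrArg (Matrix.map · φ) hg.2.2
      simp only [Matrix.map_mul, Matrix.map_one, map_zero, map_one] at this
      rw [← this]
      congr 1
      ext i j; simp
  · refine .inr (.inr (.inl (symm_of_trace hP fun x hx => φ.injective ?_)))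
    rw [← T_gm, ← T_gm, map_inv]
    exact T_inv_of_symm h4 (h _ ⟨x, hx, rfl⟩)
  · exact .inr (.inr (.inr (.inl ((Nat.card_congr (pqMap φ P).toEquiv).trans h))))
  · exact .inr (.inr (.inr (.inr (.inl ⟨(pqMap φ P).trans e⟩))))
  · exact .inr (.inr (.inr (.inr (.inr ⟨φ.injective (by rw [map_ofNat, h5, map_zero]), ⟨(pqMap φ P).trans e⟩⟩))))

theorem mainF (hM : MHMain.{u}) {F : Type u} [Field F] [Finite F] {P : Subgroup (G3 F)} (hp : ⁅P, P⁆ = P)
    (hP : Full (Geo.matrixSet P)) : Concl P := by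
  obtain ⟨K, _, _, φ, hφ⟩ := exists_ext F
  exact concl_of_map φ hP (hM K _ (by rw [← Subgroup.map_commutator, hp]) (full_map φ hP).irr (by
    rintro _ ⟨x, -, rfl⟩; exact hφ x))

end Cfsg.Agent.H5.MH
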