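import Cfsg.Agent.H5.MH25

set_option autoImplicit false

/-! Permutations of at most eight points coded by natural numbers. -/

namespace Cfsg.Agent.H5.MH
open Cfsg.Agent.H5.CT2 Equiv

noncomputable section

def mkc (n : ℕ) (f : ℕ → ℕ) : ℕ := Nat.rec 0 (fun k ih => Nat.add ih (Nat.mul (f k) (Nat.pow 8 k))) n

def tb (c i : ℕ) : ℕ := Nat.mod (Nat.shiftRight c (Nat.mul 3 i)) 8

theorem tb_eq (c i : ℕ) : tb c i = c / 8 ^ i % 8 := by
  show c >>> (3 * i) % 8 = _
  rw [Nat.shiftRight_eq_div_pow, pow_mul]; rfl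

theorem mkc_succ (n : ℕ) (f : ℕ → ℕ) : mkc (n + 1) f = mkc n f + f n * 8 ^ n := rfl

theorem mkc_lt {n : ℕ} {f : ℕ → ℕ} (h : ∀ k < n, f k < 8) : mkc n f < 8 ^ n := by
  induction n with
  | zero => simp [mkc]
  | succ n ih =>
    have h1 := ih fun k hk => h k (by omega)
    have h2 := h n (by omega)
    rw [mkc_succ, pow_succ]; nlinarith

theorem tb_mkc {n : ℕ} {f : ℕ → ℕ} (h : ∀ k < n, f k < 8) {i : ℕ} (hi : i < n) : tb (mkc n f) i = f i := by
  induction n with
  | zero => omega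
  | succ n ih =>
    have h1 := mkc_lt (n := n) fun k hk => h k (by omega)
    rw [mkc_succ, tb_eq]
    rcases Nat.lt_succ_iff_lt_or_eq.1 hi with h2 | rfl
    · rw [← ih (fun k hk => h k (by omega)) h2, tb_eq]
      obtain ⟨d, rfl⟩ := Nat.exists_eq_add_of_lt h2
      rw [show f (i + d + 1) * 8 ^ (i + d + 1) = 8 ^ i * (8 * (f (i + d + 1) * 8 ^ d)) by ring,
        Nat.add_mul_div_left _ _ (by positivity), Nat.add_mul_mod_self_left]
    · rw [Nat.add_mul_div_right _ _ (by positivity), Nat.div_eq_of_lt h1, zero_add, Nat.mod_eq_of_lt (h i hi)]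

theorem mkc_congr {n : ℕ} {f g : ℕ → ℕ} (h : ∀ k < n, f k = g k) : mkc n f = mkc n g := by
  induction n with
  | zero => rfl
  | succ n ih => rw [mkc_succ, mkc_succ, ih fun k hk => h k (by omega), h n (by omega)]

variable {n : ℕ}

def fn (σ : Perm (Fin n)) (k : ℕ) : ℕ := if h : k < n then σ ⟨k, h⟩ else 0

def cd (σ : Perm (Fin n)) : ℕ := mkc n (fn σ)

def pm (n a b : ℕ) : ℕ := force a fun a => force b fun b => mkc n fun k => tb a (tb b k)

theorem fn_lt (σ : Perm (Fin n)) {k : ℕ} (hk : k < n) : fn σ k < n := by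
  simp [fn, hk]

theorem tb_cd (hn : n ≤ 8) (σ : Perm (Fin n)) (i : Fin n) : tb (cd σ) i = σ i := by
  rw [cd, tb_mkc (fun k hk => (fn_lt σ hk).trans_le hn) i.2, fn, dif_pos i.2]

theorem cd_inj (hn : n ≤ 8) {σ τ : Perm (Fin n)} : cd σ = cd τ ↔ σ = τ :=
  ⟨fun h => Equiv.ext fun i => Fin.ext (by rw [← tb_cd hn, h, tb_cd hn]), fun h => h ▸ rfl⟩

theorem cd_mul (hn : n ≤ 8) (σ τ : Perm (Fin n)) : cd (σ * τ) = pm n (cd σ) (cd τ) := by
  simp only [pm, force_eq]
  refine mkc_congr fun k hk => ?_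
  rw [fn, dif_pos hk, show tb (cd τ) k = τ ⟨k, hk⟩ from tb_cd hn τ ⟨k, hk⟩, tb_cd hn]; rfl

theorem beq_false {a b : ℕ} : Nat.beq a b = false ↔ a ≠ b := by
  rw [← Bool.not_eq_true, Nat.beq_eq]

/-- validity of a code -/
def isP (n c : ℕ) : Bool := force c fun c => Nat.beq c (mkc n (tb c)) &&
  allLt n fun i => force (tb c i) fun a => Nat.blt a n && allLt i fun j => !Nat.beq a (tb c j)

theorem exists_of_isP {c : ℕ} (h : isP n c = true) : ∃ σ : Perm (Fin n), cd σ = c := by
  simp only [isP, force_eq, Bool.and_eq_true, Nat.beq_eq, allLt_iff, Nat.blt_eq, Bool.not_eq_true',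
    beq_false] at h
  obtain ⟨h1, h2⟩ := h
  let f : Fin n → Fin n := fun i => ⟨tb c i, (h2 i i.2).1⟩
  have hf : Function.Injective f := fun i j e => by
    have e : tb c i = tb c j := congrArg Fin.val e
    rcases lt_trichotomy i j with h | h | h
    · exact absurd e.symm ((h2 j j.2).2 i h)
    · exact h
    · exact absurd e ((h2 i i.2).2 j h)
  refine ⟨Equiv.ofBijective f hf.bijective_of_finite, ?_⟩
  rw [h1]
  exact mkc_congr fun k hk => by rw [fn, dif_pos hk]; rfl

def sumLt (n : ℕ) (f : ℕ → ℕ) : ℕ := Nat.rec 0 (fun k ih => Nat.add ih (f k)) n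

theorem sumLt_eq (n : ℕ) (f : ℕ → ℕ) : sumLt n f = ∑ k ∈ Finset.range n, f k := by
  induction n with
  | zero => rfl
  | succ n ih => rw [Finset.sum_range_succ, ← ih]; rfl

/-- even parity of a code -/
def evn (n c : ℕ) : Bool := force c fun c =>
  Nat.beq (Nat.mod (sumLt n fun j => force (tb c j) fun b => sumLt j fun i => cond (Nat.blt (tb c i) b) 0 1) 2) 0

theorem evn_cd (hn : n ≤ 8) (σ : Perm (Fin n)) : evn n (cd σ) = true ↔ σ ∈ alternatingGroup (Fin n) := by
  rw [Perm.mem_alternatingGroup, Perm.sign_eq_prod_prod_Iio]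
  simp only [evn, force_eq, Nat.beq_eq, sumLt_eq, nmod_eq]
  have : ∏ j : Fin n, ∏ i ∈ Finset.Iio j, (if σ i < σ j then 1 else -1 : ℤˣ) =
      (-1) ^ ∑ j ∈ Finset.range n, ∑ i ∈ Finset.range j, cond (Nat.blt (tb (cd σ) i) (tb (cd σ) j)) 0 1 := by
    rw [← Fin.sum_univ_eq_sum_range (fun j => ∑ i ∈ Finset.range j,
      cond (Nat.blt (tb (cd σ) i) (tb (cd σ) j)) 0 1), ← Finset.prod_pow_eq_pow_sum]
    refine Finset.prod_congr rfl fun j _ => ?_
    rw [← Finset.prod_pow_eq_pow_sum, ← Nat.Iio_eq_range, ← Fin.map_valEmbedding_Iio, Finset.prod_map]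
    refine Finset.prod_congr rfl fun i _ => ?_
    simp only [Fin.valEmbedding_apply, tb_cd hn]
    by_cases h : σ i < σ j
    · rw [if_pos h, Nat.blt_eq.mpr h]; rfl
    · rw [if_neg h, Bool.eq_false_iff.2 fun h' => h (Nat.blt_eq.mp h')]; rfl
  rw [this, neg_one_pow_eq_one_iff_even (by decide), Nat.even_iff]

def goP (n : ℕ) (f : ℕ → Bool) (r : ℕ) : ℕ → ℕ → ℕ → Bool :=
  Nat.rec (fun _ c _ => f c) (fun _ ih w c m => allLt n fun a => Nat.testBit m a ||
    force (Nat.mul w 8) fun w' => force (Nat.add c (Nat.mul a w)) fun c' =>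
      force (Nat.lor m (Nat.pow 2 a)) fun m' => ih w' c' m') r

/-- quantification over all permutations -/
def allP (n : ℕ) (f : ℕ → Bool) : Bool := goP n f n 1 0 0

theorem goP_succ (f : ℕ → Bool) (r w c m : ℕ) : goP n f (r + 1) w c m = allLt n fun a => m.testBit a ||
    goP n f r (w * 8) (c + a * w) (m ||| 2 ^ a) := by
  change allLt n _ = _
  congr 1; funext a
  rw [force_eq, force_eq, force_eq]; rfl

theorem goP_spec (f : ℕ → Bool) (σ : Perm (Fin n)) (r : ℕ) : ∀ pos m, pos + r = n →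
    (∀ b, m.testBit b → ∃ k < pos, fn σ k = b) → goP n f r (8 ^ pos) (mkc pos (fn σ)) m = true →
    f (cd σ) = true := by
  induction r with
  | zero => intro pos m h _ h2; obtain rfl : pos = n := h; exact h2
  | succ r ih =>
    intro pos m h h1 h2
    have hp : pos < n := by omega
    rw [goP_succ, allLt_iff] at h2
    have h3 := h2 _ (fn_lt σ hp)
    rw [Bool.or_eq_true] at h3
    rcases h3 with h3 | h3
    · obtain ⟨k, hk, e⟩ := h1 _ h3
      rw [fn, fn, dif_pos hp, dif_pos (hk.trans hp)] at e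
      have := congrArg Fin.val (σ.injective (Fin.ext e))
      simp at this; omega
    · refine ih (pos + 1) (m ||| 2 ^ fn σ pos) (by omega) (fun b hb => ?_) h3
      rw [Nat.testBit_or, Bool.or_eq_true, Nat.testBit_two_pow] at hb
      rcases hb with hb | hb
      · obtain ⟨k, hk, e⟩ := h1 _ hb; exact ⟨k, by omega, e⟩
      · exact ⟨pos, by omega, by simpa using hb⟩

theorem allP_spec {f : ℕ → Bool} (h : allP n f = true) (σ : Perm (Fin n)) : f (cd σ) = true :=
  goP_spec f σ n 0 0 (zero_add n) (by simp) h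

/-- quantification over all even permutations -/
def allA (n : ℕ) (f : ℕ → Bool) : Bool := allP n fun c => !evn n c || f c

theorem allA_spec (hn : n ≤ 8) {f : ℕ → Bool} (h : allA n f = true) {σ : Perm (Fin n)}
    (hσ : σ ∈ alternatingGroup (Fin n)) : f (cd σ) = true := by
  simpa [(evn_cd hn σ).2 hσ] using allP_spec h σ

/-- a table of even permutations -/
def okT (n b T N : ℕ) : Bool := allLt N fun j => force (tbn b T j) fun c => isP n c && evn n c

theorem okT_spec (hn : n ≤ 8) {b T N : ℕ} (h : okT n b T N = true) {j : ℕ} (hj : j < N) :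
    ∃ σ ∈ alternatingGroup (Fin n), cd σ = tbn b T j := by
  simp only [okT, allLt_iff, force_eq, Bool.and_eq_true] at h
  obtain ⟨σ, hσ⟩ := exists_of_isP (h j hj).1
  exact ⟨σ, (evn_cd hn σ).1 (hσ ▸ (h j hj).2), hσ⟩

/-- every entry of the table is the identity or a generator times an earlier entry -/
def bfs (n b T N G m PR : ℕ) : Bool := allLt N fun j => force (tbn b T j) fun c => Nat.beq c (mkc n id) ||
  force (tbn 12 PR j) fun i => Nat.blt i j && anyLt m fun k => Nat.beq c (pm n (tbn b G k) (tbn b T i))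

theorem cd_one : cd (1 : Perm (Fin n)) = mkc n id := mkc_congr fun k hk => by simp [fn, hk]

theorem bfs_spec (hn : n ≤ 8) {b T N G m PR : ℕ} (h : bfs n b T N G m PR = true) {Q : Subgroup (Perm (Fin n))}
    (hG : ∀ k < m, ∃ σ ∈ Q, cd σ = tbn b G k) (j : ℕ) (hj : j < N) : ∃ σ ∈ Q, cd σ = tbn b T j := by
  simp only [bfs, allLt_iff, force_eq, Bool.and_eq_true, Bool.or_eq_true, Nat.beq_eq, Nat.blt_eq, anyLt_iff] at h
  induction j using Nat.strong_induction_on with
  | _ j ih =>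
    rcases h j hj with h1 | ⟨h1, k, hk, h2⟩
    · exact ⟨1, one_mem _, by rw [h1, cd_one]⟩
    · obtain ⟨σ, a1, a2⟩ := hG k hk
      obtain ⟨τ, b1, b2⟩ := ih _ h1 (h1.trans hj)
      exact ⟨σ * τ, mul_mem a1 b1, by rw [cd_mul hn, a2, b2, h2]⟩

def pw (n a k : ℕ) : ℕ := force a fun a => Nat.rec (mkc n id) (fun _ ih => pm n ih a) k

theorem cd_pow (hn : n ≤ 8) (σ : Perm (Fin n)) (k : ℕ) : cd (σ ^ k) = pw n (cd σ) k := by
  simp only [pw, force_eq]
  induction k with
  | zero => exact cd_one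
  | succ k ih => rw [pow_succ, cd_mul hn, ih]

end

end Cfsg.Agent.H5.MH
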