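import Cfsg.Agent.H5.MH5

set_option autoImplicit false

namespace Cfsg.Agent.H5.MH
open Cfsg.Agent.H5.CT2 Equiv

noncomputable section

theorem a6_elt {x : Perm (Fin 6)} (hx : x ∈ A6) :
    (x ^ 3 = 1 ∨ x ^ 4 = 1 ∨ x ^ 5 = 1) ∧ ∃ g ∈ A6, x * g * x = g := by
  have h := allA_spec h6 (f := fun c => (Nat.beq (pw 6 c 3) (cd (1 : Perm (Fin 6))) ||
    Nat.beq (pw 6 c 4) (cd (1 : Perm (Fin 6))) || Nat.beq (pw 6 c 5) (cd (1 : Perm (Fin 6)))) &&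
    anyLt 46 fun j => force (tbn 18 I6 j) fun g => Nat.beq (pm 6 (pm 6 c g) c) g) (by decide +kernel) hx
  simp only [Bool.and_eq_true, Bool.or_eq_true, Nat.beq_eq, anyLt_iff, force_eq, ← cd_pow h6, cd_inj h6,
    or_assoc] at h
  obtain ⟨h1, j, hj, h2⟩ := h
  obtain ⟨g, g1, g2⟩ := okT_spec h6 okI6 hj
  rw [← g2, ← cd_mul h6, ← cd_mul h6, cd_inj h6] at h2
  exact ⟨h1, g, g1, h2⟩

theorem a6_quat {a b : Perm (Fin 6)} (ha : a ∈ A6) (hb : b ∈ A6) (h4 : a ^ 4 = 1) (h2 : a ^ 2 ≠ 1)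
    (h : b ^ 2 = a ^ 2) : b = a ∨ b = a ^ 3 := by
  have h0 := allA_spec h6 (f := fun a => force (pw 6 a 2) fun a2 => force (pw 6 a 3) fun a3 =>
    !Nat.beq (pw 6 a 4) (cd (1 : Perm (Fin 6))) || Nat.beq a2 (cd (1 : Perm (Fin 6))) ||
    allP 6 fun b => !Nat.beq (pw 6 b 2) a2 || !evn 6 b || Nat.beq b a || Nat.beq b a3) (by decide +kernel) ha
  simp only [Bool.or_eq_true, Nat.beq_eq, force_eq, ← cd_pow h6, cd_inj h6, Bool.not_eq_true', beq_false,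
    ne_eq, h4, h2, not_true_eq_false, false_or] at h0
  have h1 := allP_spec h0 b
  simpa only [Bool.or_eq_true, Nat.beq_eq, force_eq, ← cd_pow h6, cd_inj h6, Bool.not_eq_true', beq_false,
    ne_eq, h, not_true_eq_false, false_or, (evn_cd h6 b).2 hb, Bool.true_eq_false, or_assoc] using h1

theorem a6_four {a : Perm (Fin 6)} (ha : a ∈ A6) (h4 : a ^ 4 = 1) (h2 : a ^ 2 ≠ 1) :
    ∃ g ∈ A6, g * a = r6 * g := by
  have h0 := allA_spec h6 (f := fun a =>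
    !Nat.beq (pw 6 a 4) (cd (1 : Perm (Fin 6))) || Nat.beq (pw 6 a 2) (cd (1 : Perm (Fin 6))) ||
    anyLt 360 fun j => force (tbn 18 TA6 j) fun g => Nat.beq (pm 6 g a) (pm 6 (cd r6) g)) (by decide +kernel) ha
  simp only [Bool.or_eq_true, Nat.beq_eq, force_eq, ← cd_pow h6, cd_inj h6, Bool.not_eq_true', beq_false,
    ne_eq, h4, h2, not_true_eq_false, false_or, anyLt_iff] at h0
  obtain ⟨j, hj, h2⟩ := h0
  obtain ⟨g, g1, g2⟩ := okT_spec h6 ok6 hj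
  rw [← g2, ← cd_mul h6, ← cd_mul h6, cd_inj h6] at h2
  exact ⟨g, g1, h2⟩

theorem a6_three {a : Perm (Fin 6)} (ha : a ∈ A6) (h3 : a ^ 3 = 1) (h1 : a ≠ 1)
    (ht : (r6 ^ 2 * a) ^ 2 = 1) (hc : a * (r6 * a * r6 ^ 3) = r6 * a * r6 ^ 3 * a) :
    ∃ k < 4, ∃ e < 2, r6 ^ k * v6 ^ e * a = x6 * (r6 ^ k * v6 ^ e) ∨
      r6 ^ k * v6 ^ e * a = x6 * (r6 * x6 * r6 ^ 3) * (r6 ^ k * v6 ^ e) := by
  have h0 := allA_spec h6 (f := fun a =>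
    !Nat.beq (pw 6 a 3) (cd (1 : Perm (Fin 6))) || Nat.beq a (cd (1 : Perm (Fin 6))) ||
    !Nat.beq (pw 6 (pm 6 (pw 6 (cd r6) 2) a) 2) (cd (1 : Perm (Fin 6))) ||
    !Nat.beq (pm 6 a (pm 6 (pm 6 (cd r6) a) (pw 6 (cd r6) 3))) (pm 6 (pm 6 (pm 6 (cd r6) a) (pw 6 (cd r6) 3)) a) ||
    anyLt 4 fun k => anyLt 2 fun e => force (pm 6 (pw 6 (cd r6) k) (pw 6 (cd v6) e)) fun g =>
      Nat.beq (pm 6 g a) (pm 6 (cd x6) g) ||
      Nat.beq (pm 6 g a) (pm 6 (pm 6 (cd x6) (pm 6 (pm 6 (cd r6) (cd x6)) (pw 6 (cd r6) 3))) g))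
    (by decide +kernel) ha
  simpa only [Bool.or_eq_true, Nat.beq_eq, force_eq, ← cd_pow h6, ← cd_mul h6, cd_inj h6, Bool.not_eq_true',
    beq_false, ne_eq, h3, h1, ht, hc, not_true_eq_false, false_or, anyLt_iff] using h0

theorem a6_v1 {a : Perm (Fin 6)} (ha : a ∈ A6) (h2 : a ^ 2 = 1) (h1 : (a * r6) ^ 2 = 1)
    (h3 : (x6 * r6 * a) ^ 3 = 1) : a = v6 := by
  have h0 := allA_spec h6 (f := fun a =>
    !Nat.beq (pw 6 a 2) (cd (1 : Perm (Fin 6))) || !Nat.beq (pw 6 (pm 6 a (cd r6)) 2) (cd (1 : Perm (Fin 6))) ||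
    !Nat.beq (pw 6 (pm 6 (pm 6 (cd x6) (cd r6)) a) 3) (cd (1 : Perm (Fin 6))) || Nat.beq a (cd v6))
    (by decide +kernel) ha
  simpa only [Bool.or_eq_true, Nat.beq_eq, force_eq, ← cd_pow h6, ← cd_mul h6, cd_inj h6, Bool.not_eq_true',
    beq_false, ne_eq, h3, h1, h2, not_true_eq_false, false_or] using h0

theorem a6_v2 {a : Perm (Fin 6)} (ha : a ∈ A6) (h2 : a ^ 2 = 1) (h1 : (a * r6 ^ 3) ^ 2 = 1)
    (h3 : (x6 * (r6 * x6 * r6 ^ 3) * r6 ^ 3 * a) ^ 3 = 1) : a = u6 := by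
  have h0 := allA_spec h6 (f := fun a =>
    !Nat.beq (pw 6 a 2) (cd (1 : Perm (Fin 6))) ||
    !Nat.beq (pw 6 (pm 6 a (cd (r6 ^ 3))) 2) (cd (1 : Perm (Fin 6))) ||
    !Nat.beq (pw 6 (pm 6 (cd (x6 * (r6 * x6 * r6 ^ 3) * r6 ^ 3)) a) 3) (cd (1 : Perm (Fin 6))) ||
    Nat.beq a (cd u6)) (by decide +kernel) ha
  simpa only [Bool.or_eq_true, Nat.beq_eq, force_eq, ← cd_pow h6, ← cd_mul h6, cd_inj h6, Bool.not_eq_true',
    beq_false, ne_eq, h3, h1, h2, not_true_eq_false, false_or] using h0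

theorem a6_gen {Q : Subgroup (Perm (Fin 6))} (h1 : r6 ∈ Q) (h2 : x6 ∈ Q) (h3 : v6 ∈ Q) : A6 ≤ Q := by
  intro a ha
  have h0 := allA_spec h6 (f := fun a => anyLt 360 fun j => Nat.beq a (tbn 18 TA6 j)) (by decide +kernel) ha
  simp only [anyLt_iff, Nat.beq_eq] at h0
  obtain ⟨j, hj, e⟩ := h0
  obtain ⟨σ, h4, h5⟩ := bfs_spec h6 (T := TA6) (N := 360) (G := GA6) (m := 3) (PR := PA6) (b := 18)
    (by decide +kernel) (Q := Q) (fun k hk => by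
      interval_cases k
      exacts [⟨r6, h1, by decide +kernel⟩, ⟨x6, h2, by decide +kernel⟩, ⟨v6, h3, by decide +kernel⟩]) j hj
  rwa [(cd_inj h6).1 (e.trans h5.symm)]

end

end Cfsg.Agent.H5.MH
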