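import Cfsg.Agent.H5.MH5

set_option autoImplicit false

namespace Cfsg.Agent.H5.MH
open Cfsg.Agent.H5.CT2 Equiv

noncomputable section

theorem a7_elt {x : Perm (Fin 7)} (hx : x ∈ A7) :
    (x ^ 4 = 1 ∨ x ^ 5 = 1 ∨ x ^ 6 = 1 ∨ x ^ 7 = 1) ∧ (x ^ 3 = 1 ∨ x ^ 4 = 1 → ∃ g ∈ A7, x * g * x = g) := by
  have h := allA_spec h7 (f := fun c => (Nat.beq (pw 7 c 4) (cd (1 : Perm (Fin 7))) ||
    Nat.beq (pw 7 c 5) (cd (1 : Perm (Fin 7))) || Nat.beq (pw 7 c 6) (cd (1 : Perm (Fin 7))) ||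
    Nat.beq (pw 7 c 7) (cd (1 : Perm (Fin 7)))) &&
    (!(Nat.beq (pw 7 c 3) (cd (1 : Perm (Fin 7))) || Nat.beq (pw 7 c 4) (cd (1 : Perm (Fin 7)))) ||
    anyLt 106 fun j => force (tbn 21 I7 j) fun g => Nat.beq (pm 7 (pm 7 c g) c) g)) (by decide +kernel) hx
  simp only [Bool.and_eq_true, Bool.or_eq_true, Nat.beq_eq, anyLt_iff, force_eq, ← cd_pow h7, cd_inj h7,
    or_assoc, Bool.not_eq_true', ← Bool.not_eq_true] at h
  refine ⟨h.1, fun h1 => ?_⟩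
  obtain ⟨j, hj, h2⟩ := h.2.resolve_left (not_not.2 h1)
  obtain ⟨g, g1, g2⟩ := okT_spec h7 okI7 hj
  rw [← g2, ← cd_mul h7, ← cd_mul h7, cd_inj h7] at h2
  exact ⟨g, g1, h2⟩

theorem a7_seven {x : Perm (Fin 7)} (hx : x ∈ A7) (h7' : x ^ 7 = 1) (h1 : x ≠ 1) :
    ∃ g ∈ A7, x * g = g * y7 ∨ x * g = g * y7 ^ 6 := by
  have h := allA_spec h7 (f := fun c => !Nat.beq (pw 7 c 7) (cd (1 : Perm (Fin 7))) ||
    Nat.beq c (cd (1 : Perm (Fin 7))) || force (mkc 7 fun i => tb (pw 7 c i) 0) fun g =>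
      force (cond (evn 7 g) g (pm 7 g (cd m7))) fun g => isP 7 g && evn 7 g &&
        (Nat.beq (pm 7 c g) (pm 7 g (cd y7)) || Nat.beq (pm 7 c g) (pm 7 g (cd (y7 ^ 6))))) (by decide +kernel) hx
  rw [force_eq, force_eq] at h
  generalize (cond _ _ _ : ℕ) = g at h
  simp only [Bool.and_eq_true, Bool.or_eq_true, Nat.beq_eq, ← cd_pow h7, cd_inj h7,
    Bool.not_eq_true', beq_false, ne_eq, h7', h1, not_true_eq_false, false_or] at h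
  obtain ⟨⟨h2, h3⟩, h4⟩ := h
  obtain ⟨g, rfl⟩ := exists_of_isP h2
  exact ⟨g, (evn_cd h7 g).1 h3, by simpa only [← cd_mul h7, cd_inj h7] using h4⟩

theorem a7_n {a : Perm (Fin 7)} (ha : a ∈ A7) (h : a * y7 = y7 ^ 2 * a) : ∃ k < 7, y7 ^ k * a = n7 * y7 ^ k := by
  have h0 := allA_spec h7 (f := fun a => !Nat.beq (pm 7 a (cd y7)) (pm 7 (cd (y7 ^ 2)) a) ||
    anyLt 7 fun k => force (pw 7 (cd y7) k) fun g => Nat.beq (pm 7 g a) (pm 7 (cd n7) g)) (by decide +kernel) ha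
  simpa only [Bool.or_eq_true, Nat.beq_eq, force_eq, ← cd_pow h7, ← cd_mul h7, cd_inj h7, Bool.not_eq_true',
    beq_false, ne_eq, h, not_true_eq_false, false_or, anyLt_iff] using h0

theorem a7_s {a : Perm (Fin 7)} (ha : a ∈ A7) (h1 : a ^ 3 = 1) (h2 : (y7 * a) ^ 7 = 1) (h3 : (n7 * a) ^ 6 = 1)
    (h4 : (y7 ^ 2 * a) ^ 3 = 1) (h5 : (y7 * n7 * a) ^ 4 = 1) : a = pz := by
  have h0 := allA_spec h7 (f := fun a => !Nat.beq (pw 7 a 3) (cd (1 : Perm (Fin 7))) ||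
    !Nat.beq (pw 7 (pm 7 (cd y7) a) 7) (cd (1 : Perm (Fin 7))) ||
    !Nat.beq (pw 7 (pm 7 (cd n7) a) 6) (cd (1 : Perm (Fin 7))) ||
    !Nat.beq (pw 7 (pm 7 (cd (y7 ^ 2)) a) 3) (cd (1 : Perm (Fin 7))) ||
    !Nat.beq (pw 7 (pm 7 (cd (y7 * n7)) a) 4) (cd (1 : Perm (Fin 7))) || Nat.beq a (cd pz)) (by decide +kernel) ha
  simpa only [Bool.or_eq_true, Nat.beq_eq, force_eq, ← cd_pow h7, ← cd_mul h7, cd_inj h7, Bool.not_eq_true',
    beq_false, ne_eq, h1, h2, h3, h4, h5, not_true_eq_false, false_or] using h0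

theorem a7_gen {Q : Subgroup (Perm (Fin 7))} (h1 : y7 ∈ Q) (h3 : pz ∈ Q) : A7 ≤ Q := by
  have tr : ∀ b : Fin 7, ∃ g ∈ Q, g 0 = b := fun b => ⟨y7 ^ b.val, pow_mem h1 _, by revert b; decide⟩
  have : MulAction.IsPretransitive Q (Fin 7) := ⟨fun a b => by
    obtain ⟨g, hg, rfl⟩ := tr a
    obtain ⟨h, hh, rfl⟩ := tr b
    exact ⟨⟨h * g⁻¹, mul_mem hh (inv_mem hg)⟩, by simp [Subgroup.smul_def]⟩⟩
  have hp : MulAction.IsPreprimitive Q (Fin 7) :=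
    MulAction.IsPreprimitive.of_prime_card (by simpa using Nat.prime_seven)
  exact Equiv.Perm.alternatingGroup_le_of_isPreprimitive_of_isThreeCycle_mem hp
    (card_support_eq_three_iff.1 (by decide)) h3

end

end Cfsg.Agent.H5.MH
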