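import Cfsg.Agent.H5.MH5

set_option autoImplicit false

namespace Cfsg.Agent.H5.MH
open Cfsg.Agent.H5.CT2 Equiv

noncomputable section

/-! ### the group of order 168 -/

def X8 : Subgroup (Perm (Fin 8)) := Subgroup.closure {t8, h8, w8}

theorem t8_mem : t8 ∈ X8 := Subgroup.subset_closure (by simp)
theorem h8_mem : h8 ∈ X8 := Subgroup.subset_closure (by simp)
theorem w8_mem : w8 ∈ X8 := Subgroup.subset_closure (by simp)

theorem closure_ind_fin {G : Type*} [Group G] [Finite G] {s : Set G} {p : G → Prop} (h1 : p 1)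
    (hm : ∀ x ∈ s, ∀ y, p y → p (x * y)) {g : G} (hg : g ∈ Subgroup.closure s) : p g := by
  induction hg using Subgroup.closure_induction_left with
  | one => exact h1
  | mul_left x hx y _ hy => exact hm x hx y hy
  | inv_mul_cancel x hx y _ hy =>
    have : ∀ k : ℕ, p (x ^ k * y) := fun k => by
      induction k with
      | zero => simpa using hy
      | succ k ih => rw [pow_succ', mul_assoc]; exact hm x hx _ ih
    have e : x⁻¹ = x ^ (orderOf x - 1) := by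
      rw [inv_eq_iff_mul_eq_one, ← pow_succ', Nat.sub_add_cancel (orderOf_pos x), pow_orderOf_eq_one]
    rw [e]; exact this _

theorem chkN8 : (allLt 168 fun j => allLt 3 fun k => force (tbn 8 N8 (Nat.add (Nat.mul 3 j) k)) fun i =>
    Nat.blt i 168 && Nat.beq (tbn 24 T8 i) (pm 8 (tbn 24 G8 k) (tbn 24 T8 j))) = true := by decide +kernel

theorem G8_0 : tbn 24 G8 0 = cd t8 := by decide +kernel
theorem G8_1 : tbn 24 G8 1 = cd h8 := by decide +kernel
theorem G8_2 : tbn 24 G8 2 = cd w8 := by decide +kernel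

theorem x8_tab {x : Perm (Fin 8)} (hx : x ∈ X8) : ∃ j < 168, cd x = tbn 24 T8 j := by
  have h := chkN8
  simp only [allLt_iff, force_eq, Bool.and_eq_true, Nat.blt_eq, Nat.beq_eq] at h
  refine closure_ind_fin (p := fun x => ∃ j < 168, cd x = tbn 24 T8 j) ⟨0, by norm_num, by decide +kernel⟩ ?_ hx
  rintro s hs y ⟨j, hj, e⟩
  rcases hs with rfl | rfl | rfl
  · exact ⟨_, (h j hj 0 (by norm_num)).1, by rw [(h j hj 0 (by norm_num)).2, cd_mul h8', e, G8_0]⟩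
  · exact ⟨_, (h j hj 1 (by norm_num)).1, by rw [(h j hj 1 (by norm_num)).2, cd_mul h8', e, G8_1]⟩
  · exact ⟨_, (h j hj 2 (by norm_num)).1, by rw [(h j hj 2 (by norm_num)).2, cd_mul h8', e, G8_2]⟩

theorem x8_of_tab {j : ℕ} (hj : j < 168) : ∃ x ∈ X8, cd x = tbn 24 T8 j :=
  bfs_spec h8' (T := T8) (N := 168) (G := G8) (m := 3) (PR := P8) (b := 24) (by decide +kernel) (fun k hk => by
    interval_cases k
    exacts [⟨t8, t8_mem, G8_0.symm⟩, ⟨h8, h8_mem, G8_1.symm⟩, ⟨w8, w8_mem, G8_2.symm⟩]) j hj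

theorem x8_all {f : ℕ → Bool} (h : (allLt 168 fun j => force (tbn 24 T8 j) f) = true) {x : Perm (Fin 8)}
    (hx : x ∈ X8) : f (cd x) = true := by
  obtain ⟨j, hj, e⟩ := x8_tab hx
  rw [e, ← force_eq _ f]; exact (allLt_iff _ _).1 h j hj

theorem card_X8 : 168 ≤ Nat.card X8 := by
  have h : (allLt 168 fun j => force (tbn 24 T8 j) fun a => allLt j fun i => !Nat.beq a (tbn 24 T8 i)) = true := by
    decide +kernel
  simp only [allLt_iff, force_eq, Bool.not_eq_true', beq_false] at h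
  choose f f1 f2 using fun j : Fin 168 => x8_of_tab j.2
  have := Nat.card_le_card_of_injective (fun j => (⟨f j, f1 j⟩ : X8)) fun i j e => by
    have e : tbn 24 T8 i = tbn 24 T8 j := by rw [← f2, ← f2, show f i = f j from congrArg Subtype.val e]
    rcases lt_trichotomy i j with h1 | h1 | h1
    · exact absurd e.symm (h j j.2 i h1)
    · exact h1
    · exact absurd e (h i i.2 j h1)
  simpa using this

theorem x8_elt {x : Perm (Fin 8)} (hx : x ∈ X8) :
    ((x ^ 3 = 1 ∨ x ^ 4 = 1) ∧ ∃ g ∈ X8, x * g * x = g) ∨ ∃ g ∈ X8, x * g = g * t8 ∨ x * g = g * t8 ^ 6 := by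
  have h := x8_all (f := fun c => ((Nat.beq (pw 8 c 3) (cd (1 : Perm (Fin 8))) ||
    Nat.beq (pw 8 c 4) (cd (1 : Perm (Fin 8)))) &&
    anyLt 168 fun j => force (tbn 24 T8 j) fun g => Nat.beq (pm 8 (pm 8 c g) c) g) ||
    anyLt 168 fun j => force (tbn 24 T8 j) fun g => force (pm 8 c g) fun cg => Nat.beq cg (pm 8 g (cd t8)) ||
      Nat.beq cg (pm 8 g (cd (t8 ^ 6)))) (by decide +kernel) hx
  simp only [Bool.and_eq_true, Bool.or_eq_true, Nat.beq_eq, anyLt_iff, force_eq, ← cd_pow h8', cd_inj h8'] at h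
  rcases h with ⟨h1, j, hj, h2⟩ | ⟨j, hj, h2⟩
  · obtain ⟨g, g1, g2⟩ := x8_of_tab hj
    rw [← g2, ← cd_mul h8', ← cd_mul h8', cd_inj h8'] at h2
    exact .inl ⟨h1, g, g1, h2⟩
  · obtain ⟨g, g1, g2⟩ := x8_of_tab hj
    simp only [← g2, ← cd_mul h8', cd_inj h8'] at h2
    exact .inr ⟨g, g1, h2⟩

theorem x8_h {a : Perm (Fin 8)} (ha : a ∈ X8) (h : a * t8 = t8 ^ 2 * a) : ∃ k < 7, t8 ^ k * a = h8 * t8 ^ k := by
  have h0 := x8_all (f := fun a => !Nat.beq (pm 8 a (cd t8)) (pm 8 (cd (t8 ^ 2)) a) ||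
    anyLt 7 fun k => force (pw 8 (cd t8) k) fun g => Nat.beq (pm 8 g a) (pm 8 (cd h8) g)) (by decide +kernel) ha
  simpa only [Bool.or_eq_true, Nat.beq_eq, force_eq, ← cd_pow h8', ← cd_mul h8', cd_inj h8', Bool.not_eq_true',
    beq_false, ne_eq, h, not_true_eq_false, false_or, anyLt_iff] using h0

theorem x8_w {a : Perm (Fin 8)} (ha : a ∈ X8) (h1 : a ^ 2 = 1) (h2 : (a * h8) ^ 2 = 1) (h3 : (t8 * a) ^ 3 = 1) :
    a = w8 := by
  have h0 := x8_all (f := fun a => !Nat.beq (pw 8 a 2) (cd (1 : Perm (Fin 8))) ||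
    !Nat.beq (pw 8 (pm 8 a (cd h8)) 2) (cd (1 : Perm (Fin 8))) ||
    !Nat.beq (pw 8 (pm 8 (cd t8) a) 3) (cd (1 : Perm (Fin 8))) || Nat.beq a (cd w8)) (by decide +kernel) ha
  simpa only [Bool.or_eq_true, Nat.beq_eq, force_eq, ← cd_pow h8', ← cd_mul h8', cd_inj h8', Bool.not_eq_true',
    beq_false, ne_eq, h1, h2, h3, not_true_eq_false, false_or] using h0

theorem s8_swap {a : Perm (Fin 8)} (h1 : a 7 = 0) (h2 : a 0 = 7) (h3 : a * h8 = h8 ^ 2 * a) (h4 : ∀ i, a i ≠ i)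
    (h5 : ∃ k < 3, a ^ 2 = h8 ^ k) : ∃ k < 3, a * h8 ^ k = w8 := by
  have h0 := allP_spec (f := fun a => !Nat.beq (tb a 7) 0 || !Nat.beq (tb a 0) 7 ||
    !Nat.beq (pm 8 a (cd h8)) (pm 8 (cd (h8 ^ 2)) a) || (anyLt 8 fun i => Nat.beq (tb a i) i) ||
    (allLt 3 fun k => !Nat.beq (pw 8 a 2) (pw 8 (cd h8) k)) ||
    anyLt 3 fun k => Nat.beq (pm 8 a (pw 8 (cd h8) k)) (cd w8)) (by decide +kernel) a
  have e7 : tb (cd a) 7 = 0 := (tb_cd h8' a 7).trans (by rw [h1]; rfl)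
  have e0 : tb (cd a) 0 = 7 := (tb_cd h8' a 0).trans (by rw [h2]; rfl)
  simp only [Bool.or_eq_true, Nat.beq_eq, ← cd_pow h8', ← cd_mul h8', cd_inj h8', Bool.not_eq_true',
    beq_false, ne_eq, e7, e0, h3, not_true_eq_false, false_or, anyLt_iff, allLt_iff] at h0
  rcases h0 with (⟨i, hi, e⟩ | h0) | h0
  · exact absurd (Fin.ext ((tb_cd h8' a ⟨i, hi⟩).symm.trans e)) (h4 ⟨i, hi⟩)
  · obtain ⟨k, hk, e⟩ := h5; exact absurd e (h0 k hk)
  · exact h0

end

end Cfsg.Agent.H5.MH
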