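import Cfsg.Agent.H5.MH5c
import Cfsg.Agent.H2.Dihed3
import Cfsg.Agent.H4.Small
import Cfsg.Agent.H4.MobCard

set_option autoImplicit false

/-! Perfect groups of order 168. -/

namespace Cfsg.Agent.H5.MH
open Equiv Subgroup MulAction

variable {G : Type*} [Group G] [Finite G]

theorem no_normal_prime [Group.IsPerfect G] {p : ℕ} [hp : Fact p.Prime] (hc : ∀ P : Sylow p G, IsMulCommutative P)
    (N : Subgroup G) [N.Normal] : Nat.card N ≠ p := fun hN => by
  have := isCyclic_of_prime_card hN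
  have : Nontrivial N := Finite.one_lt_card_iff_nontrivial.1 (hN ▸ hp.out.one_lt)
  obtain ⟨a, ha⟩ := exists_ne (1 : N)
  refine ha (Subtype.ext (H2.Dihed3.central_eq_one hc (a := a.1) ?_ fun g => ?_))
  · rw [← hN]; exact congrArg Subtype.val (pow_card_eq_one' (x := a))
  · have := H2.Dihed3.map_eq_one ((IsCyclic.mulAutMulEquiv N).toMonoidHom.comp MulAut.conjNormal) g
    have h1 : MulAut.conjNormal (H := N) g = 1 := by simpa using this
    have h2 := congrArg (fun f : MulAut N => (f a).1) h1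
    simp only [MulAut.conjNormal_apply, MulAut.one_apply] at h2
    rw [← mul_inv_eq_iff_eq_mul, h2]

theorem sylow_comm_of_card {p : ℕ} [hp : Fact p.Prime] (h : (Nat.card G).factorization p = 1) (P : Sylow p G) :
    Nat.card P = p ∧ IsMulCommutative P := by
  have h1 : Nat.card P = p := by rw [P.card_eq_multiplicity, h, pow_one]
  have := isCyclic_of_prime_card h1
  exact ⟨h1, inferInstance⟩

theorem eq_zpowers_of_card {p : ℕ} [hp : Fact p.Prime] {S : Subgroup G} (hS : Nat.card S = p) {s : G} (hs : s ∈ S)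
    (h1 : s ≠ 1) : zpowers s = S ∧ orderOf s = p := by
  have h2 : orderOf s = p := orderOf_eq_prime
    (by rw [← hS]; exact congrArg Subtype.val (pow_card_eq_one' (x := (⟨s, hs⟩ : S)))) h1
  exact ⟨eq_of_le_of_card_ge (zpowers_le.2 hs) (by rw [Nat.card_zpowers, h2, hS]), h2⟩

theorem exists_pow_of_mem {s x : G} {n : ℕ} (hn : orderOf s = n) (hx : x ∈ zpowers s) : ∃ k < n, x = s ^ k := by
  obtain ⟨k, hk⟩ := (mem_powers_iff_mem_zpowers).2 hx
  exact ⟨k % n, Nat.mod_lt _ (hn ▸ orderOf_pos s), by rw [← hn, pow_mod_orderOf]; exact hk.symm⟩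

theorem burnside [Group.IsPerfect G] {p : ℕ} [hp : Fact p.Prime] (h : (Nat.card G).factorization p = 1) {m : G}
    (hm : orderOf m = p) (hN : ∀ g, g * m * g⁻¹ ∈ zpowers m → g * m = m * g) : False := by
  let P : Sylow p G := Sylow.ofCard (zpowers m) (by rw [Nat.card_zpowers, hm, h, pow_one])
  have hP : normalizer (P : Set G) ≤ centralizer (P : Set G) := fun g hg => by
    rintro _ ⟨k, rfl⟩
    exact ((Commute.zpow_right (hN g ((mem_normalizer_iff.1 hg m).1 (mem_zpowers m))) k).eq).symm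
  have h1 := MonoidHom.not_dvd_card_ker_transferSylow P hP
  have := (sylow_comm_of_card h P).2
  open scoped IsMulCommutative in
  have h2 : (MonoidHom.transferSylow P hP).ker = ⊤ := eq_top_iff.2 fun g _ => H2.Dihed3.map_eq_one _ g
  rw [h2, card_top] at h1
  exact h1 (hm ▸ orderOf_dvd_natCard m)

theorem iso_X8 [Group.IsPerfect G] (hc : Nat.card G = 168) : Nonempty (G ≃* X8) := by
  classical
  have : Fact (Nat.Prime 7) := ⟨by norm_num⟩
  have : Fact (Nat.Prime 3) := ⟨by norm_num⟩
  have f7 : (Nat.card G).factorization 7 = 1 := by rw [hc]; decide +kernel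
  have f3 : (Nat.card G).factorization 3 = 1 := by rw [hc]; decide +kernel
  have c7 := fun P => (sylow_comm_of_card f7 P).1
  obtain ⟨S⟩ : Nonempty (Sylow 7 G) := inferInstance
  have n7 := no_normal_prime fun P => (sylow_comm_of_card f7 P).2
  have n3 := no_normal_prime fun P => (sylow_comm_of_card f3 P).2
  have hn : Nat.card (Sylow 7 G) = 8 := by
    have h1 := H4.Small.card_normalizer_sylow S
    have h2 : 7 ∣ Nat.card (normalizer (S : Set G)) := (c7 S).symm.dvd.trans (card_dvd_of_le le_normalizer)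
    have h3 := card_sylow_modEq_one 7 G
    obtain ⟨k, hk⟩ := h2
    rw [hk, hc] at h1
    have h4 : Nat.card (Sylow 7 G) ∣ 24 := ⟨k, by linarith⟩
    have h5 : Nat.card (Sylow 7 G) ≠ 1 := fun h => by
      have : normalizer (S : Set G) = ⊤ := eq_top_of_card_eq _ (by rw [hk, hc]; rw [h] at h1; omega)
      have := normalizer_eq_top_iff.1 this
      exact n7 S (c7 S)
    have h6 := Nat.le_of_dvd (by norm_num) h4
    unfold Nat.ModEq at h3
    interval_cases (Nat.card (Sylow 7 G)) <;> omega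
  have hN : ∀ T : Sylow 7 G, Nat.card (normalizer (T : Set G)) = 21 := fun T => by
    have h1 := H4.Small.card_normalizer_sylow T
    rw [hn, hc] at h1; omega
  have hK : ∀ g : G, (∀ T : Sylow 7 G, g • T = T) → g = 1 := by
    have h1 := H4.Small.ker_inf_normal S
    have h2 : Nat.card (toPermHom G (Sylow 7 G)).ker ∣ 21 := hN S ▸ card_dvd_of_le (H4.Small.ker_le_normalizer S)
    have h3 : ¬ 7 ∣ Nat.card (toPermHom G (Sylow 7 G)).ker := fun h => by
      have := h1.1
      obtain ⟨s, hs, hs1⟩ := ne_bot_iff_exists_ne_one.1 (h1.2 h) |>.imp fun s hs => And.intro s.2 hs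
      refine n7 ((toPermHom G (Sylow 7 G)).ker ⊓ S) ?_
      refine Eq.trans (congrArg (fun H : Subgroup G => Nat.card H) ?_) (c7 S)
      refine le_antisymm inf_le_right ?_
      exact (eq_zpowers_of_card (c7 S) hs.2 (fun h => hs1 (Subtype.ext h))).1.ge.trans (zpowers_le.2 hs)
    have h4 := n3 (toPermHom G (Sylow 7 G)).ker
    have h5 := Nat.le_of_dvd (by norm_num) h2
    have h6 : Nat.card (toPermHom G (Sylow 7 G)).ker = 1 := by
      interval_cases (Nat.card (toPermHom G (Sylow 7 G)).ker) <;> omega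
    intro g hg
    exact mem_bot.1 (card_eq_one.1 h6 ▸ (show g ∈ (toPermHom G (Sylow 7 G)).ker from Equiv.ext hg))
  have hmem : ∀ (T : Sylow 7 G) (x : G), x ^ 7 = 1 → x • T = T → x ∈ T := fun T x hx h => by
    have h1 : IsPGroup 7 (zpowers x) := by
      rintro ⟨_, k, rfl⟩
      refine ⟨1, Subtype.ext ?_⟩
      change (x ^ k) ^ 7 ^ 1 = 1
      rw [pow_one, ← zpow_natCast, ← zpow_mul, mul_comm k, zpow_mul, zpow_natCast, hx, one_zpow]
    have := h1.inf_normalizer_sylow T
    have h2 : x ∈ zpowers x ⊓ normalizer (T : Set G) := ⟨mem_zpowers x, Sylow.smul_eq_iff_mem_normalizer.1 h⟩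
    rw [this] at h2
    exact h2.2
  obtain ⟨s, hs, hs1⟩ : ∃ s ∈ S, s ≠ 1 := by
    have : Nontrivial S := Finite.one_lt_card_iff_nontrivial.1 (by rw [c7]; norm_num)
    obtain ⟨a, ha⟩ := exists_ne (1 : S)
    exact ⟨a.1, a.2, fun h => ha (Subtype.ext h)⟩
  obtain ⟨hzs, hos⟩ := eq_zpowers_of_card (c7 S) hs hs1
  have hs7 : s ^ 7 = 1 := hos ▸ pow_orderOf_eq_one s
  have hfree : ∀ T ≠ S, ∀ x ∈ S, x • T = T → x = 1 := fun T hT x hx h => by
    by_contra h1
    have h2 := hmem T x ((eq_zpowers_of_card (c7 S) hx h1).2 ▸ pow_orderOf_eq_one x) h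
    exact hT (Sylow.ext ((eq_zpowers_of_card (c7 T) h2 h1).1.symm.trans (eq_zpowers_of_card (c7 S) hx h1).1))
  have hSS : ∀ x ∈ S, x • S = S := fun x hx => Sylow.smul_eq_iff_mem_normalizer.2 (le_normalizer hx)
  -- the element of order three
  obtain ⟨m, T, hm, hmS, hmT, hTS, hms⟩ : ∃ (m : G) (T : Sylow 7 G), orderOf m = 3 ∧ m • S = S ∧ m • T = T ∧
      T ≠ S ∧ (m * s = s * m ∨ m * s = s ^ 2 * m) := by
    obtain ⟨m, hm⟩ := exists_prime_orderOf_dvd_card' (G := normalizer (S : Set G)) 3 (by rw [hN]; norm_num)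
    rw [← orderOf_coe] at hm
    have hm3 : m.1 ^ 3 = 1 := hm ▸ pow_orderOf_eq_one _
    have h1 : m.1 • S = S := Sylow.smul_eq_iff_mem_normalizer.2 m.2
    have := Fintype.ofFinite (Sylow 7 G)
    have h2 := Equiv.Perm.card_fixedPoints_modEq (f := fun T : Sylow 7 G => m.1 • T) (p := 3) (n := 1) (by
      funext T
      change m.1 • m.1 • m.1 • T = T
      rw [← mul_smul, ← mul_smul, ← pow_three', hm3, one_smul])
    rw [← Nat.card_eq_fintype_card, hn] at h2
    obtain ⟨T, hT⟩ := Fintype.exists_ne_of_one_lt_card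
      (α := Function.fixedPoints fun T : Sylow 7 G => m.1 • T) (by unfold Nat.ModEq at h2; omega) ⟨S, h1⟩
    have h3 : m.1 * s * m.1⁻¹ ∈ zpowers s := hzs ▸ (mem_normalizer_iff.1 m.2 s).1 hs
    obtain ⟨k, hk, e⟩ := exists_pow_of_mem hos h3
    have e1 : ∀ j : ℕ, m.1 * s ^ j * m.1⁻¹ = s ^ (k * j) := fun j => by rw [pow_mul, ← e, conj_pow]
    have e2 : m.1 ^ 2 * s * (m.1 ^ 2)⁻¹ = s ^ (k * k) := by rw [← e1, ← e, pow_two]; group
    have e3 : s ^ (k * (k * k)) = s ^ 1 := by
      rw [← e1, ← e2, pow_one]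
      calc _ = m.1 ^ 3 * s * (m.1 ^ 3)⁻¹ := by group
        _ = s := by rw [hm3]; simp
    rw [pow_eq_pow_iff_modEq, hos] at e3
    have hT' : T.1 ≠ S := fun h => hT (Subtype.ext h)
    have hk' : k = 1 ∨ k = 2 ∨ k = 4 := by
      unfold Nat.ModEq at e3
      interval_cases k <;> omega
    rcases hk' with rfl | rfl | rfl
    · exact ⟨m, T, hm, h1, T.2, hT', .inl (by rw [← mul_inv_eq_iff_eq_mul, e, pow_one])⟩
    · exact ⟨m, T, hm, h1, T.2, hT', .inr (by rw [← mul_inv_eq_iff_eq_mul, e])⟩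
    · refine ⟨m.1 ^ 2, T, by rw [orderOf_pow' _ two_ne_zero, hm]; rfl, by rw [pow_two, mul_smul, h1, h1],
        by rw [pow_two, mul_smul, T.2.eq, T.2.eq], hT', .inr ?_⟩
      rw [← mul_inv_eq_iff_eq_mul, e2, pow_eq_pow_iff_modEq, hos]; decide
  have hm1 : m ≠ 1 := by rintro rfl; simp at hm
  let f : Fin 8 → Sylow 7 G := fun i => if i.val < 7 then s ^ i.val • T else S
  have hne : ∀ k : ℕ, s ^ k • T ≠ S := fun k h => hTS (by
    rw [← hSS _ (S.1.pow_mem hs k)] at h; exact smul_left_cancel _ h)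
  have hlt : ∀ i j : ℕ, i < j → j < 7 → s ^ i • T ≠ s ^ j • T := fun i j hij hj h => by
    obtain ⟨d, rfl⟩ := Nat.exists_eq_add_of_lt hij
    rw [add_assoc, pow_add, mul_smul] at h
    have := hfree T hTS _ (S.1.pow_mem hs _) (smul_left_cancel _ h).symm
    rw [← orderOf_dvd_iff_pow_eq_one, hos] at this
    omega
  have hf : Function.Injective f := fun i j h => by
    simp only [f] at h
    split_ifs at h with h1 h2 h2
    · rcases lt_trichotomy i.val j.val with h3 | h3 | h3
      · exact absurd h (hlt _ _ h3 h2)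
      · exact Fin.ext h3
      · exact absurd h.symm (hlt _ _ h3 h1)
    · exact absurd h (hne _)
    · exact absurd h.symm (hne _)
    · exact Fin.ext (by omega)
  let e := Equiv.ofBijective f (hf.bijective_of_nat_card_le (by rw [hn]; simp))
  let φ : G →* Perm (Fin 8) := e.symm.permCongrHom.toMonoidHom.comp (toPermHom G (Sylow 7 G))
  have hφ : ∀ g i j, φ g i = j ↔ g • f i = f j := fun g i j => by
    change e.symm (g • f i) = j ↔ _
    rw [Equiv.symm_apply_eq]; rfl
  have hφi : Function.Injective φ := (injective_iff_map_eq_one φ).2 fun g hg => hK g fun U => by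
    obtain ⟨i, rfl⟩ := e.surjective U
    exact (hφ g i i).1 (by rw [hg]; rfl)
  have f0 : f 0 = T := by simp [f]
  have f7' : f 7 = S := by simp [f]
  have hpw : ∀ a b : ℕ, a % 7 = b % 7 → s ^ a • T = s ^ b • T := fun a b h => by
    rw [pow_eq_pow_iff_modEq.2 (show a ≡ b [MOD orderOf s] by rwa [hos])]
  have hms : m * s = s ^ 2 * m := hms.resolve_left fun h => hm1 (hK m fun U => by
    obtain ⟨i, rfl⟩ := e.surjective U
    change m • f i = f i
    simp only [f]
    split_ifs
    · rw [← mul_smul, (Commute.pow_right h _).eq, mul_smul, hmT]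
    · exact hmS)
  have ht : φ s = t8 := Equiv.ext fun i => (hφ s i _).2 (by
    have : ∀ i : Fin 8, (i.val < 7 → (t8 i).val < 7 ∧ (i.val + 1) % 7 = (t8 i).val % 7) ∧
      (¬ i.val < 7 → ¬ (t8 i).val < 7) := by decide
    simp only [f]
    by_cases h : i.val < 7
    · rw [if_pos h, if_pos ((this i).1 h).1, ← mul_smul, ← pow_succ']; exact hpw _ _ ((this i).1 h).2
    · rw [if_neg h, if_neg ((this i).2 h)]; exact hSS s hs)
  have hh : φ m = h8 := Equiv.ext fun i => (hφ m i _).2 (by
    have : ∀ i : Fin 8, (i.val < 7 → (h8 i).val < 7 ∧ (2 * i.val) % 7 = (h8 i).val % 7) ∧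
      (¬ i.val < 7 → ¬ (h8 i).val < 7) := by decide
    simp only [f]
    by_cases h : i.val < 7
    · rw [if_pos h, if_pos ((this i).1 h).1, ← mul_smul, ← hpw _ _ ((this i).1 h).2]
      have : m * s ^ i.val = s ^ (2 * i.val) * m := by
        rw [← mul_inv_eq_iff_eq_mul, ← conj_pow, hms, mul_inv_cancel_right, pow_mul]
      rw [this, mul_smul, hmT]
    · rw [if_neg h, if_neg ((this i).2 h)]; exact hmS)
  have hD : ∀ g : G, g • S = S → g • T = T → g ∈ zpowers m := by
    let D := stabilizer G S ⊓ stabilizer G T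
    have h1 : Nat.card D ∣ 21 := hN S ▸ card_dvd_of_le fun g hg => Sylow.smul_eq_iff_mem_normalizer.1 hg.1
    have h2 : ¬ 7 ∣ Nat.card D := fun h => by
      obtain ⟨x, hx⟩ := exists_prime_orderOf_dvd_card' 7 h
      rw [← orderOf_coe] at hx
      have := hfree T hTS _ (hmem S x.1 (hx ▸ pow_orderOf_eq_one _) x.2.1) x.2.2
      rw [this] at hx; simp at hx
    have h3 : zpowers m = D := eq_of_le_of_card_ge (zpowers_le.2 ⟨hmS, hmT⟩) (by
      rw [Nat.card_zpowers, hm]
      have := Nat.le_of_dvd (by norm_num) h1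
      interval_cases (Nat.card D) <;> omega)
    intro g h4 h5
    rw [h3]; exact ⟨h4, h5⟩
  obtain ⟨w, hw1, hw2⟩ : ∃ w : G, w • S = T ∧ w • T = S := by
    obtain ⟨g, hg⟩ := exists_smul_eq G S T
    obtain ⟨i, hi⟩ := e.surjective (g⁻¹ • S)
    change f i = _ at hi
    simp only [f] at hi
    split_ifs at hi
    · exact ⟨g * s ^ i.val, by rw [mul_smul, hSS _ (S.1.pow_mem hs _), hg], by rw [mul_smul, hi, smul_inv_smul]⟩
    · rw [eq_inv_smul_iff, hg] at hi; exact absurd hi hTS
  obtain ⟨j, hj, ej⟩ := exists_pow_of_mem hm (hD (w * m * w⁻¹)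
    (by rw [mul_smul, mul_smul, ← hw2, inv_smul_smul, hmT]) (by rw [mul_smul, mul_smul, ← hw1, inv_smul_smul, hmS]))
  have hcm : ∀ g ∈ zpowers m, g * m = m * g := by rintro _ ⟨k, rfl⟩; exact ((Commute.refl m).zpow_left k).eq
  obtain ⟨k, hk, ek⟩ : ∃ k < 3, φ w * h8 ^ k = w8 := by
    interval_cases j
    · exact absurd (by simpa using ej) hm1
    · refine (burnside f3 hm fun g hg => ?_).elim
      have hfix : ∀ U : Sylow 7 G, m • U = U → U = S ∨ U = T := fun U hU => by
        obtain ⟨i, rfl⟩ := e.surjective U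
        have h1 := (hφ m i i).2 hU
        rw [hh] at h1
        have : ∀ i : Fin 8, h8 i = i → i = 7 ∨ i = 0 := by decide
        rcases this i h1 with rfl | rfl
        exacts [.inl f7', .inr f0]
      have hg' : ∀ U : Sylow 7 G, m • U = U → m • g⁻¹ • U = g⁻¹ • U := fun U hU => by
        have : (g * m * g⁻¹) • U = U := (zpowers_le (H := stabilizer G U)).2 hU hg
        rw [mul_smul, mul_smul, smul_eq_iff_eq_inv_smul] at this
        exact this
      have hwm : w * m = m * w := by rw [← mul_inv_eq_iff_eq_mul, ej, pow_one]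
      have hgi : g⁻¹ * m = m * g⁻¹ := by
        rcases hfix _ (hg' S hmS) with h1 | h1 <;> rcases hfix _ (hg' T hmT) with h2 | h2
        · exact absurd (smul_left_cancel _ (h2.trans h1.symm)) hTS
        · exact hcm _ (hD _ h1 h2)
        · have := hcm _ (hD (w * g⁻¹) (by rw [mul_smul, h1, hw2]) (by rw [mul_smul, h2, hw1]))
          apply mul_left_cancel (a := w)
          rw [← mul_assoc, this, ← mul_assoc, ← mul_assoc, hwm]
        · exact absurd (smul_left_cancel _ (h2.trans h1.symm)) hTS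
      exact (Commute.inv_left_iff.1 hgi).eq
    · have hw : w ^ 2 ∈ zpowers m := hD _ (by rw [pow_two, mul_smul, hw1, hw2]) (by rw [pow_two, mul_smul, hw2, hw1])
      refine s8_swap ((hφ _ _ _).2 (by rw [f0, f7', hw1])) ((hφ _ _ _).2 (by rw [f0, f7', hw2]))
        (by rw [← hh, ← map_pow, ← map_mul, ← map_mul, ← ej, inv_mul_cancel_right]) (fun i hi => ?_) ?_
      · have h1 := Sylow.smul_eq_iff_mem_normalizer.1 ((hφ _ _ _).1 hi)
        have h2 : w ^ 21 = 1 := hN (f i) ▸ congrArg Subtype.val (pow_card_eq_one' (x := (⟨w, h1⟩ : normalizer _)))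
        have h3 : (w ^ 2) ^ 10 • S = S := (stabilizer G S).pow_mem ((zpowers_le (H := stabilizer G S)).2 hmS hw) 10
        rw [show 21 = 2 * 10 + 1 from rfl, pow_succ', pow_mul] at h2
        have := congrArg (· • S) h2
        simp only [mul_smul, h3, hw1, one_smul] at this
        exact hTS this
      · obtain ⟨k, hk, ek⟩ := exists_pow_of_mem hm hw
        exact ⟨k, hk, by rw [← hh, ← map_pow, ← map_pow, ek]⟩
  have hle : X8 ≤ φ.range := (closure_le _).2 (by
    rintro _ (rfl | rfl | rfl)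
    exacts [⟨s, ht⟩, ⟨m, hh⟩, ⟨w * m ^ k, by rw [map_mul, map_pow, hh, ek]⟩])
  have heq : X8 = φ.range := eq_of_le_of_card_ge hle (by
    rw [← Nat.card_congr (MonoidHom.ofInjective hφi).toEquiv, hc]; exact card_X8)
  exact ⟨(MonoidHom.ofInjective hφi).trans (MulEquiv.subgroupCongr heq.symm)⟩

open Matrix commutatorElement in
theorem perfect_SL3 : Group.IsPerfect (SpecialLinearGroup (Fin 3) (ZMod 2)) := by
  refine ⟨eq_top_iff.2 fun M _ => ?_⟩
  refine SpecialLinearGroup.diagonal_transvection_induction' (· ∈ commutator _) M (fun i j hij c hc => ?_)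
    (fun i j hij a => ?_) fun _ _ => mul_mem
  · obtain rfl : c = 1 := by revert c; decide
    have : SpecialLinearGroup.diag2n hij (1 : ZMod 2) hc = 1 := by
      ext a b; simp [SpecialLinearGroup.diag2n_coe]
    rw [this]; exact one_mem _
  · obtain ⟨k, h1, h2⟩ : ∃ k, i ≠ k ∧ k ≠ j := by revert i j; decide
    have : SpecialLinearGroup.transvection hij a =
        ⁅SpecialLinearGroup.transvection h1 a, SpecialLinearGroup.transvection h2 (1 : ZMod 2)⁆ := by
      rw [commutatorElement_def, SpecialLinearGroup.transvection_inv, SpecialLinearGroup.transvection_inv]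
      apply Subtype.ext
      simp [SpecialLinearGroup.transvection_coe, mul_add, add_mul, h1.symm, h2.symm, hij.symm]
      have : ∀ p q r s : ZMod 2, p + s = p + q + (r + s) + q + (r + s + s) := by decide
      ext u v
      simp only [Matrix.add_apply]
      exact this _ _ _ _
    rw [this]
    exact commutator_mem_commutator (mem_top _) (mem_top _)

open Matrix in
theorem card_PSL3 : Nat.card (ProjectiveSpecialLinearGroup (Fin 3) (ZMod 2)) = 168 := by
  have h1 : center (SpecialLinearGroup (Fin 3) (ZMod 2)) = ⊥ := eq_bot_iff.2 fun A hA => by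
    obtain ⟨r, h1, h2⟩ := Matrix.SpecialLinearGroup.mem_center_iff.1 hA
    obtain rfl : r = 1 := by clear h2; revert r; decide
    exact Subtype.ext (by simpa using h2.symm)
  have h2 : Nat.card (SpecialLinearGroup (Fin 3) (ZMod 2)) = 168 := by
    rw [Nat.card_congr (Equiv.ofBijective (SpecialLinearGroup.toGL (n := Fin 3) (R := ZMod 2))
      ⟨SpecialLinearGroup.toGL_injective, fun g => ⟨⟨g.val, by
        have := g.det_ne_zero; revert this; generalize g.val.det = d; revert d; decide⟩, Units.ext rfl⟩⟩),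
      card_GL_field]
    simp [Fin.prod_univ_three]
  have := card_eq_card_quotient_mul_card_subgroup (center (SpecialLinearGroup (Fin 3) (ZMod 2)))
  rw [h2, show Nat.card (center (SpecialLinearGroup (Fin 3) (ZMod 2))) = 1 by rw [h1, card_bot], mul_one] at this
  exact this.symm

theorem iso_PSL3 [Group.IsPerfect G] (hc : Nat.card G = 168) :
    Nonempty (G ≃* Matrix.ProjectiveSpecialLinearGroup (Fin 3) (ZMod 2)) := by
  have := perfect_SL3
  obtain ⟨e⟩ := iso_X8 hc
  obtain ⟨f⟩ := iso_X8 card_PSL3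
  exact ⟨e.trans f.symm⟩

theorem iso_PSL2 [Group.IsPerfect G] (hc : Nat.card G = 168) :
    haveI : Fact (Nat.Prime 7) := ⟨by norm_num⟩
    Nonempty (G ≃* Matrix.ProjectiveSpecialLinearGroup (Fin 2) (ZMod 7)) := by
  have h2 : (2 : ZMod 7) ≠ 0 ∧ (2 : ZMod 7) ^ 2 ≠ 1 := by decide
  have : Fact (Nat.Prime 7) := ⟨by norm_num⟩
  have : Group.IsPerfect (Matrix.ProjectiveSpecialLinearGroup (Fin 2) (ZMod 7)) :=
    ⟨SL2Simple.PSL_commutator_eq_top ⟨2, h2⟩⟩
  have h := H4.MobCard.card_PS_odd (ZMod 7) (by rw [Nat.card_zmod]; decide)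
  rw [Nat.card_zmod] at h
  obtain ⟨e⟩ := iso_X8 hc
  obtain ⟨f⟩ := iso_X8 (G := Matrix.ProjectiveSpecialLinearGroup (Fin 2) (ZMod 7)) (by
    change Nat.card (H4.Mob.PS (ZMod 7)) = 168; omega)
  exact ⟨e.trans f.symm⟩

end Cfsg.Agent.H5.MH
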