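import Cfsg.Agent.H5.MH5a
import Cfsg.Agent.H5.MH5b
import Cfsg.Agent.H5.MH5c

set_option autoImplicit false

/-! Automorphisms of `L₂(7)`, `A₆` and `A₇`. -/

namespace Cfsg.Agent.H5.MH
open Equiv

section
variable {G : Type*} [Group G] {A : Subgroup G}

/-- where two homomorphisms agree -/
def eqQ (γ δ : A →* G) : Subgroup G := (γ.eqLocus δ).map A.subtype

theorem mem_eqQ {γ δ : A →* G} {a : G} (ha : a ∈ A) (h : γ ⟨a, ha⟩ = δ ⟨a, ha⟩) : a ∈ eqQ γ δ := ⟨⟨a, ha⟩, h, rfl⟩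

theorem of_eqQ {γ δ : A →* G} (h : A ≤ eqQ γ δ) (a : A) : γ a = δ a := by
  obtain ⟨b, hb, e⟩ := h a.2
  obtain rfl : b = a := Subtype.ext e
  exact hb

/-- composition with an inner automorphism -/
def cjh (g : G) (α : A →* G) : A →* G := (MulAut.conj g).toMonoidHom.comp α

theorem cjh_apply (g : G) (α : A →* G) (a : A) : cjh g α a = g * α a * g⁻¹ := rfl

theorem cjh_mem {g : G} (hg : g ∈ A) {α : A →* G} (h : ∀ a, α a ∈ A) (a : A) : cjh g α a ∈ A :=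
  mul_mem (mul_mem hg (h a)) (inv_mem hg)

theorem cjh_cjh (g h : G) (α : A →* G) : cjh g (cjh h α) = cjh (g * h) α :=
  MonoidHom.ext fun a => by simp only [cjh_apply]; group

theorem inner_of {g : G} (hg : g ∈ A) {α : A →* G} (h : ∀ a, cjh g α a = a) : ∃ g ∈ A, ∀ a, α a = g * a * g⁻¹ :=
  ⟨g⁻¹, inv_mem hg, fun a => by rw [← h a, cjh_apply]; group⟩

theorem eq_one_of_cop {a : G} {m n : ℕ} (h1 : a ^ m = 1) (h2 : a ^ n = 1) (h : Nat.gcd m n = 1) : a = 1 := by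
  simpa [h] using (pow_gcd_eq_one (a := a)).2 ⟨h1, h2⟩

end

scoped macro "perm_eq " h:term : tactic =>
  `(tactic| (rw [← cd_inj $h]; simp only [cd_mul $h, cd_pow $h, cd_one]; decide +kernel))

theorem aut8 (α : X8 →* Perm (Fin 8)) (hm : ∀ a, α a ∈ X8) (hi : Function.Injective α) :
    (∃ g ∈ X8, ∀ a, α a = g * a * g⁻¹) ∨ ∃ g ∈ X8, α ⟨t8, t8_mem⟩ * g = g * t8 ^ 6 := by
  set t : X8 := ⟨t8, t8_mem⟩
  set h : X8 := ⟨h8, h8_mem⟩
  set w : X8 := ⟨w8, w8_mem⟩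
  have e1 : t ^ 7 = 1 := Subtype.ext (show t8 ^ 7 = 1 by perm_eq h8')
  have e2 : h * t = t ^ 2 * h := Subtype.ext (show h8 * t8 = t8 ^ 2 * h8 by perm_eq h8')
  have e3 : w ^ 2 = 1 := Subtype.ext (show w8 ^ 2 = 1 by perm_eq h8')
  have e4 : (w * h) ^ 2 = 1 := Subtype.ext (show (w8 * h8) ^ 2 = 1 by perm_eq h8')
  have e5 : (t * w) ^ 3 = 1 := Subtype.ext (show (t8 * w8) ^ 3 = 1 by perm_eq h8')
  have n1 : α t ≠ 1 := fun e => absurd (congrArg Subtype.val (hi (e.trans (map_one α).symm))) (by decide)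
  have f1 : α t ^ 7 = 1 := by rw [← map_pow, e1, map_one]
  rcases x8_elt (hm t) with ⟨h1 | h1, -⟩ | ⟨g, hg, h1 | h1⟩
  · exact (n1 (eq_one_of_cop h1 f1 rfl)).elim
  · exact (n1 (eq_one_of_cop h1 f1 rfl)).elim
  swap
  · exact .inr ⟨g, hg, h1⟩
  have b1 : cjh g⁻¹ α t = t8 := by rw [cjh_apply, mul_assoc, inv_inv, h1]; group
  obtain ⟨k, -, hk⟩ := x8_h (cjh_mem (inv_mem hg) hm h) (by rw [← b1, ← map_pow, ← map_mul, ← map_mul, e2])
  have hk' := mul_mem (pow_mem t8_mem k) (inv_mem hg)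
  have c1 : cjh (t8 ^ k * g⁻¹) α t = t8 := by rw [← cjh_cjh, cjh_apply, b1]; group
  have c2 : cjh (t8 ^ k * g⁻¹) α h = h8 := by rw [← cjh_cjh, cjh_apply, hk]; group
  generalize t8 ^ k * g⁻¹ = g at hk' c1 c2
  have c3 := x8_w (cjh_mem hk' hm w) (by rw [← map_pow, e3, map_one])
    (by rw [← c2, ← map_mul, ← map_pow, e4, map_one]) (by rw [← c1, ← map_mul, ← map_pow, e5, map_one])
  refine .inl (inner_of hk' (of_eqQ (δ := X8.subtype) ((Subgroup.closure_le _).2 ?_)))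
  rintro _ (rfl | rfl | rfl)
  exacts [mem_eqQ _ c1, mem_eqQ _ c2, mem_eqQ _ c3]

theorem aut7 (α : A7 →* Perm (Fin 7)) (hm : ∀ a, α a ∈ A7) (hi : Function.Injective α) :
    (∃ g ∈ A7, ∀ a, α a = g * a * g⁻¹) ∨ ∃ g ∈ A7, α ⟨y7, y7_mem⟩ * g = g * y7 ^ 6 := by
  set t : A7 := ⟨y7, y7_mem⟩
  set h : A7 := ⟨n7, n7_mem⟩
  set w : A7 := ⟨pz, pz_mem⟩
  have e1 : t ^ 7 = 1 := Subtype.ext (show y7 ^ 7 = 1 by perm_eq h7)
  have e2 : h * t = t ^ 2 * h := Subtype.ext (show n7 * y7 = y7 ^ 2 * n7 by perm_eq h7)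
  have e3 : w ^ 3 = 1 := Subtype.ext (show pz ^ 3 = 1 by perm_eq h7)
  have e4 : (t * w) ^ 7 = 1 := Subtype.ext (show (y7 * pz) ^ 7 = 1 by perm_eq h7)
  have e5 : (h * w) ^ 6 = 1 := Subtype.ext (show (n7 * pz) ^ 6 = 1 by perm_eq h7)
  have e6 : (t ^ 2 * w) ^ 3 = 1 := Subtype.ext (show (y7 ^ 2 * pz) ^ 3 = 1 by perm_eq h7)
  have e7 : (t * h * w) ^ 4 = 1 := Subtype.ext (show (y7 * n7 * pz) ^ 4 = 1 by perm_eq h7)
  have n1 : α t ≠ 1 := fun e => absurd (congrArg Subtype.val (hi (e.trans (map_one α).symm))) (by decide)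
  have f1 : α t ^ 7 = 1 := by rw [← map_pow, e1, map_one]
  obtain ⟨g, hg, h1 | h1⟩ := a7_seven (hm t) f1 n1
  swap
  · exact .inr ⟨g, hg, h1⟩
  have b1 : cjh g⁻¹ α t = y7 := by rw [cjh_apply, mul_assoc, inv_inv, h1]; group
  obtain ⟨k, -, hk⟩ := a7_n (cjh_mem (inv_mem hg) hm h) (by rw [← b1, ← map_pow, ← map_mul, ← map_mul, e2])
  have hk' := mul_mem (pow_mem y7_mem k) (inv_mem hg)
  have c1 : cjh (y7 ^ k * g⁻¹) α t = y7 := by rw [← cjh_cjh, cjh_apply, b1]; group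
  have c2 : cjh (y7 ^ k * g⁻¹) α h = n7 := by rw [← cjh_cjh, cjh_apply, hk]; group
  generalize y7 ^ k * g⁻¹ = g at hk' c1 c2
  have c3 := a7_s (cjh_mem hk' hm w) (by rw [← map_pow, e3, map_one])
    (by rw [← c1, ← map_mul, ← map_pow, e4, map_one]) (by rw [← c2, ← map_mul, ← map_pow, e5, map_one])
    (by rw [← c1, ← map_pow, ← map_mul, ← map_pow, e6, map_one])
    (by rw [← c1, ← c2, ← map_mul, ← map_mul, ← map_pow, e7, map_one])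
  exact .inl (inner_of hk' (of_eqQ (δ := A7.subtype) (a7_gen (mem_eqQ _ c1) (mem_eqQ _ c3))))

/-- the second generator of the Sylow `3`-subgroup -/
noncomputable def y6 : Perm (Fin 6) := r6 * x6 * r6 ^ 3

theorem y6_mem : y6 ∈ A6 := mul_mem (mul_mem r6_mem x6_mem) (pow_mem r6_mem 3)

theorem aut6 (α : A6 →* Perm (Fin 6)) (hm : ∀ a, α a ∈ A6) (hi : Function.Injective α) :
    (∃ g ∈ A6, ∀ a, α a = g * a * g⁻¹) ∨
    (∃ g ∈ A6, cjh g α ⟨r6, r6_mem⟩ = r6 ^ 3 ∧ cjh g α ⟨x6, x6_mem⟩ = x6 * y6 ∧ cjh g α ⟨v6, v6_mem⟩ = u6) ∨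
    (∃ g ∈ A6, cjh g α ⟨x6, x6_mem⟩ = x6 * y6 ∧ cjh g α ⟨y6, y6_mem⟩ = y6 * x6⁻¹) ∨
    (∃ g ∈ A6, cjh g α ⟨x6, x6_mem⟩ = x6 ∧ cjh g α ⟨y6, y6_mem⟩ = y6⁻¹) := by
  set r : A6 := ⟨r6, r6_mem⟩
  set x : A6 := ⟨x6, x6_mem⟩
  set v : A6 := ⟨v6, v6_mem⟩
  have hy : (⟨y6, y6_mem⟩ : A6) = r * x * r ^ 3 := rfl
  have e1 : r ^ 4 = 1 := Subtype.ext (show r6 ^ 4 = 1 by perm_eq h6)
  have e2 : x ^ 3 = 1 := Subtype.ext (show x6 ^ 3 = 1 by perm_eq h6)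
  have e3 : (r ^ 2 * x) ^ 2 = 1 := Subtype.ext (show (r6 ^ 2 * x6) ^ 2 = 1 by perm_eq h6)
  have e4 : x * (r * x * r ^ 3) = r * x * r ^ 3 * x :=
    Subtype.ext (show x6 * (r6 * x6 * r6 ^ 3) = r6 * x6 * r6 ^ 3 * x6 by perm_eq h6)
  have e5 : v ^ 2 = 1 := Subtype.ext (show v6 ^ 2 = 1 by perm_eq h6)
  have e6 : (v * r) ^ 2 = 1 := Subtype.ext (show (v6 * r6) ^ 2 = 1 by perm_eq h6)
  have e7 : (x * r * v) ^ 3 = 1 := Subtype.ext (show (x6 * r6 * v6) ^ 3 = 1 by perm_eq h6)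
  have n1 : ∀ a : A6, a.1 ≠ 1 → ∀ g, cjh g α a ≠ 1 := fun a ha g e => by
    rw [cjh_apply, mul_inv_eq_one, mul_eq_left] at e
    exact ha (congrArg Subtype.val (hi (e.trans (map_one α).symm)))
  obtain ⟨g, hg, h1⟩ := a6_four (hm r) (by rw [← map_pow, e1, map_one]) (by
    have := n1 (r ^ 2) (by decide) 1
    rwa [cjh_apply, one_mul, inv_one, mul_one, map_pow] at this)
  have b1 : cjh g α r = r6 := by rw [cjh_apply, h1]; group
  obtain ⟨k, -, e, he, hk⟩ := a6_three (cjh_mem hg hm x) (by rw [← map_pow, e2, map_one]) (n1 x (by decide) g)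
    (by rw [← b1, ← map_pow, ← map_mul, ← map_pow, e3, map_one])
    (by rw [← b1, ← map_pow, ← map_mul, ← map_mul, ← map_mul, ← map_mul, e4])
  have hk' := mul_mem (mul_mem (pow_mem r6_mem k) (pow_mem v6_mem e)) hg
  have c1 : cjh (r6 ^ k * v6 ^ e * g) α r = r6 ^ (2 * e + 1) := by
    rw [← cjh_cjh, cjh_apply, b1]
    have : v6 ^ e * r6 = r6 ^ (2 * e + 1) * v6 ^ e := by
      interval_cases e
      · simp
      · perm_eq h6
    rw [mul_assoc (r6 ^ k), this]; group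
  have c2 : cjh (r6 ^ k * v6 ^ e * g) α x = x6 ∨ cjh (r6 ^ k * v6 ^ e * g) α x = x6 * y6 :=
    hk.imp (fun h => by rw [← cjh_cjh, cjh_apply, h]; group) fun h => by rw [← cjh_cjh, cjh_apply, h, y6]; group
  generalize r6 ^ k * v6 ^ e * g = g at hk' c1 c2
  have f5 : cjh g α v ^ 2 = 1 := by rw [← map_pow, e5, map_one]
  have f6 : (cjh g α v * cjh g α r) ^ 2 = 1 := by rw [← map_mul, ← map_pow, e6, map_one]
  have f7 : (cjh g α x * cjh g α r * cjh g α v) ^ 3 = 1 := by rw [← map_mul, ← map_mul, ← map_pow, e7, map_one]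
  have f8 : cjh g α ⟨y6, y6_mem⟩ = cjh g α r * cjh g α x * cjh g α r ^ 3 := by rw [hy, map_mul, map_mul, map_pow]
  interval_cases e <;> rcases c2 with c2 | c2 <;> simp only [c1, c2] at f6 f7 f8 <;> norm_num at c1 f6 f7 f8
  · have c3 := a6_v1 (cjh_mem hk' hm v) f5 f6 f7
    exact .inl (inner_of hk' (of_eqQ (δ := A6.subtype) (a6_gen (mem_eqQ _ c1) (mem_eqQ _ c2) (mem_eqQ _ c3))))
  · refine .inr (.inr (.inl ⟨g, hk', c2, f8.trans (eq_mul_inv_of_mul_eq ?_)⟩))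
    unfold y6; perm_eq h6
  · refine .inr (.inr (.inr ⟨g, hk', c2, f8.trans (eq_inv_of_mul_eq_one_left ?_)⟩))
    unfold y6; perm_eq h6
  · exact .inr (.inl ⟨g, hk', c1, c2, a6_v2 (cjh_mem hk' hm v) f5 f6 f7⟩)

end Cfsg.Agent.H5.MH
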