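import Cfsg.Agent.H5.MH7
import Cfsg.Agent.H5.MH6
import Cfsg.Agent.H5.MH3

set_option autoImplicit false

/-! Traces and normalisers of the small groups. -/

namespace Cfsg.Agent.H5.MH
open Cfsg Matrix Cfsg.Agent.Asch Equiv commutatorElement

variable {K : Type*} [Field K] {G : Type*} [Group G] {P : Subgroup (G3 K)} {A : Subgroup G}

/-- `x` represents `a` -/
def Rp (π : bar P ≃* A) (a : G) (x : G3 K) : Prop := ∃ hx : x ∈ P, (π ⟨pr x, mem_bar hx⟩ : G) = a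

namespace Rp
variable {π : bar P ≃* A} {a b c : G} {x y z : G3 K}

theorem mem (h : Rp π a x) : x ∈ P := h.1

theorem memA (h : Rp π a x) : a ∈ A := h.2 ▸ (π _).2

theorem ex (π : bar P ≃* A) (ha : a ∈ A) : ∃ x, Rp π a x := by
  obtain ⟨x, hx, e⟩ := (π.symm ⟨a, ha⟩).2
  refine ⟨x, hx, ?_⟩
  rw [show (⟨pr x, mem_bar hx⟩ : bar P) = π.symm ⟨a, ha⟩ from Subtype.ext e, π.apply_symm_apply]

theorem ex' (π : bar P ≃* A) (hx : x ∈ P) : ∃ a, Rp π a x := ⟨_, hx, rfl⟩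

theorem mul (h : Rp π a x) (h' : Rp π b y) : Rp π (a * b) (x * y) :=
  ⟨mul_mem h.1 h'.1, by
    rw [← h.2, ← h'.2, ← Subgroup.coe_mul, ← map_mul]; rfl⟩

theorem inv (h : Rp π a x) : Rp π a⁻¹ x⁻¹ :=
  ⟨inv_mem h.1, by rw [← h.2, ← Subgroup.coe_inv, ← map_inv]; rfl⟩

theorem one (π : bar P ≃* A) : Rp π 1 1 :=
  ⟨one_mem _, congrArg Subtype.val (map_one π)⟩

theorem pow (h : Rp π a x) (n : ℕ) : Rp π (a ^ n) (x ^ n) := by
  induction n with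
  | zero => simpa using one π
  | succ n ih => rw [pow_succ, pow_succ]; exact ih.mul h

theorem eq_iff (h : Rp π a x) (h' : Rp π b y) : a = b ↔ pr x = pr y := by
  rw [← h.2, ← h'.2, Subtype.val_inj, π.apply_eq_iff_eq, Subtype.mk_eq_mk]

theorem eq_one_iff (h : Rp π a x) : a = 1 ↔ pr x = 1 := by simpa using h.eq_iff (one π)

theorem of_pr (h : Rp π a x) (hy : y ∈ P) (e : pr y = pr x) : Rp π a y := ⟨hy, by rw [← h.2]; simp only [e]⟩

theorem pow_eq (h : Rp π a x) {n : ℕ} (e : a ^ n = 1) : pr x ^ n = 1 := by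
  rw [← map_pow]; exact (h.pow n).eq_one_iff.1 e

theorem conj (hx : Rp π a x) (hy : Rp π b y) (hz : Rp π c z) (e : c * a = b * c) : pr z * pr x * (pr z)⁻¹ = pr y := by
  rw [mul_inv_eq_iff_eq_mul, ← map_mul, ← map_mul]
  exact ((hz.mul hx).eq_iff (hy.mul hz)).1 e

theorem lift (hd : ∀ x ∈ P, x.val.det = 1) (h : Rp π a x) {n : ℕ} (e : a ^ n = 1) (h3 : n.Coprime 3) :
    ∃ y, Rp π a y ∧ ∃ z ∈ P, ∃ c : K, z.val = c • (1 : M3 K) ∧ c ^ 3 = 1 ∧ x.val = c • y.val ∧ y ^ n = 1 := by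
  obtain ⟨y, hy, z, hz, c, h1, h2, h4, h5, -⟩ := exists_lift h.1 (hd x h.1) (h.pow_eq e) h3
  exact ⟨y, h.of_pr hy (pr_eq_iff.2 ⟨c, h4⟩).symm, z, hz, c, h1, h2, h4, h5⟩

theorem real (hd : ∀ x ∈ P, x.val.det = 1) (h : Rp π a x) {n : ℕ} (e : x ^ (n + 1) = 1) (h3 : (n + 1).Coprime 3)
    (hr : ∃ g ∈ A, a * g * a = g) : T x⁻¹ = T x := by
  obtain ⟨g, hg, hr⟩ := hr
  obtain ⟨z, hz⟩ := ex π hg
  have e1 : x⁻¹ = x ^ n := by rw [inv_eq_iff_mul_eq_one, ← pow_succ', e]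
  have := T_pow_eq (hd x h.1) h3 e (a := 1) (b := n) (g := z) (by
    rw [pow_one, ← map_pow, ← e1]; exact h.conj h.inv hz (by rw [eq_inv_mul_iff_mul_eq, ← mul_assoc, hr]))
  rw [e1, ← this, pow_one]

theorem cube (hd : ∀ x ∈ P, x.val.det = 1) (h : Rp π a x) (e : a ^ 3 = 1) (hr : ∃ g ∈ A, a * g * a = g) :
    x ^ 3 = 1 := by
  obtain ⟨g, hg, hr⟩ := hr
  obtain ⟨z, hz⟩ := ex π hg
  exact cube_eq_one_of_real (hd x h.1) (h.pow_eq e) (g := z)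
    (by rw [← map_inv]; exact h.conj h.inv hz (by rw [eq_inv_mul_iff_mul_eq, ← mul_assoc, hr]))

theorem tr_int (hd : ∀ x ∈ P, x.val.det = 1) (h : Rp π a x) (e : a ^ 3 = 1 ∨ a ^ 4 = 1) (hr : ∃ g ∈ A, a * g * a = g) :
    ∃ z ∈ P, ∃ c : K, z.val = c • (1 : M3 K) ∧ c ^ 3 = 1 ∧ ∃ k : ℤ, T x = c * k ∧ T x⁻¹ = c⁻¹ * k := by
  by_cases h4 : a ^ 4 = 1
  · obtain ⟨y, hy, z, hz, c, h1, h2, h3, h5⟩ := h.lift hd h4 (by norm_num)
    have h6 := hy.real hd (n := 3) h5 (by norm_num) hr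
    refine ⟨z, hz, c, h1, h2, ?_⟩
    rw [T_of_smul h3, T_of_smul (inv_of_smul h3), h6]
    by_cases e2 : y ^ 2 = 1
    · by_cases e1 : y = 1
      · exact ⟨3, by simp [e1, T_one]⟩
      · exact ⟨-1, by simp [T_invol (hd y hy.1) e2 e1]⟩
    · exact ⟨1, by simp [T_four (hd y hy.1) h5 e2 h6]⟩
  · have h3 := h.cube hd (e.resolve_right h4) hr
    have h1 : pr x ≠ 1 := fun e1 => h4 (by rw [h.eq_one_iff.2 e1, one_pow])
    exact ⟨1, one_mem _, 1, by simp, by simp, 0, by simp [T_of_cube (hd x h.1) h3 h1],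
      by simp [T_of_cube (hd _ (inv_mem h.1)) (by rw [inv_pow, h3, inv_one]) (by simpa using h1)]⟩

end Rp

/-- elements of order seven conjugate to their squares -/
structure Sev (s : G3 K) : Prop where
  det : s.val.det = 1
  pow : s ^ 7 = 1
  ne : s ≠ 1
  cj : ∃ g : G3 K, pr g * pr s * (pr g)⁻¹ = pr s ^ 2

theorem Sev.two {s : G3 K} (h : Sev s) (k : ℕ) : T (s ^ (2 * k)) = T (s ^ k) := by
  obtain ⟨g, hg⟩ := h.cj
  exact (T_pow_eq h.det (by norm_num) h.pow (g := g) (by rw [← conj_pow, hg, pow_mul])).symm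

theorem Sev.mod {s : G3 K} (h : Sev s) (k : ℕ) : s ^ k = s ^ (k % 7) := by
  conv_lhs => rw [← Nat.div_add_mod k 7, pow_add, pow_mul, h.pow, one_pow, one_mul]

theorem Sev.inv_eq {s : G3 K} (h : Sev s) : s⁻¹ = s ^ 6 := by rw [inv_eq_iff_mul_eq_one, ← pow_succ', h.pow]

theorem Sev.res {s : G3 K} (h : Sev s) {k : ℕ} (hk : k % 7 = 1 ∨ k % 7 = 2 ∨ k % 7 = 4) : T (s ^ k) = T s := by
  have h1 := h.two 1
  have h2 := h.two 2
  rw [h.mod k]
  rcases hk with e | e | e <;> simp_all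

theorem Sev.nres {s : G3 K} (h : Sev s) {k : ℕ} (hk : k % 7 = 3 ∨ k % 7 = 5 ∨ k % 7 = 6) : T (s ^ k) = T s⁻¹ := by
  have h1 := h.two 3
  have h2 := h.two 6
  rw [h.mod 12] at h2
  rw [h.mod k, h.inv_eq]
  rcases hk with e | e | e <;> simp_all

theorem Sev.inv {s : G3 K} (h : Sev s) : Sev s⁻¹ :=
  ⟨det_inv h.det, by rw [inv_pow, h.pow, inv_one], inv_ne_one.2 h.ne,
    h.cj.imp fun g hg => by rw [map_inv, inv_pow, ← hg]; group⟩

theorem Sev.seven {s : G3 K} (h : Sev s) (e : T s⁻¹ = T s) : (7 : K) = 0 := by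
  simpa using cast_eq_zero_of_T h.det h.pow (by norm_num) h.ne e (h.res (by norm_num))

/-- real elements of order dividing five -/
structure Fiv (s : G3 K) : Prop where
  det : s.val.det = 1
  pow : s ^ 5 = 1
  real : ∀ k, T (s ^ (4 * k)) = T (s ^ k)

theorem Fiv.mod {s : G3 K} (h : Fiv s) (k : ℕ) : s ^ k = s ^ (k % 5) := by
  conv_lhs => rw [← Nat.div_add_mod k 5, pow_add, pow_mul, h.pow, one_pow, one_mul]

theorem Fiv.inv {s : G3 K} (h : Fiv s) : T s⁻¹ = T s := by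
  rw [show s⁻¹ = s ^ (4 * 1) by rw [inv_eq_iff_mul_eq_one, ← pow_succ', h.pow], h.real, pow_one]

theorem Fiv.res {s : G3 K} (h : Fiv s) {k : ℕ} (hk : k % 5 = 1 ∨ k % 5 = 4) : T (s ^ k) = T s := by
  have h1 := h.real 1
  rw [h.mod k]
  rcases hk with e | e <;> simp_all

theorem Fiv.nres {s : G3 K} (h : Fiv s) {k : ℕ} (hk : k % 5 = 2 ∨ k % 5 = 3) : T (s ^ k) = T (s ^ 2) := by
  have h1 := h.real 2
  rw [h.mod 8] at h1
  rw [h.mod k]
  rcases hk with e | e <;> simp_all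

theorem Rp.fiv {π : bar P ≃* A} {a : G} {y : G3 K} (hd : ∀ x ∈ P, x.val.det = 1) (h : Rp π a y) (e : y ^ 5 = 1)
    (hr : ∃ g ∈ A, a * g * a = g) : Fiv y := by
  obtain ⟨g, hg, hr⟩ := hr
  obtain ⟨z, hz⟩ := Rp.ex π hg
  refine ⟨hd y h.1, e, fun k => (T_pow_eq (hd y h.1) (by norm_num) e (g := z) ?_).symm⟩
  rw [← conj_pow, h.conj h.inv hz (by rw [eq_inv_mul_iff_mul_eq, ← mul_assoc, hr]), pow_mul, ← map_pow pr y 4]
  congr 2
  rw [inv_eq_iff_mul_eq_one, ← pow_succ', e]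

/-! ### the normaliser acts by automorphisms -/

/-- `n` normalises `P` modulo scalars -/
def Nm (P : Subgroup (G3 K)) (n : PG3 K) : Prop := ∀ b ∈ bar P, n * b * n⁻¹ ∈ bar P

theorem nm_of {h : G3 K} (hh : ∀ x ∈ P, h * x * h⁻¹ ∈ P) : Nm P (pr h) := by
  rintro _ ⟨x, hx, rfl⟩
  exact ⟨_, hh x hx, by simp⟩

/-- the automorphism induced by an element of the normaliser -/
def aut (π : bar P ≃* A) {n : PG3 K} (hn : Nm P n) : A →* G :=
  A.subtype.comp (π.toMonoidHom.comp ((((MulAut.conj n).toMonoidHom.comp (bar P).subtype).codRestrict (bar P)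
    fun b => hn b.1 b.2).comp π.symm.toMonoidHom))

theorem aut_mem (π : bar P ≃* A) {n : PG3 K} (hn : Nm P n) (a : A) : aut π hn a ∈ A := (π _).2

theorem aut_inj (π : bar P ≃* A) {n : PG3 K} (hn : Nm P n) : Function.Injective (aut π hn) := fun _ _ e =>
  π.symm.injective (Subtype.ext ((MulAut.conj n).injective (congrArg Subtype.val (π.injective (Subtype.ext e)))))

theorem Rp.aut {π : bar P ≃* A} {n : PG3 K} (hn : Nm P n) {a g : G} (ha : a ∈ A) {x y z : G3 K} (hx : Rp π a x)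
    (hz : Rp π g z) (hy : Rp π (cjh g (aut π hn) ⟨a, ha⟩) y) : pr y = pr z * n * pr x * (pr z * n)⁻¹ := by
  obtain ⟨w, hw, e⟩ := hn _ (mem_bar hx.1)
  have h1 : Rp π (MH.aut π hn ⟨a, ha⟩) w := ⟨hw, by
    change _ = ((π _ : A) : G)
    congr 2
    apply Subtype.ext
    change pr w = n * (π.symm ⟨a, ha⟩ : bar P) * n⁻¹
    rw [e, show (⟨a, ha⟩ : A) = π ⟨pr x, mem_bar hx.1⟩ from Subtype.ext hx.2.symm, π.symm_apply_apply]⟩
  rw [(hy.eq_iff ((hz.mul h1).mul hz.inv)).1 rfl, map_mul, map_mul, map_inv, e]; group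

theorem cent_eq_one (hp : ⁅P, P⁆ = P) (hF : Full (Geo.matrixSet P)) {n : PG3 K} (h : ∀ x ∈ P, n * pr x = pr x * n) :
    n = 1 := by
  obtain ⟨y, rfl⟩ := pr_surj n
  have := comm_of_commutator (T := P) (y := y) fun x hx w => by
    obtain ⟨c, hc⟩ := pr_eq_one'.1 (show pr ⁅x, y⁆ = 1 by
      rw [map_commutatorElement, commutatorElement_eq_one_iff_mul_comm, h x hx])
    exact Units.ext (by simp [hc])
  rw [hp] at this
  exact pr_eq_one'.2 (hF.isSc (by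
    rintro _ ⟨x, hx, rfl⟩
    exact congrArg Units.val (this x hx).symm))

theorem mem_of_aut (hp : ⁅P, P⁆ = P) (hF : Full (Geo.matrixSet P)) (π : bar P ≃* A) {n n' : PG3 K} (hn : Nm P n)
    (hn' : Nm P n') {g g' : G} (hg : g ∈ A) (hg' : g' ∈ A) (h : ∀ a, cjh g (aut π hn) a = cjh g' (aut π hn') a) :
    n' * n⁻¹ ∈ bar P := by
  obtain ⟨z, hz⟩ := Rp.ex π hg
  obtain ⟨z', hz'⟩ := Rp.ex π hg'
  have := cent_eq_one hp hF (n := (pr z * n)⁻¹ * (pr z' * n')) fun x hx => by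
    obtain ⟨a, ha⟩ := Rp.ex' π hx
    obtain ⟨y, hy⟩ := Rp.ex π (cjh_mem hg (aut_mem π hn) ⟨a, ha.memA⟩)
    have e1 := ha.aut hn _ hz hy
    rw [h] at hy
    have e2 := ha.aut hn' _ hz' hy
    calc _ = (pr z * n)⁻¹ * (pr z' * n' * pr x * (pr z' * n')⁻¹) * (pr z' * n') := by group
      _ = _ := by rw [← e2, e1]; group
  rw [inv_mul_eq_one] at this
  rw [show n' * n⁻¹ = (pr z')⁻¹ * pr z by rw [← mul_inv_cancel_right (pr z) n, this]; group]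
  exact mul_mem (inv_mem (mem_bar hz'.1)) (mem_bar hz.1)

theorem nm_one : Nm P 1 := fun b hb => by simpa using hb

theorem mem_of_inner (hp : ⁅P, P⁆ = P) (hF : Full (Geo.matrixSet P)) (π : bar P ≃* A) {n : PG3 K} (hn : Nm P n)
    (h : ∃ g ∈ A, ∀ a, aut π hn a = g * a * g⁻¹) : n ∈ bar P := by
  obtain ⟨g, hg, h⟩ := h
  simpa using mem_of_aut hp hF π nm_one hn hg (one_mem _) fun a => by
    rw [cjh_apply, cjh_apply, h]
    have : aut π nm_one a = a := by simp [aut]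
    simp [this]

theorem Rp.sev {π : bar P ≃* A} (hd : ∀ x ∈ P, x.val.det = 1) {t h : G} (ht : t ∈ A) (hh : h ∈ A) (e1 : t ^ 7 = 1)
    (n1 : t ≠ 1) (e2 : h * t = t ^ 2 * h) : ∃ s, Rp π t s ∧ Sev s := by
  obtain ⟨x, hx⟩ := Rp.ex π ht
  obtain ⟨s, hs, -, -, -, -, -, -, h7⟩ := hx.lift hd e1 (by norm_num)
  obtain ⟨z, hz⟩ := Rp.ex π hh
  exact ⟨s, hs, hd s hs.1, h7, fun e => n1 (hs.eq_one_iff.2 (by rw [e, map_one])), z,
    by rw [← map_pow]; exact hs.conj (hs.pow 2) hz e2⟩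

theorem not_swap {π : bar P ≃* A} {t : G} {s : G3 K} (hs : Rp π t s) (hS : Sev s) (h7 : (7 : K) ≠ 0) {n : PG3 K}
    (hn : Nm P n) (ht : t ∈ A) : ¬ ∃ g ∈ A, aut π hn ⟨t, ht⟩ * g = g * t ^ 6 := by
  rintro ⟨g, hg, e⟩
  obtain ⟨z, hz⟩ := Rp.ex π (inv_mem hg)
  obtain ⟨y, rfl⟩ := pr_surj n
  have := hs.aut hn ht hz (y := s ^ 6) (by
    rw [cjh_apply, inv_inv, mul_assoc, e, inv_mul_cancel_left]; exact hs.pow 6)
  have h1 := T_pow_eq hS.det (by norm_num) hS.pow (a := 1) (b := 6) (g := z * y) (by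
    rw [← map_pow pr s 6, this, map_mul, pow_one])
  exact h7 (hS.seven (by rw [hS.inv_eq, ← h1, pow_one]))

theorem e8_1 : t8 ^ 7 = 1 := by perm_eq h8'
theorem e8_2 : h8 * t8 = t8 ^ 2 * h8 := by perm_eq h8'
theorem e7_1 : y7 ^ 7 = 1 := by perm_eq h7
theorem e7_2 : n7 * y7 = y7 ^ 2 * n7 := by perm_eq h7

theorem norm8 (hp : ⁅P, P⁆ = P) (hF : Full (Geo.matrixSet P)) (π : bar P ≃* X8) (h7 : (7 : K) ≠ 0) {n : PG3 K}
    (hn : Nm P n) : n ∈ bar P := by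
  obtain ⟨s, hs, hS⟩ := Rp.sev (π := π) (fun x => det_eq_one_of_perfect hp) t8_mem h8_mem e8_1 (by decide) e8_2
  exact mem_of_inner hp hF π hn ((aut8 _ (aut_mem π hn) (aut_inj π hn)).resolve_right (not_swap hs hS h7 hn _))

theorem norm7 (hp : ⁅P, P⁆ = P) (hF : Full (Geo.matrixSet P)) (π : bar P ≃* A7) (h7 : (7 : K) ≠ 0) {n : PG3 K}
    (hn : Nm P n) : n ∈ bar P := by
  obtain ⟨s, hs, hS⟩ := Rp.sev (π := π) (fun x => det_eq_one_of_perfect hp) y7_mem n7_mem e7_1 (by decide) e7_2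
  exact mem_of_inner hp hF π hn ((aut7 _ (aut_mem π hn) (aut_inj π hn)).resolve_right (not_swap hs hS h7 hn _))

end Cfsg.Agent.H5.MH
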