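import Cfsg.Agent.H5.MH8

set_option autoImplicit false

/-! Traces and normalisers of the small groups, continued. -/

namespace Cfsg.Agent.H5.MH
open Cfsg Matrix Cfsg.Agent.Asch Equiv commutatorElement

variable {K : Type*} [Field K] {G : Type*} [Group G] {P : Subgroup (G3 K)} {A : Subgroup G}

theorem perfect_bar (hp : ⁅P, P⁆ = P) : Group.IsPerfect (bar P) :=
  have := Subgroup.isPerfect_iff.2 hp
  Group.IsPerfect.map _

theorem exists_pi8 (hp : ⁅P, P⁆ = P) (hc : Nat.card (PQ P) = 168) : Nonempty (bar P ≃* X8) :=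
  have := perfect_bar hp
  have : Finite (bar P) := Nat.finite_of_card_ne_zero (by rw [card_bar]; omega)
  iso_X8 (by rwa [card_bar])

theorem card_X8' : Nat.card X8 = 168 := by
  have := perfect_SL3
  obtain ⟨f⟩ := iso_X8 card_PSL3
  rw [← Nat.card_congr f.toEquiv, card_PSL3]

theorem sc_central {z : G3 K} (h : pr z = 1) (g : G3 K) : g * z = z * g := by
  obtain ⟨c, hc⟩ := pr_eq_one'.1 h
  exact Units.ext (by simp [hc])

theorem sc_cube {z : G3 K} (hd : z.val.det = 1) (h : pr z = 1) : z ^ 3 = 1 := by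
  obtain ⟨c, hc⟩ := pr_eq_one'.1 h
  exact Units.ext (by rw [Units.val_pow_eq_pow_val, hc, smul_pow, cube_of_sc hd hc]; simp)

theorem no_scalar [Finite K] (hp : ⁅P, P⁆ = P) (hc : ¬ 9 ∣ Nat.card (bar P)) {z : G3 K} (hz : z ∈ P) (h : pr z = 1) :
    z = 1 := by
  have := Subgroup.isPerfect_iff.2 hp
  have : Fact (Nat.Prime 3) := ⟨by norm_num⟩
  have : Finite (PG3 K) := Finite.of_surjective _ pr_surj
  refine congrArg Subtype.val (H2.Dihed3.central_eq_one (G := P) (p := 3) (a := ⟨z, hz⟩) (fun S => ?_)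
    (Subtype.ext (sc_cube (det_eq_one_of_perfect hp hz) h)) fun g => Subtype.ext (sc_central h _))
  let f : S →* PG3 K := pr.comp (P.subtype.comp (S : Subgroup P).subtype)
  obtain ⟨k, hk⟩ := (S.isPGroup'.of_surjective _ f.rangeRestrict_surjective).exists_card_eq
  have h1 : Nat.card f.range ∣ Nat.card (bar P) := Subgroup.card_dvd_of_le (by
    rintro _ ⟨x, rfl⟩; exact mem_bar x.1.2)
  have : IsCyclic f.range := by
    rcases k with _ | _ | k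
    · exact @isCyclic_of_subsingleton _ _ (Nat.card_eq_one_iff_unique.1 hk).1
    · exact isCyclic_of_prime_card (p := 3) hk
    · exact (hc (Dvd.dvd.trans ⟨3 ^ k, by rw [hk]; ring⟩ h1)).elim
  exact f.rangeRestrict.isMulCommutative_of_isCyclic_of_ker_le_center fun x hx =>
    Subgroup.mem_center_iff.2 fun g => Subtype.ext (Subtype.ext (sc_central (congrArg Subtype.val hx) _))

theorem tr8 [Finite K] (hp : ⁅P, P⁆ = P) (π : bar P ≃* X8) : ∃ s ∈ P, Sev s ∧ ∀ x ∈ P,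
    (∃ k : ℤ, T x = k ∧ T x⁻¹ = k) ∨ (T x = T s ∧ T x⁻¹ = T s⁻¹) ∨ (T x = T s⁻¹ ∧ T x⁻¹ = T s) := by
  have hd : ∀ x ∈ P, x.val.det = 1 := fun x => det_eq_one_of_perfect hp
  have hz : ∀ z ∈ P, pr z = 1 → z = 1 := fun z => no_scalar hp (by rw [Nat.card_congr π.toEquiv, card_X8']; norm_num)
  obtain ⟨s, hs, hS⟩ := Rp.sev (π := π) hd t8_mem h8_mem e8_1 (by decide) e8_2
  refine ⟨s, hs.1, hS, fun x hx => ?_⟩
  obtain ⟨a, ha⟩ := Rp.ex' π hx
  have key : ∀ {b : Perm (Fin 8)} {y : G3 K}, Rp π b y → (∃ g ∈ X8, a * g = g * b) → T x = T y ∧ T x⁻¹ = T y⁻¹ := by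
    rintro b y hy ⟨g, hg, e⟩
    obtain ⟨z, h⟩ := Rp.ex π hg
    have := hz _ ((((h.mul hy).mul h.inv).mul ha.inv).1) ((((h.mul hy).mul h.inv).mul ha.inv).eq_one_iff.1
      (by rw [← e]; group))
    rw [mul_inv_eq_one] at this
    rw [← this, T_conj, show (z * y * z⁻¹)⁻¹ = z * y⁻¹ * z⁻¹ by group, T_conj]
    exact ⟨rfl, rfl⟩
  rcases x8_elt ha.memA with ⟨h1, h2⟩ | ⟨g, hg, h1 | h1⟩
  · obtain ⟨z, h3, c, h4, -, k, h5⟩ := ha.tr_int hd h1 h2
    have : c = 1 := by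
      rw [hz z h3 (pr_eq_one'.2 ⟨c, h4⟩)] at h4
      simpa using (congrFun (congrFun h4 0) 0).symm
    exact .inl ⟨k, by simpa [this] using h5⟩
  · exact .inr (.inl (key hs ⟨g, hg, h1⟩))
  · have := key (hs.pow 6) ⟨g, hg, h1⟩
    rw [← hS.inv_eq, inv_inv] at this
    exact .inr (.inr this)

theorem tr6 (hd : ∀ x ∈ P, x.val.det = 1) (π : bar P ≃* A6) {x : G3 K} (hx : x ∈ P) :
    ∃ z ∈ P, ∃ c : K, z.val = c • (1 : M3 K) ∧ c ^ 3 = 1 ∧ ∃ t, T x = c * t ∧ T x⁻¹ = c⁻¹ * t ∧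
      ((∃ k : ℤ, t = k) ∨ ∃ y, Fiv y ∧ t = T y) := by
  obtain ⟨a, ha⟩ := Rp.ex' π hx
  obtain ⟨h1, h2⟩ := a6_elt ha.memA
  rw [← or_assoc] at h1
  rcases h1 with h1 | h1
  · obtain ⟨z, h3, c, h4, h5, k, h6⟩ := ha.tr_int hd h1 h2
    exact ⟨z, h3, c, h4, h5, k, h6.1, h6.2, .inl ⟨k, rfl⟩⟩
  · obtain ⟨y, hy, z, h3, c, h4, h5, h6, h7⟩ := ha.lift hd h1 (by norm_num)
    have := hy.fiv hd h7 h2
    exact ⟨z, h3, c, h4, h5, T y, T_of_smul h6, by rw [T_of_smul (inv_of_smul h6), this.inv], .inr ⟨y, this, rfl⟩⟩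

theorem e6_5 : (x6 * v6) ^ 5 = 1 := by perm_eq h6

theorem ex5 (hd : ∀ x ∈ P, x.val.det = 1) (π : bar P ≃* A6) : ∃ w, Rp π (x6 * v6) w ∧ Fiv w ∧ w ≠ 1 := by
  have hm := mul_mem x6_mem v6_mem
  obtain ⟨x, hx⟩ := Rp.ex π hm
  obtain ⟨y, hy, -, -, -, -, -, -, h7⟩ := hx.lift hd e6_5 (by norm_num)
  exact ⟨y, hy, hy.fiv hd h7 (a6_elt hm).2, fun e => absurd (hy.eq_one_iff.2 (by rw [e, map_one])) (by decide)⟩

theorem Fiv.five {s : G3 K} (h : Fiv s) (h1 : s ≠ 1) (e : T (s ^ 2) = T s) : (5 : K) = 0 := by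
  simpa using cast_eq_zero_of_T h.det h.pow (by norm_num) h1 h.inv e

theorem tr7 [CharP K 5] (hd : ∀ x ∈ P, x.val.det = 1) (π : bar P ≃* A7) {x : G3 K} (hx : x ∈ P) :
    T x ^ 5 = T x⁻¹ := by
  have : Fact (Nat.Prime 5) := ⟨by norm_num⟩
  obtain ⟨a, ha⟩ := Rp.ex' π hx
  have c5 : ∀ c : K, c ^ 3 = 1 → c ^ 5 = c⁻¹ := fun c hc =>
    eq_inv_of_mul_eq_one_left (by linear_combination (c ^ 3 + 1) * hc)
  have key : ∀ {y : G3 K} {c : K}, c ^ 3 = 1 → x.val = c • y.val → T (y ^ 5) = T y⁻¹ → T x ^ 5 = T x⁻¹ := fun hc h1 h2 => by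
    rw [T_of_smul h1, T_of_smul (inv_of_smul h1), mul_pow, c5 _ hc, ← T_pow_char, h2]
  obtain ⟨h1 | h1 | h1 | h1, h2⟩ := a7_elt ha.memA
  · obtain ⟨y, hy, -, -, c, -, h5, h6, h7⟩ := ha.lift hd h1 (by norm_num)
    exact key h5 h6 (by rw [hy.real hd (n := 3) h7 (by norm_num) (h2 (.inr h1)), pow_succ, h7, one_mul])
  · obtain ⟨y, hy, -, -, c, -, h5, h6, h7⟩ := ha.lift hd h1 (by norm_num)
    exact key h5 h6 (by rw [h7, T_one, T_unip 5 (k := 1) (by rw [pow_one, inv_pow, h7, inv_one])])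
  · have e : (a ^ 2) ^ 3 = 1 := by rw [← pow_mul, h1]
    have := (ha.pow 2).cube hd e ((a7_elt (ha.pow 2).memA).2 (.inl e))
    rw [← T_pow_char, show x ^ 5 = x⁻¹ by rw [eq_inv_iff_mul_eq_one, ← pow_succ, ← this, ← pow_mul]]
  · obtain ⟨y, hy, -, -, c, -, h5, h6, h7'⟩ := ha.lift hd h1 (by norm_num)
    refine key h5 h6 ?_
    by_cases e : a = 1
    · have : y = 1 := eq_of_pr_eq (hd y hy.1) (by simp) (by norm_num) h7' (one_pow _) (by simpa using hy.eq_one_iff.1 e)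
      simp [this]
    obtain ⟨g, hg, h3⟩ := a7_seven ha.memA h1 e
    have h4 : (g * n7 * g⁻¹) * a = a ^ 2 * (g * n7 * g⁻¹) := by
      rcases h3 with h3 | h3
      · rw [show a = g * y7 * g⁻¹ by rw [← h3]; group, conj_pow]
        calc _ = g * (n7 * y7) * g⁻¹ := by group
          _ = _ := by rw [e7_2]; group
      · rw [show a = g * y7 ^ 6 * g⁻¹ by rw [← h3]; group, conj_pow]
        calc _ = g * (n7 * y7 ^ 6) * g⁻¹ := by group
          _ = _ := by rw [show n7 * y7 ^ 6 = (y7 ^ 6) ^ 2 * n7 by perm_eq h7]; group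
    obtain ⟨z, hz⟩ := Rp.ex π (mul_mem (mul_mem hg n7_mem) (inv_mem hg))
    exact Sev.nres ⟨hd y hy.1, h7', fun e1 => e (hy.eq_one_iff.2 (by rw [e1, map_one])), z,
      by rw [← map_pow]; exact hy.conj (hy.pow 2) hz h4⟩ (by norm_num)

/-! ### the normaliser of `3.A₆` -/

theorem comm_congr {a b a' b' : G3 K} (h : pr a = pr a') (h' : pr b = pr b') : ⁅a, b⁆ = ⁅a', b'⁆ := by
  have h1 := sc_central (z := a * a'⁻¹) (by simp [h])
  have h2 := sc_central (z := b * b'⁻¹) (by simp [h'])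
  obtain ⟨z, rfl⟩ : ∃ z, a = z * a' := ⟨a * a'⁻¹, by group⟩
  obtain ⟨w, rfl⟩ : ∃ w, b = w * b' := ⟨b * b'⁻¹, by group⟩
  simp only [mul_inv_cancel_right] at h1 h2
  simp only [commutatorElement_def, _root_.mul_inv_rev]
  calc z * a' * (w * b') * (a'⁻¹ * z⁻¹) * (b'⁻¹ * w⁻¹) = z * (a' * (w * b') * a'⁻¹) * z⁻¹ * (b'⁻¹ * w⁻¹) := by group
    _ = (a' * w) * (b' * a'⁻¹ * b'⁻¹) * w⁻¹ := by rw [← h1]; group
    _ = w * (a' * b' * a'⁻¹ * b'⁻¹) * w⁻¹ := by rw [h2]; group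
    _ = _ := by rw [← h2]; group

theorem not_comm9 (h3 : (3 : K) ≠ 0) {X Y : G3 K} (hX : X.val.det = 1) (hY : Y.val.det = 1) (eX : X ^ 3 = 1)
    (eY : Y ^ 3 = 1) (hc : Commute X Y)
    (hn : ∀ p q : Fin 3 × Fin 3, pr (X ^ p.1.1 * Y ^ p.2.1) = pr (X ^ q.1.1 * Y ^ q.2.1) → p = q) : False := by
  have hl : LinearIndependent K fun p : Fin 3 × Fin 3 => (X ^ p.1.1 * Y ^ p.2.1).val := by
    rw [Fintype.linearIndependent_iff]
    intro g hg q
    have := congrArg (fun M => (M * ((X ^ q.1.1 * Y ^ q.2.1)⁻¹).val).trace) hg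
    simp only [Finset.sum_mul, Matrix.trace_sum, Matrix.smul_mul, Matrix.trace_smul, ← Units.val_mul, zero_mul,
      Matrix.trace_zero] at this
    rw [Finset.sum_eq_single q (fun p _ hp => ?_) (by simp)] at this
    · simpa [h3] using this
    have e : ∀ p : Fin 3 × Fin 3, (X ^ p.1.1 * Y ^ p.2.1) ^ 3 = 1 := fun p => by
      rw [(hc.pow_pow _ _).mul_pow, ← pow_mul, ← pow_mul, mul_comm _ 3, mul_comm _ 3, pow_mul, pow_mul, eX, eY]; simp
    have d : ∀ p : Fin 3 × Fin 3, (X ^ p.1.1 * Y ^ p.2.1).val.det = 1 := fun p => by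
      rw [Units.val_mul, det_mul, det_pow' hX, det_pow' hY, one_mul]
    have := T_of_cube (g := (X ^ p.1.1 * Y ^ p.2.1) * (X ^ q.1.1 * Y ^ q.2.1)⁻¹)
      (by rw [Units.val_mul, det_mul, d, det_inv (d q), one_mul])
      (by
        rw [Commute.mul_pow, inv_pow, e, e]
        · simp
        · exact (((Commute.refl X).pow_pow _ _).mul_right (hc.pow_pow _ _)).mul_left
            ((hc.symm.pow_pow _ _).mul_right ((Commute.refl Y).pow_pow _ _)) |>.inv_right)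
      (fun h => hp (hn _ _ (by rwa [map_mul, map_inv, mul_inv_eq_one] at h)))
    rw [T] at this
    rw [this, smul_zero]
  have hF : Full (Set.range fun p : Fin 3 × Fin 3 => (X ^ p.1.1 * Y ^ p.2.1).val) :=
    hl.span_eq_top_of_card_eq_finrank (by simp [Module.finrank_matrix])
  have := hn (1, 0) (0, 0) (by
    simpa using pr_eq_one'.2 (hF.isSc (Z := X.val) (by
      rintro _ ⟨p, rfl⟩
      exact congrArg Units.val (((Commute.refl X).pow_right _).mul_right (hc.pow_right _)).eq)))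
  simp at this

theorem out6 (hp : ⁅P, P⁆ = P) (hF : Full (Geo.matrixSet P)) (π : bar P ≃* A6) (h3 : (3 : K) ≠ 0) {n : PG3 K}
    (hn : Nm P n) : n ∈ bar P ∨ ((5 : K) = 0 ∧ ∃ g ∈ A6, cjh g (aut π hn) ⟨r6, r6_mem⟩ = r6 ^ 3 ∧
      cjh g (aut π hn) ⟨x6, x6_mem⟩ = x6 * y6 ∧ cjh g (aut π hn) ⟨v6, v6_mem⟩ = u6) := by
  have hd : ∀ x ∈ P, x.val.det = 1 := fun x => det_eq_one_of_perfect hp
  obtain ⟨X, hX⟩ := Rp.ex π x6_mem
  obtain ⟨Y, hY⟩ := Rp.ex π y6_mem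
  have h1 : pr ⁅X, Y⁆ = 1 := (((hX.mul hY).mul hX.inv).mul hY.inv).eq_one_iff.1 (by
    rw [mul_inv_eq_one, mul_inv_eq_iff_eq_mul]; unfold y6; perm_eq h6)
  have h2 := sc_cube (hd _ (((hX.mul hY).mul hX.inv).mul hY.inv).1) h1
  have h4 : ⁅X, Y⁆ ≠ 1 := fun e => not_comm9 h3 (hd _ hX.1) (hd _ hY.1)
    (hX.cube hd (by perm_eq h6) (a6_elt x6_mem).2) (hY.cube hd (by unfold y6; perm_eq h6) (a6_elt y6_mem).2)
    (commutatorElement_eq_one_iff_commute.1 e) fun p q h => by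
      have := (((hX.pow _).mul (hY.pow _)).eq_iff ((hX.pow _).mul (hY.pow _))).2 h
      rw [← cd_inj h6] at this
      simp only [y6, cd_mul h6, cd_pow h6] at this
      clear h
      revert p q
      decide +kernel
  obtain ⟨h, rfl⟩ := pr_surj n
  have key : ∀ {g X' Y'}, g ∈ A6 → Rp π (cjh g (aut π hn) ⟨x6, x6_mem⟩) X' → Rp π (cjh g (aut π hn) ⟨y6, y6_mem⟩) Y' →
      ⁅X', Y'⁆ = ⁅X, Y⁆ := fun hg a b => by
    obtain ⟨z, hz⟩ := Rp.ex π hg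
    have e1 := hX.aut hn _ hz a
    have e2 := hY.aut hn _ hz b
    rw [← map_mul, ← map_inv, ← map_mul, ← map_mul] at e1 e2
    rw [comm_congr e1 e2, ← conjugate_commutatorElement, sc_central h1, mul_inv_cancel_right]
  have h5 : X * Y * X⁻¹ = ⁅X, Y⁆ * Y := by rw [commutatorElement_def]; group
  have h6' := sc_central h1
  rcases aut6 _ (aut_mem π hn) (aut_inj π hn) with e | ⟨g, hg, e1, e2, e3⟩ | ⟨g, hg, e1, e2⟩ | ⟨g, hg, e1, e2⟩
  · exact .inl (mem_of_inner hp hF π hn e)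
  · refine .inr ⟨?_, g, hg, e1, e2, e3⟩
    obtain ⟨w, hw, h7, h8⟩ := ex5 hd π
    obtain ⟨z, hz⟩ := Rp.ex π (mul_mem g6_mem hg)
    have := hw.aut hn hw.memA hz (y := w ^ 2) (by
      rw [← cjh_cjh, cjh_apply, show (⟨x6 * v6, hw.memA⟩ : A6) = ⟨x6, x6_mem⟩ * ⟨v6, v6_mem⟩ from rfl, map_mul, e2, e3,
        show g6 * (x6 * y6 * u6) = (x6 * v6) ^ 2 * g6 by unfold y6; perm_eq h6, mul_inv_cancel_right]
      exact hw.pow 2)
    have h9 := T_pow_eq h7.det (by norm_num) h7.pow (a := 1) (b := 2) (g := z * h) (by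
      rw [← map_pow pr w 2, this, map_mul, pow_one])
    exact h7.five h8 (by rw [← h9, pow_one])
  · have := key hg (e1 ▸ hX.mul hY) (e2 ▸ hY.mul hX.inv)
    rw [show ⁅X * Y, Y * X⁻¹⁆ = (X * Y * X⁻¹) * (X * Y * X⁻¹) * Y⁻¹ * Y⁻¹ by rw [commutatorElement_def]; group, h5,
      ← mul_assoc, mul_assoc _ Y ⁅X, Y⁆, h6' Y] at this
    generalize ⁅X, Y⁆ = c at this h4
    refine (h4 (mul_left_cancel (a := c) ?_)).elim
    rw [mul_one]
    conv_rhs => rw [← this]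
    group
  · have := key hg (e1 ▸ hX) (e2 ▸ hY.inv)
    rw [show ⁅X, Y⁻¹⁆ = (X * Y * X⁻¹)⁻¹ * Y by rw [commutatorElement_def]; group, h5, ← h6' Y] at this
    refine (h4 (eq_one_of_cop (m := 2) ?_ h2 rfl)).elim
    rw [sq]; nth_rewrite 1 [← this]
    rw [mul_assoc, inv_mul_cancel]

theorem norm6 (hp : ⁅P, P⁆ = P) (hF : Full (Geo.matrixSet P)) (π : bar P ≃* A6) (h3 : (3 : K) ≠ 0)
    (h5 : (5 : K) ≠ 0) {n : PG3 K} (hn : Nm P n) : n ∈ bar P :=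
  (out6 hp hF π h3 hn).resolve_right fun h => h5 h.1

theorem norm6' (hp : ⁅P, P⁆ = P) (hF : Full (Geo.matrixSet P)) (π : bar P ≃* A6) (h3 : (3 : K) ≠ 0)
    {n n' : PG3 K} (hn : Nm P n) (hn' : Nm P n') (h : n ∉ bar P) (h' : n' ∉ bar P) : n' * n⁻¹ ∈ bar P := by
  obtain ⟨-, g, hg, e1, e2, e3⟩ := (out6 hp hF π h3 hn).resolve_left h
  obtain ⟨-, g', hg', f1, f2, f3⟩ := (out6 hp hF π h3 hn').resolve_left h'
  exact mem_of_aut hp hF π hn hn' hg hg' (of_eqQ (a6_gen (mem_eqQ _ (e1.trans f1.symm)) (mem_eqQ _ (e2.trans f2.symm))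
    (mem_eqQ _ (e3.trans f3.symm))))

end Cfsg.Agent.H5.MH
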